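import Cfsg.Agent.Lib.Core.Basic
import Mathlib

/-! A 3-cycle in `S_8`: every class contains an element `g` with `A` and `A^g` commuting. -/

set_option autoImplicit false

namespace Cfsg.Agent.Lib.ClassSizes.S8Three

open Equiv Equiv.Perm

variable {α : Type*} [Fintype α] [DecidableEq α]

/-- Two `3`-cycles with the same support commute. -/
theorem comm_of_same_support {σ τ : Perm α} (hσ : σ.IsThreeCycle) (hτ : τ.IsThreeCycle)
    (h : τ.support = σ.support) : Commute σ τ := by
  obtain ⟨a, ha⟩ : σ.support.Nonempty := by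
    rw [← Finset.card_pos, hσ.card_support]
    norm_num
  have haτ : a ∈ τ.support := h ▸ ha
  have hS := hσ.support_eq_iff_mem_support.mpr ha
  have hnσ := hσ.nodup_iff_mem_support.mpr ha
  have hnτ := hτ.nodup_iff_mem_support.mpr haτ
  have h1 := hσ.eq_swap_mul_swap_iff_mem_support.mpr ha
  have h2 := hτ.eq_swap_mul_swap_iff_mem_support.mpr haτ
  have h3 : τ a ∈ σ.support := h ▸ (Perm.apply_mem_support.mpr haτ)
  have h4 : τ (τ a) ∈ σ.support := h ▸ (Perm.apply_mem_support.mpr (Perm.apply_mem_support.mpr haτ))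
  rw [hS] at h3 h4
  simp only [Finset.mem_insert, Finset.mem_singleton] at h3 h4
  simp only [List.nodup_cons, List.mem_cons, List.not_mem_nil, or_false, not_or, List.nodup_nil, and_true,
    not_false_eq_true] at hnσ hnτ
  have e3 : σ (σ (σ a)) = a := by
    have : (σ ^ 3) a = a := by
      rw [← hσ.orderOf, pow_orderOf_eq_one]
      rfl
    simpa [pow_succ] using this
  rcases h3 with h3 | h3 | h3
  · exact absurd h3.symm hnτ.1.1
  · -- `τ a = σ a`
    have h5 : τ (τ a) = σ (σ a) := by
      rcases h4 with h4 | h4 | h4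
      · exact absurd h4.symm hnτ.1.2
      · exact absurd (h3.trans h4.symm) hnτ.2
      · exact h4
    have : τ = σ := by
      rw [h5, h3] at h2
      exact h2.trans h1.symm
    rw [this]
  · -- `τ a = σ (σ a)`
    have h5 : τ (τ a) = σ a := by
      rcases h4 with h4 | h4 | h4
      · exact absurd h4.symm hnτ.1.2
      · exact h4
      · exact absurd (h3.trans h4.symm) hnτ.2
    have hs := hσ.isThreeCycle_sq
    have ha2 : a ∈ (σ * σ).support := by
      rw [Perm.mem_support]
      intro h6
      exact hnσ.1.2 h6.symm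
    have h6 := hs.eq_swap_mul_swap_iff_mem_support.mpr ha2
    have e4 : (σ * σ) a = σ (σ a) := rfl
    have e5 : (σ * σ) (σ (σ a)) = σ a := by
      show σ (σ (σ (σ a))) = σ a
      rw [e3]
    have : τ = σ * σ := by
      rw [h5, h3] at h2
      rw [e4, e5] at h6
      exact h2.trans h6.symm
    rw [this]
    exact (Commute.refl σ).mul_right (Commute.refl σ)

/-- The combinatorial lemma. -/
theorem exists_three_set (hα : 8 ≤ Fintype.card α) (c : Perm α) :
    ∃ S : Finset α, S.card = 3 ∧ (S.image c = S ∨ Disjoint S (S.image c)) := by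
  classical
  set Fx : Finset α := Finset.univ.filter (fun x => c x = x) with hFx
  by_cases h3 : 3 ≤ Fx.card
  · obtain ⟨S, hSF, hS⟩ := Finset.exists_subset_card_eq h3
    refine ⟨S, hS, Or.inl ?_⟩
    ext y
    simp only [Finset.mem_image]
    constructor
    · rintro ⟨x, hx, rfl⟩
      have := (Finset.mem_filter.mp (hSF hx)).2
      rwa [this]
    · intro hy
      exact ⟨y, hy, (Finset.mem_filter.mp (hSF hy)).2⟩
  push_neg at h3
  set M : Finset α := Finset.univ.filter (fun x => c x ≠ x) with hM
  have hMcard : 6 ≤ M.card := by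
    have h1 := Finset.card_filter_add_card_filter_not (s := (Finset.univ : Finset α)) (fun x => c x = x)
    rw [Finset.card_univ] at h1
    have h2 : Fx.card + M.card = Fintype.card α := h1
    omega
  have hMmem : ∀ x, x ∈ M ↔ c x ≠ x := by
    intro x
    simp [hM]
  let N : α → Finset α := fun y => {y, c y, c⁻¹ y}
  have hNcard : ∀ y, (N y).card ≤ 3 := fun y => Finset.card_le_three
  have hNmem : ∀ y z, z ∈ N y ↔ z = y ∨ z = c y ∨ z = c⁻¹ y := by
    intro y z
    simp [N]
  obtain ⟨x, hx⟩ : M.Nonempty := by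
    rw [← Finset.card_pos]
    omega
  set B := M \ N x with hB
  have hBcard : 3 ≤ B.card := by
    have h1 := Finset.le_card_sdiff (N x) M
    have h2 := hNcard x
    rw [hB]
    omega
  by_cases hex : ∃ y ∈ B, ∃ z ∈ B, z ∉ N y
  · obtain ⟨y, hy, z, hz, hzy⟩ := hex
    have hy' := Finset.mem_sdiff.mp hy
    have hz' := Finset.mem_sdiff.mp hz
    have hyx : ¬ (y = x ∨ y = c x ∨ y = c⁻¹ x) := fun h => hy'.2 ((hNmem x y).mpr h)
    have hzx : ¬ (z = x ∨ z = c x ∨ z = c⁻¹ x) := fun h => hz'.2 ((hNmem x z).mpr h)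
    have hzy' : ¬ (z = y ∨ z = c y ∨ z = c⁻¹ y) := fun h => hzy ((hNmem y z).mpr h)
    push_neg at hyx hzx hzy'
    have hcx := (hMmem x).mp hx
    have hcy := (hMmem y).mp hy'.1
    have hcz := (hMmem z).mp hz'.1
    have hinv : ∀ u v : α, u ≠ c⁻¹ v → c u ≠ v := by
      intro u v h h'
      apply h
      rw [← h']
      simp
    refine ⟨{x, y, z}, ?_, Or.inr ?_⟩
    · rw [Finset.card_eq_three]
      exact ⟨x, y, z, hyx.1.symm, hzx.1.symm, hzy'.1.symm, rfl⟩
    · rw [Finset.disjoint_left]
      intro w hw hw'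
      simp only [Finset.mem_image, Finset.mem_insert, Finset.mem_singleton] at hw hw'
      obtain ⟨u, hu, rfl⟩ := hw'
      rcases hu with rfl | rfl | rfl <;> rcases hw with h | h | h
      · exact hcx h
      · exact hyx.2.1 h.symm
      · exact hzx.2.1 h.symm
      · exact hinv _ _ hyx.2.2 h
      · exact hcy h
      · exact hzy'.2.1 h.symm
      · exact hinv _ _ hzx.2.2 h
      · exact hinv _ _ hzy'.2.2 h
      · exact hcz h
  · push_neg at hex
    -- `B` is invariant
    have hBN : ∀ y ∈ B, B = N y := by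
      intro y hy
      apply Finset.eq_of_subset_of_card_le
      · intro z hz
        exact hex y hy z hz
      · exact (hNcard y).trans hBcard
    have hinv : ∀ y ∈ B, c y ∈ B := by
      intro y hy
      rw [hBN y hy]
      exact (hNmem y _).mpr (Or.inr (Or.inl rfl))
    obtain ⟨y, hy⟩ : B.Nonempty := by
      rw [← Finset.card_pos]
      omega
    have hB3 : B.card = 3 := by
      apply le_antisymm _ hBcard
      rw [hBN y hy]
      exact hNcard y
    refine ⟨B, hB3, Or.inl ?_⟩
    apply Finset.eq_of_subset_of_card_le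
    · intro w hw
      obtain ⟨u, hu, rfl⟩ := Finset.mem_image.mp hw
      exact hinv u hu
    · rw [Finset.card_image_of_injective _ c.injective]

/-- The group-theoretic form. -/
theorem exists_conj_commute (hα : 8 ≤ Fintype.card α) {σ : Perm α} (hσ : σ.IsThreeCycle) (c : Perm α) :
    ∃ g : Perm α, IsConj c g ∧ Commute σ (g * σ * g⁻¹) := by
  classical
  obtain ⟨S, hS, hcase⟩ := exists_three_set hα c
  -- a permutation carrying the support of `σ` onto `S`
  have hcard : σ.support.card = S.card := by rw [hσ.card_support, hS]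
  let e0 : {x // x ∈ σ.support} ≃ {x // x ∈ S} := Fintype.equivOfCardEq (by
    simp only [Fintype.card_coe]
    exact hcard)
  let k : Perm α := e0.extendSubtype
  have hk : σ.support.image k = S := by
    apply Finset.eq_of_subset_of_card_le
    · intro y hy
      obtain ⟨x, hx, rfl⟩ := Finset.mem_image.mp hy
      exact Equiv.extendSubtype_mem e0 x hx
    · rw [Finset.card_image_of_injective _ k.injective, hcard]
  let g : Perm α := k⁻¹ * c * k
  have hconj : IsConj c g := isConj_iff.mpr ⟨k⁻¹, by simp [g]⟩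
  refine ⟨g, hconj, ?_⟩
  have hτ : (g * σ * g⁻¹).IsThreeCycle := by
    show (g * σ * g⁻¹).cycleType = {3}
    rw [Perm.cycleType_conj]
    exact hσ
  have hsupp : (g * σ * g⁻¹).support = σ.support.image g := by
    rw [Perm.support_conj, Finset.map_eq_image]
    rfl
  have himg : σ.support.image g = (S.image c).image (⇑(k⁻¹ : Perm α)) := by
    rw [Finset.image_image]
    conv_rhs => rw [← hk, Finset.image_image]
    apply Finset.image_congr
    intro x _
    simp [g]
  have hS0 : S.image (⇑(k⁻¹ : Perm α)) = σ.support := by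
    rw [← hk, Finset.image_image]
    simp
  rcases hcase with h | h
  · apply comm_of_same_support hσ hτ
    rw [hsupp, himg, h, hS0]
  · apply Perm.Disjoint.commute
    rw [Perm.disjoint_iff_disjoint_support, hsupp, himg, ← hS0]
    have := Finset.disjoint_image (s := S) (t := S.image c) (f := ⇑(k⁻¹ : Perm α)) (k⁻¹ : Perm α).injective
    rw [this]
    exact h

open Cfsg in
/-- `O_3(S_8)` is trivial. -/
theorem pCore_three : pCore 3 (Perm (Fin 8)) = ⊥ := by
  haveI : Fact (Nat.Prime 3) := ⟨Nat.prime_three⟩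
  haveI : Fact (Nat.Prime 2) := ⟨Nat.prime_two⟩
  set N := pCore 3 (Perm (Fin 8)) with hN
  haveI hNn : N.Normal := Cfsg.Agent.Lib.Core.pCore_normal 3 _
  have hNp : IsPGroup 3 N := Cfsg.Agent.Lib.Core.pCore_isPGroup 3 _
  haveI : IsSimpleGroup (alternatingGroup (Fin 8)) := alternatingGroup.isSimpleGroup (by simp)
  have hKn : (N.subgroupOf (alternatingGroup (Fin 8))).Normal := inferInstance
  rcases hKn.eq_bot_or_eq_top with hK | hK
  · -- every element of `N` squares to `1`
    rw [eq_bot_iff]
    intro x hx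
    have hx2 : x ^ 2 ∈ alternatingGroup (Fin 8) := by
      rw [Equiv.Perm.mem_alternatingGroup, map_pow, sq]
      exact Int.units_mul_self _
    have h1 : (⟨x ^ 2, hx2⟩ : alternatingGroup (Fin 8)) ∈ N.subgroupOf (alternatingGroup (Fin 8)) :=
      pow_mem hx 2
    rw [hK, Subgroup.mem_bot] at h1
    have h2 : x ^ 2 = 1 := congrArg Subtype.val h1
    obtain ⟨k, hk⟩ := hNp ⟨x, hx⟩
    have h3 : x ^ 3 ^ k = 1 := congrArg Subtype.val hk
    have h4 : orderOf x = 1 := Nat.eq_one_of_dvd_coprimes
      (Nat.Coprime.pow_right k (by norm_num : Nat.Coprime 2 3)) (orderOf_dvd_of_pow_eq_one h2)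
      (orderOf_dvd_of_pow_eq_one h3)
    exact Subgroup.mem_bot.mpr (orderOf_eq_one_iff.mp h4)
  · exfalso
    -- a product of two transpositions
    let y : Perm (Fin 8) := swap 0 1 * swap 2 3
    have hy : y ∈ alternatingGroup (Fin 8) := by
      rw [Equiv.Perm.mem_alternatingGroup]
      decide
    have h1 : (⟨y, hy⟩ : alternatingGroup (Fin 8)) ∈ N.subgroupOf (alternatingGroup (Fin 8)) := by
      rw [hK]; trivial
    have hyN : y ∈ N := h1
    obtain ⟨k, hk⟩ := hNp ⟨y, hyN⟩
    have h3 : y ^ 3 ^ k = 1 := congrArg Subtype.val hk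
    have h2 : y ^ 2 = 1 := by decide
    have h4 : orderOf y = 1 := Nat.eq_one_of_dvd_coprimes
      (Nat.Coprime.pow_right k (by norm_num : Nat.Coprime 2 3)) (orderOf_dvd_of_pow_eq_one h2)
      (orderOf_dvd_of_pow_eq_one h3)
    have h5 : y = 1 := orderOf_eq_one_iff.mp h4
    have h6 : y 0 = 1 := by decide
    rw [h5] at h6
    exact absurd h6 (by decide)

/-- Subnormality from commuting. -/
theorem subnormal_of_commute {G : Type*} [Group G] {σ τ : G} (h : Commute σ τ)
    {B : Subgroup G} (hB : B = Subgroup.zpowers τ) :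
    ((Subgroup.zpowers σ).subgroupOf (Subgroup.zpowers σ ⊔ B)).IsSubnormal := by
  subst hB
  apply Subgroup.Normal.isSubnormal
  rw [Subgroup.normal_subgroupOf_iff_le_normalizer le_sup_left]
  refine sup_le Subgroup.le_normalizer ?_
  rw [Subgroup.zpowers_le, Subgroup.mem_normalizer_iff]
  intro x
  constructor
  · rintro ⟨k, rfl⟩
    have : τ * (σ ^ k) * τ⁻¹ = σ ^ k := by
      rw [(h.zpow_left k).symm.eq]
      simp
    rw [this]
    exact ⟨k, rfl⟩
  · intro hx
    obtain ⟨k, hk⟩ := hx
    have hk' : σ ^ k = τ * x * τ⁻¹ := hk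
    have : x = τ⁻¹ * σ ^ k * τ := by rw [hk']; group
    rw [this]
    have h2 : τ⁻¹ * (σ ^ k) * τ = σ ^ k := by
      rw [((h.zpow_left k).symm.inv_left).eq]
      simp
    rw [h2]
    exact ⟨k, rfl⟩

end Cfsg.Agent.Lib.ClassSizes.S8Three
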