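import Cfsg.Agent.Lib.Core.Basic
import Cfsg.Agent.Lib.Char.Burnside
import Cfsg.Agent.Lib.ClassSizes.S8Three
import Mathlib

/-! The group `AΓL(1, 9)` of order 144. -/

set_option autoImplicit false
set_option maxRecDepth 100000

namespace Cfsg.Agent.Lib.ClassSizes.AGammaL

/-- Elements `(u, e, v)`: the affine map with linear part `ζ^u σ^e` and translation `v`. -/
def T : Type := ZMod 8 × ZMod 2 × (ZMod 3 × ZMod 3)

instance : Fintype T := inferInstanceAs (Fintype (ZMod 8 × ZMod 2 × (ZMod 3 × ZMod 3)))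
instance : DecidableEq T := inferInstanceAs (DecidableEq (ZMod 8 × ZMod 2 × (ZMod 3 × ZMod 3)))

/-- Multiplication by `ζ = 1 + i` on `F_9 = F_3[i]`. -/
def zeta (v : ZMod 3 × ZMod 3) : ZMod 3 × ZMod 3 := (v.1 - v.2, v.1 + v.2)

/-- The Frobenius automorphism. -/
def sig (v : ZMod 3 × ZMod 3) : ZMod 3 × ZMod 3 := (v.1, -v.2)

/-- The linear action. -/
def act (u : ZMod 8) (e : ZMod 2) (v : ZMod 3 × ZMod 3) : ZMod 3 × ZMod 3 :=
  zeta^[u.val] (if e = 0 then v else sig v)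

/-- The twist on `Z/8`. -/
def tw (e : ZMod 2) (u : ZMod 8) : ZMod 8 := if e = 0 then u else 3 * u

theorem H_assoc : ∀ (u : ZMod 8) (e : ZMod 2) (u' : ZMod 8) (e' : ZMod 2) (u'' : ZMod 8),
    (u + tw e u') + tw (e + e') u'' = u + tw e (u' + tw e' u'') := by decide +kernel

theorem act_add : ∀ (u : ZMod 8) (e : ZMod 2) (v w : ZMod 3 × ZMod 3),
    act u e (v + w) = act u e v + act u e w := by decide +kernel

theorem act_act : ∀ (u : ZMod 8) (e : ZMod 2) (u' : ZMod 8) (e' : ZMod 2) (v : ZMod 3 × ZMod 3),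
    act u e (act u' e' v) = act (u + tw e u') (e + e') v := by decide +kernel

theorem act_zero : ∀ (v : ZMod 3 × ZMod 3), act 0 0 v = v := by decide +kernel

theorem act_vzero : ∀ (u : ZMod 8) (e : ZMod 2), act u e 0 = 0 := by decide +kernel

theorem tw_zero : ∀ (u : ZMod 8), tw 0 u = u := by decide +kernel

theorem tw_inv : ∀ (u : ZMod 8) (e : ZMod 2), -(tw e u) + tw e u = 0 ∧ e + e = 0 := by decide +kernel

instance : Mul T := ⟨fun g h => (g.1 + tw g.2.1 h.1, g.2.1 + h.2.1, g.2.2 + act g.1 g.2.1 h.2.2)⟩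
instance : One T := ⟨(0, 0, 0)⟩
instance : Inv T := ⟨fun g => (-(tw g.2.1 g.1), g.2.1, -(act (-(tw g.2.1 g.1)) g.2.1 g.2.2))⟩

theorem mul_def (g h : T) : g * h = (g.1 + tw g.2.1 h.1, g.2.1 + h.2.1, g.2.2 + act g.1 g.2.1 h.2.2) := rfl
theorem one_def : (1 : T) = (0, 0, 0) := rfl
theorem inv_def (g : T) : g⁻¹ = (-(tw g.2.1 g.1), g.2.1, -(act (-(tw g.2.1 g.1)) g.2.1 g.2.2)) := rfl

instance : Group T := Group.ofLeftAxioms
  (by
    intro a b c
    refine Prod.ext (H_assoc a.1 a.2.1 b.1 b.2.1 c.1) (Prod.ext (add_assoc a.2.1 b.2.1 c.2.1) ?_)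
    show a.2.2 + act a.1 a.2.1 b.2.2 + act (a.1 + tw a.2.1 b.1) (a.2.1 + b.2.1) c.2.2 =
      a.2.2 + act a.1 a.2.1 (b.2.2 + act b.1 b.2.1 c.2.2)
    rw [act_add, act_act, add_assoc])
  (by
    intro a
    refine Prod.ext ?_ (Prod.ext (zero_add a.2.1) ?_)
    · show 0 + tw 0 a.1 = a.1
      rw [tw_zero, zero_add]
    · show (0 : ZMod 3 × ZMod 3) + act 0 0 a.2.2 = a.2.2
      rw [act_zero, zero_add])
  (by
    intro a
    refine Prod.ext (tw_inv a.1 a.2.1).1 (Prod.ext (tw_inv a.1 a.2.1).2 ?_)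
    show -(act (-(tw a.2.1 a.1)) a.2.1 a.2.2) + act (-(tw a.2.1 a.1)) a.2.1 a.2.2 = 0
    rw [neg_add_cancel])

/-- The Frobenius involution. -/
def t : T := (0, 1, 0)

/-- The translation by `i`. -/
def v0 : T := (0, 0, (0, 1))

theorem classes : ∀ c : T, ∃ h : T,
    t * (h * c * h⁻¹) = (h * c * h⁻¹) * t ∨ (h * c * h⁻¹).2.2 = 0 := by decide +kernel

theorem pow16 : ∀ g : T, g.2.2 = 0 → g ^ 16 = 1 := by decide +kernel

theorem card_T : Nat.card T = 144 := by
  rw [Nat.card_eq_fintype_card]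
  rfl

theorem t_sq : t ^ 2 = 1 := by decide +kernel

theorem t_ne : t ≠ 1 := by decide +kernel

theorem w_cube : (v0 * t * v0⁻¹ * t⁻¹) ^ 3 = 1 := by decide +kernel

theorem w_ne : v0 * t * v0⁻¹ * t⁻¹ ≠ 1 := by decide +kernel

/-- The point stabilizer. -/
def S : Subgroup T where
  carrier := {g | g.2.2 = 0}
  one_mem' := rfl
  mul_mem' := by
    intro a b ha hb
    show a.2.2 + act a.1 a.2.1 b.2.2 = 0
    have ha' : a.2.2 = 0 := ha
    have hb' : b.2.2 = 0 := hb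
    rw [ha', hb', act_vzero, add_zero]
  inv_mem' := by
    intro a ha
    show -(act (-(tw a.2.1 a.1)) a.2.1 a.2.2) = 0
    have ha' : a.2.2 = 0 := ha
    rw [ha', act_vzero, neg_zero]

theorem isSubnormal_of_nilpotent {L : Type*} [Group L] [Finite L] [Group.IsNilpotent L] (A : Subgroup L) :
    A.IsSubnormal := by
  induction A using WellFoundedGT.induction with
  | ind A ih =>
    by_cases h : A = ⊤
    · rw [h]
      exact Subgroup.IsSubnormal.top
    · have h1 := normalizerCondition_of_isNilpotent (G := L) A (lt_top_iff_ne_top.mpr h)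
      exact Subgroup.IsSubnormal.step A _ h1.le (ih _ h1)
        ((Subgroup.normal_subgroupOf_iff_le_normalizer h1.le).mpr le_rfl)

theorem main : ∃ (G : Type) (_ : Group G) (_ : Finite G) (A : Subgroup G), Group.IsSolvable G ∧ Nat.card A = 2 ∧
      (∀ c : G, ∃ g : G, IsConj c g ∧ (A.subgroupOf (A ⊔ Subgroup.zpowers g)).IsSubnormal) ∧
      ¬ A ≤ Cfsg.pCore 2 G := by
  haveI : Fact (Nat.Prime 2) := ⟨Nat.prime_two⟩
  refine ⟨T, inferInstance, inferInstance, Subgroup.zpowers t, ?_, ?_, ?_, ?_⟩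
  · exact Cfsg.Agent.Lib.Char.isSolvable_of_card 2 3 4 2 Nat.prime_two Nat.prime_three (by rw [card_T]; norm_num)
  · rw [Nat.card_zpowers]
    exact orderOf_eq_prime t_sq t_ne
  · intro c
    obtain ⟨h, hh⟩ := classes c
    refine ⟨h * c * h⁻¹, isConj_iff.mpr ⟨h, rfl⟩, ?_⟩
    rcases hh with hh | hh
    · exact Cfsg.Agent.Lib.ClassSizes.S8Three.subnormal_of_commute hh rfl
    · have htS : t ∈ S := rfl
      have hL : Subgroup.zpowers t ⊔ Subgroup.zpowers (h * c * h⁻¹) ≤ S :=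
        sup_le ((Subgroup.zpowers_le).mpr htS) ((Subgroup.zpowers_le).mpr hh)
      have hSp : IsPGroup 2 S := fun x => ⟨4, by
        apply Subtype.ext
        exact pow16 x x.2⟩
      haveI : Group.IsNilpotent ↥(Subgroup.zpowers t ⊔ Subgroup.zpowers (h * c * h⁻¹)) :=
        (hSp.to_le hL).isNilpotent
      exact isSubnormal_of_nilpotent _
  · intro hle
    have htO : t ∈ Cfsg.pCore 2 T := hle (Subgroup.mem_zpowers t)
    haveI hn : (Cfsg.pCore 2 T).Normal := Cfsg.Agent.Lib.Core.pCore_normal 2 T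
    have hw : v0 * t * v0⁻¹ * t⁻¹ ∈ Cfsg.pCore 2 T := mul_mem (hn.conj_mem t htO v0) (inv_mem htO)
    obtain ⟨k, hk⟩ := Cfsg.Agent.Lib.Core.pCore_isPGroup 2 T ⟨_, hw⟩
    have h3 : (v0 * t * v0⁻¹ * t⁻¹) ^ 2 ^ k = 1 := congrArg Subtype.val hk
    have h4 : orderOf (v0 * t * v0⁻¹ * t⁻¹) = 1 := Nat.eq_one_of_dvd_coprimes
      (Nat.Coprime.pow_right k (by norm_num : Nat.Coprime 3 2)) (orderOf_dvd_of_pow_eq_one w_cube)
      (orderOf_dvd_of_pow_eq_one h3)
    exact w_ne (orderOf_eq_one_iff.mp h4)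

end Cfsg.Agent.Lib.ClassSizes.AGammaL
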