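import Mathlib
import Cfsg.Agent.Lib.Cl.AutAlt4

/-! Odd-order automorphisms of alternating groups come from permutations, and `q`-subgroups of
`S_n` for `n < q²` are commutative. -/

set_option autoImplicit false

namespace Cfsg.Agent.Lib.ClassSizes.AutAltPQ

open Equiv Equiv.Perm Subgroup Nat

variable {α : Type*} [DecidableEq α] [Fintype α]

/-- A `q`-subgroup of the symmetric group of degree `< q²` is commutative. -/
theorem comm_of_card_lt {q : ℕ} [hq : Fact q.Prime] (H : Subgroup (Perm α)) (hH : IsPGroup q H)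
    (hc : Fintype.card α < q * q) {x y : Perm α} (hx : x ∈ H) (hy : y ∈ H) : x * y = y * x := by
  ext a
  let O := MulAction.orbit H a
  let f : H →* Perm O := MulAction.toPermHom H O
  obtain ⟨j, hj⟩ := hH.card_orbit a
  have hOle : Nat.card O ≤ Fintype.card α := by
    rw [← Nat.card_eq_fintype_card]
    exact Finite.card_subtype_le _
  have hj1 : j ≤ 1 := by
    by_contra hcon
    have h1 : q ^ 2 ≤ q ^ j := Nat.pow_le_pow_right hq.1.pos (by omega)
    have h2 : Nat.card O = q ^ j := hj
    nlinarith
  have hOq : Nat.card O ≤ q := by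
    have h2 : Nat.card O = q ^ j := hj
    rw [h2]
    calc q ^ j ≤ q ^ 1 := Nat.pow_le_pow_right hq.1.pos hj1
      _ = q := pow_one q
  have hIdvd : Nat.card f.range ∣ q ! := by
    have h1 : Nat.card f.range ∣ Nat.card (Perm O) := Subgroup.card_subgroup_dvd_card _
    rw [Nat.card_perm] at h1
    exact h1.trans (Nat.factorial_dvd_factorial hOq)
  have hPI : IsPGroup q f.range := IsPGroup.of_surjective hH f.rangeRestrict f.rangeRestrict_surjective
  obtain ⟨m, hm⟩ := IsPGroup.iff_card.1 hPI
  have hm1 : m ≤ 1 := by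
    by_contra hcon
    have h2 : q ^ 2 ∣ q ! := (pow_dvd_pow q (by omega)).trans (hm ▸ hIdvd)
    obtain ⟨r, hr⟩ : ∃ r, q = r + 1 := ⟨q - 1, by have := hq.1.pos; omega⟩
    have hpr := hq.1
    rw [hr, Nat.factorial_succ, pow_two] at h2
    have h3 := Nat.dvd_of_mul_dvd_mul_left (Nat.succ_pos r) h2
    rw [← hr] at h3
    have := (hq.1.dvd_factorial).1 h3
    omega
  have hcyc : IsCyclic f.range := by
    interval_cases m
    · rw [pow_zero] at hm
      haveI : Subsingleton f.range := (Nat.card_eq_one_iff_unique.1 hm).1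
      exact isCyclic_of_subsingleton
    · rw [pow_one] at hm
      exact isCyclic_of_prime_card hm
  have key : f ⟨x, hx⟩ * f ⟨y, hy⟩ = f ⟨y, hy⟩ * f ⟨x, hx⟩ := by
    have h : (⟨f ⟨x, hx⟩, ⟨_, rfl⟩⟩ : f.range) * ⟨f ⟨y, hy⟩, ⟨_, rfl⟩⟩ =
        ⟨f ⟨y, hy⟩, ⟨_, rfl⟩⟩ * ⟨f ⟨x, hx⟩, ⟨_, rfl⟩⟩ := by
      letI := IsCyclic.commGroup (α := f.range)
      exact mul_comm _ _
    exact congrArg Subtype.val h
  have := congrArg (fun u : Perm O => ((u ⟨a, MulAction.mem_orbit_self a⟩ : O) : α)) key
  exact this

/-- Elements of order three in degree six. -/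
theorem type_of_order_three (h6 : Fintype.card α = 6) (y : Perm α) (hy : orderOf y = 3) :
    y.IsThreeCycle ∨ y.cycleType = Multiset.replicate 2 3 := by
  have hp : (orderOf y).Prime := by rw [hy]; norm_num
  obtain ⟨l, hl⟩ := Equiv.Perm.cycleType_prime_order hp
  rw [hy] at hl
  have hsup : y.cycleType.sum ≤ Fintype.card α := by
    rw [Equiv.Perm.sum_cycleType]
    exact Finset.card_le_univ _
  rw [hl] at hsup
  simp only [Multiset.sum_replicate, smul_eq_mul] at hsup
  have hl1 : l ≤ 1 := by omega
  interval_cases l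
  · left
    show y.cycleType = {3}
    rw [hl]
    rfl
  · right
    exact hl

theorem type33_conj {y z : alternatingGroup α} (hy : (y : Perm α).cycleType = Multiset.replicate 2 3)
    (hz : (z : Perm α).cycleType = Multiset.replicate 2 3) : IsConj y z := by
  have hc : IsConj (y : Perm α) (z : Perm α) := Equiv.Perm.isConj_iff_cycleType_eq.2 (hy.trans hz.symm)
  obtain ⟨g, hg⟩ := isConj_iff.1 hc
  by_cases hgs : g ∈ alternatingGroup α
  · exact isConj_iff.2 ⟨⟨g, hgs⟩, Subtype.ext hg⟩
  · have hno : ¬ (centralizer {(y : Perm α)} ≤ alternatingGroup α) := by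
      intro hle
      have := Equiv.Perm.count_le_one_of_centralizer_le_alternating hle 3
      rw [hy] at this
      simp at this
    obtain ⟨t, ht, hto⟩ := SetLike.not_le_iff_exists.1 hno
    have hgt : g * t ∈ alternatingGroup α := by
      rw [Equiv.Perm.mem_alternatingGroup] at hgs hto ⊢
      rw [map_mul]
      rcases Int.units_eq_one_or (sign g) with h | h
      · exact absurd h hgs
      rcases Int.units_eq_one_or (sign t) with h' | h'
      · exact absurd h' hto
      rw [h, h']
      rfl
    refine isConj_iff.2 ⟨⟨g * t, hgt⟩, Subtype.ext ?_⟩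
    have hty : t * (y : Perm α) = y * t := by
      have := (Subgroup.mem_centralizer_singleton_iff).1 ht
      exact this
    show (g * t) * (y : Perm α) * (g * t)⁻¹ = z
    rw [mul_assoc g t, hty, _root_.mul_inv_rev]
    rw [← hg]
    group

/-- In degree six, the square of an automorphism of the alternating group preserves three-cycles. -/
theorem sq_three (h6 : Fintype.card α = 6) (ψ : alternatingGroup α ≃* alternatingGroup α)
    (x : alternatingGroup α) (hx : (x : Perm α).IsThreeCycle) : (ψ (ψ x) : Perm α).IsThreeCycle := by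
  have h5 : 5 ≤ Fintype.card α := by omega
  have hord : ∀ w : alternatingGroup α, orderOf (w : Perm α) = 3 → orderOf (ψ w : Perm α) = 3 := by
    intro w hw
    rw [Subgroup.orderOf_coe, MulEquiv.orderOf_eq, ← Subgroup.orderOf_coe, hw]
  have hy := type_of_order_three h6 _ (hord x hx.orderOf)
  have hz := type_of_order_three h6 _ (hord _ (hord x hx.orderOf))
  have hconj : ∀ {a b : alternatingGroup α}, IsConj a b → (a : Perm α).cycleType = (b : Perm α).cycleType := by
    intro a b hab
    obtain ⟨c, hc⟩ := isConj_iff.1 hab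
    rw [← hc]
    exact (Equiv.Perm.cycleType_conj (σ := (a : Perm α)) (τ := (c : Perm α))).symm
  rcases hy with hy | hy
  · have h1 : IsConj x (ψ x) := alternatingGroup.isThreeCycle_isConj (by rw [Nat.card_eq_fintype_card]; exact h5) hx hy
    have h2 : IsConj (ψ x) (ψ (ψ x)) := by
      obtain ⟨c, hc⟩ := isConj_iff.1 h1
      exact isConj_iff.2 ⟨ψ c, by rw [← map_inv, ← map_mul, ← map_mul, hc]⟩
    have h3 := hconj h2
    show (ψ (ψ x) : Perm α).cycleType = {3}
    rw [← h3]
    exact hy
  · rcases hz with hz | hz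
    · exact hz
    · exfalso
      obtain ⟨c, hc⟩ := isConj_iff.1 (type33_conj hy hz)
      obtain ⟨h, rfl⟩ := ψ.surjective c
      have h1 : ψ (h * x * h⁻¹) = ψ (ψ x) := by
        rw [← hc]
        simp
      have h2 : h * x * h⁻¹ = ψ x := ψ.injective h1
      have h3 : IsConj x (ψ x) := isConj_iff.2 ⟨h, h2⟩
      have h4 := hconj h3
      rw [hy, hx] at h4
      simp at h4

/-- An automorphism of odd order of an alternating group comes from a permutation. -/
theorem odd_order_mem_range (h5 : 5 ≤ Fintype.card α) (ψ : MulAut (alternatingGroup α))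
    (hodd : Odd (orderOf ψ)) :
    ψ ∈ (MulAut.conjNormal : Perm α →* MulAut (alternatingGroup α)).range := by
  by_cases h6 : Fintype.card α = 6
  · obtain ⟨m, hm⟩ := hodd
    have h2 : ψ ^ 2 ∈ (MulAut.conjNormal : Perm α →* MulAut (alternatingGroup α)).range := by
      refine Lib.Cl.AutAlt.exists_conj_of_three (by omega) (ψ ^ 2) (fun x hx => ?_)
      rw [pow_two]
      exact sq_three h6 ψ x hx
    have e : ψ = (ψ ^ 2) ^ (m + 1) := by
      rw [← pow_mul]
      have : 2 * (m + 1) = orderOf ψ + 1 := by omega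
      rw [this, pow_succ, pow_orderOf_eq_one, one_mul]
    rw [e]
    exact pow_mem h2 _
  · exact (Lib.Cl.AutAlt.conjNormal_bijective (by omega) h6).2 ψ

/-- Disjoint cycles produce an even permutation of order `p * q`. -/
theorem element_pq {p q : ℕ} (hp : p.Prime) (hq : q.Prime) (hpq : p < q) (hc : q * q ≤ Fintype.card α) :
    ∃ x : alternatingGroup α, orderOf x = p * q := by
  have hq2 : 3 ≤ q := by have := hp.two_le; omega
  have hcop : Nat.Coprime p q := (Nat.coprime_primes hp hq).2 hpq.ne
  have hqodd : q % 2 = 1 := by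
    rcases hq.eq_two_or_odd with h | h
    · omega
    · exact h
  by_cases hp2 : p = 2
  · subst hp2
    obtain ⟨g, hg⟩ := (Equiv.Perm.exists_with_cycleType_iff α (m := ({2, 2, q} : Multiset ℕ))).2 (by
      constructor
      · simp; nlinarith
      · intro a ha
        simp at ha
        omega)
    have hord : orderOf g = 2 * q := by
      rw [← Equiv.Perm.lcm_cycleType, hg]
      simp [Multiset.lcm_cons]
      show Nat.lcm 2 (Nat.lcm 2 q) = 2 * q
      rw [hcop.lcm_eq_mul]
      exact Nat.lcm_eq_right (dvd_mul_right _ _)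
    have hs : g ∈ alternatingGroup α := by
      rw [Equiv.Perm.mem_alternatingGroup, Equiv.Perm.sign_of_cycleType, hg]
      simp
      exact Even.neg_one_pow ⟨(q + 7) / 2, by omega⟩
    exact ⟨⟨g, hs⟩, by rw [← Subgroup.orderOf_coe]; exact hord⟩
  · have hpodd : p % 2 = 1 := by
      rcases hp.eq_two_or_odd with h | h
      · omega
      · exact h
    obtain ⟨g, hg⟩ := (Equiv.Perm.exists_with_cycleType_iff α (m := ({p, q} : Multiset ℕ))).2 (by
      constructor
      · simp; nlinarith
      · intro a ha
        simp at ha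
        have := hp.two_le
        omega)
    have hord : orderOf g = p * q := by
      rw [← Equiv.Perm.lcm_cycleType, hg]
      simp [Multiset.lcm_cons]
      exact hcop.lcm_eq_mul
    have hs : g ∈ alternatingGroup α := by
      rw [Equiv.Perm.mem_alternatingGroup, Equiv.Perm.sign_of_cycleType, hg]
      simp
      exact Even.neg_one_pow ⟨(p + q + 2) / 2, by omega⟩
    exact ⟨⟨g, hs⟩, by rw [← Subgroup.orderOf_coe]; exact hord⟩

theorem sylow_comm (n : ℕ) (hn : 5 ≤ n) (G : Subgroup (MulAut (alternatingGroup (Fin n))))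
    (hG : (MulAut.conj : alternatingGroup (Fin n) →* MulAut (alternatingGroup (Fin n))).range ≤ G)
    (p q : ℕ) [hp : Fact p.Prime] [hq : Fact q.Prime] (hpq : p < q) (h : ∀ g : G, orderOf g ≠ p * q)
    (Q : Sylow q G) : IsMulCommutative (Q : Subgroup G) := by
  have hcard : Fintype.card (Fin n) = n := Fintype.card_fin n
  have hinj := Lib.Cl.AutAlt.conjNormal_injective (α := Fin n) (by omega)
  by_cases hqn : q * q ≤ n
  · exfalso
    obtain ⟨x, hx⟩ := element_pq (α := Fin n) hp.1 hq.1 hpq (by omega)
    refine h ⟨MulAut.conj x, hG ⟨x, rfl⟩⟩ ?_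
    rw [Subgroup.orderOf_mk, ← hx]
    have e : MulAut.conj x = (MulAut.conjNormal : Perm (Fin n) →* MulAut (alternatingGroup (Fin n))) (x : Perm (Fin n)) := by
      ext y
      simp [MulAut.conjNormal_apply]
    rw [e, orderOf_injective _ hinj, Subgroup.orderOf_coe]
  · have hq2 : 3 ≤ q := by have := hp.1.two_le; omega
    have hqodd : Odd q := hq.1.odd_of_ne_two (by omega)
    have hodd : ∀ a : (Q : Subgroup G), Odd (orderOf ((a : G) : MulAut (alternatingGroup (Fin n)))) := by
      intro a
      obtain ⟨k, hk⟩ := (IsPGroup.iff_orderOf.1 Q.isPGroup') a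
      rw [Subgroup.orderOf_coe, Subgroup.orderOf_coe, hk]
      exact hqodd.pow
    let R : Subgroup (Perm (Fin n)) := (Q.map G.subtype).comap MulAut.conjNormal
    have hR : IsPGroup q R := by
      apply IsPGroup.comap_of_injective _ _ hinj
      exact Q.isPGroup'.map _
    refine ⟨⟨fun a b => ?_⟩⟩
    obtain ⟨σ, hσ⟩ := odd_order_mem_range (α := Fin n) (by omega) _ (hodd a)
    obtain ⟨τ, hτ⟩ := odd_order_mem_range (α := Fin n) (by omega) _ (hodd b)
    have h1 : σ ∈ R := by
      show MulAut.conjNormal σ ∈ Q.map G.subtype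
      rw [hσ]
      exact ⟨a, a.2, rfl⟩
    have h2 : τ ∈ R := by
      show MulAut.conjNormal τ ∈ Q.map G.subtype
      rw [hτ]
      exact ⟨b, b.2, rfl⟩
    have h3 := comm_of_card_lt R hR (by omega) h1 h2
    apply Subtype.ext
    apply Subtype.ext
    show ((a : G) : MulAut (alternatingGroup (Fin n))) * ((b : G) : MulAut (alternatingGroup (Fin n))) =
      ((b : G) : MulAut (alternatingGroup (Fin n))) * ((a : G) : MulAut (alternatingGroup (Fin n)))
    rw [← hσ, ← hτ, ← map_mul, ← map_mul, h3]

end Cfsg.Agent.Lib.ClassSizes.AutAltPQ
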