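import Mathlib

/-!
# Automorphism orbits: basic counting and the norm automorphism
-/

namespace Cfsg.Agent.Lib.ClassSizes.AutOrb

open MulAction

variable {G : Type*} [Group G] [Finite G]

/-- `a` is central in `N` and lies in `N`. -/
def IsZN (N : Subgroup G) (a : G) : Prop := a ∈ N ∧ ∀ n ∈ N, n * a = a * n

lemma IsZN.one (N : Subgroup G) : IsZN N (1 : G) := ⟨N.one_mem, by simp⟩

lemma IsZN.mul {N : Subgroup G} {a b : G} (ha : IsZN N a) (hb : IsZN N b) : IsZN N (a * b) :=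
  ⟨N.mul_mem ha.1 hb.1, fun n hn => by
    rw [← mul_assoc, ha.2 n hn, mul_assoc, hb.2 n hn, mul_assoc]⟩

lemma IsZN.conj {N : Subgroup G} [hN : N.Normal] {a : G} (ha : IsZN N a) (g : G) :
    IsZN N (g * a * g⁻¹) := by
  refine ⟨hN.conj_mem _ ha.1 g, fun n hn => ?_⟩
  have h1 : g⁻¹ * n * g ∈ N := by simpa using hN.conj_mem _ hn g⁻¹
  have h2 := ha.2 _ h1
  calc n * (g * a * g⁻¹) = g * ((g⁻¹ * n * g) * a) * g⁻¹ := by group
    _ = g * (a * (g⁻¹ * n * g)) * g⁻¹ := by rw [h2]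
    _ = g * a * g⁻¹ * n := by group

section quotient
variable (N : Subgroup G) [hNn : N.Normal] {p : ℕ} (hp : p.Prime) (hN : N.index = p)
include hp hN

lemma card_quot : Nat.card (G ⧸ N) = p := hN

lemma exists_pow_inv_mul_mem {h : G} (hh : h ∉ N) (g : G) : ∃ i : ℕ, (h ^ i)⁻¹ * g ∈ N := by
  haveI : Fact p.Prime := ⟨hp⟩
  have hc : Nat.card (G ⧸ N) = p := hN
  have h1 : (h : G ⧸ N) ≠ 1 := by
    rwa [Ne, QuotientGroup.eq_one_iff]
  have h2 : (g : G ⧸ N) ∈ Subgroup.zpowers (h : G ⧸ N) := mem_zpowers_of_prime_card hc h1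
  rw [← mem_powers_iff_mem_zpowers] at h2
  obtain ⟨i, hi⟩ := h2
  refine ⟨i, ?_⟩
  rw [← QuotientGroup.eq]
  simpa using hi

lemma orderOf_mk {h : G} (hh : h ∉ N) : orderOf (h : G ⧸ N) = p := by
  haveI : Fact p.Prime := ⟨hp⟩
  have hc : Nat.card (G ⧸ N) = p := hN
  have h1 : (h : G ⧸ N) ≠ 1 := by
    rwa [Ne, QuotientGroup.eq_one_iff]
  refine orderOf_eq_prime ?_ h1
  rw [← hc]; exact pow_card_eq_one'

lemma pow_mem_iff {h : G} (hh : h ∉ N) (k : ℕ) : h ^ k ∈ N ↔ p ∣ k := by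
  rw [← orderOf_mk N hp hN hh, orderOf_dvd_iff_pow_eq_one, ← QuotientGroup.mk_pow,
    QuotientGroup.eq_one_iff]

lemma modEq_of_mem {h : G} (hh : h ∉ N) {i j : ℕ} (hij : (h ^ i)⁻¹ * h ^ j ∈ N) : i ≡ j [MOD p] := by
  have h1 : ((h ^ i : G) : G ⧸ N) = ((h ^ j : G) : G ⧸ N) := QuotientGroup.eq.2 hij
  rw [QuotientGroup.mk_pow, QuotientGroup.mk_pow, pow_eq_pow_iff_modEq,
    orderOf_mk N hp hN hh] at h1
  exact h1

/-- The norm automorphism. -/
lemma exists_aut {h y : G} (hh : h ∉ N) (hy : IsZN N y) (hpow : (h * y) ^ p = h ^ p) :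
    ∃ α : MulAut G, (∀ n ∈ N, α n = n) ∧ α h = h * y := by
  classical
  let c : ℕ → G := fun i => (h * y) ^ i * (h ^ i)⁻¹
  have cdef : ∀ i, c i = (h * y) ^ i * (h ^ i)⁻¹ := fun _ => rfl
  have c0 : c 0 = 1 := by simp [cdef]
  have c1 : c 1 = h * y * h⁻¹ := by simp [cdef]
  have cZ : ∀ i, IsZN N (c i) := by
    intro i
    induction i with
    | zero => rw [c0]; exact IsZN.one N
    | succ i ih =>
      have e : c (i + 1) = c i * (h ^ (i + 1) * y * (h ^ (i + 1))⁻¹) := by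
        rw [cdef, cdef, pow_succ (h * y) i]
        have e1 : (h ^ i)⁻¹ * h ^ (i + 1) = h := by rw [pow_succ]; group
        calc (h * y) ^ i * (h * y) * (h ^ (i + 1))⁻¹
            = (h * y) ^ i * (((h ^ i)⁻¹ * h ^ (i + 1)) * y * (h ^ (i + 1))⁻¹) := by
              rw [e1]; group
          _ = (h * y) ^ i * (h ^ i)⁻¹ * (h ^ (i + 1) * y * (h ^ (i + 1))⁻¹) := by group
      rw [e]
      exact ih.mul (hy.conj _)
  have cadd : ∀ i j, c (i + j) = c i * (h ^ i * c j * (h ^ i)⁻¹) := by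
    intro i j
    simp only [cdef, pow_add]
    group
  have chp : c p = 1 := by
    rw [cdef, hpow]; group
  have cper : ∀ i k, c (i + p * k) = c i := by
    intro i k
    induction k with
    | zero => simp
    | succ k ih =>
      have : i + p * (k + 1) = (i + p * k) + p := by ring
      rw [this, cadd, chp, ih]; simp
  have cmod : ∀ i j, i ≡ j [MOD p] → c i = c j := by
    intro i j hij
    have e1 : c i = c (i % p) := by
      conv_lhs => rw [← Nat.mod_add_div i p]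
      exact cper _ _
    have e2 : c j = c (j % p) := by
      conv_lhs => rw [← Nat.mod_add_div j p]
      exact cper _ _
    rw [e1, e2, hij]
  choose idx hidx using exists_pow_inv_mul_mem N hp hN hh
  have key : ∀ g i, (h ^ i)⁻¹ * g ∈ N → c (idx g) = c i := by
    intro g i hi
    apply cmod
    apply modEq_of_mem N hp hN hh
    have h1 := N.mul_mem (hidx g) (N.inv_mem hi)
    have e : (h ^ idx g)⁻¹ * g * ((h ^ i)⁻¹ * g)⁻¹ = (h ^ idx g)⁻¹ * h ^ i := by group
    rwa [e] at h1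
  let a : G → G := fun g => c (idx g) * g
  have amul : ∀ g₁ g₂, a (g₁ * g₂) = a g₁ * a g₂ := by
    intro g₁ g₂
    set i := idx g₁ with hi
    set j := idx g₂ with hj
    have h1 : (h ^ i)⁻¹ * g₁ ∈ N := hidx g₁
    have h2 : (h ^ j)⁻¹ * g₂ ∈ N := hidx g₂
    have h3 : (h ^ (i + j))⁻¹ * (g₁ * g₂) ∈ N := by
      have h4 : (h ^ j)⁻¹ * ((h ^ i)⁻¹ * g₁) * (h ^ j)⁻¹⁻¹ ∈ N := hNn.conj_mem _ h1 _
      have h5 := N.mul_mem h4 h2
      have e : (h ^ j)⁻¹ * ((h ^ i)⁻¹ * g₁) * (h ^ j)⁻¹⁻¹ * ((h ^ j)⁻¹ * g₂)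
          = (h ^ (i + j))⁻¹ * (g₁ * g₂) := by
        rw [pow_add]; group
      rwa [e] at h5
    have h6 : c (idx (g₁ * g₂)) = c (i + j) := key _ _ h3
    have h7 : g₁ * c j = h ^ i * c j * (h ^ i)⁻¹ * g₁ := by
      have hcomm := (cZ j).2 _ h1
      calc g₁ * c j = h ^ i * (((h ^ i)⁻¹ * g₁) * c j) := by group
        _ = h ^ i * (c j * ((h ^ i)⁻¹ * g₁)) := by rw [hcomm]
        _ = h ^ i * c j * (h ^ i)⁻¹ * g₁ := by group
    show c (idx (g₁ * g₂)) * (g₁ * g₂) = c i * g₁ * (c j * g₂)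
    rw [h6, cadd]
    calc c i * (h ^ i * c j * (h ^ i)⁻¹) * (g₁ * g₂)
        = c i * ((h ^ i * c j * (h ^ i)⁻¹) * g₁) * g₂ := by group
      _ = c i * (g₁ * c j) * g₂ := by rw [h7]
      _ = c i * g₁ * (c j * g₂) := by group
  let f : G →* G := MonoidHom.mk' a amul
  have fdef : ∀ g, f g = c (idx g) * g := fun _ => rfl
  have finj : Function.Injective f := by
    rw [injective_iff_map_eq_one]
    intro g hg
    rw [fdef] at hg
    have hg' : g = (c (idx g))⁻¹ := eq_inv_of_mul_eq_one_right hg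
    have hgN : g ∈ N := by rw [hg']; exact N.inv_mem (cZ _).1
    have h1 : (h ^ idx g)⁻¹ * g ∈ N := hidx g
    have h2 : (h ^ 0)⁻¹ * g ∈ N := by simpa using hgN
    have h3 := key g 0 h2
    rw [c0] at h3
    rw [h3] at hg
    simpa using hg
  have fbij : Function.Bijective f := ⟨finj, Finite.surjective_of_injective finj⟩
  refine ⟨MulEquiv.ofBijective f fbij, ?_, ?_⟩
  · intro n hn
    show f n = n
    rw [fdef]
    have h2 : (h ^ 0)⁻¹ * n ∈ N := by simpa using hn
    rw [key n 0 h2, c0, one_mul]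
  · show f h = h * y
    rw [fdef]
    have h2 : (h ^ 1)⁻¹ * h ∈ N := by simp
    rw [key h 1 h2, c1]
    group

end quotient

lemma index_le_orbit (x : G) :
    (Subgroup.centralizer ({x} : Set G)).index ≤ Nat.card (orbit (MulAut G) x) := by
  classical
  let C := Subgroup.centralizer ({x} : Set G)
  let F : G ⧸ C → orbit (MulAut G) x := fun q =>
    ⟨MulAut.conj (q.out) • x, mem_orbit _ _⟩
  have hF : Function.Injective F := by
    intro q₁ q₂ h
    have h1 : MulAut.conj (q₁.out) • x = MulAut.conj (q₂.out) • x := congrArg Subtype.val h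
    simp only [MulAut.smul_def, MulAut.conj_apply] at h1
    have h2 : q₁.out⁻¹ * q₂.out ∈ C := by
      rw [Subgroup.mem_centralizer_singleton_iff]
      have : q₂.out * x * q₂.out⁻¹ = q₁.out * x * q₁.out⁻¹ := h1.symm
      calc q₁.out⁻¹ * q₂.out * x = q₁.out⁻¹ * (q₂.out * x * q₂.out⁻¹) * q₂.out := by group
        _ = q₁.out⁻¹ * (q₁.out * x * q₁.out⁻¹) * q₂.out := by rw [this]
        _ = x * (q₁.out⁻¹ * q₂.out) := by group
    have h3 : (q₁.out : G ⧸ C) = q₂.out := QuotientGroup.eq.2 h2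
    simpa using h3
  exact Nat.card_le_card_of_injective F hF

lemma card_orbits_le (w : G → ℚ) (hw : ∀ g, 1 ≤ w g * Nat.card (orbit (MulAut G) g)) [Fintype G] :
    (Nat.card (orbitRel.Quotient (MulAut G) G) : ℚ) ≤ ∑ g, w g := by
  classical
  haveI : Fintype (orbitRel.Quotient (MulAut G) G) := Fintype.ofFinite _
  let q : G → orbitRel.Quotient (MulAut G) G := Quotient.mk''
  rw [← Finset.sum_fiberwise Finset.univ q w, Nat.card_eq_fintype_card,
    ← Finset.card_univ, Finset.card_eq_sum_ones, Nat.cast_sum]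
  refine Finset.sum_le_sum fun ω _ => ?_
  obtain ⟨g₀, hg₀⟩ : ∃ g₀, q g₀ = ω := Quotient.exists_rep ω
  have hmem : ∀ g, q g = ω ↔ g ∈ orbit (MulAut G) g₀ := by
    intro g
    rw [← hg₀]
    show (Quotient.mk'' g : orbitRel.Quotient (MulAut G) G) = Quotient.mk'' g₀ ↔ _
    rw [Quotient.eq'', orbitRel_apply]
  set F := Finset.univ.filter (fun g => q g = ω) with hF
  have hFcard : (F.card : ℕ) = Nat.card (orbit (MulAut G) g₀) := by
    rw [Nat.card_eq_fintype_card, ← Set.toFinset_card]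
    congr 1
    ext g
    simp [hF, hmem]
  have hmpos : 0 < Nat.card (orbit (MulAut G) g₀) := by
    haveI : Nonempty (orbit (MulAut G) g₀) := ⟨⟨g₀, mem_orbit_self _⟩⟩
    exact Nat.card_pos
  have hlow : ∀ g ∈ F, 1 ≤ w g * Nat.card (orbit (MulAut G) g₀) := by
    intro g hg
    have hg' : g ∈ orbit (MulAut G) g₀ := (hmem g).1 (by simpa [hF] using hg)
    have e := orbit_eq_iff.2 hg'
    have := hw g
    rwa [e] at this
  have hsum : (F.card : ℚ) ≤ (∑ g ∈ F, w g) * Nat.card (orbit (MulAut G) g₀) := by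
    rw [Finset.sum_mul]
    calc (F.card : ℚ) = ∑ _g ∈ F, (1 : ℚ) := by simp
      _ ≤ _ := Finset.sum_le_sum hlow
  rw [hFcard] at hsum
  have hm : (0 : ℚ) < Nat.card (orbit (MulAut G) g₀) := by exact_mod_cast hmpos
  simp only [Nat.cast_one]
  have : (1 : ℚ) * Nat.card (orbit (MulAut G) g₀) ≤ (∑ g ∈ F, w g) * Nat.card (orbit (MulAut G) g₀) := by
    simpa using hsum
  exact le_of_mul_le_mul_right this hm

lemma orbits_bound (Z N : Subgroup G) (hZN : Z ≤ N) (p n : ℕ) (hp : 0 < p) (hn : 0 < n)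
    (h1 : ∀ g ∈ N, g ∉ Z → p ≤ Nat.card (orbit (MulAut G) g))
    (h2 : ∀ g, g ∉ N → n ≤ Nat.card (orbit (MulAut G) g)) :
    (Nat.card (orbitRel.Quotient (MulAut G) G) : ℚ) ≤
      Nat.card Z + ((Nat.card N : ℚ) - Nat.card Z) / p + ((Nat.card G : ℚ) - Nat.card N) / n := by
  classical
  cases nonempty_fintype G
  have hpq : (0 : ℚ) < p := by exact_mod_cast hp
  have hnq : (0 : ℚ) < n := by exact_mod_cast hn
  let w : G → ℚ := fun g => (if g ∈ Z then (1 - 1 / (p : ℚ)) else 0) +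
    (if g ∈ N then (1 / (p : ℚ) - 1 / (n : ℚ)) else 0) + 1 / (n : ℚ)
  have hw : ∀ g, 1 ≤ w g * Nat.card (orbit (MulAut G) g) := by
    intro g
    have hpos : 0 < Nat.card (orbit (MulAut G) g) := by
      haveI : Nonempty (orbit (MulAut G) g) := ⟨⟨g, mem_orbit_self _⟩⟩
      exact Nat.card_pos
    by_cases hgZ : g ∈ Z
    · have hgN := hZN hgZ
      have : w g = 1 := by
        simp only [w, if_pos hgZ, if_pos hgN]; ring
      rw [this, one_mul]
      exact_mod_cast hpos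
    · by_cases hgN : g ∈ N
      · have : w g = 1 / (p : ℚ) := by
          simp only [w, if_neg hgZ, if_pos hgN]; ring
        rw [this, div_mul_eq_mul_div, one_mul, le_div_iff₀ hpq, one_mul]
        exact_mod_cast h1 g hgN hgZ
      · have : w g = 1 / (n : ℚ) := by
          simp only [w, if_neg hgZ, if_neg hgN]; ring
        rw [this, div_mul_eq_mul_div, one_mul, le_div_iff₀ hnq, one_mul]
        exact_mod_cast h2 g hgN
  refine (card_orbits_le w hw).trans (le_of_eq ?_)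
  have s1 : ∑ g, (if g ∈ Z then (1 - 1 / (p : ℚ)) else 0) = Nat.card Z * (1 - 1 / (p : ℚ)) := by
    rw [Finset.sum_ite, Finset.sum_const_zero, add_zero, Finset.sum_const, nsmul_eq_mul]
    congr 2
    rw [Nat.card_eq_fintype_card, Fintype.card_subtype]
  have s2 : ∑ g, (if g ∈ N then (1 / (p : ℚ) - 1 / (n : ℚ)) else 0) =
      Nat.card N * (1 / (p : ℚ) - 1 / (n : ℚ)) := by
    rw [Finset.sum_ite, Finset.sum_const_zero, add_zero, Finset.sum_const, nsmul_eq_mul]
    congr 2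
    rw [Nat.card_eq_fintype_card, Fintype.card_subtype]
  have s3 : ∑ _g : G, 1 / (n : ℚ) = Nat.card G * (1 / (n : ℚ)) := by
    rw [Finset.sum_const, nsmul_eq_mul, Finset.card_univ, Nat.card_eq_fintype_card]
  simp only [w]
  rw [Finset.sum_add_distrib, Finset.sum_add_distrib, s1, s2, s3]
  field_simp
  ring

end Cfsg.Agent.Lib.ClassSizes.AutOrb
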