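import Mathlib
import Cfsg.Agent.Lib.ClassSizes.AutOrbA
import Cfsg.Agent.Lib.PSolv.Basic

/-!
# Automorphism orbits: the non-commuting pair of elements with class size `p`
-/

namespace Cfsg.Agent.Lib.ClassSizes.AutOrb

open MulAction

variable {G : Type*} [Group G] [Finite G]

/-- Centralizer of a single element. -/
abbrev CC (x : G) : Subgroup G := Subgroup.centralizer ({x} : Set G)

lemma mem_CC {x g : G} : g ∈ CC x ↔ g * x = x * g := Subgroup.mem_centralizer_singleton_iff

lemma IsZN.inv {N : Subgroup G} {a : G} (ha : IsZN N a) : IsZN N a⁻¹ :=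
  ⟨N.inv_mem ha.1, fun n hn => by
    have := ha.2 n hn
    calc n * a⁻¹ = a⁻¹ * (a * n) * a⁻¹ := by group
      _ = a⁻¹ * (n * a) * a⁻¹ := by rw [this]
      _ = a⁻¹ * n := by group⟩

lemma isZN_self (x : G) : IsZN (CC x) x :=
  ⟨mem_CC.2 rfl, fun _ hn => mem_CC.1 hn⟩

lemma minFac_le_index {x : G} (hx : x ∉ Subgroup.center G) :
    (Nat.card G).minFac ≤ (CC x).index := by
  have h1 : (CC x).index ≠ 1 := by
    intro h
    rw [Subgroup.index_eq_one] at h
    apply hx
    rw [Subgroup.mem_center_iff]
    intro g
    have : g ∈ CC x := by rw [h]; trivial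
    exact mem_CC.1 this
  have h0 : (CC x).index ≠ 0 := Subgroup.index_ne_zero_of_finite
  exact Nat.minFac_le_of_dvd (by omega) (Subgroup.index_dvd_card _)

lemma final_step {k p : ℕ} (hp : 0 < p) (hq : (k : ℚ) ≤ (Nat.card G : ℚ) / p) :
    k ≤ Nat.card G / p := by
  rw [Nat.le_div_iff_mul_le hp]
  have hpq : (0 : ℚ) < p := by exact_mod_cast hp
  rw [le_div_iff₀ hpq] at hq
  exact_mod_cast hq

lemma prime_minFac (hna : ¬ IsMulCommutative G) : (Nat.card G).minFac.Prime := by
  apply Nat.minFac_prime
  intro h
  apply hna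
  haveI : Subsingleton G := (Nat.card_eq_one_iff_unique.1 h).1
  exact ⟨⟨fun a b => Subsingleton.elim _ _⟩⟩

lemma sq_mul_card_center_le (hna : ¬ IsMulCommutative G) :
    (Nat.card G).minFac ^ 2 * Nat.card (Subgroup.center G) ≤ Nat.card G := by
  set Z := Subgroup.center G with hZ
  have hmul : Z.index * Nat.card Z = Nat.card G := Subgroup.index_mul_card Z
  have hk1 : Z.index ≠ 1 := by
    intro h
    rw [Subgroup.index_eq_one] at h
    apply hna
    refine ⟨⟨fun a b => ?_⟩⟩
    have : b ∈ Z := by rw [h]; trivial
    exact (Subgroup.mem_center_iff.1 this a)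
  have hk0 : Z.index ≠ 0 := Subgroup.index_ne_zero_of_finite
  have hnp : ¬ Z.index.Prime := by
    intro hpr
    haveI : Fact Z.index.Prime := ⟨hpr⟩
    haveI : IsCyclic (G ⧸ Z) := isCyclic_of_prime_card (p := Z.index) rfl
    apply hna
    refine ⟨⟨fun a b => ?_⟩⟩
    exact commutative_of_cyclic_center_quotient (QuotientGroup.mk' Z)
      (by rw [QuotientGroup.ker_mk']) a b
  have h1 : Z.index.minFac ^ 2 ≤ Z.index := Nat.minFac_sq_le_self (Nat.pos_of_ne_zero hk0) hnp
  have h2 : (Nat.card G).minFac ≤ Z.index.minFac := by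
    apply Nat.minFac_le_of_dvd (Nat.minFac_prime hk1).two_le
    exact (Nat.minFac_dvd _).trans (Subgroup.index_dvd_card _)
  calc (Nat.card G).minFac ^ 2 * Nat.card Z ≤ Z.index * Nat.card Z :=
        Nat.mul_le_mul_right _ ((Nat.pow_le_pow_left h2 2).trans h1)
    _ = Nat.card G := hmul

/-- First case: no class has size `p`. -/
theorem case_one (hna : ¬ IsMulCommutative G)
    (hall : ∀ g : G, (CC g).index ≠ (Nat.card G).minFac) :
    Nat.card (orbitRel.Quotient (MulAut G) G) ≤ Nat.card G / (Nat.card G).minFac := by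
  have hpp := prime_minFac hna
  set p := (Nat.card G).minFac with hp
  have hb := orbits_bound (Subgroup.center G) (⊤ : Subgroup G) le_top (p + 1) 1
    (by omega) (by omega) ?_ ?_
  · apply final_step hpp.pos
    refine hb.trans ?_
    rw [Subgroup.card_top]
    have h := sq_mul_card_center_le hna
    rw [← hp] at h
    have hq : (p : ℚ) ^ 2 * Nat.card (Subgroup.center G) ≤ Nat.card G := by exact_mod_cast h
    have hpq : (0 : ℚ) < p := by exact_mod_cast hpp.pos
    simp only [Nat.cast_add, Nat.cast_one, sub_self, zero_div, add_zero, div_one]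
    rw [le_div_iff₀ hpq, ← sub_nonneg]
    have e : (Nat.card G : ℚ) - ((Nat.card (Subgroup.center G) : ℚ) +
        ((Nat.card G : ℚ) - Nat.card (Subgroup.center G)) / (p + 1)) * p =
        ((Nat.card G : ℚ) - (p : ℚ) ^ 2 * Nat.card (Subgroup.center G)) / (p + 1) := by
      field_simp; ring
    rw [e]
    apply div_nonneg (by linarith) (by linarith)
  · intro g _ hg
    have h1 := minFac_le_index hg
    have h2 := hall g
    have h3 := index_le_orbit g
    show p + 1 ≤ _
    have : p + 1 ≤ (CC g).index := by
      have : p ≠ (CC g).index := fun h => h2 h.symm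
      omega
    exact this.trans h3
  · intro g hg
    exact absurd trivial hg

lemma center_le_CC (x : G) : Subgroup.center G ≤ CC x := by
  intro z hz
  exact mem_CC.2 ((Subgroup.mem_center_iff.1 hz x).symm)

/-- `|Z| p ≤ |N|` when `Z` is properly contained in `N`. -/
lemma card_center_mul_le {N : Subgroup G} (hZN : Subgroup.center G ≤ N) {x : G} (hxN : x ∈ N)
    (hx : x ∉ Subgroup.center G) :
    ∃ k, Nat.card N = Nat.card (Subgroup.center G) * k ∧ (Nat.card G).minFac ≤ k := by
  obtain ⟨k, hk⟩ := Subgroup.card_dvd_of_le hZN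
  refine ⟨k, hk, ?_⟩
  have hk1 : k ≠ 1 := by
    rintro rfl
    rw [mul_one] at hk
    have := Subgroup.eq_of_le_of_card_ge hZN hk.le
    exact hx (this ▸ hxN)
  have hk0 : k ≠ 0 := by
    rintro rfl
    have : 0 < Nat.card N := Nat.card_pos
    omega
  apply Nat.minFac_le_of_dvd (by omega)
  exact (Dvd.intro_left _ hk.symm).trans (Subgroup.card_subgroup_dvd_card N)

/-- Second case: a class of size `p`, and no element outside the centralizer has class size `p`. -/
theorem case_two (hna : ¬ IsMulCommutative G) {x : G} (hx : (CC x).index = (Nat.card G).minFac)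
    (hall : ∀ h : G, h ∉ CC x → (CC h).index ≠ (Nat.card G).minFac) :
    Nat.card (orbitRel.Quotient (MulAut G) G) ≤ Nat.card G / (Nat.card G).minFac := by
  have hpp := prime_minFac hna
  set p := (Nat.card G).minFac with hp
  set N := CC x with hN
  haveI hNn : N.Normal := Subgroup.normal_of_index_eq_minFac_card hx
  have hZN : Subgroup.center G ≤ N := center_le_CC x
  have hxZ : x ∉ Subgroup.center G := by
    intro hz
    have : N = ⊤ := by
      rw [eq_top_iff]
      intro g _
      exact mem_CC.2 (Subgroup.mem_center_iff.1 hz g)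
    rw [this, Subgroup.index_top] at hx
    exact hpp.one_lt.ne hx
  obtain ⟨k, hk, hkp⟩ := card_center_mul_le hZN (isZN_self x).1 hxZ
  rw [← hp] at hkp
  have hgN : Nat.card G = p * Nat.card N := by
    rw [← hx]; exact (Subgroup.index_mul_card N).symm
  have hkne : k ≠ p := by
    rintro rfl
    -- choose `h` outside `N`
    have hNtop : N ≠ ⊤ := by
      intro h
      rw [h, Subgroup.index_top] at hx
      exact hpp.one_lt.ne hx
    obtain ⟨h, hh⟩ : ∃ h, h ∉ N := by
      by_contra hc
      push Not at hc
      exact hNtop (eq_top_iff.2 fun g _ => hc g)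
    have hhZ : h ∉ Subgroup.center G := fun hz => hh (hZN hz)
    apply hall h hh
    set C := CC h with hC
    have hsup : C ⊔ N = ⊤ := by
      rw [eq_top_iff]
      intro g _
      obtain ⟨i, hi⟩ := exists_pow_inv_mul_mem N hpp hx hh g
      have e : g = h ^ i * ((h ^ i)⁻¹ * g) := by group
      rw [e]
      exact Subgroup.mul_mem _ (Subgroup.mem_sup_left (C.pow_mem (isZN_self h).1 i))
        (Subgroup.mem_sup_right hi)
    have hcard := Cfsg.Agent.Lib.PSolv.card_sup_mul_card_inf C N
    rw [hsup, Subgroup.card_top] at hcard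
    have hZI : Subgroup.center G ≤ C ⊓ N := le_inf (center_le_CC h) hZN
    obtain ⟨i', hi'⟩ := Subgroup.card_dvd_of_le hZI
    have hm : C.index * Nat.card C = Nat.card G := Subgroup.index_mul_card C
    have hCpos : 0 < Nat.card C := Nat.card_pos
    have hZpos : 0 < Nat.card (Subgroup.center G) := Nat.card_pos
    have e1 : C.index * i' = p := by
      have e2 : (C.index * i') * (Nat.card C * Nat.card (Subgroup.center G)) =
          p * (Nat.card C * Nat.card (Subgroup.center G)) := by
        calc (C.index * i') * (Nat.card C * Nat.card (Subgroup.center G))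
            = (C.index * Nat.card C) * (Nat.card (Subgroup.center G) * i') := by ring
          _ = Nat.card G * Nat.card (C ⊓ N : Subgroup G) := by rw [hm, hi']
          _ = Nat.card C * Nat.card N := hcard
          _ = p * (Nat.card C * Nat.card (Subgroup.center G)) := by rw [hk]; ring
      exact Nat.eq_of_mul_eq_mul_right (Nat.mul_pos hCpos hZpos) e2
    have h1 : p ≤ C.index := minFac_le_index hhZ
    have hd : C.index ∣ p := Dvd.intro _ e1
    have := Nat.le_of_dvd hpp.pos hd
    omega
  have hk2 : p + 1 ≤ k := by omega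
  have hb := orbits_bound (Subgroup.center G) N hZN p (p + 1) hpp.pos (by omega) ?_ ?_
  · apply final_step hpp.pos
    refine hb.trans ?_
    rw [hgN]
    have hpq : (0 : ℚ) < p := by exact_mod_cast hpp.pos
    have hle : ((p : ℚ) + 1) * Nat.card (Subgroup.center G) ≤ Nat.card N := by
      have : (p + 1) * Nat.card (Subgroup.center G) ≤ Nat.card N := by
        rw [hk, mul_comm]; exact Nat.mul_le_mul_left _ hk2
      exact_mod_cast this
    have hp1 : (1 : ℚ) ≤ p := by exact_mod_cast hpp.one_lt.le
    push_cast
    rw [mul_div_cancel_left₀ _ hpq.ne', ← sub_nonneg]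
    have e : (Nat.card N : ℚ) - ((Nat.card (Subgroup.center G) : ℚ) +
        ((Nat.card N : ℚ) - Nat.card (Subgroup.center G)) / p +
        ((p : ℚ) * Nat.card N - Nat.card N) / (p + 1)) =
        (((p : ℚ) - 1) * ((Nat.card N : ℚ) - (p + 1) * Nat.card (Subgroup.center G))) /
          (p * (p + 1)) := by
      field_simp; ring
    rw [e]
    apply div_nonneg (mul_nonneg (by linarith) (by linarith)) (by positivity)
  · intro g _ hg
    exact (minFac_le_index hg).trans (index_le_orbit g)
  · intro g hg
    have hgZ : g ∉ Subgroup.center G := fun hz => hg (hZN hz)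
    have h1 := minFac_le_index hgZ
    have h2 := hall g hg
    have h3 := index_le_orbit g
    have : p + 1 ≤ (CC g).index := by
      have : p ≠ (CC g).index := fun h => h2 h.symm
      omega
    exact this.trans h3

end Cfsg.Agent.Lib.ClassSizes.AutOrb
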