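import Mathlib
import Cfsg.Agent.Lib.ClassSizes.AutOrbB

/-!
# Automorphism orbits: two non-commuting elements with class size `p`
-/

namespace Cfsg.Agent.Lib.ClassSizes.AutOrb

open MulAction

section formula
variable {G : Type*} [Group G]

lemma pow_comm_aux {x y e : G} (he : ∀ g, g * e = e * g) (h : y * x = x * y * e) (m : ℕ) :
    y ^ m * x = x * y ^ m * e ^ m := by
  have he' : ∀ g k, g * e ^ k = e ^ k * g := fun g k => Commute.pow_right (he g) k
  induction m with
  | zero => simp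
  | succ m ih =>
    calc y ^ (m + 1) * x = y ^ m * (y * x) := by rw [pow_succ, mul_assoc]
      _ = y ^ m * (x * y * e) := by rw [h]
      _ = (y ^ m * x) * y * e := by simp only [mul_assoc]
      _ = x * y ^ m * e ^ m * y * e := by rw [ih]
      _ = x * y ^ m * (e ^ m * y) * e := by simp only [mul_assoc]
      _ = x * y ^ m * (y * e ^ m) * e := by rw [he' y m]
      _ = x * y ^ (m + 1) * e ^ (m + 1) := by
        rw [pow_succ, pow_succ]; simp only [mul_assoc]

lemma pow_formula {x y e : G} (he : ∀ g, g * e = e * g) (h : y * x = x * y * e) (m : ℕ) :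
    (x * y) ^ m = x ^ m * y ^ m * e ^ (m.choose 2) := by
  have he' : ∀ g k, g * e ^ k = e ^ k * g := fun g k => Commute.pow_right (he g) k
  induction m with
  | zero => simp
  | succ m ih =>
    have h1 := pow_comm_aux he h m
    have e1 : (m + 1).choose 2 = m + m.choose 2 := by
      rw [Nat.choose_succ_succ' m 1, Nat.choose_one_right]
    calc (x * y) ^ (m + 1) = (x * y) ^ m * (x * y) := pow_succ _ _
      _ = x ^ m * y ^ m * e ^ (m.choose 2) * (x * y) := by rw [ih]
      _ = x ^ m * y ^ m * (e ^ (m.choose 2) * (x * y)) := by simp only [mul_assoc]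
      _ = x ^ m * y ^ m * ((x * y) * e ^ (m.choose 2)) := by rw [he' (x * y)]
      _ = x ^ m * (y ^ m * x) * y * e ^ (m.choose 2) := by simp only [mul_assoc]
      _ = x ^ m * (x * y ^ m * e ^ m) * y * e ^ (m.choose 2) := by rw [h1]
      _ = x ^ m * x * y ^ m * (e ^ m * y) * e ^ (m.choose 2) := by simp only [mul_assoc]
      _ = x ^ m * x * y ^ m * (y * e ^ m) * e ^ (m.choose 2) := by rw [he' y m]
      _ = x ^ (m + 1) * y ^ (m + 1) * (e ^ m * e ^ (m.choose 2)) := by
        rw [pow_succ, pow_succ]; simp only [mul_assoc]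
      _ = _ := by rw [e1, pow_add e]

lemma comm_identity {C : Type*} [CommGroup C] {X Y C1 C2 C3 T Z1 : C} (hT : T ^ 2 = 1)
    (h1 : Z1 = X * C1 ^ 2 * T) (h2 : Z1 = Y * C2 ^ 2 * T)
    (h3 : Z1 = X * Y * T * C3 ^ 2 * T) : Z1 = (C1 * C2 * C3⁻¹) ^ 2 := by
  have e1 : Z1 * Z1 = X * Y * (C1 ^ 2 * C2 ^ 2) * T ^ 2 := by
    nth_rw 1 [h1]; rw [h2, pow_two T]; ac_rfl
  have e2 : Z1 = X * Y * C3 ^ 2 * T ^ 2 := by
    rw [h3, pow_two T]; ac_rfl
  rw [hT, mul_one] at e1 e2
  have e3 : Z1 * C3 ^ 2 = C1 ^ 2 * C2 ^ 2 := by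
    have : (X * Y) * (Z1 * C3 ^ 2) = (X * Y) * (C1 ^ 2 * C2 ^ 2) := by
      rw [← e1]; nth_rw 2 [e2]; ac_rfl
    exact mul_left_cancel this
  rw [mul_pow, mul_pow, inv_pow, ← e3]
  simp

end formula

variable {G : Type*} [Group G] [Finite G]

lemma zp_central {τ : G} (hτ : τ ∈ Subgroup.center G) {a : G} (ha : a ∈ Subgroup.zpowers τ)
    (g : G) : g * a = a * g :=
  Subgroup.mem_center_iff.1 ((Subgroup.zpowers_le.2 hτ) ha) g

lemma zp_pow_eq_one {τ : G} {p : ℕ} (hp : τ ^ p = 1) {a : G} (ha : a ∈ Subgroup.zpowers τ) :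
    a ^ p = 1 := by
  obtain ⟨k, rfl⟩ := ha
  show (τ ^ k) ^ p = 1
  rw [← zpow_natCast, ← zpow_mul, mul_comm, zpow_mul, zpow_natCast, hp, one_zpow]

/-- The elements whose commutators with everything lie in `⟨τ⟩`. -/
def LL (τ : G) (hτ : τ ∈ Subgroup.center G) : Subgroup G where
  carrier := {l | ∀ g, g * l * g⁻¹ * l⁻¹ ∈ Subgroup.zpowers τ}
  one_mem' := by intro g; simp
  mul_mem' := by
    intro a b ha hb g
    have hc := hb g
    have hcc := zp_central hτ hc a⁻¹
    have e : g * (a * b) * g⁻¹ * (a * b)⁻¹ = (g * a * g⁻¹ * a⁻¹) * (g * b * g⁻¹ * b⁻¹) := by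
      calc g * (a * b) * g⁻¹ * (a * b)⁻¹ = g * a * g⁻¹ * ((g * b * g⁻¹ * b⁻¹) * a⁻¹) := by group
        _ = g * a * g⁻¹ * (a⁻¹ * (g * b * g⁻¹ * b⁻¹)) := by rw [hcc]
        _ = _ := by group
    rw [e]
    exact Subgroup.mul_mem _ (ha g) hc
  inv_mem' := by
    intro a ha g
    have hc := ha g
    have hcc := zp_central hτ (Subgroup.inv_mem _ hc) a
    have e : g * a⁻¹ * g⁻¹ * a⁻¹⁻¹ = (g * a * g⁻¹ * a⁻¹)⁻¹ := by
      calc g * a⁻¹ * g⁻¹ * a⁻¹⁻¹ = a⁻¹ * ((g * a * g⁻¹ * a⁻¹)⁻¹ * a) := by group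
        _ = a⁻¹ * (a * (g * a * g⁻¹ * a⁻¹)⁻¹) := by rw [hcc]
        _ = _ := by group
    rw [e]
    exact Subgroup.inv_mem _ hc

lemma mem_LL {τ : G} {hτ : τ ∈ Subgroup.center G} {l : G} :
    l ∈ LL τ hτ ↔ ∀ g, g * l * g⁻¹ * l⁻¹ ∈ Subgroup.zpowers τ := Iff.rfl

lemma center_le_LL {τ : G} (hτ : τ ∈ Subgroup.center G) : Subgroup.center G ≤ LL τ hτ := by
  intro z hz g
  have : g * z * g⁻¹ * z⁻¹ = 1 := by
    rw [Subgroup.mem_center_iff.1 hz g]; group
  rw [this]
  exact Subgroup.one_mem _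

/-- The abelian subgroup generated by `l` and the centre. -/
def N0 (l : G) : Subgroup G where
  carrier := {u | ∃ k : ℤ, ∃ z ∈ Subgroup.center G, u = l ^ k * z}
  one_mem' := ⟨0, 1, Subgroup.one_mem _, by simp⟩
  mul_mem' := by
    rintro _ _ ⟨k, z, hz, rfl⟩ ⟨m, w, hw, rfl⟩
    refine ⟨k + m, z * w, Subgroup.mul_mem _ hz hw, ?_⟩
    have : z * l ^ m = l ^ m * z := (Subgroup.mem_center_iff.1 hz _).symm
    rw [zpow_add]
    calc l ^ k * z * (l ^ m * w) = l ^ k * (z * l ^ m) * w := by simp only [mul_assoc]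
      _ = l ^ k * (l ^ m * z) * w := by rw [this]
      _ = _ := by simp only [mul_assoc]
  inv_mem' := by
    rintro _ ⟨k, z, hz, rfl⟩
    refine ⟨-k, z⁻¹, Subgroup.inv_mem _ hz, ?_⟩
    rw [mul_inv_rev, zpow_neg]
    exact (Subgroup.mem_center_iff.1 (Subgroup.inv_mem _ hz) _).symm

lemma mem_N0 {l u : G} : u ∈ N0 l ↔ ∃ k : ℤ, ∃ z ∈ Subgroup.center G, u = l ^ k * z := Iff.rfl

lemma center_le_N0 (l : G) : Subgroup.center G ≤ N0 l := fun z hz => ⟨0, z, hz, by simp⟩

lemma self_mem_N0 (l : G) : l ∈ N0 l := ⟨1, 1, Subgroup.one_mem _, by simp⟩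

lemma N0_le_LL {τ : G} (hτ : τ ∈ Subgroup.center G) {l : G} (hl : l ∈ LL τ hτ) :
    N0 l ≤ LL τ hτ := by
  rintro _ ⟨k, z, hz, rfl⟩
  exact Subgroup.mul_mem _ (Subgroup.zpow_mem _ hl k) (center_le_LL hτ hz)

lemma isZN_of_N0 {l u : G} (hu : u ∈ N0 l) : IsZN (CC l) u := by
  obtain ⟨k, z, hz, rfl⟩ := hu
  refine ⟨Subgroup.mul_mem _ (Subgroup.zpow_mem _ (isZN_self l).1 k) (center_le_CC l hz), ?_⟩
  intro n hn
  have h1 : n * l ^ k = l ^ k * n := (Commute.zpow_right (mem_CC.1 hn) k)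
  have h2 : n * z = z * n := (Subgroup.mem_center_iff.1 hz n)
  calc n * (l ^ k * z) = (n * l ^ k) * z := by simp only [mul_assoc]
    _ = l ^ k * (n * z) := by rw [h1, mul_assoc]
    _ = l ^ k * (z * n) := by rw [h2]
    _ = _ := by simp only [mul_assoc]

lemma N0_le_CC (l : G) : N0 l ≤ CC l := fun _ hu => (isZN_of_N0 hu).1

lemma N0_comm {l u v : G} (hu : u ∈ N0 l) (hv : v ∈ N0 l) : u * v = v * u :=
  (isZN_of_N0 hv).2 u (isZN_of_N0 hu).1

/-- `l ^ p` is central for `l` in `LL`. -/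
lemma pow_central {τ : G} (hτ : τ ∈ Subgroup.center G) {p : ℕ} (hp : τ ^ p = 1) {l : G}
    (hl : l ∈ LL τ hτ) : l ^ p ∈ Subgroup.center G := by
  rw [Subgroup.mem_center_iff]
  intro g
  have hc := hl g
  have hcc := zp_central hτ hc
  have e1 : g * l * g⁻¹ = (g * l * g⁻¹ * l⁻¹) * l := by group
  have e2 : g * l ^ p * g⁻¹ = l ^ p := by
    rw [← conj_pow, e1, (show Commute (g * l * g⁻¹ * l⁻¹) l from (hcc l).symm).mul_pow,
      zp_pow_eq_one hp hc, one_mul]
  calc g * l ^ p = g * l ^ p * g⁻¹ * g := by group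
    _ = l ^ p * g := by rw [e2]

/-- The commutator used in the power formula. -/
def ee (h u : G) : G := h⁻¹ * u * h * u⁻¹

lemma ee_mem {τ : G} {hτ : τ ∈ Subgroup.center G} {u : G} (hu : u ∈ LL τ hτ) (h : G) :
    ee h u ∈ Subgroup.zpowers τ := by
  have := hu h⁻¹
  simpa [ee] using this

lemma ee_mul {τ : G} {hτ : τ ∈ Subgroup.center G} {u v : G} (hv : v ∈ LL τ hτ) (h : G) :
    ee h (u * v) = ee h u * ee h v := by
  have hcc := zp_central hτ (ee_mem hv h) u⁻¹
  unfold ee at hcc ⊢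
  calc h⁻¹ * (u * v) * h * (u * v)⁻¹ = h⁻¹ * u * h * ((h⁻¹ * v * h * v⁻¹) * u⁻¹) := by group
    _ = h⁻¹ * u * h * (u⁻¹ * (h⁻¹ * v * h * v⁻¹)) := by rw [hcc]
    _ = _ := by group

lemma ee_central {z : G} (hz : z ∈ Subgroup.center G) (h : G) : ee h z = 1 := by
  unfold ee
  rw [mul_assoc h⁻¹ z h, ← Subgroup.mem_center_iff.1 hz h]
  group

/-- The basic relation used with `pow_formula`. -/
lemma ee_rel {τ : G} {hτ : τ ∈ Subgroup.center G} {u : G} (hu : u ∈ LL τ hτ) (h : G) :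
    u * h = h * u * ee h u := by
  have hcc := zp_central hτ (ee_mem hu h) u
  calc u * h = h * (ee h u * u) := by unfold ee; group
    _ = h * (u * ee h u) := by rw [hcc]
    _ = _ := by simp only [mul_assoc]

/-- The `p`-th power homomorphism, twisted. -/
noncomputable def FF (p : ℕ) (τ : G) (hτ : τ ∈ Subgroup.center G) (hp : τ ^ p = 1) {l : G}
    (hl : l ∈ LL τ hτ) (h : G) : ↥(N0 l) →* ↥(Subgroup.center G) :=
  MonoidHom.mk' (fun u => ⟨(u : G) ^ p * (ee h u) ^ (p.choose 2),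
      Subgroup.mul_mem _ (pow_central hτ hp (N0_le_LL hτ hl u.2))
        (Subgroup.pow_mem _ ((Subgroup.zpowers_le.2 hτ) (ee_mem (N0_le_LL hτ hl u.2) h)) _)⟩)
    (by
      intro u v
      apply Subtype.ext
      have huv : Commute (u : G) v := N0_comm u.2 v.2
      have hv := N0_le_LL hτ hl v.2
      have hu := N0_le_LL hτ hl u.2
      have hc1 : Commute (ee h u) (ee h v) := zp_central hτ (ee_mem hv h) _
      have hc2 : ∀ k, ∀ g, g * (ee h u) ^ k = (ee h u) ^ k * g :=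
        fun k g => Commute.pow_right (zp_central hτ (ee_mem hu h) g) k
      show ((u * v : N0 l) : G) ^ p * (ee h ((u * v : N0 l) : G)) ^ (p.choose 2) =
        ((u : G) ^ p * (ee h u) ^ (p.choose 2)) * ((v : G) ^ p * (ee h v) ^ (p.choose 2))
      rw [Subgroup.coe_mul, huv.mul_pow, ee_mul hv, hc1.mul_pow]
      calc (u : G) ^ p * (v : G) ^ p * ((ee h u) ^ (p.choose 2) * (ee h v) ^ (p.choose 2))
          = (u : G) ^ p * ((v : G) ^ p * (ee h u) ^ (p.choose 2)) * (ee h v) ^ (p.choose 2) := by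
            simp only [mul_assoc]
        _ = (u : G) ^ p * ((ee h u) ^ (p.choose 2) * (v : G) ^ p) * (ee h v) ^ (p.choose 2) := by
            rw [hc2]
        _ = _ := by simp only [mul_assoc])

lemma FF_apply (p : ℕ) (τ : G) (hτ : τ ∈ Subgroup.center G) (hp : τ ^ p = 1) {l : G}
    (hl : l ∈ LL τ hτ) (h : G) (u : N0 l) :
    ((FF p τ hτ hp hl h u : Subgroup.center G) : G) =
      (u : G) ^ p * (ee h u) ^ (p.choose 2) := rfl

/-- Index of the centralizer of a non-central element of `LL`. -/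
lemma index_CC {p : ℕ} (hpp : p.Prime) (hmin : (Nat.card G).minFac = p) {τ : G}
    (hτ : τ ∈ Subgroup.center G) (hord : orderOf τ = p) {l : G} (hl : l ∈ LL τ hτ)
    (hlZ : l ∉ Subgroup.center G) : (CC l).index = p := by
  let f : G →* G := MonoidHom.mk' (fun g => g * l * g⁻¹ * l⁻¹) (by
    intro a b
    have hcc := zp_central hτ (hl b) (a * l * a⁻¹ * l⁻¹ * l)
    have h1 : a * b * l * (a * b)⁻¹ * l⁻¹ = a * (b * l * b⁻¹ * l⁻¹ * l) * a⁻¹ * l⁻¹ := by group
    have hcc2 := zp_central hτ (hl b) a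
    calc a * b * l * (a * b)⁻¹ * l⁻¹ = a * (b * l * b⁻¹ * l⁻¹ * l) * a⁻¹ * l⁻¹ := h1
      _ = (a * (b * l * b⁻¹ * l⁻¹)) * l * a⁻¹ * l⁻¹ := by simp only [mul_assoc]
      _ = ((b * l * b⁻¹ * l⁻¹) * a) * l * a⁻¹ * l⁻¹ := by rw [hcc2]
      _ = (b * l * b⁻¹ * l⁻¹) * (a * l * a⁻¹ * l⁻¹) := by simp only [mul_assoc]
      _ = (a * l * a⁻¹ * l⁻¹) * (b * l * b⁻¹ * l⁻¹) :=
        (zp_central hτ (hl b) _).symm)
  have hker : f.ker = CC l := by
    ext g
    rw [MonoidHom.mem_ker, mem_CC]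
    show g * l * g⁻¹ * l⁻¹ = 1 ↔ _
    constructor
    · intro h
      have : g * l = l * g := by
        calc g * l = (g * l * g⁻¹ * l⁻¹) * l * g := by group
          _ = l * g := by rw [h, one_mul]
      exact this
    · intro h
      rw [h]; group
  have hle : f.range ≤ Subgroup.zpowers τ := by
    rintro _ ⟨g, rfl⟩
    exact hl g
  have hi : (CC l).index = Nat.card f.range := by rw [← hker, Subgroup.index_ker]
  have hd : (CC l).index ∣ p := by
    rw [hi, ← hord, ← Nat.card_zpowers]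
    exact Subgroup.card_dvd_of_le hle
  rcases (Nat.dvd_prime hpp).1 hd with h1 | h1
  · have := minFac_le_index hlZ
    rw [h1, hmin] at this
    exact absurd this (by have := hpp.two_le; omega)
  · exact h1

/-- The orbit bound from non-surjectivity of the twisted power map. -/
theorem orbit_of_good {p : ℕ} (hpp : p.Prime) (hmin : (Nat.card G).minFac = p) {τ : G}
    (hτ : τ ∈ Subgroup.center G) (hord : orderOf τ = p) {l : G} (hl : l ∈ LL τ hτ)
    (hlZ : l ∉ Subgroup.center G) {h : G} (hh : h ∉ CC l) {z₀ : G}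
    (hz₀ : z₀ ∈ Subgroup.center G)
    (hgood : ∀ u ∈ N0 l, u ^ p * (ee h u) ^ (p.choose 2) ≠ z₀) :
    p + 2 ≤ Nat.card (orbit (MulAut G) h) := by
  have hτp : τ ^ p = 1 := hord ▸ pow_orderOf_eq_one τ
  let F := FF p τ hτ hτp hl h
  have hidx : (CC l).index = p := index_CC hpp hmin hτ hord hl hlZ
  haveI : (CC l).Normal := Subgroup.normal_of_index_eq_minFac_card (hidx.trans hmin.symm)
  obtain ⟨k, hk, hkp⟩ := card_center_mul_le (center_le_N0 l) (self_mem_N0 l) hlZ
  rw [hmin] at hkp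
  have hcard : Nat.card F.ker * Nat.card F.range = Nat.card (N0 l) := by
    rw [← Subgroup.index_ker]; exact Subgroup.card_mul_index F.ker
  have hrange : Nat.card F.range < Nat.card (Subgroup.center G) := by
    by_contra hc
    have heq : Nat.card F.range = Nat.card ↥(Subgroup.center G) :=
      le_antisymm (Subgroup.card_le_card_group _) (not_lt.1 hc)
    have htop := Subgroup.eq_top_of_card_eq F.range heq
    have hm : (⟨z₀, hz₀⟩ : Subgroup.center G) ∈ F.range := by rw [htop]; trivial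
    obtain ⟨u, hu⟩ := hm
    exact hgood u u.2 (congrArg Subtype.val hu)
  have hkerp : p < Nat.card F.ker := by
    by_contra hc
    push Not at hc
    have h1 : Nat.card F.ker * Nat.card F.range < p * Nat.card (Subgroup.center G) := by
      calc _ ≤ p * Nat.card F.range := Nat.mul_le_mul_right _ hc
        _ < _ := Nat.mul_lt_mul_of_pos_left hrange hpp.pos
    have h2 : p * Nat.card (Subgroup.center G) ≤ Nat.card (N0 l) := by
      rw [hk, mul_comm]; exact Nat.mul_le_mul_left _ hkp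
    omega
  have hdvd : p ∣ Nat.card F.ker := by
    have hτmem : (⟨τ, center_le_N0 l hτ⟩ : N0 l) ∈ F.ker := by
      rw [MonoidHom.mem_ker]
      apply Subtype.ext
      show τ ^ p * (ee h τ) ^ (p.choose 2) = 1
      rw [hτp, ee_central hτ, one_pow, one_mul]
    have ho : orderOf (⟨⟨τ, center_le_N0 l hτ⟩, hτmem⟩ : F.ker) = p := by
      rw [Subgroup.orderOf_mk, Subgroup.orderOf_mk, hord]
    rw [← ho]
    exact orderOf_dvd_natCard _
  have hge : p + 2 ≤ Nat.card F.ker := by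
    obtain ⟨m, hm⟩ := hdvd
    have hm2 : 2 ≤ m := by
      by_contra hc
      have hm1 : m ≤ 1 := by omega
      have : p * m ≤ p * 1 := Nat.mul_le_mul_left _ hm1
      omega
    have := hpp.two_le
    nlinarith
  refine hge.trans ?_
  have hmem : ∀ u : F.ker, h * ((u : N0 l) : G) ∈ orbit (MulAut G) h := by
    intro u
    have hker : ((u : N0 l) : G) ^ p * (ee h (u : N0 l)) ^ (p.choose 2) = 1 :=
      congrArg Subtype.val (MonoidHom.mem_ker.1 u.2)
    have huL := N0_le_LL hτ hl (u : N0 l).2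
    have hpow : (h * ((u : N0 l) : G)) ^ p = h ^ p := by
      rw [pow_formula (zp_central hτ (ee_mem huL h)) (ee_rel huL h) p, mul_assoc, hker, mul_one]
    obtain ⟨α, _, hα⟩ := exists_aut (CC l) hpp hidx hh (isZN_of_N0 (u : N0 l).2) hpow
    exact ⟨α, hα⟩
  refine Nat.card_le_card_of_injective (fun u => (⟨h * ((u : N0 l) : G), hmem u⟩ :
    orbit (MulAut G) h)) ?_
  intro u v huv
  have h1 : h * ((u : N0 l) : G) = h * ((v : N0 l) : G) := congrArg Subtype.val huv
  exact Subtype.ext (Subtype.ext (mul_left_cancel h1))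

/-- The final count, given the orbit bound off the centralizer of `l`. -/
theorem bound_of_good {p : ℕ} (hpp : p.Prime) (hmin : (Nat.card G).minFac = p) {l : G}
    (hidx : (CC l).index = p) (hlZ : l ∉ Subgroup.center G)
    (hgood : ∀ h, h ∉ CC l → p + 2 ≤ Nat.card (orbit (MulAut G) h)) :
    Nat.card (orbitRel.Quotient (MulAut G) G) ≤ Nat.card G / (Nat.card G).minFac := by
  rw [hmin]
  obtain ⟨k, hk, hkp⟩ := card_center_mul_le (center_le_CC l) (isZN_self l).1 hlZ
  rw [hmin] at hkp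
  have hgN : Nat.card G = p * Nat.card (CC l) := by
    rw [← hidx]; exact (Subgroup.index_mul_card _).symm
  have hb := orbits_bound (Subgroup.center G) (CC l) (center_le_CC l) p (p + 2) hpp.pos (by omega)
    (fun g _ hg => by
      have := (minFac_le_index hg).trans (index_le_orbit g)
      rwa [hmin] at this) hgood
  apply final_step hpp.pos
  refine hb.trans ?_
  rw [hgN]
  have hpq : (0 : ℚ) < p := by exact_mod_cast hpp.pos
  have hp2 : (2 : ℚ) ≤ p := by exact_mod_cast hpp.two_le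
  have hle : (p : ℚ) * Nat.card (Subgroup.center G) ≤ Nat.card (CC l) := by
    have : p * Nat.card (Subgroup.center G) ≤ Nat.card (CC l) := by
      rw [hk, mul_comm]; exact Nat.mul_le_mul_left _ hkp
    exact_mod_cast this
  have hz : (0 : ℚ) ≤ Nat.card (Subgroup.center G) := by positivity
  push_cast
  rw [mul_div_cancel_left₀ _ hpq.ne', ← sub_nonneg]
  have e : (Nat.card (CC l) : ℚ) - ((Nat.card (Subgroup.center G) : ℚ) +
      ((Nat.card (CC l) : ℚ) - Nat.card (Subgroup.center G)) / p +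
      ((p : ℚ) * Nat.card (CC l) - Nat.card (CC l)) / (p + 2)) =
      (((p : ℚ) - 1) * (2 * (Nat.card (CC l) : ℚ) - (p + 2) * Nat.card (Subgroup.center G))) /
        (p * (p + 2)) := by
    field_simp; ring
  rw [e]
  apply div_nonneg (mul_nonneg (by linarith) ?_) (by positivity)
  nlinarith

end Cfsg.Agent.Lib.ClassSizes.AutOrb
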