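import Mathlib
import Cfsg.Agent.Lib.ClassSizes.AutOrbC

/-!
# Automorphism orbits: selection of the good element; the final bound
-/

namespace Cfsg.Agent.Lib.ClassSizes.AutOrb

open MulAction

variable {G : Type*} [Group G] [Finite G]

lemma key_pair {p : ℕ} (hpp : p.Prime) (hmin : (Nat.card G).minFac = p) {x y τ : G}
    (hx : (CC x).index = p) (hy : (CC y).index = p) (hxy : y ∉ CC x)
    (hτdef : τ = y * x * y⁻¹ * x⁻¹) :
    τ ∈ Subgroup.center G ∧ orderOf τ = p ∧ τ ≠ 1 ∧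
      ∀ g, g * x * g⁻¹ * x⁻¹ ∈ Subgroup.zpowers τ := by
  haveI hNx : (CC x).Normal := Subgroup.normal_of_index_eq_minFac_card (hx.trans hmin.symm)
  haveI hNy : (CC y).Normal := Subgroup.normal_of_index_eq_minFac_card (hy.trans hmin.symm)
  have t1 : IsZN (CC x) τ := by
    rw [hτdef]
    exact ((isZN_self x).conj y).mul (isZN_self x).inv
  have t2 : IsZN (CC y) τ := by
    have e : τ = y * (x * y⁻¹ * x⁻¹) := by rw [hτdef]; group
    rw [e]
    exact (isZN_self y).mul (((isZN_self y).inv).conj x)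
  have hcent : τ ∈ Subgroup.center G := by
    rw [Subgroup.mem_center_iff]
    intro g
    obtain ⟨i, hi⟩ := exists_pow_inv_mul_mem (CC x) hpp hx hxy g
    have a1 : y ^ i * τ = τ * y ^ i := t2.2 _ (Subgroup.pow_mem _ (isZN_self y).1 i)
    have a2 : ((y ^ i)⁻¹ * g) * τ = τ * ((y ^ i)⁻¹ * g) := t1.2 _ hi
    calc g * τ = y ^ i * (((y ^ i)⁻¹ * g) * τ) := by group
      _ = y ^ i * (τ * ((y ^ i)⁻¹ * g)) := by rw [a2]
      _ = (y ^ i * τ) * ((y ^ i)⁻¹ * g) := by simp only [mul_assoc]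
      _ = (τ * y ^ i) * ((y ^ i)⁻¹ * g) := by rw [a1]
      _ = τ * g := by group
  have hconj : ∀ k : ℕ, y ^ k * x * (y ^ k)⁻¹ = τ ^ k * x := by
    intro k
    induction k with
    | zero => simp
    | succ k ih =>
      have e1 : y * x * y⁻¹ = τ * x := by rw [hτdef]; group
      have c : ∀ g, g * τ ^ k = τ ^ k * g :=
        fun g => Commute.pow_right (Subgroup.mem_center_iff.1 hcent g) k
      calc y ^ (k + 1) * x * (y ^ (k + 1))⁻¹ = y * (y ^ k * x * (y ^ k)⁻¹) * y⁻¹ := by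
            rw [pow_succ']; group
        _ = y * (τ ^ k * x) * y⁻¹ := by rw [ih]
        _ = (y * τ ^ k) * x * y⁻¹ := by simp only [mul_assoc]
        _ = (τ ^ k * y) * x * y⁻¹ := by rw [c]
        _ = τ ^ k * (y * x * y⁻¹) := by simp only [mul_assoc]
        _ = τ ^ k * (τ * x) := by rw [e1]
        _ = τ ^ (k + 1) * x := by rw [pow_succ]; simp only [mul_assoc]
  have hτp : τ ^ p = 1 := by
    have h1 : y ^ p ∈ CC x := (pow_mem_iff (CC x) hpp hx hxy p).2 dvd_rfl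
    have h2 := hconj p
    have h3 : y ^ p * x = x * y ^ p := mem_CC.1 h1
    rw [h3, mul_inv_cancel_right] at h2
    have : τ ^ p * x = 1 * x := by rw [← h2, one_mul]
    exact mul_right_cancel this
  have hτ1 : τ ≠ 1 := by
    intro h
    apply hxy
    rw [mem_CC]
    rw [hτdef] at h
    calc y * x = (y * x * y⁻¹ * x⁻¹) * x * y := by group
      _ = x * y := by rw [h, one_mul]
  haveI : Fact p.Prime := ⟨hpp⟩
  refine ⟨hcent, orderOf_eq_prime hτp hτ1, hτ1, ?_⟩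
  intro g
  obtain ⟨i, hi⟩ := exists_pow_inv_mul_mem (CC x) hpp hx hxy g
  have hn : ((y ^ i)⁻¹ * g) * x = x * ((y ^ i)⁻¹ * g) := mem_CC.1 hi
  have e : g * x * g⁻¹ * x⁻¹ = τ ^ i := by
    have e1 : g * x * g⁻¹ = y ^ i * x * (y ^ i)⁻¹ := by
      calc g * x * g⁻¹ = y ^ i * (((y ^ i)⁻¹ * g) * x) * g⁻¹ := by group
        _ = y ^ i * (x * ((y ^ i)⁻¹ * g)) * g⁻¹ := by rw [hn]
        _ = _ := by group
    rw [e1, hconj]; group
  rw [e]
  exact Subgroup.pow_mem _ (Subgroup.mem_zpowers τ) i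

lemma exists_nonpow {p : ℕ} {τ : G} (hτ : τ ∈ Subgroup.center G) (hτp : τ ^ p = 1) (hτ1 : τ ≠ 1) :
    ∃ z₁ ∈ Subgroup.center G, ∀ z ∈ Subgroup.center G, z ^ p ≠ z₁ := by
  let f : ↥(Subgroup.center G) → ↥(Subgroup.center G) := fun z => z ^ p
  have hni : ¬ Function.Injective f := by
    intro hi
    have h1 : f ⟨τ, hτ⟩ = f 1 := by
      apply Subtype.ext
      show τ ^ p = ((1 : Subgroup.center G) : G) ^ p
      simp [hτp]
    have h2 := hi h1
    exact hτ1 (congrArg Subtype.val h2)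
  have hns : ¬ Function.Surjective f := fun hs => hni (Finite.injective_iff_surjective.2 hs)
  simp only [Function.Surjective] at hns
  push Not at hns
  obtain ⟨z₁, hz₁⟩ := hns
  exact ⟨z₁, z₁.2, fun z hz h => hz₁ ⟨z, hz⟩ (Subtype.ext h)⟩

lemma odd_choose {p : ℕ} (hpp : p.Prime) (hp2 : p ≠ 2) {τ : G} (hτp : τ ^ p = 1) {e : G}
    (he : e ∈ Subgroup.zpowers τ) : e ^ (p.choose 2) = 1 := by
  have h2 := hpp.two_le
  obtain ⟨m, hm⟩ := hpp.dvd_choose_self (k := 2) (by norm_num) (by omega)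
  rw [hm, pow_mul, zp_pow_eq_one hτp he, one_pow]

/-- The case `p` odd. -/
theorem case_odd {p : ℕ} (hpp : p.Prime) (hmin : (Nat.card G).minFac = p) (hp2 : p ≠ 2) {τ : G}
    (hτ : τ ∈ Subgroup.center G) (hord : orderOf τ = p) (hτ1 : τ ≠ 1) {x y : G}
    (hxL : x ∈ LL τ hτ) (hyL : y ∈ LL τ hτ) (hxZ : x ∉ Subgroup.center G) (hxy : y ∉ CC x) :
    Nat.card (orbitRel.Quotient (MulAut G) G) ≤ Nat.card G / (Nat.card G).minFac := by
  have hτp : τ ^ p = 1 := hord ▸ pow_orderOf_eq_one τ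
  have hF : ∀ {l : G} (_ : l ∈ LL τ hτ) (h u : G), u ∈ N0 l →
      u ^ p * (ee h u) ^ (p.choose 2) = u ^ p := by
    intro l hl h u hu
    rw [odd_choose hpp hp2 hτp (ee_mem (N0_le_LL hτ hl hu) h), mul_one]
  by_cases hc : ∀ u ∈ N0 x, u ^ p ≠ y ^ p
  · refine bound_of_good hpp hmin (index_CC hpp hmin hτ hord hxL hxZ) hxZ (fun h hh => ?_)
    refine orbit_of_good hpp hmin hτ hord hxL hxZ hh (pow_central hτ hτp hyL) (fun u hu => ?_)
    rw [hF hxL h u hu]
    exact hc u hu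
  · push Not at hc
    obtain ⟨u, hu, huy⟩ := hc
    have huL : u ∈ LL τ hτ := N0_le_LL hτ hxL hu
    obtain ⟨l₀, hl₀def⟩ : ∃ l₀, l₀ = y * u⁻¹ := ⟨_, rfl⟩
    have hl₀ : l₀ ∈ LL τ hτ := by
      rw [hl₀def]; exact Subgroup.mul_mem _ hyL (Subgroup.inv_mem _ huL)
    have hl₀p : l₀ ^ p = 1 := by
      have hinvL := Subgroup.inv_mem _ huL
      rw [hl₀def, pow_formula (zp_central hτ (ee_mem hinvL y)) (ee_rel hinvL y) p,
        odd_choose hpp hp2 hτp (ee_mem hinvL y), mul_one, inv_pow, huy]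
      simp
    have hl₀Z : l₀ ∉ Subgroup.center G := by
      intro hz
      apply hxy
      have e : y = l₀ * u := by rw [hl₀def]; group
      rw [e]
      exact Subgroup.mul_mem _ (center_le_CC x hz) (N0_le_CC x hu)
    obtain ⟨z₁, hz₁, hnp⟩ := exists_nonpow (p := p) hτ hτp hτ1
    refine bound_of_good hpp hmin (index_CC hpp hmin hτ hord hl₀ hl₀Z) hl₀Z (fun h hh => ?_)
    refine orbit_of_good hpp hmin hτ hord hl₀ hl₀Z hh hz₁ (fun w hw => ?_)
    rw [hF hl₀ h w hw]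
    obtain ⟨k, z, hz, rfl⟩ := hw
    have hcomm : Commute (l₀ ^ k) z := Subgroup.mem_center_iff.1 hz _
    rw [hcomm.mul_pow, ← zpow_natCast (l₀ ^ k) p, ← zpow_mul, mul_comm, zpow_mul, zpow_natCast,
      hl₀p, one_zpow, one_mul]
    exact hnp z hz

lemma zp_two {τ : G} (hτ2 : τ ^ 2 = 1) {a : G} (ha : a ∈ Subgroup.zpowers τ) (ha1 : a ≠ 1) :
    a = τ := by
  obtain ⟨k, rfl⟩ := ha
  have h22 : (τ ^ (2 : ℤ)) = 1 := by rw [zpow_ofNat]; exact hτ2
  obtain ⟨j, rfl | rfl⟩ := Int.even_or_odd' k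
  · exfalso
    apply ha1
    show τ ^ (2 * j) = 1
    rw [zpow_mul, h22, one_zpow]
  · show τ ^ (2 * j + 1) = τ
    rw [zpow_add, zpow_mul, h22, one_zpow, one_mul, zpow_one]

/-- The good-element criterion for `p = 2`. -/
theorem good_two (hmin : (Nat.card G).minFac = 2) {τ : G}
    (hτ : τ ∈ Subgroup.center G) (hord : orderOf τ = 2) {l : G}
    (hl : l ∈ LL τ hτ) (hlZ : l ∉ Subgroup.center G) {z₁ : G} (hz₁ : z₁ ∈ Subgroup.center G)
    (hnp : ∀ z ∈ Subgroup.center G, z ^ 2 ≠ z₁)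
    (hnb : ∀ c ∈ Subgroup.center G, l ^ 2 * c ^ 2 * τ ≠ z₁) :
    Nat.card (orbitRel.Quotient (MulAut G) G) ≤ Nat.card G / (Nat.card G).minFac := by
  have hτ2 : τ ^ 2 = 1 := hord ▸ pow_orderOf_eq_one τ
  have hl2 : l ^ 2 ∈ Subgroup.center G := pow_central hτ hτ2 hl
  have h22 : l ^ (2 : ℤ) = l ^ 2 := zpow_ofNat l 2
  refine bound_of_good Nat.prime_two hmin (index_CC Nat.prime_two hmin hτ hord hl hlZ) hlZ
    (fun h hh => ?_)
  refine orbit_of_good Nat.prime_two hmin hτ hord hl hlZ hh hz₁ (fun u hu => ?_)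
  rw [Nat.choose_self, pow_one]
  obtain ⟨k, z, hz, rfl⟩ := hu
  obtain ⟨m, rfl | rfl⟩ := Int.even_or_odd' k
  · have hc : l ^ (2 * m) * z ∈ Subgroup.center G := by
      rw [zpow_mul, h22]
      exact Subgroup.mul_mem _ (Subgroup.zpow_mem _ hl2 m) hz
    rw [ee_central hc, mul_one]
    exact hnp _ hc
  · have hc : l ^ (2 * m) * z ∈ Subgroup.center G := by
      rw [zpow_mul, h22]
      exact Subgroup.mul_mem _ (Subgroup.zpow_mem _ hl2 m) hz
    have e : l ^ (2 * m + 1) * z = l * (l ^ (2 * m) * z) := by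
      rw [zpow_add, zpow_one]
      have : l ^ (2 * m) * l = l * l ^ (2 * m) := (Commute.zpow_left (Commute.refl l) _)
      rw [this, mul_assoc]
    rw [e, ee_mul (center_le_LL hτ hc), ee_central hc, mul_one]
    have hcomm : Commute l (l ^ (2 * m) * z) := (Subgroup.mem_center_iff.1 hc _)
    rw [hcomm.mul_pow]
    have hee : ee h l = τ := by
      apply zp_two hτ2 (ee_mem hl h)
      intro h1
      apply hh
      rw [mem_CC]
      unfold ee at h1
      have h2 : h⁻¹ * l * h = l := by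
        calc h⁻¹ * l * h = (h⁻¹ * l * h * l⁻¹) * l := by group
          _ = l := by rw [h1, one_mul]
      calc h * l = h * (h⁻¹ * l * h) := by rw [h2]
        _ = l * h := by group
    rw [hee]
    exact hnb _ hc

/-- The case `p = 2`. -/
theorem case_even (hmin : (Nat.card G).minFac = 2) {τ x y : G}
    (hτ : τ ∈ Subgroup.center G) (hord : orderOf τ = 2) (hτ1 : τ ≠ 1)
    (hτdef : τ = y * x * y⁻¹ * x⁻¹)
    (hxL : x ∈ LL τ hτ) (hyL : y ∈ LL τ hτ) (hxZ : x ∉ Subgroup.center G)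
    (hyZ : y ∉ Subgroup.center G) (hxy : y ∉ CC x) :
    Nat.card (orbitRel.Quotient (MulAut G) G) ≤ Nat.card G / (Nat.card G).minFac := by
  have hτ2 : τ ^ 2 = 1 := hord ▸ pow_orderOf_eq_one τ
  obtain ⟨z₁, hz₁, hnp⟩ := exists_nonpow (p := 2) hτ hτ2 hτ1
  by_cases h1 : ∀ c ∈ Subgroup.center G, x ^ 2 * c ^ 2 * τ ≠ z₁
  · exact good_two hmin hτ hord hxL hxZ hz₁ hnp h1
  by_cases h2 : ∀ c ∈ Subgroup.center G, y ^ 2 * c ^ 2 * τ ≠ z₁
  · exact good_two hmin hτ hord hyL hyZ hz₁ hnp h2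
  have hxyL : x * y ∈ LL τ hτ := Subgroup.mul_mem _ hxL hyL
  have hxyZ : x * y ∉ Subgroup.center G := by
    intro hz
    apply hxy
    rw [mem_CC]
    have h4 := Subgroup.mem_center_iff.1 hz y
    have h5 : y * x * y = x * y * y := by rw [mul_assoc]; exact h4
    exact mul_right_cancel h5
  by_cases h3 : ∀ c ∈ Subgroup.center G, (x * y) ^ 2 * c ^ 2 * τ ≠ z₁
  · exact good_two hmin hτ hord hxyL hxyZ hz₁ hnp h3
  exfalso
  push Not at h1 h2 h3
  obtain ⟨c₁, hc₁, e₁⟩ := h1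
  obtain ⟨c₂, hc₂, e₂⟩ := h2
  obtain ⟨c₃, hc₃, e₃⟩ := h3
  have hx2 := pow_central hτ hτ2 hxL
  have hy2 := pow_central hτ hτ2 hyL
  have hcτ := Subgroup.mem_center_iff.1 hτ
  have e4 : (x * y) ^ 2 = x ^ 2 * y ^ 2 * τ := by
    have e5 : y * x = x * y * τ := by
      calc y * x = τ * (x * y) := by rw [hτdef]; group
        _ = x * y * τ := (hcτ _).symm
    calc (x * y) ^ 2 = x * (y * x) * y := by rw [pow_two]; simp only [mul_assoc]
      _ = x * (x * y * τ) * y := by rw [e5]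
      _ = x * x * y * (τ * y) := by simp only [mul_assoc]
      _ = x * x * y * (y * τ) := by rw [hcτ y]
      _ = _ := by rw [pow_two, pow_two]; simp only [mul_assoc]
  letI inst : CommGroup ↥(Subgroup.center G) :=
    { (inferInstance : Group ↥(Subgroup.center G)) with
      mul_comm := fun a b => Subtype.ext (Subgroup.mem_center_iff.1 b.2 a) }
  have key := comm_identity (C := ↥(Subgroup.center G))
    (X := ⟨x ^ 2, hx2⟩) (Y := ⟨y ^ 2, hy2⟩) (C1 := ⟨c₁, hc₁⟩) (C2 := ⟨c₂, hc₂⟩) (C3 := ⟨c₃, hc₃⟩)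
    (T := ⟨τ, hτ⟩) (Z1 := ⟨z₁, hz₁⟩)
    (Subtype.ext hτ2) (Subtype.ext e₁.symm) (Subtype.ext e₂.symm)
    (Subtype.ext (by rw [e4] at e₃; exact e₃.symm))
  refine hnp _ (((⟨c₁, hc₁⟩ * ⟨c₂, hc₂⟩ * (⟨c₃, hc₃⟩ : Subgroup.center G)⁻¹ :
    Subgroup.center G)).2) ?_
  exact (congrArg Subtype.val key).symm

/-- The case of two non-commuting elements with class size `p`. -/
theorem case_three (hna : ¬ IsMulCommutative G) {x y : G}
    (hx : (CC x).index = (Nat.card G).minFac) (hy : (CC y).index = (Nat.card G).minFac)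
    (hxy : y ∉ CC x) :
    Nat.card (orbitRel.Quotient (MulAut G) G) ≤ Nat.card G / (Nat.card G).minFac := by
  have hpp := prime_minFac hna
  obtain ⟨p, hp⟩ : ∃ p, p = (Nat.card G).minFac := ⟨_, rfl⟩
  rw [← hp] at hpp hx hy
  obtain ⟨τ, hτdef⟩ : ∃ τ, τ = y * x * y⁻¹ * x⁻¹ := ⟨_, rfl⟩
  obtain ⟨hτ, hord, hτ1, hxg⟩ := key_pair hpp hp.symm hx hy hxy hτdef
  have hyx : x ∉ CC y := by
    intro h
    exact hxy (mem_CC.2 (mem_CC.1 h).symm)
  obtain ⟨_, _, _, hyg⟩ := key_pair hpp hp.symm hy hx hyx (τ := x * y * x⁻¹ * y⁻¹) rfl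
  have hτinv : x * y * x⁻¹ * y⁻¹ = τ⁻¹ := by rw [hτdef]; group
  have hxL : x ∈ LL τ hτ := hxg
  have hyL : y ∈ LL τ hτ := by
    intro g
    have := hyg g
    rwa [hτinv, Subgroup.zpowers_inv] at this
  have hxZ : x ∉ Subgroup.center G := fun hz => hxy (mem_CC.2 (Subgroup.mem_center_iff.1 hz y))
  have hyZ : y ∉ Subgroup.center G := fun hz => hyx (mem_CC.2 (Subgroup.mem_center_iff.1 hz x))
  by_cases hp2 : p = 2
  · subst hp2
    exact case_even hp.symm hτ hord hτ1 hτdef hxL hyL hxZ hyZ hxy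
  · exact case_odd hpp hp.symm hp2 hτ hord hτ1 hxL hyL hxZ hxy

/-- The main theorem. -/
theorem card_aut_orbits_le (hna : ¬ IsMulCommutative G) :
    Nat.card (orbitRel.Quotient (MulAut G) G) ≤ Nat.card G / (Nat.card G).minFac := by
  by_cases h : ∀ g : G, (CC g).index ≠ (Nat.card G).minFac
  · exact case_one hna h
  push Not at h
  obtain ⟨x, hx⟩ := h
  by_cases h2 : ∀ h : G, h ∉ CC x → (CC h).index ≠ (Nat.card G).minFac
  · exact case_two hna hx h2
  push Not at h2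
  obtain ⟨y, hxy, hy⟩ := h2
  exact case_three hna hx hy hxy

end Cfsg.Agent.Lib.ClassSizes.AutOrb
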