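import Mathlib
import Cfsg.Agent.Lib.Core.Basic
import Cfsg.Agent.Lib.PSolv.Basic
import Cfsg.Agent.Lib.CharExtra.Ito
import Cfsg.Agent.Lib.Geo.PrimSolvable
import Cfsg.Agent.Lib.Cl.TwoSizes
import Cfsg.Agent.Lib.Hall.CoprimeLemmas

/-! Generic tools for the class size pattern `{1, m, mn}`: Sylow subgroups of subgroups, a commutator trick,
normal `p`-complements from class sizes. -/

set_option autoImplicit false
set_option linter.style.haveILetI false

namespace Cfsg.Agent.Lib.ClassSizes.CMN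

open Subgroup Cfsg Cfsg.Agent.Lib.Core
open scoped Pointwise commutatorElement

variable {G : Type*} [Group G]

/-- The centralizer of an element. -/
abbrev cz (x : G) : Subgroup G := centralizer ({x} : Set G)

theorem mem_cz {x y : G} : y ∈ cz x ↔ y * x = x * y := by
  rw [Subgroup.mem_centralizer_singleton_iff]

theorem mem_cz' {x y : G} : y ∈ cz x ↔ x * y = y * x := by
  rw [mem_cz]; exact eq_comm

/-- `S` is a Sylow `p`-subgroup of the subgroup `K`. -/
def SylIn (p : ℕ) (S K : Subgroup G) : Prop :=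
  S ≤ K ∧ IsPGroup p S ∧ ¬ p ∣ S.relIndex K

section Syl

variable [Finite G] {p : ℕ} [hp : Fact p.Prime]

theorem sylIn_map (K : Subgroup G) (Q : Sylow p K) : SylIn p ((Q : Subgroup K).map K.subtype) K := by
  refine ⟨map_subtype_le _, Q.2.map _, ?_⟩
  have h1 : ((Q : Subgroup K).map K.subtype).relIndex K = (Q : Subgroup K).index := by
    unfold relIndex subgroupOf
    rw [Subgroup.comap_map_eq_self_of_injective K.subtype_injective]
  rw [h1]
  exact Q.not_dvd_index

theorem exists_sylIn_ge {W K : Subgroup G} (hW : IsPGroup p W) (hWK : W ≤ K) :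
    ∃ S, SylIn p S K ∧ W ≤ S := by
  have h0 : IsPGroup p (W.comap K.subtype) := hW.comap_subtype (K := K)
  obtain ⟨Q, hQ⟩ := h0.exists_le_sylow
  refine ⟨_, sylIn_map K Q, fun w hw => ?_⟩
  exact ⟨⟨w, hWK hw⟩, hQ (show (⟨w, hWK hw⟩ : K) ∈ W.comap K.subtype from hw), rfl⟩

theorem exists_sylIn (K : Subgroup G) : ∃ S, SylIn p S K := by
  obtain ⟨S, hS, -⟩ := exists_sylIn_ge (p := p) (W := ⊥) (K := K) IsPGroup.of_bot bot_le
  exact ⟨S, hS⟩

/-- The Sylow subgroup of the type `K` attached to `S`. -/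
noncomputable def SylIn.toSylow {S K : Subgroup G} (h : SylIn p S K) : Sylow p K :=
  (h.2.1.comap_subtype (K := K)).toSylow h.2.2

theorem SylIn.coe_toSylow {S K : Subgroup G} (h : SylIn p S K) :
    (h.toSylow : Subgroup K) = S.comap K.subtype := rfl

theorem SylIn.card {S K : Subgroup G} (h : SylIn p S K) :
    Nat.card S = p ^ (Nat.card K).factorization p := by
  rw [← Sylow.card_eq_multiplicity h.toSylow, SylIn.coe_toSylow]
  exact (Nat.card_congr (Subgroup.subgroupOfEquivOfLe h.1).toEquiv).symm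

theorem sylIn_of_card {S K : Subgroup G} (hSK : S ≤ K) (hS : IsPGroup p S)
    (hc : Nat.card S = p ^ (Nat.card K).factorization p) : SylIn p S K := by
  refine ⟨hSK, hS, fun hd => ?_⟩
  have h1 := Cfsg.Agent.Lib.PSolv.card_inf_mul_relIndex S K
  rw [inf_eq_left.2 hSK, hc] at h1
  obtain ⟨t, ht⟩ := hd
  have hK0 : Nat.card K ≠ 0 := Nat.card_pos.ne'
  apply Nat.pow_succ_factorization_not_dvd hK0 hp.out
  refine ⟨t, ?_⟩
  rw [pow_succ, mul_assoc, ← ht]
  exact h1.symm

/-- Two Sylow subgroups of `K` are conjugate in `K`. -/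
theorem sylIn_conj {S₁ S₂ K : Subgroup G} (h₁ : SylIn p S₁ K) (h₂ : SylIn p S₂ K) :
    ∃ k ∈ K, ∀ x, x ∈ S₁ ↔ k * x * k⁻¹ ∈ S₂ := by
  obtain ⟨g, hg⟩ := MulAction.exists_smul_eq K h₁.toSylow h₂.toSylow
  refine ⟨g, g.2, fun x => ⟨fun hx => ?_, fun hx => ?_⟩⟩
  · have h3 : (⟨x, h₁.1 hx⟩ : K) ∈ (h₁.toSylow : Subgroup K) := hx
    have h4 : MulAut.conj g • (⟨x, h₁.1 hx⟩ : K) ∈ MulAut.conj g • (h₁.toSylow : Subgroup K) :=
      Subgroup.smul_mem_pointwise_smul _ _ _ h3
    have h5 : (MulAut.conj g • (h₁.toSylow : Subgroup K) : Subgroup K) = (h₂.toSylow : Subgroup K) := by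
      rw [← hg]; rfl
    rw [h5] at h4
    exact h4
  · have hxK : x ∈ K := by
      have h6 := h₂.1 hx
      have h7 : (g : G)⁻¹ * ((g : G) * x * (g : G)⁻¹) * (g : G) = x := by group
      rw [← h7]
      exact K.mul_mem (K.mul_mem (K.inv_mem g.2) h6) g.2
    have h5 : (MulAut.conj g • (h₁.toSylow : Subgroup K) : Subgroup K) = (h₂.toSylow : Subgroup K) := by
      rw [← hg]; rfl
    have h3 : MulAut.conj g • (⟨x, hxK⟩ : K) ∈ (h₂.toSylow : Subgroup K) := hx
    rw [← h5] at h3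
    have h4 := (Subgroup.smul_mem_pointwise_smul_iff).1 h3
    exact h4

theorem SylIn.normal_le {S W K : Subgroup G} (h : SylIn p S K) (hWK : W ≤ K) (hW : IsPGroup p W)
    (hn : ∀ k ∈ K, ∀ w ∈ W, k * w * k⁻¹ ∈ W) : W ≤ S := by
  have hN : (W.comap K.subtype).Normal := ⟨fun n hn' g => by
    have := hn g g.2 n hn'
    exact Subgroup.mem_comap.2 (by simpa using this)⟩
  have h00 : IsPGroup p (W.comap K.subtype) := hW.comap_subtype (K := K)
  have h1 : W.comap K.subtype ≤ (h.toSylow : Subgroup K) := h00.le_sylow_of_normal h.toSylow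
  intro w hw
  exact h1 (show (⟨w, hWK hw⟩ : K) ∈ W.comap K.subtype from hw)

theorem exists_sylIn_le_of_not_dvd {K H : Subgroup G} (hd : ¬ p ∣ H.relIndex K) :
    ∃ S, SylIn p S K ∧ S ≤ H := by
  obtain ⟨Q, hQ⟩ := Cfsg.Agent.Lib.PSolv.exists_sylow_le_of_not_dvd_index (W := H.comap K.subtype) hd
  refine ⟨_, sylIn_map K Q, ?_⟩
  rintro _ ⟨x, hx, rfl⟩
  exact hQ hx

/-- An element of `p`-power order commuting with a Sylow subgroup lies in it. -/
theorem SylIn.mem_of_comm {S K : Subgroup G} (h : SylIn p S K) {y : G} (hy : y ∈ K)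
    (hyp : ∃ k, orderOf y = p ^ k) (hc : ∀ x ∈ S, x * y = y * x) : y ∈ S := by
  obtain ⟨k, hk⟩ := hyp
  let y' : K := ⟨y, hy⟩
  have h1 : IsPGroup p (zpowers y') := by
    apply IsPGroup.of_card (n := k)
    rw [Nat.card_zpowers, Subgroup.orderOf_mk, hk]
  have h2 : y' ∈ normalizer ((h.toSylow : Subgroup K) : Set K) := by
    rw [mem_normalizer_iff]
    intro x
    have hxy : y' * x * y'⁻¹ ∈ (h.toSylow : Subgroup K) ↔ x ∈ (h.toSylow : Subgroup K) := by
      rw [SylIn.coe_toSylow, Subgroup.mem_comap, Subgroup.mem_comap]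
      simp only [Subgroup.subtype_apply, Subgroup.coe_mul, Subgroup.coe_inv]
      show y * (x : G) * y⁻¹ ∈ S ↔ (x : G) ∈ S
      constructor
      · intro hx
        have h3 := hc _ hx
        have : (x : G) = y * (x : G) * y⁻¹ := by
          calc (x : G) = y⁻¹ * ((y * (x : G) * y⁻¹) * y) := by group
            _ = y⁻¹ * (y * (y * (x : G) * y⁻¹)) := by rw [h3]
            _ = _ := by group
        rw [this]
        exact hx
      · intro hx
        have h3 := hc _ hx
        have : y * (x : G) * y⁻¹ = (x : G) := by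
          rw [← h3]; group
        rw [this]
        exact hx
    exact hxy.symm
  have h3 := (IsPGroup.inf_normalizer_sylow h1 h.toSylow)
  have h4 : y' ∈ zpowers y' ⊓ normalizer ((h.toSylow : Subgroup K) : Set K) := ⟨mem_zpowers y', h2⟩
  have h5 := h3.le h4
  exact h5.2

/-- A subgroup `H` of `K` containing a Sylow subgroup. -/
theorem SylIn.of_le {S K L : Subgroup G} (h : SylIn p S K) (hSL : S ≤ L) (hLK : L ≤ K) : SylIn p S L := by
  refine ⟨hSL, h.2.1, fun hd => h.2.2 ?_⟩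
  rw [← Subgroup.relIndex_mul_relIndex S L K hSL hLK]
  exact hd.mul_right _

/-- `a` commuting with `c` and with `C_U(c)` centralizes `U`, for a normal `p`-subgroup `U`. -/
theorem engel_trick {U : Subgroup G} [hUn : U.Normal] (hU : IsPGroup p U) {a c : G}
    (hcp : ∃ k, orderOf c = p ^ k) (hac : a * c = c * a) (hcop : (orderOf a).Coprime p)
    (hC : ∀ u ∈ U, u * c = c * u → u * a = a * u) : ∀ u ∈ U, u * a = a * u := by
  obtain ⟨e, he⟩ := hcp
  have hZ : IsPGroup p (zpowers c) := by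
    apply IsPGroup.of_card (n := e)
    rw [Nat.card_zpowers, he]
  have hΓ : IsPGroup p (U ⊔ zpowers c : Subgroup G) := IsPGroup.to_sup_of_normal_left hU hZ
  let Γ : Subgroup G := U ⊔ zpowers c
  haveI hnil : Group.IsNilpotent Γ := hΓ.isNilpotent
  obtain ⟨N, hN⟩ := _root_.nilpotent_iff_lowerCentralSeries.1 hnil
  let c' : Γ := ⟨c, mem_sup_right (mem_zpowers c)⟩
  have key : ∀ j, j ≤ N → ∀ w : Γ, w ∈ (⊤ : Subgroup Γ).lowerCentralSeries (N - j) → (w : G) ∈ U → (w : G) * a = a * w := by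
    intro j
    induction j with
    | zero =>
      intro _ w hw _
      rw [Nat.sub_zero, hN, Subgroup.mem_bot] at hw
      rw [hw]; simp
    | succ j ih =>
      intro hj w hw hwU
      have h1 : N - j = (N - (j + 1)) + 1 := by omega
      have h2 : ⁅w, c'⁆ ∈ (⊤ : Subgroup Γ).lowerCentralSeries (N - j) := by
        rw [h1, Subgroup.lowerCentralSeries_succ]
        exact Subgroup.subset_closure ⟨w, hw, c', mem_top _, rfl⟩
      have h3 : ((⁅w, c'⁆ : Γ) : G) = (w : G) * c * (w : G)⁻¹ * c⁻¹ := rfl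
      have h4 : ((⁅w, c'⁆ : Γ) : G) ∈ U := by
        rw [h3, show (w : G) * c * (w : G)⁻¹ * c⁻¹ = (w : G) * (c * (w : G)⁻¹ * c⁻¹) by group]
        apply U.mul_mem hwU
        have := hUn.conj_mem _ (U.inv_mem hwU) c
        exact this
      have h5 := ih (by omega) _ h2 h4
      rw [h3] at h5
      -- `y = w⁻¹ (a w a⁻¹)` commutes with `c`
      set w0 : G := (w : G) with hw0
      set w' : G := a * w0 * a⁻¹ with hw'
      have h6 : w' * c * w'⁻¹ * c⁻¹ = w0 * c * w0⁻¹ * c⁻¹ := by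
        have h7 : a * (w0 * c * w0⁻¹ * c⁻¹) * a⁻¹ = w0 * c * w0⁻¹ * c⁻¹ := by
          rw [← h5]; group
        have h8 : c * a⁻¹ = a⁻¹ * c := by
          have := Commute.inv_left (show Commute a c from hac)
          exact this.eq.symm
        have h9 : c⁻¹ * a⁻¹ = a⁻¹ * c⁻¹ := by
          have := (Commute.inv_left (show Commute a c from hac)).inv_right
          exact this.eq.symm
        rw [← h7, hw']
        calc a * w0 * a⁻¹ * c * (a * w0 * a⁻¹)⁻¹ * c⁻¹
            = a * w0 * (a⁻¹ * c) * a * w0⁻¹ * a⁻¹ * c⁻¹ := by group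
          _ = a * w0 * (c * a⁻¹) * a * w0⁻¹ * a⁻¹ * c⁻¹ := by rw [h8]
          _ = a * w0 * c * w0⁻¹ * (a⁻¹ * c⁻¹) := by group
          _ = a * w0 * c * w0⁻¹ * (c⁻¹ * a⁻¹) := by rw [h9]
          _ = _ := by group
      set y : G := w0⁻¹ * w' with hy
      have hyU : y ∈ U := U.mul_mem (U.inv_mem hwU) (hUn.conj_mem _ hwU a)
      have hyc : y * c = c * y := by
        have h10 : w' * c * w'⁻¹ = w0 * c * w0⁻¹ := mul_right_cancel h6
        rw [hy]
        calc w0⁻¹ * w' * c = w0⁻¹ * (w' * c * w'⁻¹) * w' := by group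
          _ = w0⁻¹ * (w0 * c * w0⁻¹) * w' := by rw [h10]
          _ = c * (w0⁻¹ * w') := by group
      have hya := hC y hyU hyc
      -- powers
      have hpow : ∀ t : ℕ, a ^ t * w0 * (a ^ t)⁻¹ = w0 * y ^ t := by
        intro t
        induction t with
        | zero => simp
        | succ t iht =>
          have h11 : Commute (a ^ t) y := (Commute.pow_left (show Commute y a from hya).symm t)
          have h12 : a * w0 * a⁻¹ = w0 * y := by
            rw [hy, hw']; group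
          calc a ^ (t + 1) * w0 * (a ^ (t + 1))⁻¹ = a ^ t * (a * w0 * a⁻¹) * (a ^ t)⁻¹ := by
                rw [pow_succ]; group
            _ = a ^ t * (w0 * y) * (a ^ t)⁻¹ := by rw [h12]
            _ = (a ^ t * w0 * (a ^ t)⁻¹) * (a ^ t * y * (a ^ t)⁻¹) := by group
            _ = (w0 * y ^ t) * y := by
                rw [iht, h11.eq]; group
            _ = w0 * y ^ (t + 1) := by rw [pow_succ]; group
      have hy1 : y ^ orderOf a = 1 := by
        have := hpow (orderOf a)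
        rw [pow_orderOf_eq_one] at this
        simpa using this.symm
      have hy2 : y = 1 := by
        obtain ⟨f, hf⟩ := (IsPGroup.iff_orderOf.1 hU) ⟨y, hyU⟩
        have hf' : orderOf y = p ^ f := by rwa [Subgroup.orderOf_mk] at hf
        have hd : orderOf y ∣ orderOf a := orderOf_dvd_of_pow_eq_one hy1
        have hco : (orderOf y).Coprime (orderOf a) := by
          rw [hf']
          exact (Nat.Coprime.pow_left f hcop.symm)
        have : orderOf y = 1 := Nat.Coprime.eq_one_of_dvd hco hd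
        exact orderOf_eq_one_iff.1 this
      have h13 : a * w0 * a⁻¹ = w0 := by
        have : w' = w0 * y := by rw [hy]; group
        rw [hy2, mul_one] at this
        exact this
      have : a * w0 = w0 * a := mul_inv_eq_iff_eq_mul.1 h13
      exact this.symm
  intro u hu
  have := key N le_rfl ⟨u, mem_sup_left hu⟩ (by simp) hu
  exact this

end Syl

section Core

variable {X : Type*} [Group X] [Finite X] {p : ℕ} [hp : Fact p.Prime]

/-- Elements of `p'`-order lie in `O` if the primary ones do. -/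
theorem mem_core_of_coprime (O : Subgroup X)
    (h : ∀ (q j : ℕ) (y : X), q.Prime → q ≠ p → orderOf y = q ^ j → y ∈ O)
    (w : X) (hw : (orderOf w).Coprime p) : w ∈ O := by
  by_contra hn
  obtain ⟨i, r, j, hr, ho, hi⟩ := Cfsg.Agent.Lib.Cl.TwoSizes.exists_primePow_not_mem O _ w rfl hn
  have hrp : r ≠ p := by
    rintro rfl
    have hj : j ≠ 0 := by
      rintro rfl
      apply hi
      rw [pow_zero, orderOf_eq_one_iff] at ho
      rw [ho]; exact O.one_mem
    have h1 : r ^ j ∣ orderOf w := ho ▸ orderOf_pow_dvd i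
    have h2 : r ∣ orderOf w := (dvd_pow_self r hj).trans h1
    exact (Nat.Prime.coprime_iff_not_dvd hp.out).1 hw.symm h2
  exact hi (h r j _ hr hrp ho)

theorem isPGroup_quotient_of_coprime (O : Subgroup X) [O.Normal]
    (h : ∀ w : X, (orderOf w).Coprime p → w ∈ O) : IsPGroup p (X ⧸ O) := by
  intro x
  obtain ⟨z, rfl⟩ := QuotientGroup.mk'_surjective O x
  have hz0 : orderOf z ≠ 0 := (orderOf_pos z).ne'
  obtain ⟨k, u, hu, hzu⟩ := Nat.exists_eq_pow_mul_and_not_dvd hz0 p hp.out.ne_one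
  refine ⟨k, ?_⟩
  rw [← map_pow, QuotientGroup.mk'_apply, QuotientGroup.eq_one_iff]
  apply h
  have h1 : orderOf (z ^ (p ^ k)) = u := by
    rw [orderOf_pow' z (pow_ne_zero _ hp.out.ne_zero), hzu, Nat.gcd_eq_right (Dvd.intro _ rfl)]
    exact Nat.mul_div_cancel_left u (pow_pos hp.out.pos k)
  rw [h1]
  exact ((Nat.Prime.coprime_iff_not_dvd hp.out).2 hu).symm

theorem primary_mem_pPrimeCore [Group.IsSolvable X] (N₁ : Subgroup X) (hN₁ : N₁ ≤ pPrimeCore p X)
    (hy : ∀ (q j : ℕ) (y : X), q.Prime → q ≠ p → orderOf y = q ^ j → y ∉ N₁ →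
      ∃ Q : Sylow p X, ∀ x ∈ (Q : Subgroup X), x * y = y * x)
    (q j : ℕ) (y : X) (hq : q.Prime) (hqp : q ≠ p) (ho : orderOf y = q ^ j) :
    y ∈ pPrimeCore p X := by
  by_cases hyN : y ∈ N₁
  · exact hN₁ hyN
  obtain ⟨Q, hQ⟩ := hy q j y hq hqp ho hyN
  let O := pPrimeCore p X
  let π := QuotientGroup.mk' O
  have hsurj : Function.Surjective π := QuotientGroup.mk'_surjective O
  let Q' : Sylow p (X ⧸ O) := Q.mapSurjective hsurj
  have h1 : pCore p (X ⧸ O) ≤ (Q' : Subgroup _) := pCore_le_sylow Q'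
  have h2 : π y ∈ centralizer (pCore p (X ⧸ O) : Set _) := by
    rw [mem_centralizer_iff]
    intro u hu
    have hu' : u ∈ (Q : Subgroup X).map π := h1 hu
    obtain ⟨x, hx, rfl⟩ := hu'
    rw [← map_mul, ← map_mul, hQ x hx]
  have hstep : Cfsg.Agent.Lib.PSolv.PStep p (X ⧸ O) :=
    Cfsg.Agent.Lib.CharExtra.pStep_of_isSolvable hp.out
  have h3 := Cfsg.Agent.Lib.PSolv.centralizer_pCore_le hstep pPrimeCore_quotient_eq_bot h2
  have h4 : π y = 1 := by
    obtain ⟨k, hk⟩ := (pCore_isPGroup p (X ⧸ O)) ⟨π y, h3⟩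
    have h5 : (π y) ^ (p ^ k) = 1 := by
      have := congrArg Subtype.val hk
      simpa using this
    have h6 : (π y) ^ (q ^ j) = 1 := by rw [← map_pow, ← ho, pow_orderOf_eq_one, map_one]
    have h7 : Nat.Coprime (p ^ k) (q ^ j) :=
      Nat.Coprime.pow _ _ ((Nat.coprime_primes hp.out hq).2 hqp.symm)
    have h8 := orderOf_dvd_of_pow_eq_one h5
    have h9 := orderOf_dvd_of_pow_eq_one h6
    exact orderOf_eq_one_iff.1 (Nat.eq_one_of_dvd_coprimes h7 h8 h9)
  exact (QuotientGroup.eq_one_iff y).1 h4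

/-- The `p'`-core has a `p`-group as quotient if primary elements outside `N₁` centralize Sylow subgroups. -/
theorem isPGroup_quotient_pPrimeCore [Group.IsSolvable X] (N₁ : Subgroup X) (hN₁ : N₁ ≤ pPrimeCore p X)
    (hy : ∀ (q j : ℕ) (y : X), q.Prime → q ≠ p → orderOf y = q ^ j → y ∉ N₁ →
      ∃ Q : Sylow p X, ∀ x ∈ (Q : Subgroup X), x * y = y * x) :
    IsPGroup p (X ⧸ pPrimeCore p X) :=
  isPGroup_quotient_of_coprime _ (mem_core_of_coprime _ (primary_mem_pPrimeCore N₁ hN₁ hy))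

/-- If `X / O` is a `p`-group then `O` and a subgroup of index prime to `p` cover `X`. -/
theorem cover_of_isPGroup_quotient (O : Subgroup X) [O.Normal] (hO : IsPGroup p (X ⧸ O))
    (S : Subgroup X) (hS : ¬ p ∣ S.index) : ∀ k : X, ∃ o ∈ O, ∃ b ∈ S, k = o * b := by
  have h1 : (O ⊔ S).index = 1 := by
    obtain ⟨f, hf⟩ := IsPGroup.iff_card.1 hO
    have h2 : (O ⊔ S).index ∣ p ^ f := by
      rw [← hf, ← Subgroup.index_eq_card]
      exact Subgroup.index_dvd_of_le le_sup_left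
    obtain ⟨i, -, hi⟩ := (Nat.dvd_prime_pow hp.out).1 h2
    rcases Nat.eq_zero_or_pos i with rfl | hpos
    · simpa using hi
    · exfalso
      apply hS
      have h3 : p ∣ (O ⊔ S).index := by
        rw [hi]
        exact dvd_pow_self p hpos.ne'
      exact h3.trans (Subgroup.index_dvd_of_le le_sup_right)
  intro k
  have h2 : k ∈ (O ⊔ S) := by
    rw [Subgroup.index_eq_one.1 h1]
    exact mem_top k
  have h3 : k ∈ ((O ⊔ S : Subgroup X) : Set X) := h2
  rw [Subgroup.normal_mul] at h3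
  obtain ⟨o, ho, b, hb, rfl⟩ := h3
  exact ⟨o, ho, b, hb, rfl⟩

/-- The direct form: every `p'`-element centralizes a Sylow `p`-subgroup. -/
theorem direct [Group.IsSolvable X]
    (hy : ∀ w : X, (orderOf w).Coprime p → ∃ Q : Sylow p X, ∀ x ∈ (Q : Subgroup X), x * w = w * x) :
    IsPGroup p (X ⧸ pPrimeCore p X) ∧
      ∀ Q : Sylow p X, ∀ o ∈ pPrimeCore p X, ∀ x ∈ (Q : Subgroup X), x * o = o * x := by
  have h1 : IsPGroup p (X ⧸ pPrimeCore p X) := by
    apply isPGroup_quotient_pPrimeCore ⊥ bot_le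
    intro q j y hq hqp ho _
    apply hy
    rw [ho]
    exact Nat.Coprime.pow_left _ ((Nat.coprime_primes hq hp.out).2 hqp)
  refine ⟨h1, fun Q => ?_⟩
  let O := pPrimeCore p X
  let C₀ : Subgroup O := (centralizer (Q : Set X)).subgroupOf O
  have hC : C₀ = ⊤ := by
    by_contra hne
    obtain ⟨x, hx⟩ := Cfsg.Agent.Lib.Derangement.exists_not_mem_conj C₀ hne
    have hxo : (orderOf (x : X)).Coprime p := by
      have h2 : orderOf (x : X) ∣ Nat.card O := by
        rw [Subgroup.orderOf_coe]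
        exact orderOf_dvd_natCard x
      exact Nat.Coprime.coprime_dvd_left h2 (pPrimeCore_coprime p X)
    obtain ⟨Q₁, hQ₁⟩ := hy x hxo
    obtain ⟨k, hk⟩ := MulAction.exists_smul_eq X Q Q₁
    obtain ⟨o₀, ho₀, b, hb, hkob⟩ := cover_of_isPGroup_quotient O h1 Q Q.not_dvd_index k
    apply hx ⟨o₀, ho₀⟩
    rw [Subgroup.mem_subgroupOf, Subgroup.mem_centralizer_iff]
    intro u hu
    have hu' : b⁻¹ * u * b ∈ (Q : Subgroup X) := Q.1.mul_mem (Q.1.mul_mem (Q.1.inv_mem hb) hu) hb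
    have h4 : MulAut.conj k • (b⁻¹ * u * b) ∈ MulAut.conj k • (Q : Subgroup X) :=
      Subgroup.smul_mem_pointwise_smul _ _ _ hu'
    have h5 : (MulAut.conj k • (Q : Subgroup X) : Subgroup X) = (Q₁ : Subgroup X) := by
      rw [← hk]; rfl
    rw [h5] at h4
    have h6 : MulAut.conj k • (b⁻¹ * u * b) = o₀ * u * o₀⁻¹ := by
      show k * (b⁻¹ * u * b) * k⁻¹ = _
      rw [hkob]; group
    rw [h6] at h4
    have h7 := hQ₁ _ h4
    show u * ((o₀⁻¹ * (x : X)) * o₀) = ((o₀⁻¹ * (x : X)) * o₀) * u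
    calc u * ((o₀⁻¹ * (x : X)) * o₀) = o₀⁻¹ * ((o₀ * u * o₀⁻¹) * (x : X)) * o₀ := by group
      _ = o₀⁻¹ * ((x : X) * (o₀ * u * o₀⁻¹)) * o₀ := by rw [h7]
      _ = _ := by group
  intro o ho x hx
  have h2 : (⟨o, ho⟩ : O) ∈ C₀ := by rw [hC]; trivial
  rw [Subgroup.mem_subgroupOf, Subgroup.mem_centralizer_iff] at h2
  exact h2 x hx

end Core

section Central

variable {G' : Type*} [Group G'] [Finite G']

/-- A central subgroup of order prime to its index is a direct factor. -/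
theorem eq_bot_of_central
    (hnodf : ∀ A B : Subgroup G', A.Normal → B.Normal → A ⊓ B = ⊥ → A ⊔ B = ⊤ → IsMulCommutative A → A = ⊥)
    (A : Subgroup G') (hA : A ≤ center G') (hc : (Nat.card A).Coprime A.index) : A = ⊥ := by
  have hAn : A.Normal := ⟨fun n hn g => by
    have h1 : g * n = n * g := (Subgroup.mem_center_iff.1 (hA hn) g)
    rw [h1]
    simpa using hn⟩
  obtain ⟨B, hB⟩ := Subgroup.exists_right_complement'_of_coprime hc
  have hsup : A ⊔ B = ⊤ := hB.sup_eq_top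
  have hdis : A ⊓ B = ⊥ := hB.disjoint.eq_bot
  refine hnodf A B hAn ⟨fun n hn g => ?_⟩ hdis hsup ⟨⟨fun a b => Subtype.ext ?_⟩⟩
  · have h1 : g ∈ ((A ⊔ B : Subgroup G') : Set G') := by rw [hsup]; trivial
    rw [Subgroup.normal_mul] at h1
    obtain ⟨a, ha, b, hb, rfl⟩ := h1
    have h2 : a * b * n * (a * b)⁻¹ = b * n * b⁻¹ := by
      have h3 : ∀ y, a * y = y * a := fun y => (Subgroup.mem_center_iff.1 (hA ha) y).symm
      calc a * b * n * (a * b)⁻¹ = a * (b * n * b⁻¹) * a⁻¹ := by group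
        _ = (b * n * b⁻¹) * a * a⁻¹ := by rw [h3]
        _ = _ := by group
    rw [h2]
    exact B.mul_mem (B.mul_mem hb hn) (B.inv_mem hb)
  · exact (Subgroup.mem_center_iff.1 (hA b.2) (a : G'))

end Central

section Norm

variable {W : Type*} [CommGroup W]

theorem norm_eq_one {p : ℕ} (τ : Monoid.End W) (hτ : τ ^ p = 1) (hf : ∀ w, τ w = w → w = 1) (w : W) :
    ∏ k ∈ Finset.range p, (τ ^ k) w = 1 := by
  apply hf
  rw [map_prod]
  have h1 : ∀ k, τ ((τ ^ k) w) = (τ ^ (k + 1)) w := by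
    intro k
    rw [pow_succ']
    rfl
  simp only [h1]
  have h2 := Finset.prod_range_succ (fun k => (τ ^ k) w) p
  have h3 := Finset.prod_range_succ' (fun k => (τ ^ k) w) p
  simp only [hτ, pow_zero] at h2 h3
  have h4 : (∏ k ∈ Finset.range p, (τ ^ (k + 1)) w) * (1 : Monoid.End W) w =
      (∏ k ∈ Finset.range p, (τ ^ k) w) * (1 : Monoid.End W) w := by
    rw [← h2, h3]
  exact mul_right_cancel h4

theorem two_free {p : ℕ} (hp : p.Prime) (ρ σ : Monoid.End W) (hc : Commute ρ σ) (hρ : ρ ^ p = 1)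
    (hσ : σ ^ p = 1)
    (hf : ∀ i j : ℕ, i < p → j < p → (i ≠ 0 ∨ j ≠ 0) → ∀ w, (ρ ^ i * σ ^ j) w = w → w = 1) (w : W) :
    w ^ p = 1 := by
  have h1 : ∀ j ∈ Finset.range p, ∏ k ∈ Finset.range p, ((ρ * σ ^ j) ^ k) w = 1 := by
    intro j hj
    apply norm_eq_one
    · rw [(hc.pow_right j).mul_pow, hρ, one_mul, ← pow_mul, mul_comm, pow_mul, hσ, one_pow]
    · intro w' hw'
      apply hf 1 j hp.one_lt (Finset.mem_range.1 hj) (Or.inl one_ne_zero)
      simpa using hw'
  have h2 : ∏ j ∈ Finset.range p, ∏ k ∈ Finset.range p, ((ρ * σ ^ j) ^ k) w = 1 := Finset.prod_eq_one h1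
  rw [Finset.prod_comm, Finset.prod_eq_single 0] at h2
  · simpa [Finset.prod_const] using h2
  · intro k hk hk0
    have h3 : ∀ j, ((ρ * σ ^ j) ^ k) w = ((σ ^ k) ^ j) ((ρ ^ k) w) := by
      intro j
      rw [(hc.pow_right j).mul_pow, ← pow_mul, mul_comm j k, pow_mul]
      have h4 : Commute (ρ ^ k) ((σ ^ k) ^ j) := ((hc.pow_pow k k).pow_right j)
      rw [h4.eq]
      rfl
    simp only [h3]
    apply norm_eq_one
    · rw [← pow_mul, mul_comm, pow_mul, hσ, one_pow]
    · intro w' hw'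
      apply hf 0 k hp.pos (Finset.mem_range.1 hk) (Or.inr hk0)
      simpa using hw'
  · intro h
    exact absurd (Finset.mem_range.2 hp.pos) h

end Norm

end Cfsg.Agent.Lib.ClassSizes.CMN
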