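import Mathlib
import Cfsg.Agent.Lib.ClassSizes.CMN1
import Cfsg.Agent.S3922

/-! The class size pattern `{1, m, mn}`: first consequences. -/

set_option autoImplicit false
set_option linter.style.haveILetI false

namespace Cfsg.Agent.Lib.ClassSizes.CMN

open Subgroup Cfsg Cfsg.Agent.Lib.Core
open scoped Pointwise

/-- The hypotheses. -/
structure Hyp (G : Type*) [Group G] (m n : ℕ) : Prop where
  hm : 1 < m
  hn : 1 < n
  hcop : m.Coprime n
  hsz : ∀ x : G, (cz x).index = 1 ∨ (cz x).index = m ∨ (cz x).index = m * n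
  hexm : ∃ x : G, (cz x).index = m
  hexn : ∃ x : G, (cz x).index = m * n
  hnodf : ∀ A B : Subgroup G, A.Normal → B.Normal → A ⊓ B = ⊥ → A ⊔ B = ⊤ → IsMulCommutative A → A = ⊥

variable {G : Type*} [Group G]

theorem index_cz_eq_one_iff {x : G} : (cz x).index = 1 ↔ x ∈ center G := by
  rw [Subgroup.index_eq_one, Subgroup.mem_center_iff, eq_top_iff]
  constructor
  · intro h g
    have := h (mem_top g)
    rwa [mem_cz] at this
  · intro h g _
    rw [mem_cz]
    exact h g

theorem cz_le_cz_pow (x : G) (i : ℕ) : cz x ≤ cz (x ^ i) := by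
  intro g hg
  rw [mem_cz] at hg ⊢
  exact (Commute.pow_right (show Commute g x from hg) i).eq

theorem normal_of_le_center {A : Subgroup G} (hA : A ≤ center G) : A.Normal :=
  ⟨fun n hn g => by
    have h1 : g * n = n * g := (Subgroup.mem_center_iff.1 (hA hn) g)
    rw [h1]
    simpa using hn⟩

/-- A conjugate of an element has the same class size. -/
theorem index_cz_conj [Finite G] (g x : G) : (cz (g * x * g⁻¹)).index = (cz x).index := by
  have h1 : cz (g * x * g⁻¹) = (cz x).map (MulAut.conj g).toMonoidHom := by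
    ext y
    rw [Subgroup.mem_map_equiv, mem_cz, mem_cz]
    simp only [MulAut.conj_symm_apply]
    constructor
    · intro h
      calc g⁻¹ * y * g * x = g⁻¹ * (y * (g * x * g⁻¹)) * g := by group
        _ = g⁻¹ * ((g * x * g⁻¹) * y) * g := by rw [h]
        _ = _ := by group
    · intro h
      calc y * (g * x * g⁻¹) = g * ((g⁻¹ * y * g) * x) * g⁻¹ := by group
        _ = g * (x * (g⁻¹ * y * g)) * g⁻¹ := by rw [h]
        _ = _ := by group
  rw [h1]
  exact Subgroup.index_map_of_bijective (MulAut.conj g).bijective _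

theorem nat_case1 {m n r : ℕ} (hm : 1 < m) (h : r * m = 1 ∨ r * m = m ∨ r * m = m * n) : r = 1 ∨ r = n := by
  rcases h with h | h | h
  · exfalso
    have : m ∣ 1 := ⟨r, by rw [← h]; ring⟩
    have := Nat.le_of_dvd one_pos this
    omega
  · left
    exact Nat.eq_of_mul_eq_mul_right (by omega : 0 < m) (by rw [h, one_mul])
  · right
    exact Nat.eq_of_mul_eq_mul_right (by omega : 0 < m) (by rw [h]; ring)

theorem nat_case2 {m n r : ℕ} (hm : 1 < m) (hn : 1 < n)
    (h : r * (m * n) = 1 ∨ r * (m * n) = m ∨ r * (m * n) = m * n) : r = 1 := by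
  have hmn : 1 < m * n := by nlinarith
  rcases h with h | h | h
  · exfalso
    have : m * n ∣ 1 := ⟨r, by rw [← h]; ring⟩
    have := Nat.le_of_dvd one_pos this
    omega
  · exfalso
    have h4 : (r * n) * m = 1 * m := by
      rw [one_mul]
      calc (r * n) * m = r * (m * n) := by ring
        _ = m := h
    have h5 := Nat.eq_of_mul_eq_mul_right (by omega : 0 < m) h4
    have := Nat.eq_one_of_mul_eq_one_left h5
    omega
  · exact Nat.eq_of_mul_eq_mul_right (by omega : 0 < m * n) (by rw [h, one_mul])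

theorem eq_of_le_of_index_eq [Finite G] {H K : Subgroup G} (hle : H ≤ K) (hi : H.index = K.index) : H = K := by
  have h1 := Subgroup.relIndex_mul_index hle
  rw [hi] at h1
  have h0 : 0 < K.index := Nat.pos_of_ne_zero Subgroup.index_ne_zero_of_finite
  have h2 : H.relIndex K = 1 := Nat.eq_of_mul_eq_mul_right h0 (by rw [h1, one_mul])
  exact le_antisymm hle (Subgroup.relIndex_eq_one.1 h2)

namespace Hyp

variable {m n : ℕ} (h : Hyp G m n)
include h

theorem n_ne_one : n ≠ 1 := h.hn.ne'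

theorem m_pos : 0 < m := by have := h.hm; omega

theorem n_pos : 0 < n := by have := h.hn; omega

/-- The group has noncentral elements of size `m`. -/
theorem index_ne_one_cases {x : G} (hx : x ∉ center G) : (cz x).index = m ∨ (cz x).index = m * n := by
  rcases h.hsz x with h1 | h1
  · exact absurd (index_cz_eq_one_iff.1 h1) hx
  · exact h1

theorem m_dvd_index {x : G} (hx : x ∉ center G) : m ∣ (cz x).index := by
  rcases h.index_ne_one_cases hx with h1 | h1 <;> rw [h1]
  exact dvd_mul_right m n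

theorem not_dvd_n {s : ℕ} (hs : s.Prime) (hsm : s ∣ m) : ¬ s ∣ n := fun hd =>
  hs.one_lt.ne' (Nat.eq_one_of_dvd_coprimes h.hcop hsm hd)

theorem central_of_not_dvd {s : ℕ} (hsm : s ∣ m) {z : G} (hz : ¬ s ∣ (cz z).index) : z ∈ center G := by
  by_contra hc
  exact hz (hsm.trans (h.m_dvd_index hc))

variable [Finite G]

/-- Multiplying by an element of coprime order. -/
theorem index_mul_of_coprime {x y : G} (hy : y ∈ cz x) (hco : (orderOf x).Coprime (orderOf y)) :
    (cz (x * y)).index = (cz y).relIndex (cz x) * (cz x).index := by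
  have hc : Commute x y := (mem_cz.1 hy).symm
  rw [show cz (x * y) = cz x ⊓ cz y from Cfsg.Agent.Lib.Cl.TwoSizes.centralizer_mul_of_coprime hc hco]
  rw [← Subgroup.relIndex_mul_index (inf_le_left : cz x ⊓ cz y ≤ cz x), inf_comm,
    Subgroup.inf_relIndex_right]

theorem rel_cases {x y : G} (hx : x ∉ center G) (hy : y ∈ cz x)
    (hco : (orderOf x).Coprime (orderOf y)) :
    (cz y).relIndex (cz x) = 1 ∨ (cz y).relIndex (cz x) = n := by
  have h1 := h.index_mul_of_coprime hy hco
  have h3 := h.hsz (x * y)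
  rw [h1] at h3
  rcases h.index_ne_one_cases hx with h2 | h2 <;> rw [h2] at h3
  · exact nat_case1 h.hm h3
  · exact Or.inl (nat_case2 h.hm h.hn h3)

/-- `x` of size `mn`: every element of coprime order in `C(x)` is central in `C(x)`. -/
theorem cz_le_of_big {x y : G} (hx : (cz x).index = m * n) (hy : y ∈ cz x)
    (hco : (orderOf x).Coprime (orderOf y)) : cz x ≤ cz y := by
  have h1 := h.index_mul_of_coprime hy hco
  have h3 := h.hsz (x * y)
  rw [h1, hx] at h3
  exact Subgroup.relIndex_eq_one.1 (nat_case2 h.hm h.hn h3)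

theorem not_dvd_rel {s : ℕ} (hs : s.Prime) (hsm : s ∣ m) {x y : G} (hx : x ∉ center G) (hy : y ∈ cz x)
    (hco : (orderOf x).Coprime (orderOf y)) : ¬ s ∣ (cz y).relIndex (cz x) := by
  rcases h.rel_cases hx hy hco with h1 | h1 <;> rw [h1]
  · intro hd
    exact hs.one_lt.ne' (Nat.dvd_one.1 hd)
  · exact h.not_dvd_n hs hsm

/-- Size `m` elements have a primary power with the same centralizer. -/
theorem exists_primary {x : G} (hx : (cz x).index = m) :
    ∃ i r j : ℕ, r.Prime ∧ orderOf (x ^ i) = r ^ j ∧ x ^ i ∉ center G ∧ cz (x ^ i) = cz x ∧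
      (cz (x ^ i)).index = m := by
  have hxc : x ∉ center G := by
    intro hc
    have := index_cz_eq_one_iff.2 hc
    have := h.hm
    omega
  obtain ⟨i, r, j, hr, ho, hi⟩ := Cfsg.Agent.Lib.Cl.TwoSizes.exists_primePow_not_mem (center G) _ x rfl hxc
  have hle := cz_le_cz_pow x i
  have hd : (cz (x ^ i)).index ∣ m := hx ▸ Subgroup.index_dvd_of_le hle
  have hm := h.hm
  have hn := h.hn
  have hidx : (cz (x ^ i)).index = m := by
    rcases h.index_ne_one_cases hi with h1 | h1
    · exact h1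
    · exfalso
      rw [h1] at hd
      have h2 := Nat.le_of_dvd (by omega) hd
      nlinarith
  refine ⟨i, r, j, hr, ho, hi, ?_, hidx⟩
  exact (eq_of_le_of_index_eq hle (hx.trans hidx.symm)).symm

/-- Noncentral elements have centralizers with the same `s`-part, `s ∣ m`. -/
theorem fact_eq {s : ℕ} (hs : s.Prime) (hsm : s ∣ m) {x y : G} (hx : x ∉ center G) (hy : y ∉ center G) :
    (Nat.card (cz x)).factorization s = (Nat.card (cz y)).factorization s := by
  have key : ∀ z : G, z ∉ center G →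
      (Nat.card (cz z)).factorization s + m.factorization s = (Nat.card G).factorization s := by
    intro z hz
    have h1 := Subgroup.card_mul_index (cz z)
    have h0 : (cz z).index ≠ 0 := Subgroup.index_ne_zero_of_finite
    have h00 : Nat.card (cz z) ≠ 0 := Nat.card_pos.ne'
    rw [← h1, Nat.factorization_mul h00 h0, Finsupp.add_apply]
    congr 1
    have hn0 : n.factorization s = 0 := Nat.factorization_eq_zero_of_not_dvd (h.not_dvd_n hs hsm)
    rcases h.index_ne_one_cases hz with h2 | h2 <;> rw [h2]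
    rw [Nat.factorization_mul h.m_pos.ne' h.n_pos.ne', Finsupp.add_apply, hn0, add_zero]
  have h1 := key x hx
  have h2 := key y hy
  omega

theorem exists_noncentral : ∃ x : G, x ∉ center G := by
  obtain ⟨x, hx⟩ := h.hexm
  refine ⟨x, fun hc => ?_⟩
  have := index_cz_eq_one_iff.2 hc
  have := h.hm
  omega

/-- `S₀` Sylow in `C(x)`, `x` noncentral: `S₀` is not central. -/
theorem sylIn_not_central {s : ℕ} [hs : Fact s.Prime] (hsm : s ∣ m) {x : G} (hx : x ∉ center G)
    {S₀ : Subgroup G} (hS : SylIn s S₀ (cz x)) : ¬ S₀ ≤ center G := by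
  intro hSc
  haveI : S₀.Normal := normal_of_le_center hSc
  obtain ⟨S⟩ : Nonempty (Sylow s G) := inferInstance
  have h1 : ¬ (S : Subgroup G) ≤ center G := by
    intro hle
    have h2 : (S : Subgroup G) ≤ cz x := by
      intro g hg
      rw [mem_cz]
      exact (Subgroup.mem_center_iff.1 (hle hg) x).symm
    exact Cfsg.Agent.Lib.PSolv.not_dvd_index_of_sylow_le S h2 (hsm.trans (h.m_dvd_index hx))
  obtain ⟨u, huS, huc⟩ := Set.not_subset.1 h1
  have hup : IsPGroup s (zpowers u) := by
    have := (IsPGroup.iff_orderOf.1 S.2) ⟨u, huS⟩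
    obtain ⟨k, hk⟩ := this
    apply IsPGroup.of_card (n := k)
    rw [Nat.card_zpowers]
    rwa [Subgroup.orderOf_mk] at hk
  have hL : IsPGroup s (S₀ ⊔ zpowers u : Subgroup G) := IsPGroup.to_sup_of_normal_left hS.2.1 hup
  have hLu : (S₀ ⊔ zpowers u : Subgroup G) ≤ cz u := by
    apply sup_le
    · intro g hg
      rw [mem_cz]
      exact (Subgroup.mem_center_iff.1 (hSc hg) u).symm
    · intro g hg
      obtain ⟨k, rfl⟩ := Subgroup.mem_zpowers_iff.1 hg
      rw [mem_cz]
      exact (Commute.zpow_left (Commute.refl u) k).eq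
  obtain ⟨S₁, hS₁, hLS₁⟩ := exists_sylIn_ge hL hLu
  have hc : Nat.card S₁ = Nat.card S₀ := by
    rw [hS₁.card, hS.card, h.fact_eq hs.out hsm huc hx]
  have hS01 : S₀ ≤ S₁ := le_sup_left.trans hLS₁
  have heq := Subgroup.eq_of_le_of_card_ge hS01 hc.le
  have hu1 : u ∈ S₁ := hLS₁ (mem_sup_right (mem_zpowers u))
  rw [← heq] at hu1
  exact huc (hSc hu1)

/-- Primes not dividing `mn` do not divide the order. -/
theorem prime_dvd {t : ℕ} [ht : Fact t.Prime] (hdm : ¬ t ∣ m) (hdn : ¬ t ∣ n) : ¬ t ∣ Nat.card G := by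
  obtain ⟨T⟩ : Nonempty (Sylow t G) := inferInstance
  have hC : centralizer (T : Set G) = ⊤ := by
    by_contra hne
    obtain ⟨x, hx⟩ := Cfsg.Agent.Lib.Derangement.exists_not_mem_conj _ hne
    have h1 : ¬ t ∣ (cz x).index := by
      intro hd
      rcases h.hsz x with h2 | h2 | h2 <;> rw [h2] at hd
      · exact ht.out.one_lt.ne' (Nat.dvd_one.1 hd)
      · exact hdm hd
      · rcases (Nat.Prime.dvd_mul ht.out).1 hd with h3 | h3
        · exact hdm h3
        · exact hdn h3
    obtain ⟨Q, hQ⟩ := Cfsg.Agent.Lib.PSolv.exists_sylow_le_of_not_dvd_index h1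
    obtain ⟨k, hk⟩ := MulAction.exists_smul_eq G T Q
    apply hx k
    rw [Subgroup.mem_centralizer_iff]
    intro u hu
    have h4 : MulAut.conj k • u ∈ MulAut.conj k • (T : Subgroup G) :=
      Subgroup.smul_mem_pointwise_smul _ _ _ hu
    have h5 : (MulAut.conj k • (T : Subgroup G) : Subgroup G) = (Q : Subgroup G) := by
      rw [← hk]; rfl
    rw [h5] at h4
    have h7 := mem_cz.1 (hQ h4)
    have h8 : k * u * k⁻¹ * x = x * (k * u * k⁻¹) := h7
    calc u * (k⁻¹ * x * k) = k⁻¹ * ((k * u * k⁻¹) * x) * k := by group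
      _ = k⁻¹ * (x * (k * u * k⁻¹)) * k := by rw [h8]
      _ = _ := by group
  have hTc : (T : Subgroup G) ≤ center G := by
    intro u hu
    rw [Subgroup.mem_center_iff]
    intro g
    have := (Subgroup.mem_centralizer_iff.1 (hC ▸ mem_top g : g ∈ centralizer (T : Set G))) u hu
    exact this.symm
  have hbot := eq_bot_of_central h.hnodf T hTc T.card_coprime_index
  intro hd
  apply T.not_dvd_index
  have h1 := Subgroup.card_mul_index (T : Subgroup G)
  rw [hbot, Subgroup.card_bot, one_mul] at h1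
  rw [hbot] at *
  rwa [h1]

/-- **Lemma F**: an element of order prime to `s ∣ m` centralizes all normal `s`-subgroups. -/
theorem lemmaF {s : ℕ} [hs : Fact s.Prime] (hsm : s ∣ m) {a : G} (ha : (orderOf a).Coprime s)
    (U : Subgroup G) [U.Normal] (hU : IsPGroup s U) : ∀ u ∈ U, u * a = a * u := by
  by_cases hac : a ∈ center G
  · intro u _
    exact Subgroup.mem_center_iff.1 hac u
  obtain ⟨S₀, hS₀⟩ := exists_sylIn (p := s) (cz a)
  have hex : ∃ c ∈ S₀, (∀ y ∈ S₀, y * c = c * y) ∧ c ∉ center G := by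
    by_contra hcon
    push Not at hcon
    apply h.sylIn_not_central hsm hac hS₀
    intro y hy
    have hyord : ∃ k, orderOf y = s ^ k := by
      obtain ⟨k, hk⟩ := (IsPGroup.iff_orderOf.1 hS₀.2.1) ⟨y, hy⟩
      exact ⟨k, by rwa [Subgroup.orderOf_mk] at hk⟩
    obtain ⟨f, hf⟩ := hyord
    have hco : (orderOf a).Coprime (orderOf y) := by
      rw [hf]
      exact Nat.Coprime.pow_right _ ha
    have hd := h.not_dvd_rel hs.out hsm hac (hS₀.1 hy) hco
    obtain ⟨S₁, hS₁, hS₁y⟩ := exists_sylIn_le_of_not_dvd hd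
    have hyS₁ : y ∈ S₁ := hS₁.mem_of_comm (hS₀.1 hy) ⟨f, hf⟩ (fun x hx => mem_cz.1 (hS₁y hx))
    obtain ⟨k, hk, hkk⟩ := sylIn_conj hS₁ hS₀
    have h1 : k * y * k⁻¹ ∈ S₀ := (hkk y).1 hyS₁
    have h2 : k * y * k⁻¹ ∈ center G := by
      apply hcon _ h1
      intro w hw
      have h3 : k⁻¹ * w * k ∈ S₁ := by
        rw [hkk]
        have : k * (k⁻¹ * w * k) * k⁻¹ = w := by group
        rwa [this]
      have h4 := mem_cz.1 (hS₁y h3)
      calc w * (k * y * k⁻¹) = k * ((k⁻¹ * w * k) * y) * k⁻¹ := by group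
        _ = k * (y * (k⁻¹ * w * k)) * k⁻¹ := by rw [h4]
        _ = _ := by group
    have h5 : k⁻¹ * (k * y * k⁻¹) * k = y := by group
    rw [← h5]
    have h6 : (center G).Normal := inferInstance
    have := h6.conj_mem _ h2 k⁻¹
    simpa using this
  obtain ⟨c, hcS, hcZ, hcc⟩ := hex
  have hS₀c : SylIn s S₀ (cz c) := by
    apply sylIn_of_card
    · intro y hy
      rw [mem_cz]
      exact hcZ y hy
    · exact hS₀.2.1
    · rw [hS₀.card, h.fact_eq hs.out hsm hac hcc]
  have hcp : ∃ k, orderOf c = s ^ k := by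
    obtain ⟨k, hk⟩ := (IsPGroup.iff_orderOf.1 hS₀.2.1) ⟨c, hcS⟩
    exact ⟨k, by rwa [Subgroup.orderOf_mk] at hk⟩
  have hac' : a * c = c * a := mem_cz'.1 (hS₀.1 hcS)
  refine engel_trick hU hcp hac' ha ?_
  intro u hu huc
  have hW : U ⊓ cz c ≤ S₀ := by
    apply hS₀c.normal_le inf_le_right (hU.to_le inf_le_left)
    intro k hk w hw
    refine Subgroup.mem_inf.2 ⟨(inferInstance : U.Normal).conj_mem _ (Subgroup.mem_inf.1 hw).1 k, ?_⟩
    apply mem_cz.2
    rw [mem_cz] at hk
    have h2 := mem_cz.1 (Subgroup.mem_inf.1 hw).2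
    calc k * w * k⁻¹ * c = k * w * (k⁻¹ * c) := by group
      _ = k * w * (c * k⁻¹) := by
        rw [show k⁻¹ * c = c * k⁻¹ from by
          have := (Commute.inv_left (show Commute k c from hk)).eq
          exact this]
      _ = k * (w * c) * k⁻¹ := by group
      _ = k * (c * w) * k⁻¹ := by rw [h2]
      _ = (k * c) * w * k⁻¹ := by group
      _ = (c * k) * w * k⁻¹ := by rw [hk]
      _ = _ := by group
  have h3 := hS₀.1 (hW ⟨hu, mem_cz.2 huc⟩)
  exact mem_cz.1 h3

theorem solvable : Group.IsSolvable G := by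
  have hm := h.hm
  have hn := h.hn
  exact Cfsg.Agent.S3922.result (m * n) m (by nlinarith) h.hm (fun x => h.hsz x) h.hexn h.hexm

end Hyp

/-- The centre of the Fitting subgroup. -/
def Zf (G : Type*) [Group G] : Subgroup G :=
  Cfsg.fittingSubgroup G ⊓ centralizer (Cfsg.fittingSubgroup G : Set G)

instance : (Zf G).Normal := by
  unfold Zf
  haveI : (Cfsg.fittingSubgroup G).Normal := Cfsg.Agent.Lib.Core.fittingSubgroup_normal G
  infer_instance

theorem Zf_comm {x y : G} (hx : x ∈ Zf G) (hy : y ∈ Zf G) : x * y = y * x :=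
  (Subgroup.mem_centralizer_iff.1 (Subgroup.mem_inf.1 hy).2) x (Subgroup.mem_inf.1 hx).1

/-- The `N`-torsion of `Zf G`. -/
def Zt (G : Type*) [Group G] (N : ℕ) : Subgroup G where
  carrier := {w | w ∈ Zf G ∧ w ^ N = 1}
  mul_mem' := by
    rintro a b ⟨ha, ha'⟩ ⟨hb, hb'⟩
    refine ⟨(Zf G).mul_mem ha hb, ?_⟩
    rw [(show Commute a b from Zf_comm ha hb).mul_pow, ha', hb', one_mul]
  one_mem' := ⟨(Zf G).one_mem, one_pow _⟩
  inv_mem' := by
    rintro a ⟨ha, ha'⟩
    exact ⟨(Zf G).inv_mem ha, by rw [inv_pow, ha', inv_one]⟩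

theorem mem_Zt {N : ℕ} {w : G} : w ∈ Zt G N ↔ w ∈ Zf G ∧ w ^ N = 1 := Iff.rfl

instance (N : ℕ) : (Zt G N).Normal := ⟨fun a ha g => by
  obtain ⟨h1, h2⟩ := mem_Zt.1 ha
  refine mem_Zt.2 ⟨(inferInstance : (Zf G).Normal).conj_mem _ h1 g, ?_⟩
  rw [conj_pow, h2]
  group⟩

namespace Hyp

variable {m n : ℕ} (h : Hyp G m n) [Finite G]
include h

/-- **F2**. -/
theorem mem_Zf {z : G} (hco : (orderOf z).Coprime m) (hsz : (cz z).index ∣ m) : z ∈ Zf G := by
  haveI := h.solvable
  have h1 : ∀ p : Nat.Primes, pCore (p : ℕ) G ≤ cz z := by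
    rintro ⟨p, hp⟩
    haveI : Fact p.Prime := ⟨hp⟩
    by_cases hpm : p ∣ m
    · intro u hu
      rw [mem_cz]
      haveI : (pCore p G).Normal := pCore_normal p G
      exact h.lemmaF hpm (Nat.Coprime.coprime_dvd_right hpm hco) _ (pCore_isPGroup p G) u hu
    · have h2 : ¬ p ∣ (cz z).index := fun hd => hpm (hd.trans hsz)
      obtain ⟨Q, hQ⟩ := Cfsg.Agent.Lib.PSolv.exists_sylow_le_of_not_dvd_index h2
      exact (pCore_le_sylow Q).trans hQ
  have h2 : Cfsg.fittingSubgroup G ≤ cz z := by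
    rw [fittingSubgroup_eq_iSup_pCore]
    exact iSup_le h1
  have h3 : z ∈ centralizer (Cfsg.fittingSubgroup G : Set G) := by
    rw [Subgroup.mem_centralizer_iff]
    intro g hg
    exact mem_cz.1 (h2 hg)
  exact Subgroup.mem_inf.2 ⟨Cfsg.Agent.Lib.Geo.centralizer_fitting_le_of_solvable h3, h3⟩

end Hyp

end Cfsg.Agent.Lib.ClassSizes.CMN
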