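import Mathlib

/-! Decomposition of a representation by the characters of a normal abelian subgroup. -/

set_option autoImplicit false

namespace Cfsg.Agent.Lib.ClassSizes.CharDecomp

open scoped BigOperators Pointwise commutatorElement

variable {S : Type*} [Group S] {K : Type*} [Field K] {V : Type*} [AddCommGroup V] [Module K V]

section chars

variable (A : Subgroup S) [A.Normal]

/-- conjugation action on characters -/
def cact (g : S) (χ : A →* Kˣ) : A →* Kˣ :=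
  χ.comp (MulAut.conjNormal g⁻¹ : MulAut A).toMonoidHom

theorem cact_apply (g : S) (χ : A →* Kˣ) (x : A) :
    cact A g χ x = χ (MulAut.conjNormal g⁻¹ x) := rfl

theorem cact_one (χ : A →* Kˣ) : cact A 1 χ = χ := by
  ext x
  simp [cact_apply]

theorem cact_mul (g h : S) (χ : A →* Kˣ) : cact A (g * h) χ = cact A g (cact A h χ) := by
  ext x
  simp [cact_apply]

theorem cact_inv_cact (g : S) (χ : A →* Kˣ) : cact A g⁻¹ (cact A g χ) = χ := by
  rw [← cact_mul, inv_mul_cancel, cact_one]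

theorem cact_cact_inv (g : S) (χ : A →* Kˣ) : cact A g (cact A g⁻¹ χ) = χ := by
  rw [← cact_mul, mul_inv_cancel, cact_one]

variable {A}
variable (ρ : S →* (V →ₗ[K] V))

theorem act (g h : S) (m : V) : ρ (g * h) m = ρ g (ρ h m) := by
  rw [map_mul]
  rfl

theorem act_one (m : V) : ρ 1 m = m := by
  rw [map_one]
  rfl

theorem act_inv (g : S) (m : V) : ρ g⁻¹ (ρ g m) = m := by
  rw [← act, inv_mul_cancel, act_one]

theorem act_inv' (g : S) (m : V) : ρ g (ρ g⁻¹ m) = m := by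
  rw [← act, mul_inv_cancel, act_one]

/-- eigenspaces of the normal subgroup -/
def Vc (χ : A →* Kˣ) : Submodule K V where
  carrier := {w | ∀ x : A, ρ x w = ((χ x : Kˣ) : K) • w}
  add_mem' := by
    intro a b ha hb x
    rw [map_add, ha x, hb x, smul_add]
  zero_mem' := by
    intro x
    simp
  smul_mem' := by
    intro c w hw x
    rw [map_smul, hw x, smul_comm]

theorem mem_Vc {χ : A →* Kˣ} {w : V} : w ∈ Vc ρ χ ↔ ∀ x : A, ρ x w = ((χ x : Kˣ) : K) • w := Iff.rfl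

theorem map_mem_Vc (g : S) {χ : A →* Kˣ} {w : V} (hw : w ∈ Vc ρ χ) :
    ρ g w ∈ Vc ρ (cact A g χ) := by
  intro x
  have h1 : (x : S) * g = g * (MulAut.conjNormal g⁻¹ x : A) := by
    rw [MulAut.conjNormal_apply]
    group
  rw [← act, h1, act, hw, map_smul]
  rfl

section sums

variable [Fintype A]

/-- the projection to an eigenspace -/
noncomputable def ee (χ : A →* Kˣ) : V →ₗ[K] V :=
  ((Fintype.card A : K)⁻¹) • ∑ x : A, (((χ x⁻¹ : Kˣ) : K)) • ρ x

theorem ee_apply (χ : A →* Kˣ) (w : V) :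
    ee ρ χ w = ((Fintype.card A : K)⁻¹) • ∑ x : A, ((χ x⁻¹ : Kˣ) : K) • ρ x w := by
  simp [ee, LinearMap.sum_apply]

theorem ee_mem (χ : A →* Kˣ) (w : V) : ee ρ χ w ∈ Vc ρ χ := by
  intro y
  rw [ee_apply, map_smul, map_sum]
  rw [smul_comm]
  congr 1
  rw [Finset.smul_sum]
  rw [← Equiv.sum_comp (Equiv.mulLeft y⁻¹)]
  apply Finset.sum_congr rfl
  intro x _
  simp only [Equiv.coe_mulLeft, map_smul]
  rw [← act, smul_smul]
  have h1 : (y : S) * ((y⁻¹ * x : A) : S) = x := by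
    push_cast
    group
  rw [h1]
  congr 1
  have h2 : (y⁻¹ * x)⁻¹ = x⁻¹ * y := by group
  rw [h2, map_mul, Units.val_mul, mul_comm]

theorem ee_aux {χ χ' : A →* Kˣ} {w : V} (hw : w ∈ Vc ρ χ') :
    ee ρ χ w = ((Fintype.card A : K)⁻¹) • (∑ x : A, ((((χ' * χ⁻¹) x : Kˣ) : K))) • w := by
  rw [ee_apply]
  have h1 : ∀ x : A, ((χ x⁻¹ : Kˣ) : K) • ρ x w = ((((χ' * χ⁻¹) x : Kˣ) : K)) • w := by
    intro x
    rw [hw x, smul_smul, mul_comm]
    simp
  simp_rw [h1]
  rw [← Finset.sum_smul]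

theorem ee_self (hA : (Fintype.card A : K) ≠ 0) {χ : A →* Kˣ} {w : V} (hw : w ∈ Vc ρ χ) :
    ee ρ χ w = w := by
  rw [ee_aux ρ hw]
  have h3 : ∀ x, (((χ * χ⁻¹) x : Kˣ) : K) = 1 := by
    intro x
    simp
  simp_rw [h3]
  rw [Finset.sum_const, Finset.card_univ, smul_smul, nsmul_eq_mul, mul_one, inv_mul_cancel₀ hA,
    one_smul]

theorem ee_ne {χ χ' : A →* Kˣ} (h : χ ≠ χ') {w : V} (hw : w ∈ Vc ρ χ') : ee ρ χ w = 0 := by
  rw [ee_aux ρ hw]
  let ψ : A →* K := (Units.coeHom K).comp (χ' * χ⁻¹)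
  have h3 : ψ ≠ 1 := by
    intro h4
    apply h
    ext x
    have h5 := congrArg (fun f : A →* K => f x) h4
    simp only [ψ, MonoidHom.comp_apply, MonoidHom.one_apply] at h5
    have h6 : (χ' * χ⁻¹) x = 1 := Units.ext h5
    rw [MonoidHom.mul_apply, MonoidHom.inv_apply, mul_inv_eq_one] at h6
    rw [h6]
  have h7 := sum_hom_units_eq_zero ψ h3
  have h8 : ∑ x : A, ((((χ' * χ⁻¹) x : Kˣ) : K)) = 0 := h7
  rw [h8, zero_smul, smul_zero]

theorem sum_chars [Fintype (A →* Kˣ)] (hcard : Nat.card (A →* Kˣ) = Nat.card A)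
    (hsep : ∀ a : A, a ≠ 1 → ∃ χ : A →* Kˣ, χ a ≠ 1) (a : A) [Decidable (a = 1)] :
    ∑ χ : A →* Kˣ, ((χ a : Kˣ) : K) = if a = 1 then (Fintype.card A : K) else 0 := by
  split_ifs with h
  · subst h
    simp only [map_one, Units.val_one, Finset.sum_const, Finset.card_univ, nsmul_eq_mul, mul_one]
    rw [← Nat.card_eq_fintype_card, hcard, Nat.card_eq_fintype_card]
  · obtain ⟨φ, hφ⟩ := hsep a h
    have h1 : ∑ χ : A →* Kˣ, ((χ a : Kˣ) : K) = ((φ a : Kˣ) : K) * ∑ χ : A →* Kˣ, ((χ a : Kˣ) : K) := by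
      rw [Finset.mul_sum]
      rw [← Equiv.sum_comp (Equiv.mulLeft φ)]
      apply Finset.sum_congr rfl
      intro χ _
      simp
    have h2 : (1 - ((φ a : Kˣ) : K)) * ∑ χ : A →* Kˣ, ((χ a : Kˣ) : K) = 0 := by
      rw [sub_mul, one_mul, ← h1, sub_self]
    rcases mul_eq_zero.mp h2 with h3 | h3
    · exfalso
      apply hφ
      apply Units.ext
      rw [Units.val_one]
      exact (sub_eq_zero.mp h3).symm
    · exact h3

theorem ee_sum [Fintype (A →* Kˣ)] (hA : (Fintype.card A : K) ≠ 0)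
    (hcard : Nat.card (A →* Kˣ) = Nat.card A)
    (hsep : ∀ a : A, a ≠ 1 → ∃ χ : A →* Kˣ, χ a ≠ 1) (w : V) :
    ∑ χ : A →* Kˣ, ee ρ χ w = w := by
  classical
  simp_rw [ee_apply]
  rw [← Finset.smul_sum]
  rw [Finset.sum_comm]
  simp_rw [← Finset.sum_smul]
  have h1 : ∀ x : A, (∑ χ : A →* Kˣ, ((χ x⁻¹ : Kˣ) : K)) = if x = 1 then (Fintype.card A : K) else 0 := by
    intro x
    rw [sum_chars hcard hsep x⁻¹]
    simp
  simp_rw [h1]
  rw [Finset.sum_eq_single (1 : A)]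
  · rw [if_pos rfl, smul_smul, inv_mul_cancel₀ hA, one_smul]
    simp [act_one]
  · intro x _ hx
    rw [if_neg hx, zero_smul]
  · intro h
    exact absurd (Finset.mem_univ _) h

theorem ee_equiv (g : S) (χ : A →* Kˣ) (w : V) :
    ρ g (ee ρ χ w) = ee ρ (cact A g χ) (ρ g w) := by
  rw [ee_apply, ee_apply, map_smul, map_sum]
  congr 1
  apply Fintype.sum_equiv (MulAut.conjNormal g : MulAut A).toEquiv
  intro x
  rw [map_smul, cact_apply]
  have h1 : (MulAut.conjNormal g⁻¹) ((MulAut.conjNormal g : MulAut A).toEquiv x)⁻¹ = x⁻¹ := by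
    apply Subtype.ext
    simp
  rw [h1, ← act, ← act]
  congr 2
  simp [MulAut.conjNormal_apply]

end sums

end chars

section sylow

variable {G : Type*} [Group G] {p : ℕ} [Fact p.Prime]

theorem mem_smul_syl (g : G) (P : Sylow p G) (x : G) : x ∈ g • P ↔ g⁻¹ * x * g ∈ P := by
  change x ∈ ((g • P : Sylow p G) : Subgroup G) ↔ _
  rw [Sylow.coe_subgroup_smul, Subgroup.mem_pointwise_smul_iff_inv_smul_mem]
  simp [MulAut.smul_def]
  rfl

end sylow

section fixed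

variable (ρ : S →* (V →ₗ[K] V))

/-- the fixed vectors of a subgroup -/
def fixS (Y : Subgroup S) : Submodule K V where
  carrier := {w | ∀ s ∈ Y, ρ s w = w}
  add_mem' := by
    intro a b ha hb s hs
    rw [map_add, ha s hs, hb s hs]
  zero_mem' := fun s _ => map_zero _
  smul_mem' := by
    intro c w hw s hs
    rw [map_smul, hw s hs]

theorem mem_fixS {Y : Subgroup S} {w : V} : w ∈ fixS ρ Y ↔ ∀ s ∈ Y, ρ s w = w := Iff.rfl

/-- A two-group has non-zero fixed vectors on each non-zero invariant subspace in characteristic two. -/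
theorem fix2 [Finite V] [CharP K 2] (Y : Subgroup S) (hY : IsPGroup 2 Y) (U : Submodule K V)
    (hU : ∀ s ∈ Y, ∀ w ∈ U, ρ s w ∈ U) (hne : U ≠ ⊥) : ∃ u ∈ U, u ≠ 0 ∧ ∀ s ∈ Y, ρ s u = u := by
  classical
  letI act' : MulAction Y U :=
    { smul := fun s u => ⟨ρ s u, hU s s.2 u u.2⟩
      one_smul := fun u => Subtype.ext (act_one ρ _)
      mul_smul := fun a b u => Subtype.ext (act ρ _ _ _) }
  have hdvd : 2 ∣ Nat.card U := by
    obtain ⟨u, hu, hu0⟩ := Submodule.exists_mem_ne_zero_of_ne_bot hne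
    have h1 : addOrderOf (⟨u, hu⟩ : U) = 2 := by
      apply addOrderOf_eq_prime
      · apply Subtype.ext
        change 2 • u = 0
        rw [two_nsmul, ← two_smul K u]
        have h2 : (2 : K) = 0 := CharTwo.two_eq_zero
        rw [h2, zero_smul]
      · intro h
        exact hu0 (congrArg Subtype.val h)
    rw [← h1]
    exact addOrderOf_dvd_natCard _
  have h0 : (0 : U) ∈ MulAction.fixedPoints Y U := fun s => Subtype.ext (map_zero _)
  obtain ⟨b, hb, hne'⟩ := hY.exists_fixed_point_of_prime_dvd_card_of_fixed_point U hdvd h0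
  refine ⟨b, b.2, ?_, ?_⟩
  · intro h
    apply hne'
    apply Subtype.ext
    rw [h]
    rfl
  · intro s hs
    exact congrArg Subtype.val (hb ⟨s, hs⟩)

end fixed

section main

variable [Finite S] {A : Subgroup S} [A.Normal]

/-- the stabilizer of a character in a subgroup -/
def stabC (H : Subgroup S) (χ : A →* Kˣ) : Subgroup S where
  carrier := {h | h ∈ H ∧ cact A h χ = χ}
  one_mem' := ⟨H.one_mem, cact_one A χ⟩
  mul_mem' := by
    rintro a b ⟨h1, h2⟩ ⟨h3, h4⟩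
    exact ⟨H.mul_mem h1 h3, by rw [cact_mul, h4, h2]⟩
  inv_mem' := by
    rintro a ⟨h1, h2⟩
    refine ⟨H.inv_mem h1, ?_⟩
    nth_rw 1 [← h2]
    exact cact_inv_cact A a χ

variable (ρ : S →* (V →ₗ[K] V))

/-- non-trivial eigenspaces -/
def Om (χ : A →* Kˣ) : Prop := ∃ w : V, w ≠ 0 ∧ w ∈ Vc ρ χ

theorem Om_cact {χ : A →* Kˣ} (h : Om ρ χ) (g : S) : Om ρ (cact A g χ) := by
  obtain ⟨w, hw, hw'⟩ := h
  refine ⟨ρ g w, ?_, map_mem_Vc ρ g hw'⟩
  intro h1
  apply hw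
  rw [← act_inv ρ g w, h1, map_zero]

theorem not_Om_one (hA0 : ∀ w : V, (∀ x : A, ρ x w = w) → w = 0) : ¬ Om ρ (1 : A →* Kˣ) := by
  rintro ⟨w, hw, hw'⟩
  apply hw
  apply hA0
  intro x
  rw [hw' x]
  simp

/-- characters are moved by non-identity elements of `Q` -/
theorem moved (hA0 : ∀ w : V, (∀ x : A, ρ x w = w) → w = 0) {Q : Subgroup S} {q : ℕ} [Fact q.Prime]
    (hQ : Nat.card Q = q) (hcomm : ⁅A, Q⁆ = A) {χ : A →* Kˣ} (hχ : Om ρ χ) {y : S} (hy : y ∈ Q)
    (hy1 : y ≠ 1) : cact A y χ ≠ χ := by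
  intro h
  have hQfix : ∀ z ∈ Q, cact A z χ = χ := by
    have h1 : Q ≤ stabC (⊤ : Subgroup S) χ := by
      have h2 : Q = Subgroup.zpowers y := by
        have h3 : Subgroup.zpowers y ≤ Q := (Subgroup.zpowers_le).mpr hy
        refine (Subgroup.eq_of_le_of_card_ge h3 ?_).symm
        rw [hQ, Nat.card_zpowers]
        have h4 : orderOf y ∣ q := by
          have h5 := Subgroup.orderOf_dvd_natCard Q hy
          rwa [hQ] at h5
        rcases (Nat.dvd_prime (Fact.out : q.Prime)).mp h4 with h5 | h5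
        · exact absurd (orderOf_eq_one_iff.mp h5) hy1
        · rw [h5]
      rw [h2, Subgroup.zpowers_le]
      exact ⟨trivial, h⟩
    intro z hz
    exact (h1 hz).2
  apply not_Om_one ρ hA0
  have hχ1 : χ = 1 := by
    have h1 : A ≤ (χ.ker).map A.subtype := by
      refine hcomm.symm.le.trans ?_
      rw [Subgroup.commutator_le]
      intro a ha z hz
      let a' : A := ⟨a, ha⟩
      have h2 : χ (MulAut.conjNormal z a') = χ a' := by
        have h3 := hQfix z⁻¹ (Q.inv_mem hz)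
        have h4 := congrArg (fun f : A →* Kˣ => f a') h3
        simp only [cact_apply, inv_inv] at h4
        exact h4
      refine ⟨a' * (MulAut.conjNormal z a')⁻¹, ?_, ?_⟩
      · rw [SetLike.mem_coe, MonoidHom.mem_ker, map_mul, map_inv, h2, mul_inv_cancel]
      · simp [commutatorElement_def, a', mul_assoc]
    ext x
    obtain ⟨b, hb, hbx⟩ := h1 x.2
    have h2 : b = x := Subtype.ext hbx
    rw [← h2]
    rw [SetLike.mem_coe, MonoidHom.mem_ker] at hb
    rw [hb]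
    simp
  rw [← hχ1]
  exact hχ

theorem stab_two (hA0 : ∀ w : V, (∀ x : A, ρ x w = w) → w = 0) {Y Q H : Subgroup S}
    (hY : IsPGroup 2 Y) {q : ℕ} [Fact q.Prime] (hq2 : q ≠ 2) (hQ : Nat.card Q = q)
    (hQH : Q ≤ H) (hH : Nat.card ↥H = Nat.card Y * Nat.card Q) (hcomm : ⁅A, Q⁆ = A)
    {χ : A →* Kˣ} (hχ : Om ρ χ) : IsPGroup 2 (stabC H χ) := by
  classical
  obtain ⟨a, ha⟩ := IsPGroup.iff_card.mp hY
  have hqp : q.Prime := Fact.out
  have hqnd : ¬ q ∣ 2 ^ a := fun h => hq2 ((Nat.prime_dvd_prime_iff_eq hqp Nat.prime_two).mp (hqp.dvd_of_dvd_pow h))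
  have hT : Nat.card (stabC H χ) ∣ Nat.card ↥H :=
    Subgroup.card_dvd_of_le (fun x hx => hx.1)
  have hqT : ¬ q ∣ Nat.card (stabC H χ) := by
    intro hq
    obtain ⟨t, ht⟩ := exists_prime_orderOf_dvd_card' q hq
    obtain ⟨htH, htχ⟩ := t.2
    have htord : orderOf (t : S) = q := by rw [Subgroup.orderOf_coe, ht]
    let t' : H := ⟨t, htH⟩
    have htord' : orderOf t' = q := by
      rw [← htord]
      exact Subgroup.orderOf_mk _ _
    have hcH : Nat.card H = 2 ^ a * q := by rw [hH, ha, hQ]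
    let Z : Subgroup H := Subgroup.zpowers t'
    let Q' : Subgroup H := Q.subgroupOf H
    have hZcard : Nat.card Z = q := by rw [Nat.card_zpowers, htord']
    have hQ'card : Nat.card Q' = q := by
      rw [← hQ]
      exact Nat.card_congr (Subgroup.subgroupOfEquivOfLe hQH).toEquiv
    have hZp : IsPGroup q Z := IsPGroup.of_card (n := 1) (by rw [hZcard, pow_one])
    have hQ'p : IsPGroup q Q' := IsPGroup.of_card (n := 1) (by rw [hQ'card, pow_one])
    have hidx : ∀ U : Subgroup H, Nat.card U = q → ¬ q ∣ U.index := by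
      intro U hU
      have h1 := U.card_mul_index
      rw [hU, hcH, mul_comm] at h1
      have h2 : U.index = 2 ^ a := Nat.eq_of_mul_eq_mul_right hqp.pos h1
      rw [h2]
      exact hqnd
    let P₁ : Sylow q H := hZp.toSylow (hidx Z hZcard)
    let P₂ : Sylow q H := hQ'p.toSylow (hidx Q' hQ'card)
    obtain ⟨h, hh⟩ := MulAction.exists_smul_eq H P₁ P₂
    have hmem : h * t' * h⁻¹ ∈ Q' := by
      have h1 : h * t' * h⁻¹ ∈ P₂ := by
        rw [← hh, mem_smul_syl]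
        have h2 : h⁻¹ * (h * t' * h⁻¹) * h = t' := by group
        rw [h2]
        exact Subgroup.mem_zpowers t'
      exact h1
    have hy : ((h * t' * h⁻¹ : H) : S) ∈ Q := hmem
    have hy1 : ((h * t' * h⁻¹ : H) : S) ≠ 1 := by
      intro h1
      have h2 : h * t' * h⁻¹ = 1 := Subtype.ext h1
      have h3 : t' = 1 := by
        have h4 : t' = h⁻¹ * (h * t' * h⁻¹) * h := by group
        rw [h4, h2]
        group
      rw [h3, orderOf_one] at htord'
      exact hqp.one_lt.ne htord'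
    refine moved ρ hA0 hQ hcomm (Om_cact ρ hχ (h : S)) hy hy1 ?_
    have h4 : ((h * t' * h⁻¹ : H) : S) = (h : S) * t * (h : S)⁻¹ := rfl
    rw [h4, cact_mul, cact_mul, cact_inv_cact, htχ]
  have hcop : Nat.Coprime q (Nat.card (stabC H χ)) := (Nat.Prime.coprime_iff_not_dvd hqp).mpr hqT
  rw [hH, ha, hQ] at hT
  have h5 : Nat.card (stabC H χ) ∣ 2 ^ a := (hcop.symm).dvd_of_dvd_mul_right hT
  obtain ⟨k, -, hk⟩ := (Nat.dvd_prime_pow Nat.prime_two).mp h5
  exact IsPGroup.of_card hk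

/-- existence of a character whose stabilizer lies in the given Sylow subgroup -/
theorem exists_good_char (hA0 : ∀ w : V, (∀ x : A, ρ x w = w) → w = 0) {Y Q H : Subgroup S}
    (hY : IsPGroup 2 Y) {q : ℕ} [Fact q.Prime] (hq2 : q ≠ 2) (hQ : Nat.card Q = q)
    (hYH : Y ≤ H) (hQH : Q ≤ H) (hH : Nat.card ↥H = Nat.card Y * Nat.card Q) (hcomm : ⁅A, Q⁆ = A)
    {χ₀ : A →* Kˣ} (hχ₀ : Om ρ χ₀) :
    ∃ χ₁ : A →* Kˣ, Om ρ χ₁ ∧ ∀ k ∈ H, cact A k χ₁ = χ₁ → k ∈ Y := by
  classical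
  have hT := stab_two ρ hA0 hY hq2 hQ hQH hH hcomm hχ₀
  let Y' : Subgroup H := Y.subgroupOf H
  let T' : Subgroup H := (stabC H χ₀).subgroupOf H
  have hY' : IsPGroup 2 Y' := hY.comap_of_injective H.subtype H.subtype_injective
  have hT' : IsPGroup 2 T' := hT.comap_of_injective H.subtype H.subtype_injective
  have hqp : q.Prime := Fact.out
  have hY'card : Nat.card Y' = Nat.card Y := Nat.card_congr (Subgroup.subgroupOfEquivOfLe hYH).toEquiv
  have hidx : Y'.index = q := by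
    have h1 := Y'.card_mul_index
    rw [hY'card, hH, hQ] at h1
    exact Nat.eq_of_mul_eq_mul_left Nat.card_pos h1
  have hnd : ¬ 2 ∣ Y'.index := by
    rw [hidx]
    intro h
    exact hq2 ((Nat.prime_dvd_prime_iff_eq Nat.prime_two hqp).mp h).symm
  let P₀ : Sylow 2 H := hY'.toSylow hnd
  obtain ⟨P, hP⟩ := hT'.exists_le_sylow
  obtain ⟨h, rfl⟩ := MulAction.exists_smul_eq H P₀ P
  refine ⟨cact A ((h : S)⁻¹) χ₀, Om_cact ρ hχ₀ _, ?_⟩
  intro k hk hfix
  have h1 : (h * ⟨k, hk⟩ * h⁻¹ : H) ∈ T' := by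
    rw [Subgroup.mem_subgroupOf]
    refine ⟨((h * ⟨k, hk⟩ * h⁻¹ : H)).2, ?_⟩
    change cact A ((h : S) * k * (h : S)⁻¹) χ₀ = χ₀
    have h3 := congrArg (cact A (h : S)) hfix
    rw [cact_cact_inv, ← cact_mul, ← cact_mul] at h3
    exact h3
  have h2 : (h * ⟨k, hk⟩ * h⁻¹ : H) ∈ h • P₀ := hP h1
  rw [mem_smul_syl] at h2
  have h3 : h⁻¹ * (h * ⟨k, hk⟩ * h⁻¹) * h = ⟨k, hk⟩ := by group
  rw [h3] at h2
  exact h2

/-- orbits on characters -/
def orb (Y : Subgroup S) (χ : A →* Kˣ) : Set (A →* Kˣ) := {χ' | ∃ s ∈ Y, χ' = cact A s χ}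

theorem orb_self (Y : Subgroup S) (χ : A →* Kˣ) : χ ∈ orb Y χ := ⟨1, Y.one_mem, (cact_one A χ).symm⟩

theorem orb_of_cact {Y : Subgroup S} {χ χ' : A →* Kˣ} {s : S} (hs : s ∈ Y) (h : cact A s χ' ∈ orb Y χ) :
    χ' ∈ orb Y χ := by
  obtain ⟨t, ht, h1⟩ := h
  refine ⟨s⁻¹ * t, Y.mul_mem (Y.inv_mem hs) ht, ?_⟩
  rw [cact_mul, ← h1, cact_inv_cact]

variable [Fintype A]

/-- vectors supported on a given orbit of characters -/
def WW (Y : Subgroup S) (χ : A →* Kˣ) : Submodule K V where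
  carrier := {w | ∀ χ', χ' ∉ orb Y χ → ee ρ χ' w = 0}
  add_mem' := by
    intro a b ha hb χ' h
    rw [map_add, ha χ' h, hb χ' h, add_zero]
  zero_mem' := fun χ' _ => map_zero _
  smul_mem' := by
    intro c w hw χ' h
    rw [map_smul, hw χ' h, smul_zero]

theorem WW_inv {Y : Subgroup S} {χ : A →* Kˣ} {s : S} (hs : s ∈ Y) {w : V} (hw : w ∈ WW ρ Y χ) :
    ρ s w ∈ WW ρ Y χ := by
  intro χ' h
  have h1 : cact A s⁻¹ χ' ∉ orb Y χ := fun h2 => h (orb_of_cact (Y.inv_mem hs) h2)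
  have h2 := ee_equiv ρ s (cact A s⁻¹ χ') w
  rw [cact_cact_inv, hw _ h1, map_zero] at h2
  exact h2.symm

theorem Vc_le_WW {Y : Subgroup S} {χ : A →* Kˣ} {w : V} (hw : w ∈ Vc ρ χ) : w ∈ WW ρ Y χ := by
  intro χ' h
  apply ee_ne ρ _ hw
  intro h1
  apply h
  rw [h1]
  exact orb_self Y χ

/-- Non-zero fixed vectors -/
theorem exists_fixed_WW [Finite V] [CharP K 2] {Y : Subgroup S} (hY : IsPGroup 2 Y) {χ : A →* Kˣ}
    (hχ : Om ρ χ) : ∃ u ∈ WW ρ Y χ, u ≠ 0 ∧ ∀ s ∈ Y, ρ s u = u := by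
  apply fix2 ρ Y hY
  · intro s hs w hw
    exact WW_inv ρ hs hw
  · obtain ⟨w, hw, hw'⟩ := hχ
    intro h
    have h1 : w ∈ WW ρ Y χ := Vc_le_WW ρ hw'
    rw [h] at h1
    exact hw (by simpa using h1)

theorem supp_all [Fintype (A →* Kˣ)] (hAK : (Fintype.card A : K) ≠ 0)
    (hcard : Nat.card (A →* Kˣ) = Nat.card A)
    (hsep : ∀ a : A, a ≠ 1 → ∃ χ : A →* Kˣ, χ a ≠ 1) {Y : Subgroup S} {χ : A →* Kˣ} {u : V}
    (hu : u ∈ WW ρ Y χ) (hu0 : u ≠ 0) (hfix : ∀ s ∈ Y, ρ s u = u) {χ' : A →* Kˣ} (hχ' : χ' ∈ orb Y χ) :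
    ee ρ χ' u ≠ 0 := by
  classical
  obtain ⟨χ'', h1⟩ : ∃ χ'', ee ρ χ'' u ≠ 0 := by
    by_contra h
    push Not at h
    apply hu0
    rw [← ee_sum ρ hAK hcard hsep u]
    exact Finset.sum_eq_zero (fun χ _ => h χ)
  have h2 : χ'' ∈ orb Y χ := by
    by_contra h3
    exact h1 (hu _ h3)
  obtain ⟨s, hs, rfl⟩ := h2
  obtain ⟨t, ht, rfl⟩ := hχ'
  have h3 : cact A t χ = cact A (t * s⁻¹) (cact A s χ) := by
    rw [cact_mul, cact_inv_cact]
  rw [h3]
  have h4 := ee_equiv ρ (t * s⁻¹) (cact A s χ) u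
  rw [hfix _ (Y.mul_mem ht (Y.inv_mem hs))] at h4
  rw [← h4]
  intro h5
  apply h1
  rw [← act_inv ρ (t * s⁻¹) (ee ρ (cact A s χ) u), h5, map_zero]

theorem finrank_two {C : Submodule K V} [Finite V] {u₁ u₂ : V} (h₁ : u₁ ∈ C) (h₂ : u₂ ∈ C)
    (h : ∀ a b : K, a • u₁ + b • u₂ = 0 → a = 0 ∧ b = 0) : 2 ≤ Module.finrank K C := by
  haveI : Module.Finite K C := Module.Finite.of_finite
  let v : Fin 2 → C := ![⟨u₁, h₁⟩, ⟨u₂, h₂⟩]
  have hv : LinearIndependent K v := by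
    rw [Fintype.linearIndependent_iff]
    intro g hg i
    rw [Fin.sum_univ_two] at hg
    have h3 := congrArg Subtype.val hg
    have h4 := h (g 0) (g 1) (by simpa [v] using h3)
    fin_cases i
    · exact h4.1
    · exact h4.2
  simpa using hv.fintype_card_le_finrank

theorem finrank_three {C : Submodule K V} [Finite V] {u₁ u₂ u₃ : V} (h₁ : u₁ ∈ C) (h₂ : u₂ ∈ C)
    (h₃ : u₃ ∈ C) (h : ∀ a b c : K, a • u₁ + b • u₂ + c • u₃ = 0 → a = 0 ∧ b = 0 ∧ c = 0) :
    3 ≤ Module.finrank K C := by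
  haveI : Module.Finite K C := Module.Finite.of_finite
  let v : Fin 3 → C := ![⟨u₁, h₁⟩, ⟨u₂, h₂⟩, ⟨u₃, h₃⟩]
  have hv : LinearIndependent K v := by
    rw [Fintype.linearIndependent_iff]
    intro g hg i
    rw [Fin.sum_univ_three] at hg
    have h3 := congrArg Subtype.val hg
    have h4 := h (g 0) (g 1) (g 2) (by simpa [v] using h3)
    fin_cases i
    · exact h4.1
    · exact h4.2.1
    · exact h4.2.2
  simpa using hv.fintype_card_le_finrank

/-- The main theorem over a large finite field. -/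
theorem K_main [Finite V] [CharP K 2] [Fintype (A →* Kˣ)] [Nontrivial V]
    (hAK : (Fintype.card A : K) ≠ 0)
    (hcard : Nat.card (A →* Kˣ) = Nat.card A)
    (hsep : ∀ a : A, a ≠ 1 → ∃ χ : A →* Kˣ, χ a ≠ 1)
    (hA0 : ∀ w : V, (∀ x : A, ρ x w = w) → w = 0) {Y Q H : Subgroup S}
    (hY : IsPGroup 2 Y) {q : ℕ} [Fact q.Prime] (hq2 : q ≠ 2) (hQ : Nat.card Q = q)
    (hYH : Y ≤ H) (hQH : Q ≤ H) (hH : Nat.card ↥H = Nat.card Y * Nat.card Q) (hcomm : ⁅A, Q⁆ = A) :
    2 ≤ Module.finrank K (fixS ρ Y) ∧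
      ∀ y ∈ Q, y ≠ 1 → (∀ w ∈ fixS ρ Y, ρ y w ∈ fixS ρ Y) → 3 ≤ Module.finrank K (fixS ρ Y) := by
  classical
  have hqp : q.Prime := Fact.out
  have hq3 : 3 ≤ q := by
    have := hqp.two_le
    omega
  -- a first eigenspace
  obtain ⟨χ₀, hχ₀⟩ : ∃ χ₀ : A →* Kˣ, Om ρ χ₀ := by
    obtain ⟨w, hw⟩ := exists_ne (0 : V)
    obtain ⟨χ, hχ⟩ : ∃ χ, ee ρ χ w ≠ 0 := by
      by_contra h
      push Not at h
      apply hw
      rw [← ee_sum ρ hAK hcard hsep w]
      exact Finset.sum_eq_zero (fun χ _ => h χ)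
    exact ⟨χ, _, hχ, ee_mem ρ χ w⟩
  obtain ⟨χ₁, hχ₁, hst⟩ := exists_good_char ρ hA0 hY hq2 hQ hYH hQH hH hcomm hχ₀
  -- intersection
  have hYQ : ∀ z, z ∈ Y → z ∈ Q → z = 1 := by
    intro z hz hz'
    obtain ⟨a, ha⟩ := IsPGroup.iff_card.mp hY
    have hcop : Nat.Coprime (Nat.card Y) (Nat.card Q) := by
      rw [ha, hQ]
      apply Nat.Coprime.pow_left
      exact (Nat.coprime_primes Nat.prime_two hqp).mpr (Ne.symm hq2)
    exact Subgroup.disjoint_def.mp (Subgroup.disjoint_of_coprime_natCard hcop) hz hz'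
  -- elements of `Q` move the first orbit
  have hnot : ∀ z ∈ Q, z ≠ 1 → cact A z χ₁ ∉ orb Y χ₁ := by
    rintro z hz hz1 ⟨s, hs, h1⟩
    apply hz1
    have h2 : cact A (s⁻¹ * z) χ₁ = χ₁ := by
      rw [cact_mul, h1, cact_inv_cact]
    have h3 := hst _ (H.mul_mem (H.inv_mem (hYH hs)) (hQH hz)) h2
    have h4 : z ∈ Y := by
      have h5 : z = s * (s⁻¹ * z) := by group
      rw [h5]
      exact Y.mul_mem hs h3
    exact hYQ z h4 hz
  -- the general step
  have hstep : ∀ y ∈ Q, y ≠ 1 → (2 ≤ Module.finrank K (fixS ρ Y) ∧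
      ((∀ w ∈ fixS ρ Y, ρ y w ∈ fixS ρ Y) → 3 ≤ Module.finrank K (fixS ρ Y))) := by
    intro y hy hy1
    have hy2 : y * y ≠ 1 := by
      intro h
      have h1 : orderOf y ∣ 2 := by
        apply orderOf_dvd_of_pow_eq_one
        rw [pow_two, h]
      have h2 : orderOf y ∣ q := by
        have h5 := Subgroup.orderOf_dvd_natCard Q hy
        rwa [hQ] at h5
      have h3 : orderOf y = 1 := by
        rw [← Nat.dvd_one, ← (Nat.coprime_primes Nat.prime_two hqp).mpr (Ne.symm hq2)]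
        exact Nat.dvd_gcd h1 h2
      exact hy1 (orderOf_eq_one_iff.mp h3)
    have hn1 := hnot y hy hy1
    have hn2 := hnot (y * y) (Q.mul_mem hy hy) hy2
    obtain ⟨u₁, hu₁, hu₁0, hfix₁⟩ := exists_fixed_WW ρ hY hχ₁
    have hχ₂ := Om_cact ρ hχ₁ y
    obtain ⟨u₂, hu₂, hu₂0, hfix₂⟩ := exists_fixed_WW ρ hY hχ₂
    -- the supports
    have hs₁ : ee ρ χ₁ u₁ ≠ 0 := supp_all ρ hAK hcard hsep hu₁ hu₁0 hfix₁ (orb_self Y χ₁)
    have hs₂ : ee ρ (cact A y χ₁) u₂ ≠ 0 := supp_all ρ hAK hcard hsep hu₂ hu₂0 hfix₂ (orb_self Y _)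
    have hz₁ : ee ρ (cact A y χ₁) u₁ = 0 := hu₁ _ hn1
    have hz₂ : ee ρ χ₁ u₂ = 0 := by
      apply hu₂
      rintro ⟨s, hs, h1⟩
      apply hn1
      refine ⟨s⁻¹, Y.inv_mem hs, ?_⟩
      have h2 := congrArg (cact A s⁻¹) h1
      rw [cact_inv_cact] at h2
      exact h2.symm
    have hind : ∀ a b : K, a • u₁ + b • u₂ = 0 → a = 0 ∧ b = 0 := by
      intro a b h
      have h1 := congrArg (ee ρ χ₁) h
      rw [map_add, map_smul, map_smul, hz₂, smul_zero, add_zero, map_zero] at h1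
      have h2 := congrArg (ee ρ (cact A y χ₁)) h
      rw [map_add, map_smul, map_smul, hz₁, smul_zero, zero_add, map_zero] at h2
      exact ⟨(smul_eq_zero.mp h1).resolve_right hs₁, (smul_eq_zero.mp h2).resolve_right hs₂⟩
    refine ⟨finrank_two (C := fixS ρ Y) hfix₁ hfix₂ hind, ?_⟩
    intro hpres
    by_cases hcase : cact A y (cact A y χ₁) ∈ orb Y (cact A y χ₁)
    · -- the vector `y u₁`
      have hs₃ : ee ρ (cact A y (cact A y χ₁)) u₂ ≠ 0 := supp_all ρ hAK hcard hsep hu₂ hu₂0 hfix₂ hcase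
      have hz₃ : ee ρ (cact A y (cact A y χ₁)) u₁ = 0 := by
        apply hu₁
        rw [← cact_mul]
        exact hn2
      have hz₄ : ee ρ (cact A y (cact A y χ₁)) (ρ y u₁) = 0 := by
        rw [← ee_equiv, hz₁, map_zero]
      have hs₄ : ee ρ (cact A y χ₁) (ρ y u₁) ≠ 0 := by
        rw [← ee_equiv]
        intro h
        apply hs₁
        rw [← act_inv ρ y (ee ρ χ₁ u₁), h, map_zero]
      refine finrank_three (C := fixS ρ Y) hfix₁ hfix₂ (hpres _ hfix₁) ?_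
      intro a b c h
      have h1 := congrArg (ee ρ (cact A y (cact A y χ₁))) h
      rw [map_add, map_add, map_smul, map_smul, map_smul, hz₃, hz₄, smul_zero, smul_zero, zero_add,
        add_zero, map_zero] at h1
      have hb := (smul_eq_zero.mp h1).resolve_right hs₃
      have h2 := congrArg (ee ρ (cact A y χ₁)) h
      rw [map_add, map_add, map_smul, map_smul, map_smul, hz₁, hb, zero_smul, smul_zero, zero_add,
        zero_add, map_zero] at h2
      have hc := (smul_eq_zero.mp h2).resolve_right hs₄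
      rw [hb, hc, zero_smul, zero_smul, add_zero, add_zero] at h
      exact ⟨(smul_eq_zero.mp h).resolve_right hu₁0, hb, hc⟩
    · -- a third orbit
      have hχ₃ := Om_cact ρ hχ₂ y
      obtain ⟨u₃, hu₃, hu₃0, hfix₃⟩ := exists_fixed_WW ρ hY hχ₃
      have hs₃ : ee ρ (cact A y (cact A y χ₁)) u₃ ≠ 0 :=
        supp_all ρ hAK hcard hsep hu₃ hu₃0 hfix₃ (orb_self Y _)
      have hz₃ : ee ρ (cact A y (cact A y χ₁)) u₁ = 0 := by
        apply hu₁
        rw [← cact_mul]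
        exact hn2
      have hz₄ : ee ρ (cact A y (cact A y χ₁)) u₂ = 0 := hu₂ _ hcase
      have hz₅ : ee ρ χ₁ u₃ = 0 := by
        apply hu₃
        rintro ⟨s, hs, h1⟩
        apply hn2
        refine ⟨s⁻¹, Y.inv_mem hs, ?_⟩
        have h2 := congrArg (cact A s⁻¹) h1
        rw [cact_inv_cact] at h2
        rw [cact_mul]
        exact h2.symm
      have hz₆ : ee ρ (cact A y χ₁) u₃ = 0 := by
        apply hu₃
        rintro ⟨s, hs, h1⟩
        apply hcase
        refine ⟨s⁻¹, Y.inv_mem hs, ?_⟩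
        have h2 := congrArg (cact A s⁻¹) h1
        rw [cact_inv_cact] at h2
        exact h2.symm
      refine finrank_three (C := fixS ρ Y) hfix₁ hfix₂ hfix₃ ?_
      intro a b c h
      have h1 := congrArg (ee ρ χ₁) h
      rw [map_add, map_add, map_smul, map_smul, map_smul, hz₂, hz₅, smul_zero, smul_zero, add_zero,
        add_zero, map_zero] at h1
      have h2 := congrArg (ee ρ (cact A y χ₁)) h
      rw [map_add, map_add, map_smul, map_smul, map_smul, hz₁, hz₆, smul_zero, smul_zero, zero_add,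
        add_zero, map_zero] at h2
      have h3 := congrArg (ee ρ (cact A y (cact A y χ₁))) h
      rw [map_add, map_add, map_smul, map_smul, map_smul, hz₃, hz₄, smul_zero, smul_zero, zero_add,
        zero_add, map_zero] at h3
      exact ⟨(smul_eq_zero.mp h1).resolve_right hs₁, (smul_eq_zero.mp h2).resolve_right hs₂,
        (smul_eq_zero.mp h3).resolve_right hs₃⟩
  refine ⟨?_, fun y hy hy1 hpres => (hstep y hy hy1).2 hpres⟩
  obtain ⟨y, hy⟩ : ∃ y : Q, orderOf y = q := exists_prime_orderOf_dvd_card' q (by rw [hQ])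
  refine (hstep y y.2 ?_).1
  intro h
  have h1 : y = 1 := Subtype.ext h
  rw [h1, orderOf_one] at hy
  exact hqp.one_lt.ne hy

end main

end Cfsg.Agent.Lib.ClassSizes.CharDecomp
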