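import Mathlib
import Cfsg.Agent.Lib.FStar.Constrained
import Cfsg.Agent.Lib.FStar.GenFitting
import Cfsg.Agent.Lib.FStar.Layer
import Cfsg.Agent.Lib.ClassSizes.SecRank2
import Cfsg.Agent.Lib.ClassSizes.DPi
import Cfsg.Agent.Lib.Techniques.SylowIn

/-! Groups with a cyclic Sylow subgroup and trivial `O_{p'}`. -/

set_option autoImplicit false
set_option linter.style.haveILetI false

namespace Cfsg.Agent.Lib.ClassSizes.CyclicSylow

open Cfsg Cfsg.Agent.Lib.Core Cfsg.Agent.Lib.FStar Cfsg.Agent.Lib.Techniques Subgroup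
open Cfsg.Agent.Lib.ClassSizes.SecRank2 (cyclic_mem_sub)
open scoped commutatorElement

universe u

variable {K : Type u} [Group K] [Finite K] {p : ℕ} [hpp : Fact p.Prime]

theorem pgroup_cyclic (P : Sylow p K) (hP : IsCyclic P) {T : Subgroup K} (hT : IsPGroup p T) : IsCyclic T := by
  obtain ⟨R, hR⟩ := hT.exists_le_sylow
  haveI hRc : IsCyclic R := isCyclic_of_surjective (Sylow.equiv P R).toMonoidHom (Sylow.equiv P R).surjective
  exact isCyclic_of_injective (inclusion hR) (inclusion_injective hR)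

/-- Two commuting elements of order `p` generate the same subgroup. -/
theorem mem_zpowers_of_commute (P : Sylow p K) (hP : IsCyclic P) {a b : K} (ha : orderOf a = p)
    (hb : b ^ p = 1) (hab : a * b = b * a) : b ∈ zpowers a := by
  let T := zpowers a ⊔ zpowers b
  have hcomm : ∀ x ∈ zpowers a, ∀ y ∈ zpowers b, x * y = y * x := by
    intro x hx y hy
    obtain ⟨i, rfl⟩ := mem_zpowers_iff.mp hx
    obtain ⟨j, rfl⟩ := mem_zpowers_iff.mp hy
    have : Commute a b := hab
    exact (this.zpow_zpow i j).eq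
  have h1 : Nat.card T ∣ Nat.card (zpowers a) * Nat.card (zpowers b) :=
    Cfsg.Agent.Lib.ClassSizes.DPi.card_sup_dvd hcomm
  rw [Nat.card_zpowers, Nat.card_zpowers, ha] at h1
  have hbo : orderOf b ∣ p := orderOf_dvd_of_pow_eq_one hb
  have h3 : Nat.card T ∣ p * p := h1.trans (Nat.mul_dvd_mul_left p hbo)
  have h4 : Nat.card T ∣ p ^ 2 := by rwa [pow_two]
  obtain ⟨k, -, hk⟩ := (Nat.dvd_prime_pow hpp.out).mp h4
  have hTp : IsPGroup p T := IsPGroup.of_card hk
  haveI hTc : IsCyclic T := pgroup_cyclic P hP hTp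
  exact cyclic_mem_sub (N := T) (mem_sup_left (mem_zpowers a)) (mem_sup_right (mem_zpowers b)) (by rw [ha, hb])

open scoped IsMulCommutative in
/-- Central `p`-elements of a perfect group with abelian Sylow subgroup are trivial. -/
theorem center_pelt_trivial {L : Type*} [Group L] [Finite L] (hperf : commutator L = ⊤) (Q : Sylow p L)
    (hQ : IsMulCommutative Q) {x : L} (hx : x ∈ center L) {k : ℕ} (hxk : x ^ p ^ k = 1) : x = 1 := by
  haveI := hQ
  let t : L →* Q := MonoidHom.transfer (MonoidHom.id Q)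
  have h1 : t x = ⟨x ^ (Q : Subgroup L).index, _⟩ := MonoidHom.transfer_eq_pow (MonoidHom.id Q) x (by
    intro k g₀ _
    have : x ^ k ∈ center L := pow_mem hx k
    rw [mem_center_iff.mp this g₀⁻¹]
    group)
  have h2 : t x = 1 := by
    have h3 : commutator L ≤ t.ker := Abelianization.commutator_subset_ker t
    rw [hperf] at h3
    exact h3 (mem_top x)
  have h3 : x ^ (Q : Subgroup L).index = 1 := by
    rw [h1] at h2
    exact congrArg Subtype.val h2
  have hc : (Q : Subgroup L).index.Coprime p := by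
    rw [Nat.coprime_comm, Nat.Prime.coprime_iff_not_dvd hpp.out]
    exact Q.not_dvd_index
  exact eq_one_of_pow_of_coprime hxk h3 hc

/-- The commutator power formula. -/
theorem comm_pow_eq {l b : K} (hl : l * (l * b * l⁻¹ * b⁻¹) = (l * b * l⁻¹ * b⁻¹) * l) (i : ℕ) :
    (l * b * l⁻¹ * b⁻¹) ^ i = l ^ i * b * (l ^ i)⁻¹ * b⁻¹ := by
  set a := l * b * l⁻¹ * b⁻¹ with ha
  induction i with
  | zero => simp
  | succ i ih =>
    have hc : Commute (l ^ i) a := (show Commute l a from hl).pow_left i
    have h1 : l ^ i * a * (l ^ i)⁻¹ = a := by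
      rw [hc.eq, mul_inv_cancel_right]
    calc a ^ (i + 1) = a * a ^ i := pow_succ' a i
      _ = (l ^ i * a * (l ^ i)⁻¹) * (l ^ i * b * (l ^ i)⁻¹ * b⁻¹) := by rw [h1, ih]
      _ = l ^ (i + 1) * b * (l ^ (i + 1))⁻¹ * b⁻¹ := by
        rw [ha, pow_succ]
        group

/-- An element of `L` normalizing the cyclic `P` and moving it forces `P ≤ L`. -/
theorem le_of_moving (Ps : Sylow p K) (hPc : IsCyclic Ps) {L : Subgroup K} [hL : L.Normal] {l c : K} (hl : l ∈ L)
    (hlN : l ∈ normalizer ((Ps : Subgroup K) : Set K)) (hc : c ∈ (Ps : Subgroup K)) (hne : l * c ≠ c * l) {m : ℕ}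
    (hm : m.Coprime p) (hlm : ∀ a ∈ (Ps : Subgroup K), l ^ m * a = a * l ^ m) : (Ps : Subgroup K) ≤ L := by
  set P : Subgroup K := (Ps : Subgroup K) with hPdef
  haveI hPcyc : IsCyclic P := hPc
  have hcomm : ∀ a ∈ P, ∀ b ∈ P, a * b = b * a := by
    intro a ha b hb
    have := (IsCyclic.commutative (α := P)).is_comm.comm ⟨a, ha⟩ ⟨b, hb⟩
    exact congrArg Subtype.val this
  have hconj : ∀ a ∈ P, l * a * l⁻¹ ∈ P := fun a ha => (mem_normalizer_iff.mp hlN a).mp ha
  let τ : P →* P := MonoidHom.mk' (fun a => ⟨l * a * l⁻¹ * (a : K)⁻¹, P.mul_mem (hconj a a.2) (P.inv_mem a.2)⟩) (by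
    intro a b
    apply Subtype.ext
    have h1 : (b : K)⁻¹ * (l * (a : K) * l⁻¹ * (a : K)⁻¹) = (l * (a : K) * l⁻¹ * (a : K)⁻¹) * (b : K)⁻¹ :=
      hcomm _ (P.inv_mem b.2) _ (P.mul_mem (hconj a a.2) (P.inv_mem a.2))
    have h3 : (b : K) * (l * (a : K) * l⁻¹ * (a : K)⁻¹) = (l * (a : K) * l⁻¹ * (a : K)⁻¹) * (b : K) :=
      hcomm _ b.2 _ (P.mul_mem (hconj a a.2) (P.inv_mem a.2))
    show l * (a * b : K) * l⁻¹ * (a * b : K)⁻¹ = (l * (a : K) * l⁻¹ * (a : K)⁻¹) * (l * (b : K) * l⁻¹ * (b : K)⁻¹)
    have h4 : l * (b : K) * l⁻¹ * (a : K)⁻¹ = (a : K)⁻¹ * (l * (b : K) * l⁻¹) :=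
      hcomm _ (hconj b b.2) _ (P.inv_mem a.2)
    have hab : (a * b : K)⁻¹ = (a : K)⁻¹ * (b : K)⁻¹ := by
      rw [mul_inv_rev]
      exact hcomm _ (P.inv_mem b.2) _ (P.inv_mem a.2)
    calc l * (a * b : K) * l⁻¹ * (a * b : K)⁻¹
        = l * (a : K) * l⁻¹ * (l * (b : K) * l⁻¹ * (a : K)⁻¹) * (b : K)⁻¹ := by
          rw [hab]
          group
      _ = l * (a : K) * l⁻¹ * ((a : K)⁻¹ * (l * (b : K) * l⁻¹)) * (b : K)⁻¹ := by rw [h4]
      _ = (l * (a : K) * l⁻¹ * (a : K)⁻¹) * (l * (b : K) * l⁻¹ * (b : K)⁻¹) := by group)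
  have hτ : ∀ a : P, ((τ a : P) : K) = l * a * l⁻¹ * (a : K)⁻¹ := fun a => rfl
  have hPp : IsPGroup p P := Ps.isPGroup'
  have hinj : Function.Injective τ := by
    rw [injective_iff_map_eq_one]
    by_contra hcon
    push Not at hcon
    obtain ⟨a₁, ha₁, ha₁1⟩ := hcon
    -- order `p` element in the kernel
    have hker : p ∣ Nat.card τ.ker := by
      have h1 : IsPGroup p τ.ker := (hPp.to_subgroup _)
      obtain ⟨n, hn⟩ := IsPGroup.iff_card.mp h1
      rw [hn]
      refine dvd_pow_self p ?_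
      rintro rfl
      rw [pow_zero] at hn
      have h3 : Subsingleton τ.ker := (Nat.card_eq_one_iff_unique.mp hn).1
      have := Subsingleton.elim (⟨a₁, ha₁⟩ : τ.ker) 1
      exact ha₁1 (congrArg Subtype.val this)
    obtain ⟨a₂, ha₂⟩ := exists_prime_orderOf_dvd_card' p hker
    have hcP : τ ⟨c, hc⟩ ≠ 1 := by
      intro h
      apply hne
      have h1 : l * c * l⁻¹ * c⁻¹ = 1 := congrArg Subtype.val h
      rw [mul_inv_eq_one, mul_inv_eq_iff_eq_mul] at h1
      exact h1
    have hran : p ∣ Nat.card τ.range := by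
      have h1 : IsPGroup p τ.range := (hPp.to_subgroup _)
      obtain ⟨n, hn⟩ := IsPGroup.iff_card.mp h1
      rw [hn]
      refine dvd_pow_self p ?_
      rintro rfl
      rw [pow_zero] at hn
      have h3 : Subsingleton τ.range := (Nat.card_eq_one_iff_unique.mp hn).1
      have := Subsingleton.elim (⟨τ ⟨c, hc⟩, ⟨_, rfl⟩⟩ : τ.range) 1
      exact hcP (congrArg Subtype.val this)
    obtain ⟨b₂, hb₂⟩ := exists_prime_orderOf_dvd_card' p hran
    -- pass to `K`
    have ha₂o : orderOf ((a₂ : P) : K) = p := by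
      rw [← ha₂]
      rw [Subgroup.orderOf_coe, Subgroup.orderOf_coe]
    have hb₂o : orderOf ((b₂ : P) : K) = p := by
      rw [← hb₂]
      rw [Subgroup.orderOf_coe, Subgroup.orderOf_coe]
    have hmem : ((a₂ : P) : K) ∈ zpowers ((b₂ : P) : K) := by
      refine mem_zpowers_of_commute Ps hPc hb₂o ?_ (hcomm _ (b₂ : P).2 _ (a₂ : P).2)
      rw [← ha₂o, pow_orderOf_eq_one]
    obtain ⟨i, hi⟩ := mem_zpowers_iff.mp hmem
    have hran2 : (a₂ : P) ∈ τ.range := by
      have e : (a₂ : P) = (b₂ : P) ^ i := Subtype.ext (by simpa using hi.symm)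
      rw [e]
      exact zpow_mem b₂.2 i
    obtain ⟨c₃, hc₃⟩ := hran2
    have hfix : l * ((a₂ : P) : K) = ((a₂ : P) : K) * l := by
      have h1 : τ (a₂ : P) = 1 := a₂.2
      have h3 : l * ((a₂ : P) : K) * l⁻¹ * ((a₂ : P) : K)⁻¹ = 1 := congrArg Subtype.val h1
      rw [mul_inv_eq_one, mul_inv_eq_iff_eq_mul] at h3
      exact h3
    have hc₃e : ((a₂ : P) : K) = l * c₃ * l⁻¹ * (c₃ : K)⁻¹ := by
      rw [← hc₃]
      rfl
    have hpow : ((a₂ : P) : K) ^ m = 1 := by
      rw [hc₃e] at hfix ⊢
      rw [comm_pow_eq hfix]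
      have := hlm c₃ c₃.2
      rw [this]
      group
    have h1 : ((a₂ : P) : K) ^ p ^ 1 = 1 := by
      rw [pow_one, ← ha₂o, pow_orderOf_eq_one]
    have h3 := eq_one_of_pow_of_coprime h1 hpow hm
    rw [h3, orderOf_one] at ha₂o
    exact hpp.out.one_lt.ne ha₂o
  have hsurj : Function.Surjective τ := Finite.injective_iff_surjective.mp hinj
  intro a ha
  obtain ⟨b, hb⟩ := hsurj ⟨a, ha⟩
  have e : a = l * b * l⁻¹ * (b : K)⁻¹ := (congrArg Subtype.val hb).symm
  have e2 : l * (b : K) * l⁻¹ * (b : K)⁻¹ = l * ((b : K) * l⁻¹ * (b : K)⁻¹) := by group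
  rw [e, e2]
  exact L.mul_mem hl (hL.conj_mem _ (L.inv_mem hl) (b : K))

/-- The Burnside argument: a simple normal subgroup of order divisible by `p` contains the cyclic Sylow. -/
theorem sylow_le_of_simple (Ps : Sylow p K) (hPc : IsCyclic Ps) {L : Subgroup K} [hL : L.Normal]
    (hs : IsSimpleGroup L) (hnp : ¬ IsPGroup p L) {a : K} (haL : a ∈ L) (ha : orderOf a = p) :
    (Ps : Subgroup K) ≤ L := by
  set P : Subgroup K := (Ps : Subgroup K) with hPdef
  haveI hPcyc : IsCyclic P := hPc
  have hcomm : ∀ a ∈ P, ∀ b ∈ P, a * b = b * a := by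
    intro a ha b hb
    have := (IsCyclic.commutative (α := P)).is_comm.comm ⟨a, ha⟩ ⟨b, hb⟩
    exact congrArg Subtype.val this
  set H : Subgroup K := P ⊔ L with hH
  have hPH : P ≤ H := le_sup_left
  have hLH : L ≤ H := le_sup_right
  let P' : Sylow p H := Ps.subtype hPH
  have hnc : ¬ normalizer (P' : Subgroup H) ≤ centralizer ((P' : Subgroup H) : Set H) := by
    intro hb
    let t := MonoidHom.transferSylow P' hb
    let f : L →* P' := t.comp (inclusion hLH)
    haveI hfn : f.ker.Normal := MonoidHom.normal_ker f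
    rcases hs.eq_bot_or_eq_top_of_normal f.ker hfn with h | h
    · apply hnp
      have hinj : Function.Injective f := (MonoidHom.ker_eq_bot_iff f).mp h
      have hP2 : IsPGroup p P' := P'.isPGroup'
      exact hP2.of_injective f hinj
    · have hat : (⟨a, hLH haL⟩ : H) ∈ t.ker := by
        have h1 : (⟨a, haL⟩ : L) ∈ f.ker := by
          rw [h]
          exact mem_top _
        exact h1
      have hdis := MonoidHom.ker_transferSylow_disjoint P' hb (zpowers (⟨a, hLH haL⟩ : H))
        (isPGroup_zpowers_of_orderOf 1 (by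
          rw [Subgroup.orderOf_mk, ha, pow_one]))
      have h1 : (⟨a, hLH haL⟩ : H) ∈ t.ker ⊓ zpowers (⟨a, hLH haL⟩ : H) := mem_inf.mpr ⟨hat, mem_zpowers _⟩
      rw [disjoint_iff.mp hdis, mem_bot] at h1
      have h3 : a = 1 := congrArg Subtype.val h1
      rw [h3, orderOf_one] at ha
      exact hpp.out.one_lt.ne ha
  rw [SetLike.not_le_iff_exists] at hnc
  obtain ⟨y, hyN, hyC⟩ := hnc
  rw [mem_centralizer_iff] at hyC
  push Not at hyC
  obtain ⟨c', hc', hcy⟩ := hyC
  have hyNK : (y : K) ∈ normalizer (P : Set K) := by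
    rw [mem_normalizer_iff]
    intro x
    constructor
    · intro hx
      have h1 : (⟨x, hPH hx⟩ : H) ∈ (P' : Subgroup H) := hx
      have h3 := (mem_normalizer_iff.mp hyN _).mp h1
      exact h3
    · intro hx
      have hxH : x ∈ H := by
        have e : x = (y : K)⁻¹ * ((y : K) * x * (y : K)⁻¹) * (y : K) := by group
        rw [e]
        exact H.mul_mem (H.mul_mem (H.inv_mem y.2) (hPH hx)) y.2
      have h1 : (⟨x, hxH⟩ : H) ∈ (P' : Subgroup H) ↔ y * ⟨x, hxH⟩ * y⁻¹ ∈ (P' : Subgroup H) :=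
        mem_normalizer_iff.mp hyN _
      exact h1.mpr hx
  obtain ⟨u, hu, l, hl, eyl⟩ := (mem_sup_of_normal_right (s := P) (t := L)).mp y.2
  have hlN : l ∈ normalizer (P : Set K) := by
    have e : l = u⁻¹ * y := by
      rw [← eyl]
      group
    rw [e]
    exact mul_mem (inv_mem (le_normalizer hu)) hyNK
  have hcP : (c' : K) ∈ P := hc'
  have hlc : l * (c' : K) ≠ (c' : K) * l := by
    intro h
    apply hcy
    apply Subtype.ext
    show (c' : K) * (y : K) = (y : K) * (c' : K)
    rw [← eyl, ← mul_assoc, ← hcomm u hu _ hcP, mul_assoc, ← h, mul_assoc]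
  -- the coprime power
  let N := normalizer (P : Set K)
  haveI hn : (P.subgroupOf N).Normal := normal_subgroupOf_of_le_normalizer le_rfl
  have hm : (P.subgroupOf N).index.Coprime p := by
    have h1 : (P.subgroupOf N).index ∣ P.index := Dvd.intro _ (relIndex_mul_index le_normalizer)
    rw [Nat.coprime_comm, Nat.Prime.coprime_iff_not_dvd hpp.out]
    exact fun h3 => Ps.not_dvd_index (h3.trans h1)
  have hlm : ∀ a ∈ P, l ^ (P.subgroupOf N).index * a = a * l ^ (P.subgroupOf N).index := by
    intro a ha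
    have h1 : (⟨l, hlN⟩ : N) ^ (P.subgroupOf N).index ∈ P.subgroupOf N := pow_index_mem _ _
    have h3 : l ^ (P.subgroupOf N).index ∈ P := h1
    exact hcomm _ h3 _ ha
  exact le_of_moving Ps hPc hl hlN hcP hlc hm hlm


/-- The case of no components. -/
theorem case_no_layer (hO : pPrimeCore p K = ⊥) (hE : layer K = ⊥) (hpd : p ∣ Nat.card K) (Ps : Sylow p K)
    (hPc : IsCyclic Ps) :
    ((Ps : Subgroup K).Normal ∧ Subgroup.centralizer ((Ps : Subgroup K) : Set K) = (Ps : Subgroup K) ∧
      (∀ (_ : (Ps : Subgroup K).Normal), IsCyclic (K ⧸ (Ps : Subgroup K))) ∧ (Ps : Subgroup K).index ∣ p - 1) := by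
  set P : Subgroup K := (Ps : Subgroup K) with hPdef
  haveI hPcyc : IsCyclic P := hPc
  have hcomm : ∀ a ∈ P, ∀ b ∈ P, a * b = b * a := by
    intro a ha b hb
    have := (IsCyclic.commutative (α := P)).is_comm.comm ⟨a, ha⟩ ⟨b, hb⟩
    exact congrArg Subtype.val this
  have hgen : generalizedFittingSubgroup K = pCore p K := gen_eq_pCore_of_bot hO hE
  have hC : centralizer (pCore p K : Set K) ≤ pCore p K := by
    have := centralizer_gen_le (G := K)
    rwa [hgen] at this
  have hRP : pCore p K ≤ P := pCore_le_sylow Ps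
  set R := pCore p K with hRdef
  haveI hRc : IsCyclic R := isCyclic_of_injective (inclusion hRP) (inclusion_injective hRP)
  haveI hRn : R.Normal := pCore_normal p K
  -- the commutators lie in `R`
  have hcomR : ∀ x y : K, ⁅x, y⁆ ∈ R := by
    intro x y
    apply hC
    have hc : ∀ α β : MulAut R, α * β = β * α := by
      intro α β
      apply (IsCyclic.mulAutMulEquiv R).injective
      rw [map_mul, map_mul, mul_comm]
    let f : K →* MulAut R := MulAut.conjNormal
    have h1 : f ⁅x, y⁆ = 1 := by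
      rw [map_commutatorElement, commutatorElement_eq_one_iff_mul_comm]
      exact hc _ _
    rw [mem_centralizer_iff]
    intro r hr
    have h3 : f ⁅x, y⁆ ⟨r, hr⟩ = ⟨r, hr⟩ := by rw [h1]; rfl
    have h4 : ⁅x, y⁆ * r * ⁅x, y⁆⁻¹ = r := congrArg Subtype.val h3
    rw [mul_inv_eq_iff_eq_mul] at h4
    exact h4.symm
  have hPn : P.Normal := by
    refine ⟨fun a ha x => ?_⟩
    have e : x * a * x⁻¹ = ⁅x, a⁆ * a := by
      rw [commutatorElement_def]
      group
    rw [e]
    exact P.mul_mem (hRP (hcomR x a)) ha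
  have hCP : centralizer (P : Set K) = P := by
    apply le_antisymm
    · exact (centralizer_le (SetLike.coe_subset_coe.mpr hRP)).trans (hC.trans hRP)
    · intro a ha
      rw [mem_centralizer_iff]
      intro b hb
      exact hcomm b hb a ha
  -- the action on `P`
  let φ : K →* MulAut P := MulAut.conjNormal
  have hker : φ.ker = P := by
    ext x
    have hm : x ∈ P ↔ x ∈ centralizer (P : Set K) := by rw [hCP]
    rw [MonoidHom.mem_ker, hm, mem_centralizer_iff]
    constructor
    · intro h r hr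
      have h3 : φ x ⟨r, hr⟩ = ⟨r, hr⟩ := by rw [h]; rfl
      have h4 : x * r * x⁻¹ = r := congrArg Subtype.val h3
      rw [mul_inv_eq_iff_eq_mul] at h4
      exact h4.symm
    · intro h
      ext r
      have h3 := h r r.2
      change x * r * x⁻¹ = r
      rw [← h3, mul_inv_cancel_right]
  have hcardR : Nat.card φ.range = P.index := by
    have e1 := Nat.card_congr (QuotientGroup.quotientKerEquivRange φ).toEquiv
    rw [← e1]
    rw [hker]
    rfl
  obtain ⟨n, hn⟩ := IsPGroup.iff_card.mp Ps.isPGroup'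
  have hn0 : n ≠ 0 := by
    rintro rfl
    rw [pow_zero] at hn
    have h1 : ¬ p ∣ P.index := Ps.not_dvd_index
    have h3 : P.index = Nat.card K := by
      have := card_mul_index P
      rw [show Nat.card P = 1 from hn, one_mul] at this
      exact this
    rw [h3] at h1
    exact h1 hpd
  have hdvd : P.index ∣ p - 1 := by
    have h1 : Nat.card φ.range ∣ Nat.card (MulAut P) := card_subgroup_dvd_card _
    rw [IsCyclic.card_mulAut, show Nat.card P = p ^ n from hn, Nat.totient_prime_pow hpp.out (Nat.pos_of_ne_zero hn0),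
      hcardR] at h1
    have h3 : P.index.Coprime (p ^ (n - 1)) := by
      refine Nat.Coprime.pow_right _ ?_
      rw [Nat.coprime_comm, Nat.Prime.coprime_iff_not_dvd hpp.out]
      exact Ps.not_dvd_index
    exact h3.dvd_of_dvd_mul_left h1
  refine ⟨hPn, hCP, ?_, hdvd⟩
  intro hn'
  by_cases hp2 : p = 2
  · have h1 : P.index = 1 := by
      have : P.index ∣ 1 := by
        have h3 := hdvd
        rw [hp2] at h3
        exact h3
      exact Nat.dvd_one.mp this
    have h3 : P = ⊤ := index_eq_one.mp h1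
    haveI : Subsingleton (K ⧸ P) := by
      rw [h3]
      exact QuotientGroup.subsingleton_quotient_top
    exact isCyclic_of_subsingleton
  · haveI hcyc : IsCyclic (MulAut P) := by
      haveI : IsCyclic (ZMod (Nat.card P))ˣ := by
        rw [show Nat.card P = p ^ n from hn]
        exact ZMod.isCyclic_units_of_prime_pow p hpp.out hp2 n
      exact isCyclic_of_surjective (IsCyclic.mulAutMulEquiv P).symm.toMonoidHom
        (IsCyclic.mulAutMulEquiv P).symm.surjective
    have e : K ⧸ P ≃* φ.range :=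
      (QuotientGroup.quotientMulEquivOfEq hker.symm).trans (QuotientGroup.quotientKerEquivRange φ)
    exact isCyclic_of_surjective e.symm.toMonoidHom e.symm.surjective

/-- The case of a component. -/
theorem case_layer (hO : pPrimeCore p K = ⊥) (Ps : Sylow p K) (hPc : IsCyclic Ps) {L : Subgroup K}
    (hL : IsComponent L) :
    IsSimpleGroup ↥(generalizedFittingSubgroup K) ∧ ¬ IsMulCommutative ↥(generalizedFittingSubgroup K) ∧
      ¬ p ∣ (generalizedFittingSubgroup K).index := by
  -- orders of components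
  have hcp : ∀ {L' : Subgroup K}, IsComponent L' → ∃ a ∈ L', orderOf a = p := by
    intro L' hL'
    have h1 : p ∣ Nat.card L' := by
      by_contra h
      have h3 : (Nat.card L').Coprime p := by
        rw [Nat.coprime_comm, Nat.Prime.coprime_iff_not_dvd hpp.out]
        exact h
      have h4 := le_pPrimeCore_of_subnormal p hL'.1 h3
      rw [hO, le_bot_iff] at h4
      exact qs_subgroup_ne_bot hL'.2 h4
    obtain ⟨a, ha⟩ := exists_prime_orderOf_dvd_card' p h1
    exact ⟨a, a.2, by rw [← ha, Subgroup.orderOf_coe]⟩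
  -- central `p`-elements of components vanish
  have hcen : ∀ {L' : Subgroup K}, IsComponent L' → ∀ x ∈ L', (∀ y ∈ L', x * y = y * x) → ∀ k : ℕ, x ^ p ^ k = 1 → x = 1 := by
    intro L' hL' x hx hxc k hk
    obtain ⟨Q⟩ : Nonempty (Sylow p L') := inferInstance
    have hQc : IsCyclic (Q : Subgroup L') := by
      have h1 : IsPGroup p ((Q : Subgroup L').map L'.subtype) := Q.isPGroup'.map _
      haveI := pgroup_cyclic Ps hPc h1
      exact isCyclic_of_injective ((Q : Subgroup L').equivMapOfInjective L'.subtype L'.subtype_injective).toMonoidHom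
        ((Q : Subgroup L').equivMapOfInjective L'.subtype L'.subtype_injective).injective
    haveI := hQc
    have hperf : commutator L' = ⊤ := qs_commutator hL'.2
    have h1 := center_pelt_trivial hperf Q (IsCyclic.commutative (α := (Q : Subgroup L'))) (x := ⟨x, hx⟩)
      (mem_center_iff.mpr fun g => Subtype.ext (hxc g g.2).symm) (k := k) (Subtype.ext hk)
    exact congrArg Subtype.val h1
  obtain ⟨a, haL, ha⟩ := hcp hL
  have hacomm : ∀ {L' : Subgroup K}, IsComponent L' → ∀ x ∈ L', (∀ y ∈ L, x * y = y * x) → x ^ p = 1 → x = 1 := by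
    intro L' hL' x hx hxc hxp
    have h1 : x ∈ zpowers a := mem_zpowers_of_commute Ps hPc ha hxp (hxc a haL).symm
    have h3 : x ∈ L := (zpowers_le.mpr haL) h1
    exact hcen hL x h3 hxc 1 (by rw [pow_one]; exact hxp)
  -- `O_p` is trivial
  have hR : pCore p K = ⊥ := by
    by_contra hne
    have h1 : p ∣ Nat.card (pCore p K) := by
      obtain ⟨n, hn⟩ := IsPGroup.iff_card.mp (pCore_isPGroup p K)
      rw [hn]
      refine dvd_pow_self p ?_
      rintro rfl
      rw [pow_zero] at hn
      exact hne ((card_eq_one).mp hn)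
    obtain ⟨b, hb⟩ := exists_prime_orderOf_dvd_card' p h1
    have hbo : orderOf (b : K) = p := (Subgroup.orderOf_coe b).trans hb
    have hbp : (b : K) ^ p = 1 := by
      have h := pow_orderOf_eq_one (b : K)
      rwa [hbo] at h
    have hc : ∀ y ∈ L, (b : K) * y = y * b := fun y hy =>
      (mul_comm_of_commutator_eq_bot (component_commute_pCore hL) hy b.2).symm
    have h3 : (b : K) = 1 := hacomm hL _ ((zpowers_le.mpr haL) (mem_zpowers_of_commute Ps hPc ha
      hbp (hc a haL).symm)) hc hbp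
    rw [h3, orderOf_one] at hbo
    exact hpp.out.one_lt.ne hbo
  have hF : fittingSubgroup K = ⊥ := by
    rw [fitting_eq_pCore_of_pPrimeCore_bot hO, hR]
  -- uniqueness of the component
  have huniq : ∀ L' : Subgroup K, IsComponent L' → L' = L := by
    intro L' hL'
    by_contra hne
    obtain ⟨a', ha'L, ha'⟩ := hcp hL'
    have h1 : (a' : K) = 1 := hacomm hL' a' ha'L
      (fun y hy => mul_comm_of_commutator_eq_bot (component_commute hL' hL hne) ha'L hy)
      (by rw [← ha', pow_orderOf_eq_one])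
    rw [h1, orderOf_one] at ha'
    exact hpp.out.one_lt.ne ha'
  have hlayer : layer K = L := by
    apply le_antisymm
    · exact sSup_le fun L' hL' => (huniq L' hL').le
    · exact component_le_layer hL
  have hgen : generalizedFittingSubgroup K = L := by
    unfold generalizedFittingSubgroup
    rw [hF, hlayer, sup_bot_eq]
  have hLn : L.Normal := by
    rw [← hlayer]
    exact inferInstance
  have hZ : center L = ⊥ := by
    subst hlayer
    have h1 := center_layer_eq_fitting_inf (G := K)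
    rw [hF, bot_inf_eq] at h1
    exact (map_eq_bot_iff_of_injective _ (layer K).subtype_injective).mp h1
  have hs : IsSimpleGroup L := by
    haveI := hL.2.2
    have e : (↥L ⧸ center L) ≃* ↥L := (QuotientGroup.quotientMulEquivOfEq hZ).trans QuotientGroup.quotientBot
    exact e.symm.isSimpleGroup
  have hnp : ¬ IsPGroup p L := by
    intro h
    haveI := h.isNilpotent
    exact qs_not_solvable hL.2 inferInstance
  have hle := sylow_le_of_simple Ps hPc hs hnp haL ha
  rw [hgen]
  refine ⟨hs, ?_, ?_⟩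
  · intro hc
    have htop : center L = ⊤ := by
      rw [eq_top_iff]
      intro x _
      exact mem_center_iff.mpr fun g => hc.is_comm.comm g x
    have hn := qs_nontrivial hL.2
    rw [hZ] at htop
    exact bot_ne_top htop
  · intro h
    apply Ps.not_dvd_index
    exact h.trans (index_dvd_of_le hle)


/-- The dichotomy for a cyclic Sylow subgroup. -/
theorem main (hpd : p ∣ Nat.card K) (hO : pPrimeCore p K = ⊥) (Ps : Sylow p K) (hPc : IsCyclic Ps) :
    ((Ps : Subgroup K).Normal ∧ Subgroup.centralizer ((Ps : Subgroup K) : Set K) = (Ps : Subgroup K) ∧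
      (∀ (_ : (Ps : Subgroup K).Normal), IsCyclic (K ⧸ (Ps : Subgroup K))) ∧ (Ps : Subgroup K).index ∣ p - 1) ∨
    (IsSimpleGroup ↥(generalizedFittingSubgroup K) ∧ ¬ IsMulCommutative ↥(generalizedFittingSubgroup K) ∧
      ¬ p ∣ (generalizedFittingSubgroup K).index) := by
  by_cases hE : layer K = ⊥
  · exact Or.inl (case_no_layer hO hE hpd Ps hPc)
  · right
    obtain ⟨L, hL⟩ : ∃ L : Subgroup K, IsComponent L := by
      by_contra h
      push Not at h
      apply hE
      exact sSup_eq_bot.mpr fun L hL => absurd hL (h L)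
    exact case_layer hO Ps hPc hL


end Cfsg.Agent.Lib.ClassSizes.CyclicSylow
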