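import Mathlib
import Cfsg.Prelude.Def_Transfer

/-! Faithful irreducible modules over the field with two elements of `3² : D₈`. -/

set_option autoImplicit false

namespace Cfsg.Agent.Lib.ClassSizes.D8Module

variable {S : Type*} [Group S] {M : Type*} [AddCommGroup M] [Module (ZMod 2) M]
  (ρ : Representation (ZMod 2) S M)

theorem act (g h : S) (m : M) : ρ (g * h) m = ρ g (ρ h m) := by
  rw [map_mul]
  rfl

theorem act_one (m : M) : ρ 1 m = m := by
  rw [map_one]
  rfl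

omit [Group S] in
theorem add_self' (m : M) : m + m = 0 := by
  rw [← two_smul (ZMod 2) m]
  have h2 : (2 : ZMod 2) = 0 := by decide
  rw [h2, zero_smul]

omit [Group S] in
theorem eq_of_add_eq_zero' {m n : M} (h : m + n = 0) : m = n := by
  have h1 : m + n + n = n := by rw [h, zero_add]
  rw [add_assoc, add_self', add_zero] at h1
  exact h1

theorem zmod_two_cases (x : ZMod 2) : x = 0 ∨ x = 1 := by
  revert x
  decide

/-- the group relations which we need -/
structure GR (r s a b : S) : Prop where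
  r4 : r * r * r * r = 1
  s2 : s * s = 1
  sr : s * r = r * r * r * s
  a3 : a * a * a = 1
  b3 : b * b * b = 1
  hb : b * r = r * a
  ab : a * b = b * a
  sa : s * a = a * s
  sb : s * b = b * b * s
  za : r * r * a = a * a * (r * r)
  zb : r * r * b = b * b * (r * r)

variable {ρ}

/-- The explicit module -/
theorem core [Finite M] {r s a b : S} (hG : GR r s a b) {v : M} (hv0 : v ≠ 0)
    (hv1 : ρ a v = v) (hv2 : ρ r (ρ r v) = v) (hv3 : ρ s v = v)
    (hv4 : ρ b (ρ b v) = v + ρ b v)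
    (hdisj : ∀ m, ρ a m = m → ρ b m = m → m = 0)
    (hgen : ∀ N : Submodule (ZMod 2) M, (∀ m ∈ N, ρ a m ∈ N) → (∀ m ∈ N, ρ b m ∈ N) →
      (∀ m ∈ N, ρ r m ∈ N) → (∀ m ∈ N, ρ s m ∈ N) → N = ⊥ ∨ N = ⊤) :
    Nat.card M = 16 ∧ Nat.card {m : M // ρ (r * r) m = m ∧ ρ (r * s) m = m} = 2 ∧
      Nat.card {m : M // ρ (r * r) m = m ∧ ρ s m = m} ≠ 2 := by
  classical
  -- the commutation relations
  have hrb : r * b = a * a * r := by
    apply mul_right_cancel (b := r)
    calc r * b * r = r * (b * r) := by rw [mul_assoc]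
      _ = r * r * a := by rw [hG.hb, mul_assoc]
      _ = a * a * (r * r) := hG.za
      _ = a * a * r * r := by rw [mul_assoc (a * a)]
  have har : a * r = r * (b * b) := by
    calc a * r = a * a * a * (a * r) := by rw [hG.a3, one_mul]
      _ = a * a * (a * a * r) := by simp only [mul_assoc]
      _ = a * a * (r * b) := by rw [hrb]
      _ = (a * a * r) * b := by simp only [mul_assoc]
      _ = r * (b * b) := by rw [← hrb, mul_assoc]
  have c1 : ∀ m, ρ b (ρ r m) = ρ r (ρ a m) := fun m => by rw [← act, hG.hb, act]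
  have c2 : ∀ m, ρ a (ρ r m) = ρ r (ρ b (ρ b m)) := fun m => by
    rw [← act, har, act, act]
  have c3 : ∀ m, ρ r (ρ r (ρ b m)) = ρ b (ρ b (ρ r (ρ r m))) := fun m => by
    rw [← act, ← act, hG.zb, act, act, act]
  have c4 : ∀ m, ρ s (ρ b m) = ρ b (ρ b (ρ s m)) := fun m => by
    rw [← act, hG.sb, act, act]
  have c5 : ∀ m, ρ s (ρ r m) = ρ r (ρ r (ρ r (ρ s m))) := fun m => by
    rw [← act, hG.sr, act, act, act]
  have c6 : ∀ m, ρ a (ρ b m) = ρ b (ρ a m) := fun m => by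
    rw [← act, hG.ab, act]
  have c7 : ∀ m, ρ r (ρ r (ρ r (ρ r m))) = m := fun m => by
    rw [← act, ← act, ← act, hG.r4, act_one]
  have b3 : ∀ m, ρ b (ρ b (ρ b m)) = m := fun m => by
    rw [← act, ← act, hG.b3, act_one]
  have hrinj : ∀ m, ρ r m = 0 → m = 0 := by
    intro m hm
    rw [← c7 m, hm]
    simp
  obtain ⟨w, hw⟩ : ∃ w, w = ρ b v := ⟨_, rfl⟩
  obtain ⟨u, hu⟩ : ∃ u, u = ρ r v := ⟨_, rfl⟩
  obtain ⟨t, ht⟩ : ∃ t, t = ρ r w := ⟨_, rfl⟩
  have a_w : ρ a w = w := by rw [hw, c6, hv1]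
  have a_u : ρ a u = u + t := by rw [hu, ht, c2, hv4, map_add, hw]
  have a_t : ρ a t = u := by rw [ht, hu, c2, hw, b3]
  have b_w : ρ b w = v + w := by rw [hw, hv4]
  have b_u : ρ b u = u := by rw [hu, c1, hv1]
  have b_t : ρ b t = t := by rw [ht, c1, a_w]
  have r_v : ρ r v = u := hu.symm
  have r_w : ρ r w = t := ht.symm
  have r_u : ρ r u = v := by rw [hu, hv2]
  have r_t : ρ r t = v + w := by rw [ht, hw, c3, hv2, hv4]
  have s_w : ρ s w = v + w := by rw [hw, c4, hv3, hv4]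
  have s_u : ρ s u = u := by rw [hu, c5, hv3, hv2]
  have s_t : ρ s t = t := by
    rw [ht, c5, s_w, map_add, map_add, map_add, r_v, r_w, r_u, r_t, map_add, r_v, r_w,
      ← add_assoc, add_self', zero_add]
  have b_v : ρ b v = w := hw.symm
  -- the span
  set N : Submodule (ZMod 2) M := Submodule.span (ZMod 2) {v, w, u, t} with hN
  have mv : v ∈ N := Submodule.subset_span (by simp)
  have mw : w ∈ N := Submodule.subset_span (by simp)
  have mu : u ∈ N := Submodule.subset_span (by simp)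
  have mt : t ∈ N := Submodule.subset_span (by simp)
  have hstab : ∀ g : S, ρ g v ∈ N → ρ g w ∈ N → ρ g u ∈ N → ρ g t ∈ N → ∀ m ∈ N, ρ g m ∈ N := by
    intro g h1 h2 h3 h4 m hm
    have h5 : N ≤ N.comap (ρ g) := by
      rw [hN, Submodule.span_le]
      intro x hx
      simp only [Set.mem_insert_iff, Set.mem_singleton_iff] at hx
      rcases hx with rfl | rfl | rfl | rfl
      · exact h1
      · exact h2
      · exact h3
      · exact h4
    exact h5 hm
  have hNtop : N = ⊤ := by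
    rcases hgen N
      (hstab a (by rw [hv1]; exact mv) (by rw [a_w]; exact mw)
        (by rw [a_u]; exact N.add_mem mu mt) (by rw [a_t]; exact mu))
      (hstab b (by rw [b_v]; exact mw) (by rw [b_w]; exact N.add_mem mv mw)
        (by rw [b_u]; exact mu) (by rw [b_t]; exact mt))
      (hstab r (by rw [r_v]; exact mu) (by rw [r_w]; exact mt)
        (by rw [r_u]; exact mv) (by rw [r_t]; exact N.add_mem mv mw))
      (hstab s (by rw [hv3]; exact mv) (by rw [s_w]; exact N.add_mem mv mw)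
        (by rw [s_u]; exact mu) (by rw [s_t]; exact mt)) with h | h
    · exfalso
      apply hv0
      have h1 := mv
      rw [h] at h1
      simpa using h1
    · exact h
  have hdec : ∀ m : M, ∃ x₁ x₂ x₃ x₄ : ZMod 2, m = x₁ • v + x₂ • w + x₃ • u + x₄ • t := by
    intro m
    have h1 : m ∈ N := by rw [hNtop]; trivial
    rw [hN, Submodule.mem_span_insert] at h1
    obtain ⟨x₁, n₁, hn₁, rfl⟩ := h1
    rw [Submodule.mem_span_insert] at hn₁
    obtain ⟨x₂, n₂, hn₂, rfl⟩ := hn₁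
    rw [Submodule.mem_span_insert] at hn₂
    obtain ⟨x₃, n₃, hn₃, rfl⟩ := hn₂
    rw [Submodule.mem_span_singleton] at hn₃
    obtain ⟨x₄, rfl⟩ := hn₃
    exact ⟨x₁, x₂, x₃, x₄, by simp only [add_assoc]⟩
  have hvw : ∀ x y : ZMod 2, x • v + y • w = 0 → x = 0 ∧ y = 0 := by
    intro x y h
    have hw0 : w ≠ 0 := by
      intro h0
      apply hv0
      apply hdisj v hv1
      exfalso
      apply hv0
      have h2 := hv4
      rw [← hw, h0, map_zero, add_zero] at h2
      exact h2.symm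
    have hwv : v ≠ w := by
      intro h0
      apply hv0
      exact hdisj v hv1 (by rw [← hw]; exact h0.symm)
    rcases zmod_two_cases x with rfl | rfl <;> rcases zmod_two_cases y with rfl | rfl
    · exact ⟨rfl, rfl⟩
    · exfalso
      apply hw0
      simpa using h
    · exfalso
      apply hv0
      simpa using h
    · exfalso
      apply hwv
      rw [one_smul, one_smul] at h
      exact eq_of_add_eq_zero' h
  have hinj : ∀ x₁ x₂ x₃ x₄ : ZMod 2, x₁ • v + x₂ • w + x₃ • u + x₄ • t = 0 →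
      x₁ = 0 ∧ x₂ = 0 ∧ x₃ = 0 ∧ x₄ = 0 := by
    intro x₁ x₂ x₃ x₄ h
    have h1 : x₁ • v + x₂ • w = x₃ • u + x₄ • t := by
      apply eq_of_add_eq_zero'
      rw [← add_assoc, h]
    have h2 : x₁ • v + x₂ • w = 0 := by
      apply hdisj
      · simp only [map_add, map_smul, hv1, a_w]
      · rw [h1]
        simp only [map_add, map_smul, b_u, b_t]
    obtain ⟨h3, h4⟩ := hvw _ _ h2
    have h5 : ρ r (x₃ • v + x₄ • w) = 0 := by
      rw [h2] at h1
      simp only [map_add, map_smul, r_v, r_w]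
      exact h1.symm
    obtain ⟨h6, h7⟩ := hvw _ _ (hrinj _ h5)
    exact ⟨h3, h4, h6, h7⟩
  have huniq : ∀ x₁ x₂ x₃ x₄ y₁ y₂ y₃ y₄ : ZMod 2,
      x₁ • v + x₂ • w + x₃ • u + x₄ • t = y₁ • v + y₂ • w + y₃ • u + y₄ • t →
      x₁ = y₁ ∧ x₂ = y₂ ∧ x₃ = y₃ ∧ x₄ = y₄ := by
    intro x₁ x₂ x₃ x₄ y₁ y₂ y₃ y₄ h
    have h1 : (x₁ + y₁) • v + (x₂ + y₂) • w + (x₃ + y₃) • u + (x₄ + y₄) • t = 0 := by
      have h2 := add_self' (y₁ • v + y₂ • w + y₃ • u + y₄ • t)
      nth_rw 1 [← h] at h2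
      rw [← h2]
      simp only [add_smul]
      abel
    obtain ⟨h2, h3, h4, h5⟩ := hinj _ _ _ _ h1
    have h6 : ∀ p q : ZMod 2, p + q = 0 → p = q := by decide
    exact ⟨h6 _ _ h2, h6 _ _ h3, h6 _ _ h4, h6 _ _ h5⟩
  have hz : ∀ x₁ x₂ x₃ x₄ : ZMod 2, ρ (r * r) (x₁ • v + x₂ • w + x₃ • u + x₄ • t) =
      (x₁ + x₂) • v + x₂ • w + (x₃ + x₄) • u + x₄ • t := by
    intro x₁ x₂ x₃ x₄
    rw [act]
    simp only [map_add, map_smul, r_v, r_w, r_u, r_t, add_smul, smul_add]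
    abel
  have hrs : ∀ x₁ x₂ x₃ x₄ : ZMod 2, ρ (r * s) (x₁ • v + x₂ • w + x₃ • u + x₄ • t) =
      (x₃ + x₄) • v + x₄ • w + (x₁ + x₂) • u + x₂ • t := by
    intro x₁ x₂ x₃ x₄
    rw [act]
    simp only [map_add, map_smul, hv3, s_w, s_u, s_t, r_v, r_w, r_u, r_t, add_smul, smul_add]
    abel
  have hu0 : u ≠ 0 := fun h => hv0 (hrinj v (by rw [← hu, h]))
  have hvu : v ≠ u := by
    intro h
    apply hv0
    exact hdisj v hv1 (by rw [h]; exact b_u)
  refine ⟨?_, ?_, ?_⟩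
  · -- the cardinal
    let Φ : ZMod 2 × ZMod 2 × ZMod 2 × ZMod 2 → M := fun x =>
      x.1 • v + x.2.1 • w + x.2.2.1 • u + x.2.2.2 • t
    have hΦ : Function.Bijective Φ := by
      constructor
      · rintro ⟨x₁, x₂, x₃, x₄⟩ ⟨y₁, y₂, y₃, y₄⟩ h
        obtain ⟨h2, h3, h4, h5⟩ := huniq _ _ _ _ _ _ _ _ h
        exact Prod.ext h2 (Prod.ext h3 (Prod.ext h4 h5))
      · intro m
        obtain ⟨x₁, x₂, x₃, x₄, rfl⟩ := hdec m
        exact ⟨(x₁, x₂, x₃, x₄), rfl⟩
    rw [← Nat.card_congr (Equiv.ofBijective Φ hΦ)]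
    simp only [Nat.card_prod, Nat.card_zmod]
  · -- the fixed points of the good four-group
    have hset : {m : M | ρ (r * r) m = m ∧ ρ (r * s) m = m} = {0, v + u} := by
      ext m
      simp only [Set.mem_setOf_eq, Set.mem_insert_iff, Set.mem_singleton_iff]
      constructor
      · rintro ⟨h1, h2⟩
        obtain ⟨x₁, x₂, x₃, x₄, rfl⟩ := hdec m
        rw [hz] at h1
        rw [hrs] at h2
        obtain ⟨h3, -, h4, -⟩ := huniq _ _ _ _ _ _ _ _ h1
        obtain ⟨h5, -, -, -⟩ := huniq _ _ _ _ _ _ _ _ h2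
        have h6 : x₂ = 0 := add_eq_left.mp h3
        have h7 : x₄ = 0 := add_eq_left.mp h4
        subst h6
        subst h7
        rw [add_zero] at h5
        subst h5
        rcases zmod_two_cases x₃ with rfl | rfl
        · left
          simp
        · right
          simp
      · rintro (rfl | rfl)
        · simp
        · rw [act, act]
          simp only [map_add, r_v, r_u, hv3, s_u]
          exact ⟨trivial, add_comm _ _⟩
    have h1 : Nat.card {m : M // ρ (r * r) m = m ∧ ρ (r * s) m = m} =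
        Nat.card ({m : M | ρ (r * r) m = m ∧ ρ (r * s) m = m} : Set M) := rfl
    rw [h1, hset, Nat.card_coe_set_eq, Set.ncard_pair]
    intro h
    apply hvu
    exact eq_of_add_eq_zero' h.symm
  · -- the fixed points of the bad four-group
    intro h
    obtain ⟨x, y, -, hxy⟩ := Nat.card_eq_two_iff.mp h
    have hz' : ∀ m, ρ (r * r) m = m → ρ s m = m → m = (x : M) ∨ m = (y : M) := by
      intro m h1 h2
      have h3 : (⟨m, h1, h2⟩ : {m : M // ρ (r * r) m = m ∧ ρ s m = m}) ∈ ({x, y} : Set _) := by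
        rw [hxy]
        trivial
      simp only [Set.mem_insert_iff, Set.mem_singleton_iff] at h3
      rcases h3 with h3 | h3
      · left
        exact congrArg Subtype.val h3
      · right
        exact congrArg Subtype.val h3
    have h0 := hz' 0 (map_zero _) (map_zero _)
    have h1 := hz' v (by rw [act, r_v, r_u]) hv3
    have h2 := hz' u (by rw [act, r_u, r_v]) s_u
    rcases h0 with h0 | h0 <;> rcases h1 with h1 | h1 <;> rcases h2 with h2 | h2
    · exact hv0 (h1.trans h0.symm)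
    · exact hv0 (h1.trans h0.symm)
    · exact hu0 (h2.trans h0.symm)
    · exact hvu (h1.trans h2.symm)
    · exact hvu (h1.trans h2.symm)
    · exact hu0 (h2.trans h0.symm)
    · exact hv0 (h1.trans h0.symm)
    · exact hv0 (h1.trans h0.symm)

section gr

variable {r s a b : S}

theorem GR.rb (hG : GR r s a b) : r * b = a * a * r := by
  apply mul_right_cancel (b := r)
  calc r * b * r = r * (b * r) := by rw [mul_assoc]
    _ = r * r * a := by rw [hG.hb, mul_assoc]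
    _ = a * a * (r * r) := hG.za
    _ = a * a * r * r := by rw [mul_assoc (a * a)]

theorem GR.ar (hG : GR r s a b) : a * r = r * (b * b) := by
  calc a * r = a * a * a * (a * r) := by rw [hG.a3, one_mul]
    _ = a * a * (a * a * r) := by simp only [mul_assoc]
    _ = a * a * (r * b) := by rw [hG.rb]
    _ = (a * a * r) * b := by simp only [mul_assoc]
    _ = r * (b * b) := by rw [← hG.rb, mul_assoc]

/-- `b` does not lie in the cyclic group of `a` -/
theorem GR.not_mem (hG : GR r s a b) (ha : a ≠ 1) : b ∉ Subgroup.zpowers a := by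
  intro h
  obtain ⟨k, rfl⟩ := Subgroup.mem_zpowers_iff.mp h
  have h1 : Commute s (a ^ k) := Commute.zpow_right hG.sa k
  have h2 := hG.sb
  rw [h1.eq] at h2
  have h3 : a ^ k = 1 := by
    have h4 : a ^ k * s = a ^ k * (a ^ k * s) := by rw [← mul_assoc]; exact h2
    have h5 := mul_left_cancel h4
    exact (mul_eq_right.mp h5.symm)
  have h6 := hG.hb
  rw [h3, one_mul] at h6
  apply ha
  exact (mul_eq_left.mp h6.symm)

end gr

/-- Construction of the special vector, given a cover -/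
theorem core₂ [Finite M] [Nontrivial M] {r s a b : S} (hG : GR r s a b)
    (hcov : ∀ m, ∃ m₁ m₂, ρ a m₁ = m₁ ∧ ρ b m₂ = m₂ ∧ m = m₁ + m₂)
    (hdisj : ∀ m, ρ a m = m → ρ b m = m → m = 0)
    (hgen : ∀ N : Submodule (ZMod 2) M, (∀ m ∈ N, ρ a m ∈ N) → (∀ m ∈ N, ρ b m ∈ N) →
      (∀ m ∈ N, ρ r m ∈ N) → (∀ m ∈ N, ρ s m ∈ N) → N = ⊥ ∨ N = ⊤) :
    Nat.card M = 16 ∧ Nat.card {m : M // ρ (r * r) m = m ∧ ρ (r * s) m = m} = 2 ∧
      Nat.card {m : M // ρ (r * r) m = m ∧ ρ s m = m} ≠ 2 := by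
  classical
  have c1 : ∀ m, ρ b (ρ r m) = ρ r (ρ a m) := fun m => by rw [← act, hG.hb, act]
  have c2 : ∀ m, ρ a (ρ r m) = ρ r (ρ b (ρ b m)) := fun m => by
    rw [← act, hG.ar, act, act]
  have c5 : ∀ m, ρ s (ρ r m) = ρ r (ρ r (ρ r (ρ s m))) := fun m => by
    rw [← act, hG.sr, act, act, act]
  have c6 : ∀ m, ρ a (ρ b m) = ρ b (ρ a m) := fun m => by
    rw [← act, hG.ab, act]
  have c7 : ∀ m, ρ r (ρ r (ρ r (ρ r m))) = m := fun m => by
    rw [← act, ← act, ← act, hG.r4, act_one]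
  have b3 : ∀ m, ρ b (ρ b (ρ b m)) = m := fun m => by
    rw [← act, ← act, hG.b3, act_one]
  have s2 : ∀ m, ρ s (ρ s m) = m := fun m => by
    rw [← act, hG.s2, act_one]
  have sa : ∀ m, ρ s (ρ a m) = ρ a (ρ s m) := fun m => by
    rw [← act, hG.sa, act]
  have hrinj : ∀ x y, ρ r x = ρ r y → x = y := by
    intro x y h
    rw [← c7 x, ← c7 y, h]
  have hsz : ∀ m, ρ s (ρ r (ρ r m)) = ρ r (ρ r (ρ s m)) := by
    intro m
    rw [c5, c5, c7]
  -- a non-zero element fixed by `a`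
  obtain ⟨m₀, hm₀, ham₀⟩ : ∃ m₀ : M, m₀ ≠ 0 ∧ ρ a m₀ = m₀ := by
    obtain ⟨m, hm⟩ := exists_ne (0 : M)
    obtain ⟨m₁, m₂, h1, h2, rfl⟩ := hcov m
    by_cases h3 : m₁ = 0
    · have h4 : m₂ ≠ 0 := by
        intro h5
        apply hm
        rw [h3, h5, add_zero]
      refine ⟨ρ r (ρ r (ρ r m₂)), ?_, ?_⟩
      · intro h5
        apply h4
        rw [← c7 m₂, h5, map_zero]
      · apply hrinj
        rw [← c1, c7, h2]
    · exact ⟨m₁, h3, h1⟩
  -- fixed by the central involution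
  have hza : ∀ m, ρ a m = m → ρ a (ρ r (ρ r m)) = ρ r (ρ r m) := by
    intro m hm
    rw [c2, c1, c1, hm, hm]
  obtain ⟨m₁, hm₁, ham₁, hzm₁⟩ : ∃ m₁ : M, m₁ ≠ 0 ∧ ρ a m₁ = m₁ ∧ ρ r (ρ r m₁) = m₁ := by
    by_cases h : ρ r (ρ r m₀) = m₀
    · exact ⟨m₀, hm₀, ham₀, h⟩
    · refine ⟨m₀ + ρ r (ρ r m₀), ?_, ?_, ?_⟩
      · intro h1
        exact h (eq_of_add_eq_zero' h1).symm
      · rw [map_add, ham₀, hza _ ham₀]
      · rw [map_add, map_add, c7, add_comm]
  obtain ⟨v, hv0, hv1, hv2, hv3⟩ : ∃ v : M, v ≠ 0 ∧ ρ a v = v ∧ ρ r (ρ r v) = v ∧ ρ s v = v := by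
    by_cases h : ρ s m₁ = m₁
    · exact ⟨m₁, hm₁, ham₁, hzm₁, h⟩
    · refine ⟨m₁ + ρ s m₁, ?_, ?_, ?_, ?_⟩
      · intro h1
        exact h (eq_of_add_eq_zero' h1).symm
      · rw [map_add, ham₁, ← sa, ham₁]
      · rw [map_add, map_add, hzm₁, ← hsz, hzm₁]
      · rw [map_add, s2, add_comm]
  refine core hG hv0 hv1 hv2 hv3 ?_ hdisj hgen
  have h1 : v + ρ b v + ρ b (ρ b v) = 0 := by
    apply hdisj
    · rw [map_add, map_add, c6, c6, c6, hv1]
    · rw [map_add, map_add, b3]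
      abel
  exact (eq_of_add_eq_zero' h1).symm

/-- A subgroup of order nine is generated by two elements -/
theorem le_of_two_gens {A T : Subgroup S} (hA : Nat.card A = 9) {a b : S} (ha : a ∈ A) (hb : b ∈ A)
    (ha1 : a ≠ 1) (ha3 : a * a * a = 1) (hb' : b ∉ Subgroup.zpowers a) (haT : a ∈ T) (hbT : b ∈ T) :
    A ≤ T := by
  have : Finite A := Nat.finite_of_card_ne_zero (by omega)
  have h3 : orderOf a = 3 := by
    haveI : Fact (Nat.Prime 3) := ⟨Nat.prime_three⟩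
    apply orderOf_eq_prime _ ha1
    rw [pow_succ, pow_two, ha3]
  have hz3 : Nat.card (Subgroup.zpowers a) = 3 := by rw [Nat.card_zpowers, h3]
  have hle : T ⊓ A ≤ A := inf_le_right
  have hzle : Subgroup.zpowers a ≤ T ⊓ A :=
    (Subgroup.zpowers_le).mpr ⟨haT, ha⟩
  have hfin : Finite (T ⊓ A : Subgroup S) := Finite.of_injective _ (Subgroup.inclusion_injective hle)
  have h9 : Nat.card (T ⊓ A : Subgroup S) ∣ 9 := by
    rw [← hA]
    exact Subgroup.card_dvd_of_le hle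
  have h39 : 3 ∣ Nat.card (T ⊓ A : Subgroup S) := by
    rw [← hz3]
    exact Subgroup.card_dvd_of_le hzle
  obtain ⟨k, hk⟩ := h39
  have hcases : Nat.card (T ⊓ A : Subgroup S) = 3 ∨ Nat.card (T ⊓ A : Subgroup S) = 9 := by
    have h4 : Nat.card (T ⊓ A : Subgroup S) ≤ 9 := Nat.le_of_dvd (by norm_num) h9
    rw [hk] at h9 h4 ⊢
    have h5 : k ≤ 3 := by omega
    interval_cases k <;> simp_all
  rcases hcases with h | h
  · exfalso
    apply hb'
    have h6 : Subgroup.zpowers a = T ⊓ A :=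
      Subgroup.eq_of_le_of_card_ge hzle (by rw [h, hz3])
    rw [h6]
    exact ⟨hbT, hb⟩
  · have h6 : T ⊓ A = A := Subgroup.eq_of_le_of_card_ge hle (by rw [h, hA])
    rw [← h6]
    exact inf_le_left

/-- the stabilizer of a submodule -/
def stabN [Finite S] (ρ : Representation (ZMod 2) S M) (N : Submodule (ZMod 2) M) : Subgroup S where
  carrier := {g | ∀ m ∈ N, ρ g m ∈ N}
  one_mem' := by
    intro m hm
    rw [act_one]
    exact hm
  mul_mem' := by
    intro g h hg hh m hm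
    rw [act]
    exact hg _ (hh _ hm)
  inv_mem' := by
    intro g hg
    have hpow : ∀ k : ℕ, ∀ m ∈ N, ρ (g ^ k) m ∈ N := by
      intro k
      induction k with
      | zero =>
        intro m hm
        rw [pow_zero, act_one]
        exact hm
      | succ n ih =>
        intro m hm
        rw [pow_succ, act]
        exact ih _ (hg _ hm)
    have h1 : g⁻¹ = g ^ (orderOf g - 1) := by
      rw [eq_comm, eq_inv_iff_mul_eq_one, pow_sub_one_mul (orderOf_pos g).ne', pow_orderOf_eq_one]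
    intro m hm
    rw [h1]
    exact hpow _ _ hm

/-- the stabilizer of a vector -/
def fixOf (ρ : Representation (ZMod 2) S M) (m : M) : Subgroup S where
  carrier := {g | ρ g m = m}
  one_mem' := act_one ρ m
  mul_mem' := by
    intro g h hg hh
    change ρ (g * h) m = m
    rw [act]
    rw [show ρ h m = m from hh]
    exact hg
  inv_mem' := by
    intro g hg
    change ρ g⁻¹ m = m
    have h1 : ρ g⁻¹ (ρ g m) = m := by rw [← act, inv_mul_cancel, act_one]
    rw [show ρ g m = m from hg] at h1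
    exact h1

/-- Generic form of the cover submodule -/
theorem cover_stable {r s a b : S} (hG : GR r s a b) (N : Submodule (ZMod 2) M)
    (hN : N = LinearMap.ker (ρ a - 1) ⊔ LinearMap.ker (ρ b - 1)) :
    (∀ m ∈ N, ρ a m ∈ N) ∧ (∀ m ∈ N, ρ b m ∈ N) ∧ (∀ m ∈ N, ρ r m ∈ N) ∧ (∀ m ∈ N, ρ s m ∈ N) := by
  have memk : ∀ (c : S) (m : M), m ∈ LinearMap.ker (ρ c - 1) ↔ ρ c m = m := by
    intro c m
    rw [LinearMap.mem_ker, LinearMap.sub_apply, Module.End.one_apply, sub_eq_zero]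
  have c1 : ∀ m, ρ b (ρ r m) = ρ r (ρ a m) := fun m => by rw [← act, hG.hb, act]
  have c2 : ∀ m, ρ a (ρ r m) = ρ r (ρ b (ρ b m)) := fun m => by
    rw [← act, hG.ar, act, act]
  have c4 : ∀ m, ρ s (ρ b m) = ρ b (ρ b (ρ s m)) := fun m => by
    rw [← act, hG.sb, act, act]
  have c6 : ∀ m, ρ a (ρ b m) = ρ b (ρ a m) := fun m => by
    rw [← act, hG.ab, act]
  have b3 : ∀ m, ρ b (ρ b (ρ b m)) = m := fun m => by
    rw [← act, ← act, hG.b3, act_one]
  have sa : ∀ m, ρ s (ρ a m) = ρ a (ρ s m) := fun m => by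
    rw [← act, hG.sa, act]
  have hgen : ∀ g : S, (∀ m, ρ a m = m → ∃ x y, ρ a x = x ∧ ρ b y = y ∧ ρ g m = x + y) →
      (∀ m, ρ b m = m → ∃ x y, ρ a x = x ∧ ρ b y = y ∧ ρ g m = x + y) → ∀ m ∈ N, ρ g m ∈ N := by
    intro g h1 h2 m hm
    rw [hN, Submodule.mem_sup] at hm
    obtain ⟨x, hx, y, hy, rfl⟩ := hm
    rw [map_add]
    obtain ⟨x₁, y₁, hx₁, hy₁, e₁⟩ := h1 x ((memk _ _).mp hx)
    obtain ⟨x₂, y₂, hx₂, hy₂, e₂⟩ := h2 y ((memk _ _).mp hy)
    rw [e₁, e₂, hN]
    have hx' : ∀ z, ρ a z = z → z ∈ LinearMap.ker (ρ a - 1) ⊔ LinearMap.ker (ρ b - 1) :=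
      fun z hz => Submodule.mem_sup_left ((memk _ _).mpr hz)
    have hy' : ∀ z, ρ b z = z → z ∈ LinearMap.ker (ρ a - 1) ⊔ LinearMap.ker (ρ b - 1) :=
      fun z hz => Submodule.mem_sup_right ((memk _ _).mpr hz)
    exact Submodule.add_mem _ (Submodule.add_mem _ (hx' _ hx₁) (hy' _ hy₁))
      (Submodule.add_mem _ (hx' _ hx₂) (hy' _ hy₂))
  refine ⟨hgen a ?_ ?_, hgen b ?_ ?_, hgen r ?_ ?_, hgen s ?_ ?_⟩
  · intro m hm
    exact ⟨m, 0, hm, map_zero _, by rw [hm, add_zero]⟩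
  · intro m hm
    refine ⟨0, ρ a m, map_zero _, ?_, by rw [zero_add]⟩
    rw [← c6, hm]
  · intro m hm
    refine ⟨ρ b m, 0, ?_, map_zero _, by rw [add_zero]⟩
    rw [c6, hm]
  · intro m hm
    exact ⟨0, m, map_zero _, hm, by rw [hm, zero_add]⟩
  · intro m hm
    refine ⟨0, ρ r m, map_zero _, ?_, by rw [zero_add]⟩
    rw [c1, hm]
  · intro m hm
    refine ⟨ρ r m, 0, ?_, map_zero _, by rw [add_zero]⟩
    rw [c2, hm, hm]
  · intro m hm
    refine ⟨ρ s m, 0, ?_, map_zero _, by rw [add_zero]⟩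
    rw [← sa, hm]
  · intro m hm
    refine ⟨0, ρ s m, map_zero _, ?_, by rw [zero_add]⟩
    have h1 : ρ s m = ρ b (ρ b (ρ s m)) := by rw [← c4, hm]
    nth_rw 1 [h1]
    rw [b3]

/-- the relations, from the normal subgroup -/
theorem gr_of {A : Subgroup S} [A.Normal] (hcomm : ∀ x ∈ A, ∀ y ∈ A, x * y = y * x)
    (hexp : ∀ x ∈ A, x * x * x = 1) {r s a : S} (r4 : r * r * r * r = 1) (s2 : s * s = 1)
    (sr : s * r = r * r * r * s) (hz : ∀ x ∈ A, r * r * x = x * x * (r * r)) (ha : a ∈ A)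
    (sa : s * a = a * s) : GR r s a (r * a * r⁻¹) := by
  have hbA : r * a * r⁻¹ ∈ A := Subgroup.Normal.conj_mem inferInstance a ha r
  obtain ⟨b, hb⟩ : ∃ b, b = r * a * r⁻¹ := ⟨_, rfl⟩
  rw [← hb] at hbA ⊢
  have hbr : b * r = r * a := by rw [hb]; group
  refine ⟨r4, s2, sr, hexp a ha, hexp b hbA, hbr, hcomm a ha b hbA, sa, ?_, hz a ha, hz b hbA⟩
  apply mul_right_cancel (b := r)
  have h1 : b * b * r = r * (a * a) := by
    rw [mul_assoc, hbr, ← mul_assoc, hbr, mul_assoc]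
  calc s * b * r = s * (r * a) := by rw [mul_assoc, hbr]
    _ = r * r * r * s * a := by rw [← mul_assoc, sr]
    _ = r * r * r * (a * s) := by rw [mul_assoc, sa]
    _ = r * (r * r * a) * s := by simp only [mul_assoc]
    _ = r * (a * a * (r * r)) * s := by rw [hz a ha]
    _ = (r * (a * a)) * (r * r) * s := by simp only [mul_assoc]
    _ = b * b * r * (r * r) * s := by rw [h1]
    _ = b * b * (r * r * r * s) := by simp only [mul_assoc]
    _ = b * b * s * r := by rw [← sr]; simp only [mul_assoc]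

section dihedral

open DihedralGroup

/-- the first four-subgroup of the dihedral group -/
def DD₁ : Subgroup (DihedralGroup 4) where
  carrier := {x | x = r 0 ∨ x = r 2 ∨ x = sr 0 ∨ x = sr 2}
  one_mem' := Or.inl rfl
  mul_mem' := by
    have h : ∀ x y : DihedralGroup 4, (x = r 0 ∨ x = r 2 ∨ x = sr 0 ∨ x = sr 2) →
      (y = r 0 ∨ y = r 2 ∨ y = sr 0 ∨ y = sr 2) →
      (x * y = r 0 ∨ x * y = r 2 ∨ x * y = sr 0 ∨ x * y = sr 2) := by decide
    intro x y hx hy
    exact h x y hx hy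
  inv_mem' := by
    have h : ∀ x : DihedralGroup 4, (x = r 0 ∨ x = r 2 ∨ x = sr 0 ∨ x = sr 2) →
      (x⁻¹ = r 0 ∨ x⁻¹ = r 2 ∨ x⁻¹ = sr 0 ∨ x⁻¹ = sr 2) := by decide
    intro x hx
    exact h x hx

/-- the second four-subgroup of the dihedral group -/
def DD₂ : Subgroup (DihedralGroup 4) where
  carrier := {x | x = r 0 ∨ x = r 2 ∨ x = sr 1 ∨ x = sr 3}
  one_mem' := Or.inl rfl
  mul_mem' := by
    have h : ∀ x y : DihedralGroup 4, (x = r 0 ∨ x = r 2 ∨ x = sr 1 ∨ x = sr 3) →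
      (y = r 0 ∨ y = r 2 ∨ y = sr 1 ∨ y = sr 3) →
      (x * y = r 0 ∨ x * y = r 2 ∨ x * y = sr 1 ∨ x * y = sr 3) := by decide
    intro x y hx hy
    exact h x y hx hy
  inv_mem' := by
    have h : ∀ x : DihedralGroup 4, (x = r 0 ∨ x = r 2 ∨ x = sr 1 ∨ x = sr 3) →
      (x⁻¹ = r 0 ∨ x⁻¹ = r 2 ∨ x⁻¹ = sr 1 ∨ x⁻¹ = sr 3) := by decide
    intro x hx
    exact h x hx

theorem mem_DD₁ {x : DihedralGroup 4} : x ∈ DD₁ ↔ (x = r 0 ∨ x = r 2 ∨ x = sr 0 ∨ x = sr 2) := Iff.rfl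

theorem mem_DD₂ {x : DihedralGroup 4} : x ∈ DD₂ ↔ (x = r 0 ∨ x = r 2 ∨ x = sr 1 ∨ x = sr 3) := Iff.rfl

theorem card_DD₁ : Nat.card DD₁ = 4 := by
  have h : (DD₁ : Set (DihedralGroup 4)) = ({r 0, r 2, sr 0, sr 2} : Finset (DihedralGroup 4)) := by
    ext x
    simp [mem_DD₁]
  have h1 : Nat.card DD₁ = Nat.card ((DD₁ : Set (DihedralGroup 4))) := rfl
  rw [h1, h, Nat.card_coe_set_eq, Set.ncard_coe_finset]
  decide

theorem card_DD₂ : Nat.card DD₂ = 4 := by
  have h : (DD₂ : Set (DihedralGroup 4)) = ({r 0, r 2, sr 1, sr 3} : Finset (DihedralGroup 4)) := by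
    ext x
    simp [mem_DD₂]
  have h1 : Nat.card DD₂ = Nat.card ((DD₂ : Set (DihedralGroup 4))) := rfl
  rw [h1, h, Nat.card_coe_set_eq, Set.ncard_coe_finset]
  decide

theorem four_cases (B : Subgroup (DihedralGroup 4)) (h4 : Nat.card B = 4) (h2 : ∀ x ∈ B, x ^ 2 = 1) :
    B = DD₁ ∨ B = DD₂ := by
  classical
  have hkey : ∀ x y : DihedralGroup 4, x ≠ 1 → y ≠ 1 → x ≠ y → x ^ 2 = 1 → y ^ 2 = 1 → (x * y) ^ 2 = 1 →
      (r 2 = x ∨ r 2 = y ∨ r 2 = x * y) ∧
      ((sr 0 = x ∨ sr 0 = y ∨ sr 0 = x * y) ∨ (sr 1 = x ∨ sr 1 = y ∨ sr 1 = x * y)) := by decide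
  have hsub : ∀ s : Set (DihedralGroup 4), s.ncard ≤ 2 → ∃ x ∈ B, x ∉ s := by
    intro s hs
    by_contra h
    push Not at h
    have h5 : (B : Set (DihedralGroup 4)).ncard ≤ s.ncard := Set.ncard_le_ncard h (Set.toFinite _)
    have h6 : (B : Set (DihedralGroup 4)).ncard = 4 := by
      rw [← Nat.card_coe_set_eq]
      exact h4
    omega
  obtain ⟨x, hxB, hx⟩ := hsub {1} (by simp)
  obtain ⟨y, hyB, hy⟩ := hsub {1, x} (Set.ncard_insert_le _ _ |>.trans (by simp))
  simp only [Set.mem_singleton_iff, Set.mem_insert_iff, not_or] at hx hy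
  obtain ⟨h5, h6⟩ := hkey x y hx hy.1 (fun h => hy.2 h.symm) (h2 x hxB) (h2 y hyB) (h2 _ (B.mul_mem hxB hyB))
  have hmem : ∀ t : DihedralGroup 4, (t = x ∨ t = y ∨ t = x * y) → t ∈ B := by
    rintro t (rfl | rfl | rfl)
    · exact hxB
    · exact hyB
    · exact B.mul_mem hxB hyB
  have hr2 : r 2 ∈ B := hmem _ h5
  rcases h6 with h6 | h6
  · left
    have hs0 := hmem _ h6
    have hle : DD₁ ≤ B := by
      rintro t (rfl | rfl | rfl | rfl)
      · exact B.one_mem
      · exact hr2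
      · exact hs0
      · have h7 : sr (2 : ZMod 4) = sr 0 * r 2 := by decide
        rw [h7]
        exact B.mul_mem hs0 hr2
    exact (Subgroup.eq_of_le_of_card_ge hle (by rw [h4, card_DD₁])).symm
  · right
    have hs0 := hmem _ h6
    have hle : DD₂ ≤ B := by
      rintro t (rfl | rfl | rfl | rfl)
      · exact B.one_mem
      · exact hr2
      · exact hs0
      · have h7 : sr (3 : ZMod 4) = sr 1 * r 2 := by decide
        rw [h7]
        exact B.mul_mem hs0 hr2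
    exact (Subgroup.eq_of_le_of_card_ge hle (by rw [h4, card_DD₂])).symm

end dihedral

omit [Group S] in
theorem sum_aux (m b1 b2 a1 ab abb aa aab aabb : M)
    (h : m + b1 + b2 + (a1 + ab + abb) + (aa + aab + aabb) = 0) :
    m = m + a1 + aa + (m + b1 + b2) + (m + ab + aabb + (m + aab + abb)) := by
  apply eq_of_add_eq_zero'
  have h1 : m + (m + a1 + aa + (m + b1 + b2) + (m + ab + aabb + (m + aab + abb))) =
      (m + b1 + b2 + (a1 + ab + abb) + (aa + aab + aabb)) + (m + m) + (m + m) := by abel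
  rw [h1, h, add_self', add_zero, add_zero]

/-- The decomposition of a vector with respect to the four lines. -/
theorem four_lines {a b : S} (a3 : a * a * a = 1) (b3 : b * b * b = 1) (ab : a * b = b * a)
    (hdisj : ∀ m, ρ a m = m → ρ b m = m → m = 0) (m : M) :
    ∃ m₁ m₂ m₃ m₄, ρ a m₁ = m₁ ∧ ρ b m₂ = m₂ ∧ ρ (a * b) m₃ = m₃ ∧ ρ (b * (a * a)) m₄ = m₄ ∧
      m = m₁ + m₂ + (m₃ + m₄) := by
  have E_fix : ∀ (c : S), c * c * c = 1 → ∀ x : M, ρ c (x + ρ c x + ρ c (ρ c x)) = x + ρ c x + ρ c (ρ c x) := by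
    intro c hc x
    have h1 : ρ c (ρ c (ρ c x)) = x := by
      rw [← act, ← act, hc, act_one]
    rw [map_add, map_add, h1]
    abel
  have c6 : ∀ m, ρ b (ρ a m) = ρ a (ρ b m) := fun m => by
    rw [← act, ← ab, act]
  have a3op : ∀ m, ρ a (ρ a (ρ a m)) = m := fun m => by
    rw [← act, ← act, a3, act_one]
  have b3op : ∀ m, ρ b (ρ b (ρ b m)) = m := fun m => by
    rw [← act, ← act, b3, act_one]
  have a3' : a ^ 3 = 1 := by rw [pow_succ, pow_two, a3]
  have b3' : b ^ 3 = 1 := by rw [pow_succ, pow_two, b3]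
  have hcomm : Commute a b := ab
  have hc3 : (a * b) * (a * b) * (a * b) = 1 := by
    have h1 := hcomm.mul_pow 3
    rw [a3', b3', one_mul, pow_succ, pow_two] at h1
    exact h1
  have hd3 : (b * (a * a)) * (b * (a * a)) * (b * (a * a)) = 1 := by
    have h2 : Commute b (a * a) := (hcomm.symm).mul_right hcomm.symm
    have h1 := h2.mul_pow 3
    have h3 : (a * a) ^ 3 = 1 := by
      rw [← pow_two, ← pow_mul, mul_comm, pow_mul, a3', one_pow]
    rw [b3', h3, one_mul, pow_succ, pow_two] at h1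
    exact h1
  refine ⟨_, _, _, _, E_fix a a3 m, E_fix b b3 m, E_fix _ hc3 m, E_fix _ hd3 m, ?_⟩
  have h0 : (m + ρ b m + ρ b (ρ b m)) + ρ a (m + ρ b m + ρ b (ρ b m)) +
      ρ a (ρ a (m + ρ b m + ρ b (ρ b m))) = 0 := by
    apply hdisj
    · exact E_fix a a3 _
    · have h1 : ρ b (m + ρ b m + ρ b (ρ b m)) = m + ρ b m + ρ b (ρ b m) := E_fix b b3 m
      rw [map_add, map_add, c6, c6, c6, h1]
  simp only [map_add] at h0
  simp only [act ρ, c6, a3op, map_add]
  exact sum_aux _ _ _ _ _ _ _ _ _ h0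

/-- The main theorem. -/
theorem main [Finite S] [Finite M] (A : Subgroup S) [A.Normal] (hA : Cfsg.IsElementaryAbelian 3 A)
    (hA9 : Nat.card ↥A = 9) (hAC : Subgroup.centralizer (A : Set S) = A) (X : Subgroup S)
    (hX : Nonempty (↥X ≃* DihedralGroup 4)) (hAX : A ⊔ X = ⊤)
    (ρ : Representation (ZMod 2) S M) (hfaith : Function.Injective ρ)
    (hirr : ∀ N : Submodule (ZMod 2) M, (∀ s : S, ∀ m ∈ N, ρ s m ∈ N) → N = ⊥ ∨ N = ⊤)
    (hM : Nontrivial M) :
    Nat.card M = 16 ∧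
      ∃! B : Subgroup S, B ≤ X ∧ Nat.card ↥B = 4 ∧ (∀ b ∈ B, b ^ 2 = 1) ∧
        Nat.card {m : M // ∀ b ∈ B, ρ b m = m} = 2 := by
  classical
  obtain ⟨f⟩ := hX
  have hcomm : ∀ x ∈ A, ∀ y ∈ A, x * y = y * x := by
    intro x hx y hy
    have h1 := hA.1.is_comm.comm ⟨x, hx⟩ ⟨y, hy⟩
    exact congrArg Subtype.val h1
  have hexp : ∀ x ∈ A, x * x * x = 1 := by
    intro x hx
    have h1 := hA.2 x hx
    rwa [pow_succ, pow_two] at h1
  let e : DihedralGroup 4 →* S := X.subtype.comp f.symm.toMonoidHom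
  have he : Function.Injective e := X.subtype_injective.comp f.symm.injective
  have heX : ∀ d, e d ∈ X := fun d => (f.symm d).2
  have hrange : ∀ x ∈ X, ∃ d, e d = x := by
    intro x hx
    refine ⟨f ⟨x, hx⟩, ?_⟩
    change ((f.symm (f ⟨x, hx⟩) : X) : S) = x
    rw [MulEquiv.symm_apply_apply]
  obtain ⟨r, hr⟩ : ∃ r, r = e (DihedralGroup.r 1) := ⟨_, rfl⟩
  obtain ⟨s, hs⟩ : ∃ s, s = e (DihedralGroup.sr 0) := ⟨_, rfl⟩
  have r4 : r * r * r * r = 1 := by
    rw [hr, ← map_mul, ← map_mul, ← map_mul]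
    have h1 : (DihedralGroup.r 1 : DihedralGroup 4) * DihedralGroup.r 1 * DihedralGroup.r 1 * DihedralGroup.r 1 = 1 := by decide
    rw [h1, map_one]
  have s2 : s * s = 1 := by
    rw [hs, ← map_mul]
    have h1 : (DihedralGroup.sr 0 : DihedralGroup 4) * DihedralGroup.sr 0 = 1 := by decide
    rw [h1, map_one]
  have sr : s * r = r * r * r * s := by
    rw [hs, hr, ← map_mul, ← map_mul, ← map_mul, ← map_mul]
    have h1 : (DihedralGroup.sr 0 : DihedralGroup 4) * DihedralGroup.r 1 = DihedralGroup.r 1 * DihedralGroup.r 1 * DihedralGroup.r 1 * DihedralGroup.sr 0 := by decide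
    rw [h1]
  have hinter : ∀ x ∈ A, x ∈ X → x = 1 := by
    intro x hx hxX
    obtain ⟨d, rfl⟩ := hrange x hxX
    have h8 : ∀ d : DihedralGroup 4, d ^ 8 = 1 := by decide
    have h8' : e d ^ 8 = 1 := by rw [← map_pow, h8, map_one]
    have h3 : e d ^ 3 = 1 := hA.2 _ hx
    have h4 := (pow_gcd_eq_one).mpr ⟨h8', h3⟩
    simpa using h4
  have hcentX : ∀ x ∈ X, (∀ y ∈ A, x * y = y * x) → x = 1 := by
    intro x hx h
    apply hinter x _ hx
    have h1 : x ∈ Subgroup.centralizer (A : Set S) := by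
      rw [Subgroup.mem_centralizer_iff]
      intro y hy
      exact (h y hy).symm
    rw [hAC] at h1
    exact h1
  have hrX : r ∈ X := by rw [hr]; exact heX _
  have hsX : s ∈ X := by rw [hs]; exact heX _
  have hrz : r * r ≠ 1 := by
    rw [hr, ← map_mul]
    intro h
    have h1 := he (h.trans (map_one e).symm)
    revert h1
    decide
  have hzz : r * r * (r * r) = 1 := by
    rw [← mul_assoc, r4]
  have hzinv' : (r * r)⁻¹ = r * r := inv_eq_of_mul_eq_one_right hzz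
  -- the central involution inverts `A`
  have hzinv : ∀ x ∈ A, (r * r) * x * (r * r)⁻¹ = x⁻¹ := by
    obtain ⟨x, hx, hx'⟩ : ∃ x ∈ A, (r * r) * x ≠ x * (r * r) := by
      by_contra h
      push Not at h
      exact hrz (hcentX _ (X.mul_mem hrX hrX) h)
    obtain ⟨z, hz⟩ : ∃ z, z = r * r := ⟨_, rfl⟩
    rw [← hz] at hx' hzinv' hzz ⊢
    have hzX : z ∈ X := by rw [hz]; exact X.mul_mem hrX hrX
    have hzr : z * r = r * z := by rw [hz]; simp only [mul_assoc]
    have hzri : z * r⁻¹ = r⁻¹ * z := by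
      rw [eq_inv_mul_iff_mul_eq, ← mul_assoc, ← hzr, mul_assoc, mul_inv_cancel, mul_one]
    obtain ⟨y, hy⟩ : ∃ y, y = x * (z * x * z⁻¹)⁻¹ := ⟨_, rfl⟩
    have hxz : z * x * z⁻¹ ∈ A := Subgroup.Normal.conj_mem inferInstance x hx z
    have hyA : y ∈ A := by rw [hy]; exact A.mul_mem hx (A.inv_mem hxz)
    have hy1 : y ≠ 1 := by
      intro h
      rw [hy, mul_inv_eq_one] at h
      apply hx'
      have h2 : z * x = x * z := by
        conv_rhs => rw [h]
        group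
      exact h2
    have hyz : z * y * z⁻¹ = y⁻¹ := by
      have e1 : z * y * z⁻¹ = z * x * z * x⁻¹ * (z⁻¹ * z⁻¹) := by rw [hy]; group
      have e2 : y⁻¹ = z * x * z⁻¹ * x⁻¹ := by rw [hy]; group
      rw [e1, e2, hzinv', hzz, mul_one]
    obtain ⟨y₁, hy₁⟩ : ∃ y₁, y₁ = r * y * r⁻¹ := ⟨_, rfl⟩
    have hy₁A : y₁ ∈ A := by rw [hy₁]; exact Subgroup.Normal.conj_mem inferInstance y hyA r
    have hconj : ∀ t, z * (r * t * r⁻¹) * z⁻¹ = r * (z * t * z⁻¹) * r⁻¹ := by
      intro t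
      calc z * (r * t * r⁻¹) * z⁻¹ = (z * r) * t * (z * r)⁻¹ := by group
        _ = (r * z) * t * (r * z)⁻¹ := by rw [hzr]
        _ = _ := by group
    have hy₁z : z * y₁ * z⁻¹ = y₁⁻¹ := by
      rw [hy₁, hconj, hyz]
      group
    have hy3 : y * y * y = 1 := hexp y hyA
    have hy3' : y ^ 3 = 1 := by rw [pow_succ, pow_two, hy3]
    have hnot : y₁ ∉ Subgroup.zpowers y := by
      intro h
      obtain ⟨k, hk⟩ := Subgroup.mem_zpowers_iff.mp h
      have h1 : z * y * z⁻¹ = y ^ (k * k) := by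
        have e1 : z * y * z⁻¹ = r * (r * y * r⁻¹) * r⁻¹ := by rw [hz]; group
        rw [e1, ← hy₁, ← hk, ← conj_zpow, ← hy₁, ← hk, ← zpow_mul]
      rw [hyz] at h1
      have h2 : y ^ (k * k + 1) = 1 := by
        rw [zpow_add, zpow_one, ← h1, inv_mul_cancel]
      have h3 : orderOf y = 3 := by
        haveI : Fact (Nat.Prime 3) := ⟨Nat.prime_three⟩
        exact orderOf_eq_prime hy3' hy1
      have h4 := orderOf_dvd_iff_zpow_eq_one.mpr h2
      rw [h3] at h4
      have h5 := (ZMod.intCast_zmod_eq_zero_iff_dvd (k * k + 1) 3).mpr (by exact_mod_cast h4)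
      push_cast at h5
      have h6 : ∀ t : ZMod 3, t * t + 1 ≠ 0 := by decide
      exact h6 _ h5
    let I : Subgroup S :=
      { carrier := {t | t ∈ A ∧ z * t * z⁻¹ = t⁻¹}
        one_mem' := ⟨A.one_mem, by group⟩
        mul_mem' := by
          rintro t₁ t₂ ⟨h1, h2⟩ ⟨h3, h4⟩
          refine ⟨A.mul_mem h1 h3, ?_⟩
          calc z * (t₁ * t₂) * z⁻¹ = (z * t₁ * z⁻¹) * (z * t₂ * z⁻¹) := by group
            _ = t₁⁻¹ * t₂⁻¹ := by rw [h2, h4]
            _ = (t₂ * t₁)⁻¹ := by group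
            _ = (t₁ * t₂)⁻¹ := by rw [hcomm t₂ h3 t₁ h1]
        inv_mem' := by
          rintro t ⟨h1, h2⟩
          refine ⟨A.inv_mem h1, ?_⟩
          calc z * t⁻¹ * z⁻¹ = (z * t * z⁻¹)⁻¹ := by group
            _ = t⁻¹⁻¹ := by rw [h2] }
    have hAI : A ≤ I := le_of_two_gens hA9 hyA hy₁A hy1 hy3 hnot ⟨hyA, hyz⟩ ⟨hy₁A, hy₁z⟩
    intro t ht
    exact (hAI ht).2
  have hz' : ∀ x ∈ A, r * r * x = x * x * (r * r) := by
    intro x hx
    have h1 := hzinv x hx
    have h2 : x⁻¹ = x * x := by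
      rw [inv_eq_iff_mul_eq_one, ← mul_assoc]
      exact hexp x hx
    rw [← h2, ← h1]
    group
  -- an element centralized by the involution `s`
  obtain ⟨a, ha, ha1, hsa⟩ : ∃ a ∈ A, a ≠ 1 ∧ s * a = a * s := by
    obtain ⟨x, hx, hx'⟩ : ∃ x ∈ A, s * x * s⁻¹ ≠ x⁻¹ := by
      by_contra h
      push Not at h
      have h1 : s * (r * r) = 1 := by
        apply hcentX _ (X.mul_mem hsX (X.mul_mem hrX hrX))
        intro y hy
        have h2 := hz' y hy
        have h3 := h y⁻¹ (A.inv_mem hy)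
        rw [inv_inv] at h3
        have h4 : y * y = y⁻¹ := by
          rw [eq_inv_iff_mul_eq_one]
          exact hexp y hy
        calc s * (r * r) * y = s * (r * r * y) := by rw [mul_assoc]
          _ = s * (y⁻¹ * (r * r)) := by rw [h2, h4]
          _ = (s * y⁻¹ * s⁻¹) * (s * (r * r)) := by group
          _ = y * (s * (r * r)) := by rw [h3]
      rw [hs, hr, ← map_mul, ← map_mul] at h1
      have h2 := he (h1.trans (map_one e).symm)
      revert h2
      decide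
    have hsinv : s⁻¹ = s := inv_eq_of_mul_eq_one_right s2
    have hxs : s * x * s⁻¹ ∈ A := Subgroup.Normal.conj_mem inferInstance x hx s
    refine ⟨x * (s * x * s⁻¹), A.mul_mem hx hxs, ?_, ?_⟩
    · intro h
      apply hx'
      exact (eq_inv_of_mul_eq_one_right h)
    · have h1 := hcomm _ hx _ hxs
      calc s * (x * (s * x * s⁻¹)) = s * x * s⁻¹ * (s * (s * x * s⁻¹)) := by group
        _ = s * x * s⁻¹ * ((s * s) * x * s⁻¹) := by simp only [mul_assoc]
        _ = s * x * s⁻¹ * x * s⁻¹ := by rw [s2, one_mul]; simp only [mul_assoc]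
        _ = x * (s * x * s⁻¹) * s⁻¹ := by rw [h1]
        _ = x * (s * x * s⁻¹) * s := by rw [hsinv]
  have hG₁ : GR r s a (r * a * r⁻¹) := gr_of hcomm hexp r4 s2 sr hz' ha hsa
  have hbA : r * a * r⁻¹ ∈ A := Subgroup.Normal.conj_mem inferInstance a ha r
  obtain ⟨b, hb⟩ : ∃ b, b = r * a * r⁻¹ := ⟨_, rfl⟩
  rw [← hb] at hG₁ hbA
  have hnot₁ := hG₁.not_mem ha1
  have hs'2 : (r * s) * (r * s) = 1 := by
    calc (r * s) * (r * s) = r * (s * r) * s := by simp only [mul_assoc]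
      _ = (r * r * r * r) * (s * s) := by rw [sr]; simp only [mul_assoc]
      _ = 1 := by rw [r4, s2, one_mul]
  have hs'r : (r * s) * r = r * r * r * (r * s) := by
    calc (r * s) * r = r * (s * r) := by rw [mul_assoc]
      _ = r * (r * r * r * s) := by rw [sr]
      _ = _ := by simp only [mul_assoc]
  have ha' : a * b ∈ A := A.mul_mem ha hbA
  have hs'a' : (r * s) * (a * b) = (a * b) * (r * s) := by
    have h1 := hG₁.ar
    calc (r * s) * (a * b) = r * (s * a) * b := by simp only [mul_assoc]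
      _ = r * a * (s * b) := by rw [hsa]; simp only [mul_assoc]
      _ = r * a * (b * b * s) := by rw [hG₁.sb]
      _ = r * (a * b) * b * s := by simp only [mul_assoc]
      _ = r * (b * a) * b * s := by rw [hG₁.ab]
      _ = r * b * (a * b) * s := by simp only [mul_assoc]
      _ = r * b * (b * a) * s := by rw [hG₁.ab]
      _ = (r * (b * b)) * (a * s) := by simp only [mul_assoc]
      _ = (a * r) * (a * s) := by rw [h1]
      _ = a * (r * a) * s := by simp only [mul_assoc]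
      _ = a * (b * r) * s := by rw [hG₁.hb]
      _ = _ := by simp only [mul_assoc]
  have hG₂ : GR r (r * s) (a * b) (r * (a * b) * r⁻¹) := gr_of hcomm hexp r4 hs'2 hs'r hz' ha' hs'a'
  have ha'1 : a * b ≠ 1 := by
    intro h
    apply hnot₁
    rw [eq_inv_of_mul_eq_one_right h]
    exact Subgroup.inv_mem _ (Subgroup.mem_zpowers a)
  have hnot₂ := hG₂.not_mem ha'1
  have hbA' : r * (a * b) * r⁻¹ ∈ A := Subgroup.Normal.conj_mem inferInstance _ ha' r
  have hb'eq : r * (a * b) * r⁻¹ = b * (a * a) := by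
    have h1 : r * b * r⁻¹ = a * a := by rw [hG₁.rb]; group
    calc r * (a * b) * r⁻¹ = (r * a * r⁻¹) * (r * b * r⁻¹) := by group
      _ = b * (a * a) := by rw [← hb, h1]
  -- generation
  have hXT : ∀ T : Subgroup S, r ∈ T → s ∈ T → X ≤ T := by
    intro T h1 h2 x hx
    obtain ⟨d, rfl⟩ := hrange x hx
    have h3 : ∀ i : ZMod 4, e (DihedralGroup.r i) ∈ T := by
      intro i
      have h4 : (DihedralGroup.r i : DihedralGroup 4) = (DihedralGroup.r 1) ^ i.val := by
        rw [DihedralGroup.r_one_pow, ZMod.natCast_zmod_val]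
      rw [h4, map_pow, ← hr]
      exact T.pow_mem h1 _
    cases d with
    | r i => exact h3 i
    | sr i =>
      have h4 : (DihedralGroup.sr i : DihedralGroup 4) = DihedralGroup.sr 0 * DihedralGroup.r i := by
        rw [DihedralGroup.sr_mul_r, zero_add]
      rw [h4, map_mul, ← hs]
      exact T.mul_mem h2 (h3 i)
  have htop : ∀ T : Subgroup S, A ≤ T → X ≤ T → T = ⊤ := by
    intro T h1 h2
    rw [eq_top_iff, ← hAX]
    exact sup_le h1 h2
  have hstabTop : ∀ N : Submodule (ZMod 2) M, stabN ρ N = ⊤ → N = ⊥ ∨ N = ⊤ := by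
    intro N h
    apply hirr
    intro g m hm
    have h1 : g ∈ stabN ρ N := by rw [h]; trivial
    exact h1 m hm
  have hgen₁ : ∀ N : Submodule (ZMod 2) M, (∀ m ∈ N, ρ a m ∈ N) → (∀ m ∈ N, ρ b m ∈ N) →
      (∀ m ∈ N, ρ r m ∈ N) → (∀ m ∈ N, ρ s m ∈ N) → N = ⊥ ∨ N = ⊤ := by
    intro N h1 h2 h3 h4
    apply hstabTop
    exact htop _ (le_of_two_gens hA9 ha hbA ha1 hG₁.a3 hnot₁ h1 h2) (hXT _ h3 h4)
  have hgen₂ : ∀ N : Submodule (ZMod 2) M, (∀ m ∈ N, ρ (a * b) m ∈ N) →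
      (∀ m ∈ N, ρ (r * (a * b) * r⁻¹) m ∈ N) →
      (∀ m ∈ N, ρ r m ∈ N) → (∀ m ∈ N, ρ (r * s) m ∈ N) → N = ⊥ ∨ N = ⊤ := by
    intro N h1 h2 h3 h4
    apply hstabTop
    refine htop _ (le_of_two_gens hA9 ha' hbA' ha'1 hG₂.a3 hnot₂ h1 h2) (hXT _ h3 ?_)
    have h5 : s = r⁻¹ * (r * s) := by group
    rw [h5]
    exact (stabN ρ N).mul_mem ((stabN ρ N).inv_mem h3) h4
  -- no fixed points of `A`
  let NA : Submodule (ZMod 2) M :=
    { carrier := {m | ∀ x ∈ A, ρ x m = m}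
      add_mem' := by
        intro m n hm hn x hx
        rw [map_add, hm x hx, hn x hx]
      zero_mem' := fun x _ => map_zero _
      smul_mem' := by
        intro c m hm x hx
        rw [map_smul, hm x hx] }
  have hNAst : ∀ g : S, ∀ m ∈ NA, ρ g m ∈ NA := by
    intro g m hm x hx
    have h1 : g⁻¹ * x * g⁻¹⁻¹ ∈ A := Subgroup.Normal.conj_mem inferInstance x hx g⁻¹
    have h2 := hm _ h1
    have h3 : ρ x (ρ g m) = ρ g (ρ (g⁻¹ * x * g⁻¹⁻¹) m) := by
      rw [← act, ← act]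
      congr 2
      group
    rw [h3, h2]
  have hNA : NA = ⊥ := by
    rcases hirr NA hNAst with h | h
    · exact h
    · exfalso
      apply ha1
      apply hfaith
      rw [map_one]
      ext m
      have h1 : m ∈ NA := by rw [h]; trivial
      exact h1 a ha
  have hdisjT : ∀ m : M, A ≤ fixOf ρ m → m = 0 := by
    intro m h
    have h1 : m ∈ NA := fun x hx => h hx
    rw [hNA] at h1
    simpa using h1
  have hdisj₁ : ∀ m, ρ a m = m → ρ b m = m → m = 0 := fun m h1 h2 =>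
    hdisjT m (le_of_two_gens hA9 ha hbA ha1 hG₁.a3 hnot₁ h1 h2)
  have hdisj₂ : ∀ m, ρ (a * b) m = m → ρ (r * (a * b) * r⁻¹) m = m → m = 0 := fun m h1 h2 =>
    hdisjT m (le_of_two_gens hA9 ha' hbA' ha'1 hG₂.a3 hnot₂ h1 h2)
  -- the alternatives
  have hmain : (Nat.card M = 16 ∧ Nat.card {m : M // ρ (r * r) m = m ∧ ρ (r * s) m = m} = 2 ∧
      Nat.card {m : M // ρ (r * r) m = m ∧ ρ s m = m} ≠ 2) ∨
      (Nat.card M = 16 ∧ Nat.card {m : M // ρ (r * r) m = m ∧ ρ (r * (r * s)) m = m} = 2 ∧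
      Nat.card {m : M // ρ (r * r) m = m ∧ ρ (r * s) m = m} ≠ 2) := by
    have memk : ∀ (c : S) (m : M), m ∈ LinearMap.ker (ρ c - 1) ↔ ρ c m = m := by
      intro c m
      rw [LinearMap.mem_ker, LinearMap.sub_apply, Module.End.one_apply, sub_eq_zero]
    obtain ⟨h1, h2, h3, h4⟩ := cover_stable (ρ := ρ) hG₁ _ rfl
    rcases hgen₁ _ h1 h2 h3 h4 with h | h
    · right
      refine core₂ hG₂ ?_ hdisj₂ hgen₂
      intro m
      obtain ⟨m₁, m₂, m₃, m₄, h5, h6, h7, h8, h9⟩ :=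
        four_lines hG₁.a3 hG₁.b3 hG₁.ab hdisj₁ m
      have h10 : m₁ ∈ LinearMap.ker (ρ a - 1) ⊔ LinearMap.ker (ρ b - 1) :=
        Submodule.mem_sup_left ((memk _ _).mpr h5)
      have h11 : m₂ ∈ LinearMap.ker (ρ a - 1) ⊔ LinearMap.ker (ρ b - 1) :=
        Submodule.mem_sup_right ((memk _ _).mpr h6)
      rw [h] at h10 h11
      have h12 : m₁ = 0 := by simpa using h10
      have h13 : m₂ = 0 := by simpa using h11
      refine ⟨m₃, m₄, h7, ?_, ?_⟩
      · rw [hb'eq]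
        exact h8
      · rw [h9, h12, h13]
        simp
    · left
      refine core₂ hG₁ ?_ hdisj₁ hgen₁
      intro m
      have h5 : m ∈ LinearMap.ker (ρ a - 1) ⊔ LinearMap.ker (ρ b - 1) := by
        rw [h]
        trivial
      obtain ⟨x, hx, y, hy, rfl⟩ := Submodule.mem_sup.mp h5
      exact ⟨x, y, (memk _ _).mp hx, (memk _ _).mp hy, rfl⟩
  -- the four-subgroups
  have hrs : r * s = e (DihedralGroup.sr 3) := by
    rw [hr, hs, ← map_mul]
    congr 1
  have hzd : r * r = e (DihedralGroup.r 2) := by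
    rw [hr, ← map_mul]
    congr 1
  have hszd : s * (r * r) = e (DihedralGroup.sr 2) := by
    rw [hzd, hs, ← map_mul]
    congr 1
  have hrszd : (r * s) * (r * r) = e (DihedralGroup.sr 1) := by
    rw [hzd, hrs, ← map_mul]
    congr 1
  have hone : e (DihedralGroup.r 0) = 1 := by
    have h : (DihedralGroup.r 0 : DihedralGroup 4) = 1 := rfl
    rw [h, map_one]
  have hz2 : ∀ m, ρ (r * r) (ρ (r * r) m) = m := by
    intro m
    rw [← act, hzz, act_one]
  have hB₁ : ∀ m, (∀ b ∈ DD₁.map e, ρ b m = m) ↔ (ρ (r * r) m = m ∧ ρ s m = m) := by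
    intro m
    constructor
    · intro h
      refine ⟨h _ ?_, h _ ?_⟩
      · rw [hzd]
        exact ⟨_, (mem_DD₁.mpr (Or.inr (Or.inl rfl))), rfl⟩
      · rw [hs]
        exact ⟨_, (mem_DD₁.mpr (Or.inr (Or.inr (Or.inl rfl)))), rfl⟩
    · rintro ⟨h1, h2⟩ _ ⟨d, hd, rfl⟩
      rcases mem_DD₁.mp hd with rfl | rfl | rfl | rfl
      · rw [hone, act_one]
      · rw [← hzd]
        exact h1
      · rw [← hs]
        exact h2
      · rw [← hszd, act, h1, h2]
  have hB₂ : ∀ m, (∀ b ∈ DD₂.map e, ρ b m = m) ↔ (ρ (r * r) m = m ∧ ρ (r * s) m = m) := by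
    intro m
    constructor
    · intro h
      refine ⟨h _ ?_, h _ ?_⟩
      · rw [hzd]
        exact ⟨_, (mem_DD₂.mpr (Or.inr (Or.inl rfl))), rfl⟩
      · rw [hrs]
        exact ⟨_, (mem_DD₂.mpr (Or.inr (Or.inr (Or.inr rfl)))), rfl⟩
    · rintro ⟨h1, h2⟩ _ ⟨d, hd, rfl⟩
      rcases mem_DD₂.mp hd with rfl | rfl | rfl | rfl
      · rw [hone, act_one]
      · rw [← hzd]
        exact h1
      · rw [← hrszd, act, h1, h2]
      · rw [← hrs]
        exact h2
  have hcard₁ : Nat.card (DD₁.map e) = 4 := by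
    rw [Subgroup.card_map_of_injective he, card_DD₁]
  have hcard₂ : Nat.card (DD₂.map e) = 4 := by
    rw [Subgroup.card_map_of_injective he, card_DD₂]
  have hle₁ : DD₁.map e ≤ X := by
    rintro _ ⟨d, -, rfl⟩
    exact heX d
  have hle₂ : DD₂.map e ≤ X := by
    rintro _ ⟨d, -, rfl⟩
    exact heX d
  have hsq₁ : ∀ b ∈ DD₁.map e, b ^ 2 = 1 := by
    rintro _ ⟨d, hd, rfl⟩
    have h : ∀ d : DihedralGroup 4, (d = DihedralGroup.r 0 ∨ d = DihedralGroup.r 2 ∨ d = DihedralGroup.sr 0 ∨ d = DihedralGroup.sr 2) → d ^ 2 = 1 := by decide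
    rw [← map_pow, h d hd, map_one]
  have hsq₂ : ∀ b ∈ DD₂.map e, b ^ 2 = 1 := by
    rintro _ ⟨d, hd, rfl⟩
    have h : ∀ d : DihedralGroup 4, (d = DihedralGroup.r 0 ∨ d = DihedralGroup.r 2 ∨ d = DihedralGroup.sr 1 ∨ d = DihedralGroup.sr 3) → d ^ 2 = 1 := by decide
    rw [← map_pow, h d hd, map_one]
  have hclass : ∀ B : Subgroup S, B ≤ X → Nat.card B = 4 → (∀ b ∈ B, b ^ 2 = 1) →
      B = DD₁.map e ∨ B = DD₂.map e := by
    intro B h1 h2 h3
    have hrng : B ≤ e.range := by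
      intro x hx
      obtain ⟨d, rfl⟩ := hrange x (h1 hx)
      exact ⟨d, rfl⟩
    have h4 : (B.comap e).map e = B := Subgroup.map_comap_eq_self hrng
    have h5 : Nat.card (B.comap e) = 4 := by
      rw [← Subgroup.card_map_of_injective he, h4, h2]
    have h6 : ∀ x ∈ B.comap e, x ^ 2 = 1 := by
      intro x hx
      apply he
      rw [map_pow, map_one]
      exact h3 _ hx
    rcases four_cases _ h5 h6 with h7 | h7
    · left
      rw [← h4, h7]
    · right
      rw [← h4, h7]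
  have hcount₁ : Nat.card {m : M // ∀ b ∈ DD₁.map e, ρ b m = m} =
      Nat.card {m : M // ρ (r * r) m = m ∧ ρ s m = m} :=
    Nat.card_congr (Equiv.subtypeEquivRight hB₁)
  have hcount₂ : Nat.card {m : M // ∀ b ∈ DD₂.map e, ρ b m = m} =
      Nat.card {m : M // ρ (r * r) m = m ∧ ρ (r * s) m = m} :=
    Nat.card_congr (Equiv.subtypeEquivRight hB₂)
  have hcong : Nat.card {m : M // ρ (r * r) m = m ∧ ρ (r * (r * s)) m = m} =
      Nat.card {m : M // ρ (r * r) m = m ∧ ρ s m = m} := by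
    apply Nat.card_congr
    apply Equiv.subtypeEquivRight
    intro m
    have h1 : r * (r * s) = (r * r) * s := by rw [mul_assoc]
    have h11 : ρ (r * (r * s)) m = ρ (r * r) (ρ s m) := by
      rw [h1]
      exact act ρ _ _ m
    rw [h11]
    constructor
    · rintro ⟨h2, h3⟩
      refine ⟨h2, ?_⟩
      have h4 := congrArg (ρ (r * r)) h3
      rw [hz2, h2] at h4
      exact h4
    · rintro ⟨h2, h3⟩
      exact ⟨h2, by rw [h3, h2]⟩
  rcases hmain with ⟨h16, h2, hne⟩ | ⟨h16, h2, hne⟩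
  · refine ⟨h16, DD₂.map e, ⟨hle₂, hcard₂, hsq₂, by rw [hcount₂]; exact h2⟩, ?_⟩
    rintro B ⟨h3, h4, h5, h6⟩
    rcases hclass B h3 h4 h5 with h7 | h7
    · exfalso
      apply hne
      rw [← hcount₁, ← h7]
      exact h6
    · exact h7
  · rw [hcong] at h2
    refine ⟨h16, DD₁.map e, ⟨hle₁, hcard₁, hsq₁, by rw [hcount₁]; exact h2⟩, ?_⟩
    rintro B ⟨h3, h4, h5, h6⟩
    rcases hclass B h3 h4 h5 with h7 | h7
    · exact h7
    · exfalso
      apply hne
      rw [← hcount₂, ← h7]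
      exact h6

end Cfsg.Agent.Lib.ClassSizes.D8Module
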