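import Mathlib
import Cfsg.Agent.Lib.Core.Basic
import Cfsg.Agent.Lib.ClassSizes.SecRank4
import Cfsg.Agent.Lib.Cl.SectBridge
import Cfsg.Agent.Lib.Geo.PrimSolvable
import Cfsg.Prelude.Def_Transfer
import Cfsg.Prelude.Def_Solvable

/-! Eigenlines for an elementary abelian `2`-group acting on a group of odd Fitting subgroup. -/

set_option autoImplicit false
set_option linter.style.haveILetI false

namespace Cfsg.Agent.Lib.ClassSizes.ElemLines

open Cfsg Cfsg.Agent.Lib.Core Subgroup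
open Cfsg.Agent.Lib.ClassSizes.SecRank4 (mem_normalizer_of_conj_mem card_sup_eq)

universe u

variable {S : Type u} [Group S]

/-- An elementary abelian `2`-subgroup. -/
structure ElemI (I : Subgroup S) : Prop where
  comm : ∀ a ∈ I, ∀ b ∈ I, a * b = b * a
  sq : ∀ a ∈ I, a * a = 1

theorem ElemI.inv {I : Subgroup S} (h : ElemI I) {a : S} (ha : a ∈ I) : a⁻¹ = a :=
  inv_eq_of_mul_eq_one_left (h.sq a ha)

/-- The subgroup of elements of `E` on which `t` acts trivially modulo `B`. -/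
def fixMod (B E : Subgroup S) (t : S) (hBE : B ≤ E) (hcomm : ∀ x ∈ E, ∀ y ∈ E, x * y * x⁻¹ * y⁻¹ ∈ B) :
    Subgroup S where
  carrier := {y | y ∈ E ∧ t * y * t⁻¹ * y⁻¹ ∈ B}
  one_mem' := ⟨one_mem _, by simp⟩
  mul_mem' := by
    rintro y z ⟨hy, hy'⟩ ⟨hz, hz'⟩
    refine ⟨mul_mem hy hz, ?_⟩
    have hconj : y * (t * z * t⁻¹ * z⁻¹) * y⁻¹ ∈ B := by
      have h1 := hcomm y hy _ (hBE hz')
      have e : y * (t * z * t⁻¹ * z⁻¹) * y⁻¹ =
          (y * (t * z * t⁻¹ * z⁻¹) * y⁻¹ * (t * z * t⁻¹ * z⁻¹)⁻¹) * (t * z * t⁻¹ * z⁻¹) := by group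
      rw [e]
      exact mul_mem h1 hz'
    have e : t * (y * z) * t⁻¹ * (y * z)⁻¹ = (t * y * t⁻¹ * y⁻¹) * (y * (t * z * t⁻¹ * z⁻¹) * y⁻¹) := by group
    rw [e]
    exact mul_mem hy' hconj
  inv_mem' := by
    rintro y ⟨hy, hy'⟩
    refine ⟨inv_mem hy, ?_⟩
    have h1 := hcomm y⁻¹ (inv_mem hy) _ (hBE hy')
    have e : t * y⁻¹ * t⁻¹ * y⁻¹⁻¹ =
        ((y⁻¹ * (t * y * t⁻¹ * y⁻¹) * y⁻¹⁻¹ * (t * y * t⁻¹ * y⁻¹)⁻¹) * (t * y * t⁻¹ * y⁻¹))⁻¹ := by group
    rw [e]
    exact inv_mem (mul_mem h1 hy')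

/-- Eigenelements modulo a normalized subgroup. -/
theorem exists_eigen [Finite S] {I B : Subgroup S} (hI : ElemI I) (hIB : ∀ t ∈ I, ∀ b ∈ B, t * b * t⁻¹ ∈ B) :
    ∀ (n : ℕ) (E : Subgroup S), Nat.card E = n → B ≤ E → B ≠ E → (∀ t ∈ I, ∀ e ∈ E, t * e * t⁻¹ ∈ E) →
      (∀ x ∈ E, ∀ y ∈ E, x * y * x⁻¹ * y⁻¹ ∈ B) →
      ∃ x ∈ E, x ∉ B ∧ ∀ t ∈ I, t * x * t⁻¹ * x⁻¹ ∈ B ∨ t * x * t⁻¹ * x ∈ B := by
  intro n
  induction n using Nat.strong_induction_on with
  | _ n ih =>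
    intro E hn hBE hne hIE hcomm
    by_cases hmin : ∃ D : Subgroup S, B ≤ D ∧ B ≠ D ∧ D ≤ E ∧ D ≠ E ∧ ∀ t ∈ I, ∀ d ∈ D, t * d * t⁻¹ ∈ D
    · obtain ⟨D, h1, h2, h3, h4, h5⟩ := hmin
      have hlt : Nat.card D < n := by
        rw [← hn]
        refine lt_of_le_of_ne (card_le_of_le h3) fun h => h4 (eq_of_le_of_card_ge h3 h.ge)
      obtain ⟨x, hx, hxB, hxt⟩ := ih _ hlt D rfl h1 h2 h5 (fun x hx y hy => hcomm x (h3 hx) y (h3 hy))
      exact ⟨x, h3 hx, hxB, hxt⟩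
    push Not at hmin
    obtain ⟨x, hxE, hxB⟩ : ∃ x ∈ E, x ∉ B := by
      by_contra hcon
      push Not at hcon
      exact hne (le_antisymm hBE hcon)
    refine ⟨x, hxE, hxB, fun t ht => ?_⟩
    let D := fixMod B E t hBE hcomm
    have hDE : D ≤ E := fun y hy => hy.1
    have hBD : B ≤ D := fun b hb => ⟨hBE hb, by
      exact mul_mem (hIB t ht b hb) (inv_mem hb)⟩
    have hDI : ∀ s ∈ I, ∀ d ∈ D, s * d * s⁻¹ ∈ D := by
      rintro s hs d ⟨hd, hd'⟩
      refine ⟨hIE s hs d hd, ?_⟩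
      have h1 := hIB s hs _ hd'
      have hst : s * t = t * s := hI.comm s hs t ht
      have e : t * (s * d * s⁻¹) * t⁻¹ * (s * d * s⁻¹)⁻¹ = s * (t * d * t⁻¹ * d⁻¹) * s⁻¹ := by
        have e1 : t * (s * d * s⁻¹) * t⁻¹ = (t * s) * d * (t * s)⁻¹ := by group
        rw [e1, ← hst]
        group
      rw [e]
      exact h1
    by_cases hDB : B = D
    · -- the element `t x t⁻¹ x` lies in `D = B`
      right
      rw [hDB]
      have htt : t * t = 1 := hI.sq t ht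
      have hti : t⁻¹ = t := hI.inv ht
      refine ⟨mul_mem (hIE t ht x hxE) hxE, ?_⟩
      have h1 := hcomm x hxE _ (hIE t ht x hxE)
      have e : t * (t * x * t⁻¹ * x) * t⁻¹ * (t * x * t⁻¹ * x)⁻¹ =
          x * (t * x * t⁻¹) * x⁻¹ * (t * x * t⁻¹)⁻¹ := by
        have e1 : t * (t * x * t⁻¹ * x) * t⁻¹ = (t * t) * x * t⁻¹ * (x * t⁻¹) := by group
        rw [e1, htt, hti]
        group
      rw [e]
      exact h1
    · -- otherwise `D = E`
      left
      by_cases hDEq : D = E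
      · have : x ∈ D := hDEq ▸ hxE
        exact this.2
      · obtain ⟨s, hs, d, hd, h⟩ := hmin D hBD hDB hDE hDEq
        exact absurd (hDI s hs d hd) h

/-- A maximal abelian subgroup normalized by `P` and `I`. -/
theorem exists_B [Finite S] {p : ℕ} [Fact p.Prime] {I P : Subgroup S} (hI : ElemI I) (hP : IsPGroup p P)
    (hIP : ∀ t ∈ I, ∀ a ∈ P, t * a * t⁻¹ ∈ P) :
    ∃ B : Subgroup S, B ≤ P ∧ (∀ a ∈ B, ∀ b ∈ B, a * b = b * a) ∧ (∀ g ∈ P, ∀ b ∈ B, g * b * g⁻¹ ∈ B) ∧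
      (∀ t ∈ I, ∀ b ∈ B, t * b * t⁻¹ ∈ B) ∧ ∀ x ∈ P, (∀ b ∈ B, x * b = b * x) → x ∈ B := by
  let 𝔅 : Set (Subgroup S) := {B | B ≤ P ∧ (∀ a ∈ B, ∀ b ∈ B, a * b = b * a) ∧ (∀ g ∈ P, ∀ b ∈ B, g * b * g⁻¹ ∈ B) ∧
      (∀ t ∈ I, ∀ b ∈ B, t * b * t⁻¹ ∈ B)}
  have hne : 𝔅.Nonempty := ⟨⊥, bot_le, by simp, by simp, by simp⟩
  obtain ⟨B, hB⟩ := (Set.toFinite 𝔅).exists_maximal hne
  obtain ⟨⟨hBP, hBc, hBn, hBI⟩, hmax⟩ := hB
  refine ⟨B, hBP, hBc, hBn, hBI, ?_⟩
  intro x₀ hx₀ hx₀c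
  by_contra hx₀B
  -- the subgroup of central elements modulo `B`
  let E : Subgroup S :=
    { carrier := {x | x ∈ P ∧ (∀ b ∈ B, x * b = b * x) ∧ ∀ g ∈ P, g * x * g⁻¹ * x⁻¹ ∈ B}
      one_mem' := ⟨one_mem _, by simp, by simp⟩
      mul_mem' := by
        rintro x y ⟨hx, hxc, hxg⟩ ⟨hy, hyc, hyg⟩
        refine ⟨mul_mem hx hy, ?_, ?_⟩
        · intro b hb
          rw [mul_assoc, hyc b hb, ← mul_assoc, hxc b hb, mul_assoc]
        · intro g hg
          have h1 := hxg g hg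
          have h3 := hyg g hg
          have e : g * (x * y) * g⁻¹ * (x * y)⁻¹ =
              (g * x * g⁻¹ * x⁻¹) * (x * (g * y * g⁻¹ * y⁻¹) * x⁻¹) := by group
          rw [e, mul_inv_eq_iff_eq_mul.mpr (hxc _ h3)]
          exact mul_mem h1 h3
      inv_mem' := by
        rintro x ⟨hx, hxc, hxg⟩
        have hxi : ∀ b ∈ B, x⁻¹ * b = b * x⁻¹ := by
          intro b hb
          rw [inv_mul_eq_iff_eq_mul, ← mul_assoc, hxc b hb, mul_inv_cancel_right]
        refine ⟨inv_mem hx, hxi, ?_⟩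
        intro g hg
        have h1 := hxg g hg
        have e : g * x⁻¹ * g⁻¹ * x⁻¹⁻¹ = (x⁻¹ * (g * x * g⁻¹ * x⁻¹) * x⁻¹⁻¹)⁻¹ := by group
        rw [e, mul_inv_eq_iff_eq_mul.mpr (hxi _ h1), ]
        exact inv_mem h1 }
  have hBE : B ≤ E := fun b hb => ⟨hBP hb, fun c hc => hBc b hb c hc, fun g hg =>
    mul_mem (hBn g hg b hb) (inv_mem hb)⟩
  have hIi : ∀ t ∈ I, t⁻¹ ∈ I := fun t ht => inv_mem ht
  have hEI : ∀ t ∈ I, ∀ e ∈ E, t * e * t⁻¹ ∈ E := by
    rintro t ht x ⟨hx, hxc, hxg⟩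
    refine ⟨hIP t ht x hx, ?_, ?_⟩
    · intro b hb
      have h1 := hxc _ (hBI t⁻¹ (hIi t ht) b hb)
      have hti : t⁻¹⁻¹ = t := inv_inv t
      rw [hti] at h1
      have e1 : t * x * t⁻¹ * b = t * (x * (t⁻¹ * b * t)) * t⁻¹ := by group
      have e2 : b * (t * x * t⁻¹) = t * ((t⁻¹ * b * t) * x) * t⁻¹ := by group
      rw [e1, e2, h1]
    · intro g hg
      have h1 := hxg _ (hIP t⁻¹ (hIi t ht) g hg)
      have h3 := hBI t ht _ h1
      have hti : t⁻¹⁻¹ = t := inv_inv t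
      rw [hti] at h3
      have e : g * (t * x * t⁻¹) * g⁻¹ * (t * x * t⁻¹)⁻¹ =
          t * (t⁻¹ * g * t * x * (t⁻¹ * g * t)⁻¹ * x⁻¹) * t⁻¹ := by group
      rw [e]
      exact h3
  have hEcomm : ∀ x ∈ E, ∀ y ∈ E, x * y * x⁻¹ * y⁻¹ ∈ B := fun x hx y hy => hy.2.2 x hx.1
  have hBEne : B ≠ E := by
    -- nilpotency of `P` modulo `B`
    intro hBEq
    haveI hPn : Group.IsNilpotent P := hP.isNilpotent
    haveI hBn' : (B.subgroupOf P).Normal := by
      refine ⟨fun n hn g => ?_⟩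
      exact hBn g g.2 n hn
    let C : Subgroup P := (centralizer (B : Set S)).subgroupOf P
    haveI hCn : C.Normal := by
      refine ⟨fun n hn g => ?_⟩
      change (g : S) * n * (g : S)⁻¹ ∈ centralizer (B : Set S)
      rw [mem_centralizer_iff]
      intro b hb
      have h1 := hBn (g : S)⁻¹ (inv_mem g.2) b hb
      rw [inv_inv] at h1
      have h3 : ((g : S)⁻¹ * b * (g : S)) * (n : S) = (n : S) * ((g : S)⁻¹ * b * (g : S)) :=
        (mem_centralizer_iff.mp hn) _ h1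
      have e1 : b * ((g : S) * n * (g : S)⁻¹) = (g : S) * (((g : S)⁻¹ * b * (g : S)) * n) * (g : S)⁻¹ := by group
      have e2 : (g : S) * n * (g : S)⁻¹ * b = (g : S) * (n * ((g : S)⁻¹ * b * (g : S))) * (g : S)⁻¹ := by group
      rw [e1, e2, h3]
    let π := QuotientGroup.mk' (B.subgroupOf P)
    let N : Subgroup (P ⧸ B.subgroupOf P) := C.map π
    haveI hNn : N.Normal := hCn.map π (QuotientGroup.mk'_surjective _)
    have hNb : N ≠ ⊥ := by
      intro h
      have h1 : π ⟨x₀, hx₀⟩ ∈ N := ⟨⟨x₀, hx₀⟩, by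
        change x₀ ∈ centralizer (B : Set S)
        exact mem_centralizer_iff.mpr fun b hb => (hx₀c b hb).symm, rfl⟩
      rw [h, mem_bot] at h1
      have h3 : (⟨x₀, hx₀⟩ : P) ∈ B.subgroupOf P := (QuotientGroup.eq_one_iff (⟨x₀, hx₀⟩ : P)).mp h1
      exact hx₀B h3
    haveI : Group.IsNilpotent (P ⧸ B.subgroupOf P) := inferInstance
    have h1 := normal_inf_center_ne_bot N hNb
    obtain ⟨zq, hzq⟩ := ne_bot_iff_exists_ne_one.mp h1
    obtain ⟨hzN, hzc⟩ := mem_inf.mp zq.2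
    obtain ⟨z, hzC, hze⟩ := hzN
    have hzB : (z : S) ∉ B := by
      intro h
      apply hzq
      apply Subtype.ext
      rw [← hze]
      exact (QuotientGroup.eq_one_iff z).mpr h
    have hzE : (z : S) ∈ E := by
      refine ⟨z.2, fun b hb => (mem_centralizer_iff.mp hzC b hb).symm, ?_⟩
      intro g hg
      let g' : P := ⟨g, hg⟩
      have h3 := mem_center_iff.mp hzc (π g')
      have h3' : π (g' * z) = π (z * g') := by
        rw [map_mul, map_mul, hze]
        exact h3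
      have e : g' * z * g'⁻¹ * z⁻¹ = (g' * z) * (z * g')⁻¹ := by group
      have h4 : π (g' * z * g'⁻¹ * z⁻¹) = 1 := by
        rw [e, map_mul, map_inv, h3', mul_inv_cancel]
      have h5 : g' * z * g'⁻¹ * z⁻¹ ∈ B.subgroupOf P := (QuotientGroup.eq_one_iff (g' * z * g'⁻¹ * z⁻¹)).mp h4
      exact h5
    exact hzB (hBEq.ge hzE)
  obtain ⟨x, hxE, hxB, hxt⟩ := exists_eigen hI hBI _ E rfl hBE hBEne hEI hEcomm
  -- a larger member of the family
  let D := B ⊔ zpowers x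
  have hcommD : ∀ a ∈ B, ∀ b ∈ zpowers x, a * b = b * a := by
    intro a ha b hb
    obtain ⟨i, rfl⟩ := mem_zpowers_iff.mp hb
    have : Commute x a := hxE.2.1 a ha
    exact ((this.zpow_left i).eq).symm
  have hconj : ∀ g, (∀ b ∈ B, g * b * g⁻¹ ∈ B) → g * x * g⁻¹ ∈ D → ∀ a ∈ D, g * a * g⁻¹ ∈ D := by
    intro g h1 h3 a ha
    have hle : D ≤ D.comap (MulAut.conj g).toMonoidHom :=
      sup_le (fun b hb => mem_sup_left (h1 b hb)) (zpowers_le.mpr h3)
    exact hle ha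
  have hDmem : D ∈ 𝔅 := by
    refine ⟨sup_le hBP (zpowers_le.mpr hxE.1), ?_, ?_, ?_⟩
    · intro a ha b hb
      obtain ⟨a₁, ha₁, a₂, ha₂, rfl⟩ := Cfsg.Agent.Lib.Cl.exists_mul_of_mem_sup hcommD ha
      obtain ⟨b₁, hb₁, b₂, hb₂, rfl⟩ := Cfsg.Agent.Lib.Cl.exists_mul_of_mem_sup hcommD hb
      have h1 : a₂ * b₂ = b₂ * a₂ := by
        obtain ⟨i, rfl⟩ := mem_zpowers_iff.mp ha₂
        obtain ⟨j, rfl⟩ := mem_zpowers_iff.mp hb₂
        exact ((Commute.refl x).zpow_zpow i j).eq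
      calc a₁ * a₂ * (b₁ * b₂) = a₁ * (a₂ * b₁) * b₂ := by group
        _ = a₁ * (b₁ * a₂) * b₂ := by rw [← hcommD b₁ hb₁ a₂ ha₂]
        _ = (a₁ * b₁) * (a₂ * b₂) := by group
        _ = (b₁ * a₁) * (b₂ * a₂) := by rw [hBc a₁ ha₁ b₁ hb₁, h1]
        _ = b₁ * (a₁ * b₂) * a₂ := by group
        _ = b₁ * (b₂ * a₁) * a₂ := by rw [hcommD a₁ ha₁ b₂ hb₂]
        _ = b₁ * b₂ * (a₁ * a₂) := by group
    · intro g hg
      refine hconj g (hBn g hg) ?_
      have h1 := hxE.2.2 g hg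
      have e : g * x * g⁻¹ = (g * x * g⁻¹ * x⁻¹) * x := by group
      rw [e]
      exact mul_mem_sup h1 (mem_zpowers x)
    · intro t ht
      refine hconj t (hBI t ht) ?_
      rcases hxt t ht with h1 | h1
      · have e : t * x * t⁻¹ = (t * x * t⁻¹ * x⁻¹) * x := by group
        rw [e]
        exact mul_mem_sup h1 (mem_zpowers x)
      · have e : t * x * t⁻¹ = (t * x * t⁻¹ * x) * x⁻¹ := by group
        rw [e]
        exact mul_mem_sup h1 (inv_mem (mem_zpowers x))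
  have hBD : B ≤ D := le_sup_left
  have hDB := hmax hDmem hBD
  exact hxB (hDB (mem_sup_right (mem_zpowers x)))


/-- An involution centralizing `B` centralizes the odd group `P`. -/
theorem centralize_of_B {B P : Subgroup S} {T : S} (hTT : T * T = 1) (hTP : ∀ a ∈ P, T * a * T⁻¹ ∈ P)
    (hBP : B ≤ P) (hBn : ∀ g ∈ P, ∀ b ∈ B, g * b * g⁻¹ ∈ B) (hC : ∀ x ∈ P, (∀ b ∈ B, x * b = b * x) → x ∈ B)
    (hTB : ∀ b ∈ B, T * b = b * T) (hodd : ∀ v ∈ P, v * v = 1 → v = 1) : ∀ g ∈ P, T * g = g * T := by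
  intro g hg
  have hTi : T⁻¹ = T := inv_eq_of_mul_eq_one_left hTT
  set v := g⁻¹ * (T * g * T⁻¹) with hv
  have hvP : v ∈ P := mul_mem (inv_mem hg) (hTP g hg)
  have hTf : ∀ b ∈ B, T * b * T⁻¹ = b := fun b hb => by rw [hTB b hb, mul_inv_cancel_right]
  have hvc : ∀ b ∈ B, v * b = b * v := by
    intro b hb
    have h1 := hTf _ (hBn g hg b hb)
    have h3 := hTf b hb
    have e1 : T * (g * b * g⁻¹) * T⁻¹ = (T * g * T⁻¹) * (T * b * T⁻¹) * (T * g * T⁻¹)⁻¹ := by group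
    rw [e1, h3] at h1
    have e2 : (T * g * T⁻¹) = g * v := by rw [hv, mul_inv_cancel_left]
    rw [e2] at h1
    have h4 : v * b * v⁻¹ = b := by
      have e3 : g * v * b * (g * v)⁻¹ = g * (v * b * v⁻¹) * g⁻¹ := by group
      rw [e3] at h1
      exact mul_left_cancel (mul_right_cancel h1)
    rw [mul_inv_eq_iff_eq_mul] at h4
    exact h4
  have hvB : v ∈ B := hC v hvP hvc
  have h1 : T * v * T⁻¹ = v := hTf v hvB
  have h3 : T * v * T⁻¹ = v⁻¹ := by
    have e2 : v⁻¹ = T * g⁻¹ * T⁻¹ * g := by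
      rw [hv]
      group
    calc T * v * T⁻¹ = T * g⁻¹ * T * g * (T⁻¹ * T⁻¹) := by
          rw [hv]
          group
      _ = T * g⁻¹ * T * g := by rw [hTi, hTT, mul_one]
      _ = v⁻¹ := by rw [e2, hTi]
  have h4 : v * v = 1 := mul_eq_one_iff_eq_inv.mpr (h1.symm.trans h3)
  have h5 := hodd v hvP h4
  rw [hv] at h5
  have h6 : g = T * g * T⁻¹ := inv_mul_eq_one.mp h5
  rw [eq_mul_inv_iff_mul_eq] at h6
  exact h6.symm

/-- Eigenlines inside an abelian invariant subgroup. -/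
theorem exists_line [Finite S] {I B : Subgroup S} (hI : ElemI I) (hBc : ∀ a ∈ B, ∀ b ∈ B, a * b = b * a)
    (hBI : ∀ t ∈ I, ∀ b ∈ B, t * b * t⁻¹ ∈ B) (hodd : ∀ v ∈ B, v * v = 1 → v = 1) {T : S} (hT : T ∈ I)
    (hmove : ∃ b ∈ B, T * b ≠ b * T) :
    ∃ x ∈ B, (orderOf x).Prime ∧ (∀ t ∈ I, t * x * t⁻¹ = x ∨ t * x * t⁻¹ = x⁻¹) ∧ T * x ≠ x * T := by
  obtain ⟨b, hb, hbT⟩ := hmove
  have hTT := hI.sq T hT
  have hTi : T⁻¹ = T := hI.inv hT
  -- the elements inverted by `T`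
  let E : Subgroup S :=
    { carrier := {y | y ∈ B ∧ T * y * T⁻¹ = y⁻¹}
      one_mem' := ⟨one_mem _, by simp⟩
      mul_mem' := by
        rintro y z ⟨hy, hy'⟩ ⟨hz, hz'⟩
        refine ⟨mul_mem hy hz, ?_⟩
        have e : T * (y * z) * T⁻¹ = (T * y * T⁻¹) * (T * z * T⁻¹) := by group
        rw [e, hy', hz', mul_inv_rev]
        exact hBc _ (inv_mem hy) _ (inv_mem hz)
      inv_mem' := by
        rintro y ⟨hy, hy'⟩
        refine ⟨inv_mem hy, ?_⟩
        have e : T * y⁻¹ * T⁻¹ = (T * y * T⁻¹)⁻¹ := by group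
        rw [e, hy'] }
  have hEB : E ≤ B := fun y hy => hy.1
  have hEI : ∀ t ∈ I, ∀ e ∈ E, t * e * t⁻¹ ∈ E := by
    rintro t ht y ⟨hy, hy'⟩
    refine ⟨hBI t ht y hy, ?_⟩
    have e1 : T * (t * y * t⁻¹) * T⁻¹ = (T * t) * y * (T * t)⁻¹ := by group
    rw [e1, hI.comm T hT t ht]
    have e2 : (t * T) * y * (t * T)⁻¹ = t * (T * y * T⁻¹) * t⁻¹ := by group
    rw [e2, hy']
    group
  have hEne : (⊥ : Subgroup S) ≠ E := by
    intro h
    set y := T * b * T⁻¹ * b⁻¹ with hy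
    have hyE : y ∈ E := by
      refine ⟨mul_mem (hBI T hT b hb) (inv_mem hb), ?_⟩
      have e2 : T * y * T⁻¹ = b * (T * b * T⁻¹)⁻¹ := by
        calc T * y * T⁻¹ = (T * T) * b * T⁻¹ * (b⁻¹ * T⁻¹) := by
              rw [hy]
              group
          _ = b * T⁻¹ * (b⁻¹ * T⁻¹) := by rw [hTT, one_mul]
          _ = b * (T * b⁻¹ * T⁻¹) := by simp only [hTi, mul_assoc]
          _ = b * (T * b * T⁻¹)⁻¹ := by
              have e3 : (T * b * T⁻¹)⁻¹ = T * b⁻¹ * T⁻¹ := by group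
              rw [e3]
      have e5 : y⁻¹ = b * (T * b * T⁻¹)⁻¹ := by
        rw [hy]
        group
      rw [e2, e5]
    rw [← h, mem_bot] at hyE
    apply hbT
    rw [hy, mul_inv_eq_one, mul_inv_eq_iff_eq_mul] at hyE
    exact hyE
  obtain ⟨x₀, hx₀, hx₀B, hx₀t⟩ := exists_eigen (B := ⊥) hI (by simp) _ E rfl bot_le hEne hEI (by
    intro x hx y hy
    have h1 := hBc x hx.1 y hy.1
    rw [mem_bot, h1]
    group)
  have hx₀1 : x₀ ≠ 1 := fun h => hx₀B (by rw [h]; exact one_mem _)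
  have ho : orderOf x₀ ≠ 1 := fun h => hx₀1 (orderOf_eq_one_iff.mp h)
  set q := (orderOf x₀).minFac with hq
  have hqp : q.Prime := Nat.minFac_prime ho
  have hqd : q ∣ orderOf x₀ := Nat.minFac_dvd _
  set x := x₀ ^ (orderOf x₀ / q) with hx
  have hxo : orderOf x = q := by
    rw [hx]
    exact orderOf_pow_orderOf_div (orderOf_pos x₀).ne' hqd
  have hxB : x ∈ B := pow_mem hx₀.1 _
  have hxconj : ∀ t, t * x * t⁻¹ = (t * x₀ * t⁻¹) ^ (orderOf x₀ / q) := by
    intro t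
    rw [hx, conj_pow]
  have hxE : T * x * T⁻¹ = x⁻¹ := by
    rw [hxconj, hx₀.2, inv_pow]
  refine ⟨x, hxB, by rw [hxo]; exact hqp, ?_, ?_⟩
  · intro t ht
    rw [hxconj]
    rcases hx₀t t ht with h | h
    · left
      rw [mem_bot, mul_inv_eq_one] at h
      rw [h]
    · right
      rw [mem_bot, mul_eq_one_iff_eq_inv] at h
      rw [h, inv_pow]
  · intro h
    have h1 : T * x * T⁻¹ = x := by rw [h, mul_inv_cancel_right]
    rw [hxE] at h1
    have h3 : x * x = 1 := by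
      nth_rewrite 1 [← h1]
      group
    have h4 := hodd x hxB h3
    rw [h4, orderOf_one] at hxo
    exact hqp.one_lt.ne hxo


/-- A line in the family. -/
def Line (I : Subgroup S) (Fam : S → Prop) (A : Subgroup S) : Prop :=
  ∃ x, Fam x ∧ A = zpowers x ∧ (orderOf x).Prime ∧ ∀ t ∈ I, t * x * t⁻¹ = x ∨ t * x * t⁻¹ = x⁻¹

/-- The chain of eigenlines. -/
theorem chain [Finite S] {I F : Subgroup S} {Fam : S → Prop} (hI : ElemI I)
    (hfc : ∀ x y, Fam x → Fam y → x * y = y * x) (hfF : ∀ x, Fam x → x ∈ F) (hodd : ∀ z ∈ F, z * z = 1 → z = 1)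
    (hline : ∀ T ∈ I, T ≠ 1 → ∃ x, Fam x ∧ (orderOf x).Prime ∧ (∀ t ∈ I, t * x * t⁻¹ = x ∨ t * x * t⁻¹ = x⁻¹) ∧
      T * x ≠ x * T) {n : ℕ} (hIn : Nat.card I = 2 ^ n) :
    ∀ k, k ≤ n → ∃ f : Fin k → Subgroup S, (∀ i, Line I Fam (f i)) ∧
      Nat.card (⨆ i, f i : Subgroup S) = ∏ i, Nat.card (f i) ∧
      Nat.card (I ⊓ centralizer ((⨆ i, f i : Subgroup S) : Set S) : Subgroup S) * 2 ^ k = 2 ^ n := by
  intro k
  induction k with
  | zero =>
    intro _
    refine ⟨Fin.elim0, fun i => i.elim0, ?_, ?_⟩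
    · simp
    · have h1 : (⨆ i : Fin 0, (Fin.elim0 i : Subgroup S)) = ⊥ := by simp
      rw [h1, pow_zero, mul_one]
      have h3 : centralizer (((⊥ : Subgroup S)) : Set S) = ⊤ := by
        rw [coe_bot]
        exact centralizer_eq_top_iff_subset.mpr (by simp)
      rw [h3, inf_top_eq, hIn]
  | succ k ih =>
    intro hk
    obtain ⟨f, hf, hcard, hJ⟩ := ih (by omega)
    set X : Subgroup S := ⨆ i, f i with hX
    set J : Subgroup S := I ⊓ centralizer (X : Set S) with hJdef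
    have hJb : J ≠ ⊥ := by
      intro h
      rw [h, card_bot, one_mul] at hJ
      have : 2 ^ k < 2 ^ n := Nat.pow_lt_pow_right (by norm_num) (by omega)
      omega
    obtain ⟨T, hTJ, hT1⟩ := (Subgroup.bot_or_exists_ne_one J).resolve_left hJb
    obtain ⟨x, hxF, hxp, hxt, hTx⟩ := hline T hTJ.1 hT1
    have hTi : T * x * T⁻¹ = x⁻¹ := by
      rcases hxt T hTJ.1 with h | h
      · exfalso
        apply hTx
        rw [mul_inv_eq_iff_eq_mul] at h
        exact h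
      · exact h
    have hxx : x * x ≠ 1 := by
      intro h
      have h1 := hodd x (hfF x hxF) h
      rw [h1, orderOf_one] at hxp
      exact Nat.not_prime_one hxp
    have hXx : X ≤ centralizer {x} := by
      refine iSup_le fun i => ?_
      obtain ⟨y, hy, hyf, -, -⟩ := hf i
      rw [hyf, zpowers_le, mem_centralizer_singleton_iff]
      exact hfc y x hy hxF
    have hcomm : ∀ a ∈ X, ∀ b ∈ zpowers x, a * b = b * a := by
      intro a ha b hb
      obtain ⟨j, rfl⟩ := mem_zpowers_iff.mp hb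
      have : Commute a x := mem_centralizer_singleton_iff.mp (hXx ha)
      exact (this.zpow_right j).eq
    have hinf : X ⊓ zpowers x = ⊥ := by
      rw [eq_bot_iff]
      rintro z ⟨hzX, hzA⟩
      obtain ⟨j, rfl⟩ := mem_zpowers_iff.mp hzA
      have h1 : x ^ j * T = T * x ^ j := mem_centralizer_iff.mp hTJ.2 _ hzX
      have h3 : T * x ^ j * T⁻¹ = (x ^ j)⁻¹ := by
        rw [← conj_zpow, hTi, inv_zpow]
      rw [← h1, mul_inv_cancel_right] at h3
      have h4 : x ^ j * x ^ j = 1 := by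
        nth_rewrite 1 [h3]
        group
      rw [mem_bot]
      exact hodd _ (F.zpow_mem (hfF x hxF) j) h4
    let f' : Fin (k + 1) → Subgroup S := Fin.snoc f (zpowers x)
    have hf'c : ∀ i : Fin k, f' i.castSucc = f i := fun i => by simp [f']
    have hf'l : f' (Fin.last k) = zpowers x := by simp [f']
    have hsup : (⨆ i, f' i) = X ⊔ zpowers x := by
      apply le_antisymm
      · refine iSup_le fun i => ?_
        induction i using Fin.lastCases with
        | last =>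
          rw [hf'l]
          exact le_sup_right
        | cast i =>
          rw [hf'c]
          exact (le_iSup f i).trans le_sup_left
      · refine sup_le (iSup_le fun i => ?_) ?_
        · rw [← hf'c]
          exact le_iSup f' _
        · rw [← hf'l]
          exact le_iSup f' _
    refine ⟨f', ?_, ?_, ?_⟩
    · intro i
      induction i using Fin.lastCases with
      | last =>
        rw [hf'l]
        exact ⟨x, hxF, rfl, hxp, hxt⟩
      | cast i =>
        rw [hf'c]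
        exact hf i
    · rw [hsup, card_sup_eq hcomm hinf, hcard, Fin.prod_univ_castSucc]
      simp only [hf'c, hf'l]
    · rw [hsup]
      set J' : Subgroup S := I ⊓ centralizer ((X ⊔ zpowers x : Subgroup S) : Set S) with hJ'def
      have hJ'J : J' ≤ J := inf_le_inf_left _ (centralizer_le (SetLike.coe_subset_coe.mpr le_sup_left))
      have hmem : ∀ b ∈ J, b ∈ J' ↔ b * x = x * b := by
        intro b hb
        constructor
        · intro h
          exact (mem_centralizer_iff.mp h.2 x (mem_sup_right (mem_zpowers x))).symm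
        · intro h
          refine ⟨hb.1, ?_⟩
          have hle : X ⊔ zpowers x ≤ centralizer {b} := by
            refine sup_le ?_ (zpowers_le.mpr ?_)
            · intro a ha
              rw [mem_centralizer_singleton_iff]
              exact mem_centralizer_iff.mp hb.2 a ha
            · rw [mem_centralizer_singleton_iff]
              exact h.symm
          exact mem_centralizer_iff.mpr fun a ha => mem_centralizer_singleton_iff.mp (hle ha)
      have hidx : (J'.subgroupOf J).index = 2 := by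
        rw [index_eq_two_iff]
        refine ⟨⟨T, hTJ⟩, fun b => ?_⟩
        have hbm : (b : S) ∈ J' ↔ (b : S) * x = x * b := hmem b b.2
        have hbT : (b : S) * T ∈ J' ↔ ((b : S) * T) * x = x * ((b : S) * T) :=
          hmem _ (J.mul_mem b.2 hTJ)
        have e : ((b : S) * T) * x * ((b : S) * T)⁻¹ = (b : S) * x⁻¹ * (b : S)⁻¹ := by
          have e1 : ((b : S) * T) * x * ((b : S) * T)⁻¹ = (b : S) * (T * x * T⁻¹) * (b : S)⁻¹ := by group
          rw [e1, hTi]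
        have hne : x⁻¹ ≠ x := fun h => hxx (by nth_rewrite 1 [← h]; group)
        change Xor' ((b : S) * T ∈ J') ((b : S) ∈ J')
        rcases hxt b b.2.1 with h | h
        · have h1 : (b : S) * x = x * b := by
            rw [mul_inv_eq_iff_eq_mul] at h
            exact h
          refine Or.inr ⟨hbm.mpr h1, ?_⟩
          rw [hbT]
          intro h3
          rw [← mul_inv_eq_iff_eq_mul] at h3
          rw [e] at h3
          have e2 : (b : S) * x⁻¹ * (b : S)⁻¹ = ((b : S) * x * (b : S)⁻¹)⁻¹ := by group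
          rw [e2, h] at h3
          exact hne h3
        · refine Or.inl ⟨?_, ?_⟩
          · rw [hbT, ← mul_inv_eq_iff_eq_mul, e]
            have e2 : (b : S) * x⁻¹ * (b : S)⁻¹ = ((b : S) * x * (b : S)⁻¹)⁻¹ := by group
            rw [e2, h, inv_inv]
          · rw [hbm]
            intro h1
            rw [← mul_inv_eq_iff_eq_mul] at h1
            rw [h1] at h
            exact hne h.symm
      have h1 : Nat.card J' * 2 = Nat.card J := by
        have h3 := relIndex_mul_relIndex (⊥ : Subgroup S) J' J bot_le hJ'J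
        rw [relIndex_bot_left, relIndex_bot_left] at h3
        have hrel : J'.relIndex J = 2 := hidx
        rw [hrel] at h3
        exact h3
      rw [pow_succ, ← mul_assoc, mul_comm _ (2 ^ k), mul_assoc, mul_comm (2 ^ k), mul_assoc, ← hJ, ← h1]
      ring

/-- The main theorem on eigenlines. -/
theorem main {S : Type u} [Group S] [Finite S]
    [Group.IsSolvable S] (hF : Odd (Nat.card ↥(Cfsg.fittingSubgroup S)))
    (I : Subgroup S) (hI : Cfsg.IsElementaryAbelian 2 I) (n : ℕ) (hIn : Nat.card ↥I = 2 ^ n) :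
    ∃ f : Fin n → Subgroup S, (∀ i, (Nat.card ↥(f i)).Prime) ∧ (∀ i, f i ≤ Cfsg.fittingSubgroup S) ∧
      (∀ i, I ≤ Subgroup.normalizer ((f i) : Set S)) ∧ (∀ i j, i ≠ j → ∀ a ∈ f i, ∀ b ∈ f j, a * b = b * a) ∧
      Nat.card ↥(⨆ i, f i) = ∏ i, Nat.card ↥(f i) ∧ I ⊓ Subgroup.centralizer ((⨆ i, f i : Subgroup S) : Set S) = ⊥ := by
  have hI' : ElemI I := ⟨fun a ha b hb => congrArg Subtype.val (hI.1.is_comm.comm ⟨a, ha⟩ ⟨b, hb⟩),
    fun a ha => by rw [← pow_two]; exact hI.2 a ha⟩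
  have hodd : ∀ z ∈ fittingSubgroup S, z * z = 1 → z = 1 := by
    intro z hz h
    have h1 : orderOf z ∣ 2 := orderOf_dvd_of_pow_eq_one (by rw [pow_two, h])
    have h3 : orderOf z ∣ Nat.card (fittingSubgroup S) := Subgroup.orderOf_dvd_natCard _ hz
    have h4 : Odd (orderOf z) := Odd.of_dvd_nat hF h3
    have h5 : orderOf z = 1 := by
      have h6 := Nat.le_of_dvd (by norm_num) h1
      have h7 := orderOf_pos z
      rcases Nat.lt_or_ge (orderOf z) 2 with h8 | h8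
      · omega
      · have : orderOf z = 2 := by omega
        rw [this] at h4
        exact absurd h4 (by decide)
    exact orderOf_eq_one_iff.mp h5
  have hBex : ∀ p : Nat.Primes, ∃ B : Subgroup S, B ≤ pCore (p : ℕ) S ∧ (∀ a ∈ B, ∀ b ∈ B, a * b = b * a) ∧
      (∀ g ∈ pCore (p : ℕ) S, ∀ b ∈ B, g * b * g⁻¹ ∈ B) ∧
      (∀ t ∈ I, ∀ b ∈ B, t * b * t⁻¹ ∈ B) ∧ ∀ x ∈ pCore (p : ℕ) S, (∀ b ∈ B, x * b = b * x) → x ∈ B := by
    intro p
    haveI : Fact (p : ℕ).Prime := ⟨p.2⟩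
    exact exists_B hI' (pCore_isPGroup (p : ℕ) S)
      (fun t _ a ha => (pCore_normal (p : ℕ) S).conj_mem a ha t)
  choose B hBP hBc hBn hBI hBC using hBex
  have hPF : ∀ p : Nat.Primes, pCore (p : ℕ) S ≤ fittingSubgroup S := by
    intro p
    haveI : Fact (p : ℕ).Prime := ⟨p.2⟩
    exact pCore_le_fittingSubgroup (p : ℕ)
  have hfc : ∀ x y, (∃ p, x ∈ B p) → (∃ p, y ∈ B p) → x * y = y * x := by
    rintro x y ⟨p, hx⟩ ⟨q, hy⟩
    by_cases hpq : p = q
    · subst hpq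
      exact hBc p x hx y hy
    · haveI : Fact (p : ℕ).Prime := ⟨p.2⟩
      haveI : Fact (q : ℕ).Prime := ⟨q.2⟩
      have hne : (p : ℕ) ≠ q := fun h => hpq (Subtype.ext h)
      have hdis := IsPGroup.disjoint_of_ne (p : ℕ) (q : ℕ) hne _ _ (pCore_isPGroup (p : ℕ) S) (pCore_isPGroup (q : ℕ) S)
      have hxP := hBP p hx
      have hyQ := hBP q hy
      have h1 : x * y * x⁻¹ * y⁻¹ ∈ pCore (p : ℕ) S ⊓ pCore (q : ℕ) S := by
        refine mem_inf.mpr ⟨?_, ?_⟩
        · have e : x * y * x⁻¹ * y⁻¹ = x * (y * x⁻¹ * y⁻¹) := by group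
          rw [e]
          exact mul_mem hxP ((pCore_normal (p : ℕ) S).conj_mem _ (inv_mem hxP) y)
        · exact mul_mem ((pCore_normal (q : ℕ) S).conj_mem _ hyQ x) (inv_mem hyQ)
      rw [disjoint_iff.mp hdis, mem_bot] at h1
      have h3 : x * y * x⁻¹ = y := by
        rw [mul_inv_eq_one] at h1
        exact h1
      rw [mul_inv_eq_iff_eq_mul] at h3
      exact h3
  have hfF : ∀ x, (∃ p, x ∈ B p) → x ∈ fittingSubgroup S := by
    rintro x ⟨p, hx⟩
    exact hPF p (hBP p hx)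
  have hline : ∀ T ∈ I, T ≠ 1 → ∃ x, (∃ p, x ∈ B p) ∧ (orderOf x).Prime ∧
      (∀ t ∈ I, t * x * t⁻¹ = x ∨ t * x * t⁻¹ = x⁻¹) ∧ T * x ≠ x * T := by
    intro T hT hT1
    by_cases hall : ∀ p : Nat.Primes, ∀ b ∈ B p, T * b = b * T
    · exfalso
      have hTF : fittingSubgroup S ≤ centralizer {T} := by
        rw [fittingSubgroup_eq_iSup_pCore]
        refine iSup_le fun p => ?_
        intro g hg
        rw [mem_centralizer_singleton_iff]
        refine (centralize_of_B (hI'.sq T hT) (fun a ha => (pCore_normal (p : ℕ) S).conj_mem a ha T)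
          (hBP p) (hBn p) (hBC p) (hall p) (fun v hv h => hodd v (hPF p hv) h) g hg).symm
      have hTC : T ∈ centralizer (fittingSubgroup S : Set S) := by
        rw [mem_centralizer_iff]
        intro h hh
        exact mem_centralizer_singleton_iff.mp (hTF hh)
      have hTf := Cfsg.Agent.Lib.Geo.centralizer_fitting_le_of_solvable hTC
      exact hT1 (hodd T hTf (hI'.sq T hT))
    · push Not at hall
      obtain ⟨p, b, hb, hbT⟩ := hall
      obtain ⟨x, hx, hxp, hxt, hxT⟩ := exists_line hI' (hBc p) (hBI p)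
        (fun v hv h => hodd v (hfF v ⟨p, hv⟩) h) hT ⟨b, hb, hbT⟩
      exact ⟨x, ⟨p, hx⟩, hxp, hxt, hxT⟩
  obtain ⟨f, hf, hcard, hJ⟩ := chain (F := fittingSubgroup S) hI' hfc hfF hodd hline hIn n le_rfl
  refine ⟨f, ?_, ?_, ?_, ?_, hcard, ?_⟩
  · intro i
    obtain ⟨x, -, e, hxp, -⟩ := hf i
    rw [e, Nat.card_zpowers]
    exact hxp
  · intro i
    obtain ⟨x, hx, e, -, -⟩ := hf i
    rw [e, zpowers_le]
    exact hfF x hx
  · intro i t ht
    obtain ⟨x, -, e, -, hxt⟩ := hf i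
    rw [e]
    apply mem_normalizer_of_conj_mem
    intro a ha
    obtain ⟨j, rfl⟩ := mem_zpowers_iff.mp ha
    rw [← conj_zpow]
    rcases hxt t ht with h | h
    · rw [h]
      exact zpow_mem (mem_zpowers x) j
    · rw [h]
      exact zpow_mem (inv_mem (mem_zpowers x)) j
  · intro i j _ a ha b hb
    obtain ⟨x, hx, e, -, -⟩ := hf i
    obtain ⟨y, hy, e', -, -⟩ := hf j
    rw [e] at ha
    rw [e'] at hb
    obtain ⟨u, rfl⟩ := mem_zpowers_iff.mp ha
    obtain ⟨v, rfl⟩ := mem_zpowers_iff.mp hb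
    have : Commute x y := hfc x y hx hy
    exact (this.zpow_zpow u v).eq
  · have h1 : Nat.card (I ⊓ centralizer ((⨆ i, f i : Subgroup S) : Set S) : Subgroup S) = 1 := by
      have hpos : 0 < 2 ^ n := by positivity
      exact Nat.eq_of_mul_eq_mul_right hpos (by rw [hJ, one_mul])
    exact card_eq_one.mp h1


end Cfsg.Agent.Lib.ClassSizes.ElemLines
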