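import Cfsg.Agent.Lib.CharExtra.Ito
import Cfsg.Agent.Lib.FF.Hcond2
import Cfsg.Agent.Lib.PGroup.PLength
import Cfsg.Agent.Lib.Transfer.Frat
import Cfsg.Agent.Lib.Char.Burnside
import Cfsg.Agent.Lib.Core.Factor
import Mathlib

/-! Finite groups of exponent dividing six have `2`-length and `3`-length at most one. -/

set_option autoImplicit false

namespace Cfsg.Agent.Lib.ClassSizes.ExpSix

open Cfsg
open scoped commutatorElement

section Operators

variable {B : Type*} [CommGroup B]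

theorem eq_one_of_sq (h3 : ∀ z : B, z ^ 3 = 1) {z : B} (h : z ^ 2 = 1) : z = 1 := by
  have h1 := h3 z
  rw [pow_succ, h, one_mul] at h1
  exact h1

theorem eig_step (h3 : ∀ z : B, z ^ 3 = 1) (τ : B →* B) (hτ : ∀ w, τ (τ w) = w) (w : B) (hw : w ≠ 1) :
    ∃ s : ℤ, (s = 1 ∨ s = -1) ∧ w * (τ w) ^ s ≠ 1 ∧ τ (w * (τ w) ^ s) = (w * (τ w) ^ s) ^ s := by
  by_cases h1 : w * τ w = 1
  · refine ⟨-1, Or.inr rfl, ?_, ?_⟩
    · intro h2
      apply hw
      have h4 : τ w = w⁻¹ := eq_inv_of_mul_eq_one_right h1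
      rw [h4] at h2
      simp only [zpow_neg, zpow_one, inv_inv] at h2
      exact eq_one_of_sq h3 (by rw [sq]; exact h2)
    · simp only [zpow_neg, zpow_one, map_mul, map_inv, hτ, mul_inv, inv_inv]
      exact mul_comm _ _
  · refine ⟨1, Or.inl rfl, ?_, ?_⟩
    · simpa using h1
    · simp only [zpow_one, map_mul, hτ]
      exact mul_comm _ _

theorem eig_preserve (τ θ : B →* B) (hθτ : ∀ w, θ (τ w) = τ (θ w)) {w : B} {t s : ℤ}
    (hw : θ w = w ^ t) : θ (w * (τ w) ^ s) = (w * (τ w) ^ s) ^ t := by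
  rw [map_mul, map_zpow, hθτ, hw, map_zpow, mul_zpow, ← zpow_mul, ← zpow_mul, mul_comm s t]

/-- The operator lemma: no faithful action as in `A₄` with `1 + σ + σ² = 0`. -/
theorem operator_aux (h3 : ∀ z : B, z ^ 3 = 1) (α β γ σ : B →* B)
    (hα : ∀ w, α (α w) = w) (hβ : ∀ w, β (β w) = w) (hγ : ∀ w, γ (γ w) = w)
    (hαβ : ∀ w, α (β w) = β (α w)) (hαγ : ∀ w, α (γ w) = γ (α w)) (hβγ : ∀ w, β (γ w) = γ (β w))
    (hσ3 : ∀ w, σ (σ (σ w)) = w)
    (r1 : ∀ w, α (σ w) = σ (γ w)) (r3 : ∀ w, γ (σ w) = σ (β w))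
    (hN : ∀ w, w * σ w * σ (σ w) = 1) : ∀ u, α (β u) = u := by
  intro u
  by_contra hu
  let τ₀ : B →* B := α.comp β
  have hτ₀ : ∀ w, τ₀ w = α (β w) := fun _ => rfl
  have hτ₀2 : ∀ w, τ₀ (τ₀ w) = w := by
    intro w
    rw [hτ₀, hτ₀, hαβ, hα, hβ]
  set u₁ := u * (τ₀ u)⁻¹ with hu₁
  have hu₁1 : u₁ ≠ 1 := by
    intro h
    exact hu (by rw [← hτ₀]; exact (mul_inv_eq_one.mp h).symm)
  have hτu₁ : τ₀ u₁ = u₁⁻¹ := by
    rw [hu₁, map_mul, map_inv, hτ₀2]
    simp [mul_comm]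
  have hτ₀α : ∀ w, τ₀ (α w) = α (τ₀ w) := by
    intro w
    rw [hτ₀, hτ₀, ← hαβ]
  -- the `α`-eigenvector
  obtain ⟨ε, hε, hw1, hwα⟩ := eig_step h3 α hα u₁ hu₁1
  set w := u₁ * (α u₁) ^ ε with hw
  have hwτ : τ₀ w = w ^ (-1 : ℤ) := by
    rw [hw]
    exact eig_preserve α τ₀ hτ₀α (by simpa using hτu₁)
  -- the `γ`-eigenvector
  obtain ⟨δ, hδ, hw'1, hw'γ⟩ := eig_step h3 γ hγ w hw1
  set w' := w * (γ w) ^ δ with hw'
  have hw'α : α w' = w' ^ ε := by
    rw [hw']
    exact eig_preserve γ α hαγ hwα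
  have hτ₀γ : ∀ v, τ₀ (γ v) = γ (τ₀ v) := by
    intro v
    rw [hτ₀, hτ₀, hβγ, hαγ]
  have hw'τ : τ₀ w' = w' ^ (-1 : ℤ) := by
    rw [hw']
    exact eig_preserve γ τ₀ hτ₀γ hwτ
  have hw'β : β w' = w' ^ (-ε) := by
    have h1 : β w' = α (τ₀ w') := by rw [hτ₀, hα]
    rw [h1, hw'τ, map_zpow, hw'α, ← zpow_mul]
    congr 1
    ring
  set w2 := σ w' with hw2
  set w3 := σ (σ w') with hw3
  have hsum : w' * w2 * w3 = 1 := hN w'
  have hαw2 : α w2 = w2 ^ δ := by
    rw [hw2, r1, hw'γ, map_zpow]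
  have hαw3 : α w3 = w3 ^ (-ε) := by
    rw [hw3, r1, r3, hw'β, map_zpow, map_zpow]
  have happ : w' ^ ε * w2 ^ δ * w3 ^ (-ε) = 1 := by
    have := congrArg α hsum
    rw [map_mul, map_mul, hw'α, hαw2, hαw3, map_one] at this
    exact this
  have hw3eq : w3 = (w' * w2)⁻¹ := eq_inv_of_mul_eq_one_right hsum
  have hfin : w' ^ ε * w2 ^ δ * (w' * w2) ^ ε = 1 := by
    rw [← happ, hw3eq, zpow_neg, inv_zpow, inv_inv]
  have hw3ne : w' * w2 ≠ 1 := by
    intro h
    have h1 : w3 = 1 := by rw [hw3eq, h, inv_one]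
    apply hw'1
    have h2 := hσ3 w'
    rw [← hw3, h1, map_one] at h2
    exact h2.symm
  rcases hε with rfl | rfl <;> rcases hδ with rfl | rfl
  · apply hw3ne
    apply eq_one_of_sq h3
    rw [sq]
    simpa using hfin
  · apply hw'1
    apply eq_one_of_sq h3
    rw [sq]
    have : w' * w2⁻¹ * (w' * w2) = 1 := by simpa using hfin
    rw [← this]
    simp [mul_comm, mul_left_comm]
  · apply hw'1
    apply eq_one_of_sq h3
    have h1 : w'⁻¹ * w2 * (w' * w2)⁻¹ = 1 := by simpa using hfin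
    have h2 : (w' ^ 2)⁻¹ = 1 := by
      rw [← h1, sq]
      simp [mul_comm, mul_left_comm]
    simpa using h2
  · apply hw3ne
    apply eq_one_of_sq h3
    have h1 : w'⁻¹ * w2⁻¹ * (w' * w2)⁻¹ = 1 := by simpa using hfin
    have h2 : ((w' * w2) ^ 2)⁻¹ = 1 := by
      rw [← h1, sq]
      simp [mul_comm, mul_left_comm]
    simpa using h2

/-- The operator lemma for a group with commuting quotient. -/
theorem operator_lemma {C : Type*} [Group C] (hcomm : ∀ p q : C, p * q = q * p)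
    (h3 : ∀ z : C, z ^ 3 = 1) (α β γ σ : C →* C)
    (hα : ∀ w, α (α w) = w) (hβ : ∀ w, β (β w) = w) (hγ : ∀ w, γ (γ w) = w)
    (hαβ : ∀ w, α (β w) = β (α w)) (hαγ : ∀ w, α (γ w) = γ (α w)) (hβγ : ∀ w, β (γ w) = γ (β w))
    (hσ3 : ∀ w, σ (σ (σ w)) = w)
    (r1 : ∀ w, α (σ w) = σ (γ w)) (r3 : ∀ w, γ (σ w) = σ (β w))
    (hN : ∀ w, w * σ w * σ (σ w) = 1) : ∀ u, α (β u) = u := by
  letI : CommGroup C := { ‹Group C› with mul_comm := hcomm }
  exact operator_aux h3 α β γ σ hα hβ hγ hαβ hαγ hβγ hσ3 r1 r3 hN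

end Operators

section Sections

variable {X : Type*} [Group X] [Finite X]

/-- Elements of `3`-power order in a group of exponent six have order dividing `3`. -/
theorem cube_of_three (h6 : ∀ x : X, x ^ 6 = 1) {v : X} {k : ℕ} (hv : v ^ 3 ^ k = 1) : v ^ 3 = 1 := by
  have h1 : orderOf v ∣ 6 := orderOf_dvd_of_pow_eq_one (h6 v)
  have h2 : orderOf v ∣ 3 ^ k := orderOf_dvd_of_pow_eq_one hv
  have h3 : Nat.Coprime (orderOf v) 2 :=
    Nat.Coprime.coprime_dvd_left h2 (Nat.Coprime.pow_left k (by norm_num))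
  have h4 : orderOf v ∣ 3 := h3.dvd_of_dvd_mul_left (by simpa using h1)
  exact orderOf_dvd_iff_pow_eq_one.mp h4

theorem sq_of_two (h6 : ∀ x : X, x ^ 6 = 1) {v : X} {k : ℕ} (hv : v ^ 2 ^ k = 1) : v ^ 2 = 1 := by
  have h1 : orderOf v ∣ 6 := orderOf_dvd_of_pow_eq_one (h6 v)
  have h2 : orderOf v ∣ 2 ^ k := orderOf_dvd_of_pow_eq_one hv
  have h3 : Nat.Coprime (orderOf v) 3 :=
    Nat.Coprime.coprime_dvd_left h2 (Nat.Coprime.pow_left k (by norm_num))
  have h4 : orderOf v ∣ 2 := h3.dvd_of_dvd_mul_right (by simpa using h1)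
  exact orderOf_dvd_iff_pow_eq_one.mp h4

theorem comm_of_sq (A : Subgroup X) (h : ∀ z ∈ A, z ^ 2 = 1) {u v : X} (hu : u ∈ A) (hv : v ∈ A) :
    u * v = v * u := by
  have h1 := h _ (mul_mem hu hv)
  have h2 := h u hu
  have h3 := h v hv
  rw [sq] at h1 h2 h3
  have hui : u⁻¹ = u := inv_eq_of_mul_eq_one_left h2
  have hvi : v⁻¹ = v := inv_eq_of_mul_eq_one_left h3
  have h4 : u * v = (u * v)⁻¹ := (inv_eq_of_mul_eq_one_left h1).symm
  rw [h4, mul_inv_rev, hui, hvi]

/-- The core computation with the Frattini quotient of `O`. -/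
theorem no_e3 (h6 : ∀ x : X, x ^ 6 = 1) (O : Subgroup X) [hOn : O.Normal] (hO3 : IsPGroup 3 O)
    (a y : X) (ha : a ^ 2 = 1) (hy : y ^ 3 = 1)
    (hab : a * (y * a * y⁻¹) = (y * a * y⁻¹) * a) (hac : a * (y⁻¹ * a * y) = (y⁻¹ * a * y) * a)
    (hbc : (y * a * y⁻¹) * (y⁻¹ * a * y) = (y⁻¹ * a * y) * (y * a * y⁻¹)) :
    ∀ u ∈ O, (a * (y * a * y⁻¹)) * u * (a * (y * a * y⁻¹))⁻¹ = u := by
  haveI : Fact (Nat.Prime 3) := ⟨Nat.prime_three⟩
  set b := y * a * y⁻¹ with hb
  set c := y⁻¹ * a * y with hc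
  let F : Subgroup O := frattini O
  haveI hFn : F.Normal := inferInstance
  have hFc : ∀ f : O ≃* O, F ≤ F.comap f.toMonoidHom := fun f =>
    le_of_eq ((inferInstance : F.Characteristic).fixed f).symm
  let act : X → (O ⧸ F →* O ⧸ F) := fun g =>
    QuotientGroup.map F F (MulAut.conjNormal g : O ≃* O).toMonoidHom (hFc _)
  have act_mk : ∀ (g : X) (v : O), act g (QuotientGroup.mk v) = QuotientGroup.mk (MulAut.conjNormal g v) :=
    fun _ _ => rfl
  have act_mul : ∀ (g h : X) (w : O ⧸ F), act g (act h w) = act (g * h) w := by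
    intro g h w
    induction w using QuotientGroup.induction_on with
    | H v =>
      rw [act_mk, act_mk, act_mk, map_mul]
      rfl
  have act_one : ∀ w : O ⧸ F, act 1 w = w := by
    intro w
    induction w using QuotientGroup.induction_on with
    | H v =>
      rw [act_mk, map_one]
      rfl
  have act_inv : ∀ (g : X), g * g = 1 → ∀ w, act g (act g w) = w := by
    intro g hg w
    rw [act_mul, hg, act_one]
  have ha2 : a * a = 1 := by rw [← sq, ha]
  have hb2 : b * b = 1 := by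
    rw [hb]
    calc y * a * y⁻¹ * (y * a * y⁻¹) = y * (a * a) * y⁻¹ := by group
      _ = 1 := by rw [ha2]; group
  have hc2 : c * c = 1 := by
    rw [hc]
    calc y⁻¹ * a * y * (y⁻¹ * a * y) = y⁻¹ * (a * a) * y := by group
      _ = 1 := by rw [ha2]; group
  have hOp : ∀ v ∈ O, v ^ 3 = 1 := by
    intro v hv
    obtain ⟨k, hk⟩ := hO3 ⟨v, hv⟩
    exact cube_of_three h6 (k := k) (congrArg Subtype.val hk)
  have hcomm : ∀ p q : O ⧸ F, p * q = q * p := by
    intro p q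
    obtain ⟨p', rfl⟩ := QuotientGroup.mk'_surjective F p
    obtain ⟨q', rfl⟩ := QuotientGroup.mk'_surjective F q
    have h1 : ⁅p', q'⁆ ∈ F := Cfsg.Agent.Lib.Transfer.commutator_le_frattini hO3
      (Subgroup.commutator_mem_commutator (Subgroup.mem_top _) (Subgroup.mem_top _))
    have h2 : QuotientGroup.mk' F ⁅p', q'⁆ = 1 := (QuotientGroup.eq_one_iff _).mpr h1
    rw [map_commutatorElement, commutatorElement_eq_one_iff_mul_comm] at h2
    exact h2
  have h3 : ∀ z : O ⧸ F, z ^ 3 = 1 := by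
    intro z
    obtain ⟨v, rfl⟩ := QuotientGroup.mk'_surjective F z
    rw [← map_pow]
    have : v ^ 3 = 1 := Subtype.ext (by simpa using hOp v v.2)
    rw [this, map_one]
  have hyyy : y * y * y = 1 := by
    rw [← hy, pow_succ, pow_succ, pow_one]
  have hyinv : y⁻¹ = y * y := inv_eq_of_mul_eq_one_left hyyy
  have hN : ∀ w, w * act y w * act y (act y w) = 1 := by
    intro w
    induction w using QuotientGroup.induction_on with
    | H v =>
      rw [act_mk, act_mk]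
      rw [← QuotientGroup.mk_mul, ← QuotientGroup.mk_mul]
      apply (QuotientGroup.eq_one_iff _).mpr
      have hs : v * MulAut.conjNormal y v * MulAut.conjNormal y (MulAut.conjNormal y v) = 1 := by
        apply Subtype.ext
        set s : X := (v : X) * (y * v * y⁻¹) * (y * (y * v * y⁻¹) * y⁻¹) with hsdef
        have e1 : ((v * MulAut.conjNormal y v * MulAut.conjNormal y (MulAut.conjNormal y v) : O) : X) = s := rfl
        rw [e1]
        have hsO : s ∈ O := by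
          rw [← e1]
          exact Subtype.coe_prop _
        have e2 : ((v : X) * y) ^ 3 = s := by
          rw [hsdef, pow_succ, pow_succ, pow_one]
          have e3 : (v : X) * (y * v * y⁻¹) * (y * (y * v * y⁻¹) * y⁻¹) = (v : X) * y * v * y * v * y * (y * y * y)⁻¹ := by group
          rw [e3]
          rw [hyyy]
          group
        have h4 : s ^ 2 = 1 := by
          rw [← e2, ← pow_mul]
          exact h6 _
        have h5 := hOp s hsO
        have h6' : orderOf s = 1 := Nat.eq_one_of_dvd_coprimes (by norm_num : Nat.Coprime 2 3)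
          (orderOf_dvd_of_pow_eq_one h4) (orderOf_dvd_of_pow_eq_one h5)
        simpa using orderOf_eq_one_iff.mp h6'
      rw [hs]
      exact one_mem _
  have key := operator_lemma hcomm h3 (act a) (act b) (act c) (act y)
    (act_inv a ha2) (act_inv b hb2) (act_inv c hc2)
    (fun w => by rw [act_mul, act_mul, hab])
    (fun w => by rw [act_mul, act_mul, hac])
    (fun w => by rw [act_mul, act_mul, hbc])
    (fun w => by
      rw [act_mul, act_mul]
      rw [hyyy, act_one])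
    (fun w => by
      rw [act_mul, act_mul]
      congr 2
      rw [hc]
      group)
    (fun w => by
      rw [act_mul, act_mul]
      congr 2
      rw [hc, hb, hyinv]
      group)
    hN
  -- back to `O`
  have hc1 : ∀ u ∈ O, (a * b) * u * (a * b)⁻¹ ∈ O := fun u hu => hOn.conj_mem u hu _
  have hcp : Nat.Coprime (orderOf (a * b)) 3 := by
    have h5 : (a * b) ^ 2 = 1 := by
      rw [sq]
      calc a * b * (a * b) = a * (b * a) * b := by group
        _ = a * (a * b) * b := by rw [hab]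
        _ = a * a * (b * b) := by group
        _ = 1 := by rw [ha2, hb2, one_mul]
    exact Nat.Coprime.coprime_dvd_left (orderOf_dvd_of_pow_eq_one h5) (by norm_num)
  refine Cfsg.Agent.Lib.FF.centralizes_of_frattini_trivial O hO3 hc1 hcp ?_
  intro u hu
  have h5 := key (QuotientGroup.mk ⟨u, hu⟩)
  rw [act_mul, act_mk] at h5
  have h6' := QuotientGroup.eq.mp h5.symm
  refine ⟨_, h6', ?_⟩
  rfl

/-- The key statement at the prime `2`. -/
theorem two_mem_core (h6 : ∀ x : X, x ^ 6 = 1) [Group.IsSolvable X]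
    (hO : pPrimeCore 2 X = ⊥) (t : X) (ht : t ^ 2 = 1) : t ∈ pCore 2 X := by
  haveI : Fact (Nat.Prime 2) := ⟨Nat.prime_two⟩
  set O := pCore 2 X with hOdef
  haveI hOn : O.Normal := Cfsg.Agent.Lib.Core.pCore_normal 2 X
  have hOp : IsPGroup 2 O := Cfsg.Agent.Lib.Core.pCore_isPGroup 2 X
  have hC := Cfsg.Agent.Lib.PSolv.centralizer_pCore_le
    (Cfsg.Agent.Lib.CharExtra.pStep_of_isSolvable (G := X) Nat.prime_two) hO
  apply hC
  rw [Subgroup.mem_centralizer_iff]
  intro v hv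
  have hOsq : ∀ z ∈ O, z ^ 2 = 1 := by
    intro z hz
    obtain ⟨k, hk⟩ := hOp ⟨z, hz⟩
    exact sq_of_two h6 (k := k) (congrArg Subtype.val hk)
  have hv2 := hOsq v hv
  have ht2 : t * t = 1 := by rw [← sq, ht]
  have hti : t⁻¹ = t := inv_eq_of_mul_eq_one_left ht2
  have hvi : v⁻¹ = v := inv_eq_of_mul_eq_one_left (by rw [← sq, hv2])
  set w := v * t with hw
  have hw2 : w ^ 2 ∈ O := by
    have e : w ^ 2 = v * (t * v * t⁻¹) := by
      rw [sq, hw, hti]
      group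
    rw [e]
    exact mul_mem hv (hOn.conj_mem v hv t)
  have hw4 : (w ^ 2) ^ 2 = 1 := hOsq _ hw2
  have hw6 : (w ^ 2) ^ 3 = 1 := by
    rw [← pow_mul]
    exact h6 w
  have h1 : orderOf (w ^ 2) = 1 := Nat.eq_one_of_dvd_coprimes (by norm_num : Nat.Coprime 2 3)
    (orderOf_dvd_of_pow_eq_one hw4) (orderOf_dvd_of_pow_eq_one hw6)
  have h2 : w ^ 2 = 1 := orderOf_eq_one_iff.mp h1
  have h3 : v * t * (v * t) = 1 := by rw [← sq]; exact h2
  have h4 : v * t = (v * t)⁻¹ := (inv_eq_of_mul_eq_one_left h3).symm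
  rw [mul_inv_rev, hti, hvi] at h4
  exact h4

/-- The key statement at the prime `3`. -/
theorem three_mem_core (h6 : ∀ x : X, x ^ 6 = 1) [Group.IsSolvable X]
    (hO : pPrimeCore 3 X = ⊥) (x : X) (hx : x ^ 3 = 1) : x ∈ pCore 3 X := by
  haveI : Fact (Nat.Prime 2) := ⟨Nat.prime_two⟩
  haveI : Fact (Nat.Prime 3) := ⟨Nat.prime_three⟩
  set O := pCore 3 X with hOdef
  haveI hOn : O.Normal := Cfsg.Agent.Lib.Core.pCore_normal 3 X
  have hOp : IsPGroup 3 O := Cfsg.Agent.Lib.Core.pCore_isPGroup 3 X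
  have hC3 := Cfsg.Agent.Lib.PSolv.centralizer_pCore_le
    (Cfsg.Agent.Lib.CharExtra.pStep_of_isSolvable (G := X) Nat.prime_three) hO
  by_contra hxO
  let π : X →* X ⧸ O := QuotientGroup.mk' O
  have hπs : Function.Surjective π := QuotientGroup.mk'_surjective O
  have h6Y : ∀ z : X ⧸ O, z ^ 6 = 1 := by
    intro z
    obtain ⟨w, rfl⟩ := hπs z
    rw [← map_pow, h6, map_one]
  have hY : pPrimeCore 2 (X ⧸ O) = ⊥ := by
    rw [Cfsg.Agent.Lib.Core.pPrimeCore_eq_bot_iff]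
    intro N hN hcop
    have hNp : IsPGroup 3 N := by
      intro z
      refine ⟨1, ?_⟩
      have h1 : orderOf z ∣ 6 := by
        apply orderOf_dvd_of_pow_eq_one
        apply Subtype.ext
        simpa using h6Y (z : X ⧸ O)
      have h2 : orderOf z ∣ Nat.card N := orderOf_dvd_natCard z
      have h3 : Nat.Coprime (orderOf z) 2 := Nat.Coprime.coprime_dvd_left h2 hcop
      have h4 : orderOf z ∣ 3 := h3.dvd_of_dvd_mul_left (by simpa using h1)
      simpa using orderOf_dvd_iff_pow_eq_one.mp h4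
    have hle : N ≤ pCore 3 (X ⧸ O) := Cfsg.Agent.Lib.Core.le_pCore hN hNp
    have h0 : pCore 3 (X ⧸ O) = ⊥ := Cfsg.Agent.Lib.Core.pCore_quotient_pCore_eq_bot
    rw [h0] at hle
    exact le_bot_iff.mp hle
  haveI : Group.IsSolvable (X ⧸ O) := inferInstance
  have hC2 := Cfsg.Agent.Lib.PSolv.centralizer_pCore_le
    (Cfsg.Agent.Lib.CharExtra.pStep_of_isSolvable (G := X ⧸ O) Nat.prime_two) hY
  set T := pCore 2 (X ⧸ O) with hT
  haveI hTn : T.Normal := Cfsg.Agent.Lib.Core.pCore_normal 2 _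
  have hTp : IsPGroup 2 T := Cfsg.Agent.Lib.Core.pCore_isPGroup 2 _
  have hTsq : ∀ z ∈ T, z ^ 2 = 1 := by
    intro z hz
    obtain ⟨k, hk⟩ := hTp ⟨z, hz⟩
    exact sq_of_two h6Y (k := k) (congrArg Subtype.val hk)
  have hxb3 : (π x) ^ 3 = 1 := by rw [← map_pow, hx, map_one]
  have hxb1 : π x ≠ 1 := fun h => hxO ((QuotientGroup.eq_one_iff x).mp h)
  have hxbC : π x ∉ Subgroup.centralizer (T : Set (X ⧸ O)) := by
    intro h
    have h1 := hC2 h
    have h2 := hTsq _ h1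
    have h3 : orderOf (π x) = 1 := Nat.eq_one_of_dvd_coprimes (by norm_num : Nat.Coprime 2 3)
      (orderOf_dvd_of_pow_eq_one h2) (orderOf_dvd_of_pow_eq_one hxb3)
    exact hxb1 (orderOf_eq_one_iff.mp h3)
  rw [Subgroup.mem_centralizer_iff] at hxbC
  push_neg at hxbC
  obtain ⟨eb, hebT, heb⟩ := hxbC
  -- the preimage of `T`
  let L : Subgroup X := T.comap π
  haveI hLn : L.Normal := hTn.comap π
  have hOL : O ≤ L := by
    intro o ho
    show π o ∈ T
    have : π o = 1 := (QuotientGroup.eq_one_iff o).mpr ho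
    rw [this]
    exact one_mem _
  let P0 : Sylow 2 L := Classical.arbitrary _
  let T0 : Subgroup X := (P0 : Subgroup L).map L.subtype
  have hT0L : T0 ≤ L := by
    rintro _ ⟨z, -, rfl⟩
    exact z.2
  have hT0p : IsPGroup 2 T0 := P0.isPGroup'.map L.subtype
  have hT0sq : ∀ z ∈ T0, z ^ 2 = 1 := by
    intro z hz
    obtain ⟨k, hk⟩ := hT0p ⟨z, hz⟩
    exact sq_of_two h6 (k := k) (congrArg Subtype.val hk)
  have hFrat : Subgroup.normalizer (T0 : Set X) ⊔ L = ⊤ := Sylow.normalizer_sup_eq_top P0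
  have hxm : x ∈ Subgroup.normalizer (T0 : Set X) ⊔ L := by
    rw [hFrat]; trivial
  obtain ⟨n, hn, l, hl, hxe⟩ := Cfsg.Agent.Lib.Core.exists_mul_of_mem_sup_normal_right hxm
  have hlT : π l ∈ T := hl
  have hTcomm : ∀ u ∈ T, ∀ v ∈ T, u * v = v * u := fun u hu v hv => comm_of_sq T hTsq hu hv
  have hxπ : π x = π n * π l := by rw [hxe, map_mul]
  have hconj1 : ∀ e ∈ T, π n * e * (π n)⁻¹ = π x * e * (π x)⁻¹ := by
    intro e he
    have h1 : (π l) * e * (π l)⁻¹ = e := by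
      rw [hTcomm _ hlT e he]
      group
    rw [hxπ]
    calc π n * e * (π n)⁻¹ = π n * ((π l) * e * (π l)⁻¹) * (π n)⁻¹ := by rw [h1]
      _ = π n * π l * e * (π n * π l)⁻¹ := by group
  have hpow : ∀ (k : ℕ), ∀ e ∈ T, (π n) ^ k * e * ((π n) ^ k)⁻¹ = (π x) ^ k * e * ((π x) ^ k)⁻¹ := by
    intro k
    induction k with
    | zero => intro e _; simp
    | succ k ih =>
      intro e he
      have h1 : (π n) ^ (k + 1) * e * ((π n) ^ (k + 1))⁻¹ = π n * ((π n) ^ k * e * ((π n) ^ k)⁻¹) * (π n)⁻¹ := by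
        rw [pow_succ']
        group
      have h2 : (π x) ^ (k + 1) * e * ((π x) ^ (k + 1))⁻¹ = π x * ((π x) ^ k * e * ((π x) ^ k)⁻¹) * (π x)⁻¹ := by
        rw [pow_succ']
        group
      rw [h1, h2, ih e he]
      exact hconj1 _ (hTn.conj_mem e he _)
  set y := n ^ 4 with hy
  have hy3 : y ^ 3 = 1 := by
    rw [hy, ← pow_mul]
    have : 4 * 3 = 6 * 2 := by norm_num
    rw [this, pow_mul, h6, one_pow]
  have hyn : y ∈ Subgroup.normalizer (T0 : Set X) := pow_mem hn 4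
  have hyconj : ∀ e ∈ T, π y * e * (π y)⁻¹ = π x * e * (π x)⁻¹ := by
    intro e he
    have h1 := hpow 4 e he
    have h2 : (π x) ^ 4 = π x := by
      rw [pow_succ, hxb3, one_mul]
    rw [h2] at h1
    rw [hy, map_pow]
    exact h1
  -- lifting `eb`
  have hquot : IsPGroup 2 (L ⧸ O.subgroupOf L) := by
    intro q
    obtain ⟨z, rfl⟩ := QuotientGroup.mk'_surjective (O.subgroupOf L) q
    obtain ⟨k, hk⟩ := hTp ⟨π z, z.2⟩
    refine ⟨k, ?_⟩
    rw [← map_pow]
    apply (QuotientGroup.eq_one_iff _).mpr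
    show ((z ^ 2 ^ k : L) : X) ∈ O
    have h1 : (π z) ^ 2 ^ k = 1 := congrArg Subtype.val hk
    have h2 : π ((z : X) ^ 2 ^ k) = 1 := by rw [map_pow, h1]
    have h3 := (QuotientGroup.eq_one_iff _).mp h2
    simpa using h3
  have hsup := Cfsg.Agent.Lib.Transfer.sup_sylow_eq_top_of_isPGroup_quotient P0 (O.subgroupOf L) hquot
  obtain ⟨l0, hl0⟩ := hπs eb
  have hl0L : l0 ∈ L := by
    show π l0 ∈ T
    rw [hl0]
    exact hebT
  have hl0m : (⟨l0, hl0L⟩ : L) ∈ O.subgroupOf L ⊔ (P0 : Subgroup L) := by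
    rw [hsup]; trivial
  obtain ⟨o, ho, t, ht, hte⟩ := Cfsg.Agent.Lib.Core.exists_mul_of_mem_sup_normal_left hl0m
  have hte' : l0 = (o : X) * (t : X) := congrArg Subtype.val hte
  have hoO : (o : X) ∈ O := ho
  have hπo : π (o : X) = 1 := (QuotientGroup.eq_one_iff _).mpr hoO
  have hπt : π (t : X) = eb := by
    rw [← hl0, hte', map_mul, hπo, one_mul]
  set a : X := (t : X) with ha
  have haT0 : a ∈ T0 := ⟨t, ht, rfl⟩
  have hbT0 : y * a * y⁻¹ ∈ T0 := (Subgroup.mem_normalizer_iff.mp hyn a).mp haT0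
  have hcT0 : y⁻¹ * a * y ∈ T0 := by
    have := (Subgroup.mem_normalizer_iff.mp (inv_mem hyn) a).mp haT0
    simpa using this
  have hT0c : ∀ {u v : X}, u ∈ T0 → v ∈ T0 → u * v = v * u := fun hu hv => comm_of_sq T0 hT0sq hu hv
  have key := no_e3 h6 O hOp a y (hT0sq a haT0) hy3 (hT0c haT0 hbT0) (hT0c haT0 hcT0) (hT0c hbT0 hcT0)
  have hCmem : a * (y * a * y⁻¹) ∈ Subgroup.centralizer (O : Set X) := by
    rw [Subgroup.mem_centralizer_iff]
    intro u hu
    have h1 := key u hu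
    have h2 := (mul_inv_eq_iff_eq_mul.mp h1)
    exact h2.symm
  have h1 := hC3 hCmem
  have h2 : (a * (y * a * y⁻¹)) ^ 2 = 1 := hT0sq _ (mul_mem haT0 hbT0)
  have h3 : (a * (y * a * y⁻¹)) ^ 3 = 1 := by
    obtain ⟨k, hk⟩ := hOp ⟨_, h1⟩
    exact cube_of_three h6 (k := k) (congrArg Subtype.val hk)
  have h4 : orderOf (a * (y * a * y⁻¹)) = 1 := Nat.eq_one_of_dvd_coprimes (by norm_num : Nat.Coprime 2 3)
    (orderOf_dvd_of_pow_eq_one h2) (orderOf_dvd_of_pow_eq_one h3)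
  have h5 : a * (y * a * y⁻¹) = 1 := orderOf_eq_one_iff.mp h4
  have h6' : y * a * y⁻¹ = a⁻¹ := eq_inv_of_mul_eq_one_right h5
  have ha2 : a * a = 1 := by rw [← sq]; exact hT0sq a haT0
  have hai : a⁻¹ = a := inv_eq_of_mul_eq_one_left ha2
  rw [hai] at h6'
  have h7 : π y * eb * (π y)⁻¹ = eb := by
    rw [← hπt, ← map_inv, ← map_mul, ← map_mul, h6']
  rw [hyconj eb hebT] at h7
  apply heb
  have h8 := mul_inv_eq_iff_eq_mul.mp h7
  exact h8.symm

end Sections

section Main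

variable {G : Type*} [Group G] [Finite G]

theorem plength_one_of_key (p m : ℕ) [hp : Fact p.Prime] (h6 : ∀ x : G, x ^ 6 = 1) (hm : p * m = 6)
    (hcop : Nat.Coprime m p)
    (hkey : ∀ x : G ⧸ pPrimeCore p G, x ^ p = 1 → x ∈ pCore p (G ⧸ pPrimeCore p G)) :
    PLengthLE p 1 G := by
  apply Cfsg.Agent.Lib.PGroup.plength_one_of_core
  by_contra hc
  set X := G ⧸ pPrimeCore p G with hX
  set O := pCore p X with hO
  haveI hOn : O.Normal := Cfsg.Agent.Lib.Core.pCore_normal p X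
  have hdvd : p ∣ Nat.card (X ⧸ O) := by
    by_contra h
    exact hc ((Nat.Prime.coprime_iff_not_dvd hp.out).mpr h).symm
  obtain ⟨z, hz⟩ := exists_prime_orderOf_dvd_card' p hdvd
  obtain ⟨w, rfl⟩ := QuotientGroup.mk'_surjective O z
  have h6X : ∀ x : X, x ^ 6 = 1 := by
    intro x
    obtain ⟨g, rfl⟩ := QuotientGroup.mk'_surjective (pPrimeCore p G) x
    rw [← map_pow, h6, map_one]
  have h1 : (w ^ m) ^ p = 1 := by
    rw [← pow_mul, mul_comm, hm, h6X]
  have h2 := hkey _ h1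
  have h3 : (QuotientGroup.mk' O w) ^ m = 1 := by
    rw [← map_pow]
    exact (QuotientGroup.eq_one_iff _).mpr h2
  have h4 := orderOf_dvd_of_pow_eq_one h3
  rw [hz] at h4
  have h5 := Nat.Coprime.eq_one_of_dvd hcop.symm h4
  exact hp.out.ne_one h5

theorem isSolvable_of_exp_six (h6 : ∀ x : G, x ^ 6 = 1) : Group.IsSolvable G := by
  have hprime : ∀ q : ℕ, q.Prime → q ∣ Nat.card G → q = 2 ∨ q = 3 := by
    intro q hq hd
    haveI : Fact q.Prime := ⟨hq⟩
    obtain ⟨z, hz⟩ := exists_prime_orderOf_dvd_card' q hd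
    have h1 : q ∣ 6 := by
      rw [← hz]
      exact orderOf_dvd_of_pow_eq_one (h6 z)
    have h2 : q ∣ 2 * 3 := by simpa using h1
    rcases (Nat.Prime.dvd_mul hq).mp h2 with h3 | h3
    · exact Or.inl ((Nat.prime_dvd_prime_iff_eq hq Nat.prime_two).mp h3)
    · exact Or.inr ((Nat.prime_dvd_prime_iff_eq hq Nat.prime_three).mp h3)
  set n := Nat.card G with hn
  have hn0 : n ≠ 0 := Nat.card_pos.ne'
  set a := n.factorization 2 with ha
  set n' := n / 2 ^ a with hn'
  have h1 : 2 ^ a * n' = n := Nat.ordProj_mul_ordCompl_eq_self n 2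
  have hn'0 : n' ≠ 0 := by
    intro h
    rw [h, mul_zero] at h1
    exact hn0 h1.symm
  have h2 : Nat.Coprime 2 n' := Nat.coprime_ordCompl Nat.prime_two hn0
  set b := n'.factorization 3 with hb
  set n'' := n' / 3 ^ b with hn''
  have h3 : 3 ^ b * n'' = n' := Nat.ordProj_mul_ordCompl_eq_self n' 3
  have hn''0 : n'' ≠ 0 := by
    intro h
    rw [h, mul_zero] at h3
    exact hn'0 h3.symm
  have h4 : Nat.Coprime 3 n'' := Nat.coprime_ordCompl Nat.prime_three hn'0
  have h5 : n'' = 1 := by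
    by_contra hne
    have hq := Nat.minFac_prime hne
    have hqd := Nat.minFac_dvd n''
    have hqn' : n''.minFac ∣ n' := hqd.trans (Dvd.intro_left _ h3)
    have hqn : n''.minFac ∣ n := hqn'.trans (Dvd.intro_left _ h1)
    rcases hprime _ hq hqn with h6' | h6'
    · have : 2 ∣ n' := by rw [← h6']; exact hqn'
      have h7 := Nat.Coprime.eq_one_of_dvd h2 this
      omega
    · have : 3 ∣ n'' := by rw [← h6']; exact hqd
      have h7 := Nat.Coprime.eq_one_of_dvd h4 this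
      omega
  refine Cfsg.Agent.Lib.Char.isSolvable_of_card 2 3 a b Nat.prime_two Nat.prime_three ?_
  rw [← hn, ← h1, ← h3, h5, mul_one]

/-- **Groups of exponent six**. -/
theorem main (h6 : ∀ x : G, x ^ 6 = 1) : PLengthLE 2 1 G ∧ PLengthLE 3 1 G := by
  haveI : Fact (Nat.Prime 2) := ⟨Nat.prime_two⟩
  haveI : Fact (Nat.Prime 3) := ⟨Nat.prime_three⟩
  haveI hsol : Group.IsSolvable G := isSolvable_of_exp_six h6
  constructor
  · apply plength_one_of_key 2 3 h6 (by norm_num) (by norm_num)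
    intro x hx
    apply two_mem_core _ Cfsg.Agent.Lib.Core.pPrimeCore_quotient_eq_bot x hx
    intro z
    obtain ⟨g, rfl⟩ := QuotientGroup.mk'_surjective (pPrimeCore 2 G) z
    rw [← map_pow, h6, map_one]
  · apply plength_one_of_key 3 2 h6 (by norm_num) (by norm_num)
    intro x hx
    apply three_mem_core _ Cfsg.Agent.Lib.Core.pPrimeCore_quotient_eq_bot x hx
    intro z
    obtain ⟨g, rfl⟩ := QuotientGroup.mk'_surjective (pPrimeCore 3 G) z
    rw [← map_pow, h6, map_one]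

end Main

end Cfsg.Agent.Lib.ClassSizes.ExpSix
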