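import Mathlib
import Cfsg.Agent.Lib.Amalgam.Extra2

/-! Classification of extraspecial 2-groups by order and number of square roots of the identity. -/

set_option autoImplicit false

namespace Cfsg.Agent.Lib.ClassSizes.ExtraClass

open Subgroup
open scoped commutatorElement

universe u v

/-- Generalised extraspecial `2`-groups, including the group of order two. -/
structure GE (E : Type*) [Group E] (z : E) : Prop where
  z1 : z ≠ 1
  z2 : z * z = 1
  zc : ∀ g, g * z = z * g
  sq : ∀ g : E, g * g = 1 ∨ g * g = z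
  com : ∀ a b : E, a * b = b * a ∨ a * b = z * (b * a)
  cen : ∀ g : E, (∀ h, g * h = h * g) → g = 1 ∨ g = z

/-- extending partial homomorphisms -/
theorem ext_hom {G G' : Type*} [Group G] [Group G'] (N L : Subgroup G) (f : G → G') (t : G)
    (t' : G') (hf : ∀ a ∈ N, ∀ b ∈ N, f (a * b) = f a * f b) (htN : t ∉ N)
    (hcov : ∀ g ∈ L, g ∈ N ∨ g * t⁻¹ ∈ N)
    (hnorm : ∀ n ∈ N, t * n * t⁻¹ ∈ N)
    (hconj : ∀ n ∈ N, f (t * n * t⁻¹) = t' * f n * t'⁻¹)
    (htt : t * t ∈ N) (htt' : f (t * t) = t' * t') :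
    ∃ F : G → G', (∀ a ∈ L, ∀ b ∈ L, F (a * b) = F a * F b) ∧ (∀ n ∈ N, F n = f n) ∧
      (∀ n ∈ N, F (n * t) = f n * t') := by
  classical
  let F : G → G' := fun g => if g ∈ N then f g else f (g * t⁻¹) * t'
  have hF1 : ∀ n ∈ N, F n = f n := fun n hn => if_pos hn
  have hF2 : ∀ n ∈ N, F (n * t) = f n * t' := by
    intro n hn
    have h1 : n * t ∉ N := by
      intro h
      apply htN
      have := N.mul_mem (N.inv_mem hn) h
      simpa using this
    change (if n * t ∈ N then f (n * t) else f (n * t * t⁻¹) * t') = _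
    rw [if_neg h1, mul_inv_cancel_right]
  have key : ∀ g ∈ L, g ∈ N ∨ (∃ n ∈ N, g = n * t) := by
    intro g hg
    rcases hcov g hg with h | h
    · exact Or.inl h
    · exact Or.inr ⟨_, h, by group⟩
  refine ⟨F, ?_, hF1, hF2⟩
  intro a ha b hb
  rcases key a ha with hn | ⟨n, hn, rfl⟩ <;> rcases key b hb with hm | ⟨m, hm, rfl⟩
  · rw [hF1 _ (N.mul_mem hn hm), hF1 _ hn, hF1 _ hm, hf a hn b hm]
  · rw [← mul_assoc, hF2 _ (N.mul_mem hn hm), hF1 _ hn, hF2 _ hm, hf a hn m hm, mul_assoc]
  · have hm' := hnorm b hm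
    have e : n * t * b = (n * (t * b * t⁻¹)) * t := by group
    rw [e, hF2 _ (N.mul_mem hn hm'), hF2 _ hn, hF1 _ hm, hf n hn _ hm', hconj b hm]
    group
  · have hm' := hnorm m hm
    have e : n * t * (m * t) = (n * (t * m * t⁻¹)) * (t * t) := by group
    have h1 := N.mul_mem hn hm'
    rw [e, hF1 _ (N.mul_mem h1 htt), hF2 _ hn, hF2 _ hm, hf _ h1 _ htt, hf n hn _ hm', hconj m hm,
      htt']
    group

section basic

variable {E : Type u} [Group E] {z : E}

namespace GE

variable (h : GE E z)

include h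

theorem anti_symm {a b : E} (hab : a * b = z * (b * a)) : b * a = z * (a * b) := by
  rw [hab, ← mul_assoc, h.z2, one_mul]

omit h in
theorem sq_of_comm' {a b : E} (hab : a * b = b * a) : (a * b) * (a * b) = (a * a) * (b * b) := by
  calc (a * b) * (a * b) = a * (b * a) * b := by group
    _ = a * (a * b) * b := by rw [hab]
    _ = (a * a) * (b * b) := by group

theorem sq_of_comm {a b : E} (hab : a * b = b * a) : (a * b) * (a * b) = (a * a) * (b * b) := by
  calc (a * b) * (a * b) = a * (b * a) * b := by group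
    _ = a * (a * b) * b := by rw [hab]
    _ = (a * a) * (b * b) := by group

theorem sq_of_anti {a b : E} (hab : a * b = z * (b * a)) :
    (a * b) * (a * b) = z * ((a * a) * (b * b)) := by
  have h1 := h.anti_symm hab
  calc (a * b) * (a * b) = a * (b * a) * b := by group
    _ = a * (z * (a * b)) * b := by rw [h1]
    _ = (a * z) * (a * b) * b := by group
    _ = (z * a) * (a * b) * b := by rw [h.zc a]
    _ = z * ((a * a) * (b * b)) := by group

end GE

/-- The centraliser of a pair. -/
def CC (x y : E) : Subgroup E := centralizer ({x} : Set E) ⊓ centralizer ({y} : Set E)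

theorem mem_CC {x y g : E} : g ∈ CC x y ↔ g * x = x * g ∧ g * y = y * g := by
  rw [CC, Subgroup.mem_inf, Subgroup.mem_centralizer_singleton_iff,
    Subgroup.mem_centralizer_singleton_iff]

/-- Coset representatives. -/
def wf (x y : E) (a b : Bool) : E := cond a x 1 * cond b y 1

variable {x y : E}

theorem wf_comm_y (hxy : x * y = z * (y * x)) (a b : Bool) :
    wf x y a b * y = cond a z 1 * (y * wf x y a b) := by
  cases a
  · cases b <;> simp [wf]
  · cases b
    · simpa [wf] using hxy
    · simp only [wf, cond_true]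
      calc x * y * y = (z * (y * x)) * y := by rw [hxy]
        _ = z * (y * (x * y)) := by group

theorem wf_comm_x (h : GE E z) (hxy : x * y = z * (y * x)) (a b : Bool) :
    wf x y a b * x = cond b z 1 * (x * wf x y a b) := by
  have h1 := h.anti_symm hxy
  cases a <;> cases b
  · simp [wf]
  · simpa [wf] using h1
  · simp [wf]
  · simp only [wf, cond_true]
    rw [mul_assoc, h1]
    calc x * (z * (x * y)) = (x * z) * (x * y) := by group
      _ = (z * x) * (x * y) := by rw [h.zc x]
      _ = z * (x * (x * y)) := by group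

/-- Commutation patterns pass to quotients. -/
theorem comm_of_anti (h : GE E z) {g t u : E} (h1 : g * u = z * (u * g)) (h2 : t * u = z * (u * t)) :
    (g * t⁻¹) * u = u * (g * t⁻¹) := by
  have h4 : u * t⁻¹ = z * (t⁻¹ * u) := by
    calc u * t⁻¹ = t⁻¹ * (t * u) * t⁻¹ := by group
      _ = t⁻¹ * (z * (u * t)) * t⁻¹ := by rw [h2]
      _ = (t⁻¹ * z) * u := by group
      _ = (z * t⁻¹) * u := by rw [h.zc t⁻¹]
      _ = z * (t⁻¹ * u) := by group
  have h3 : t⁻¹ * u = z * (u * t⁻¹) := by
    rw [h4, ← mul_assoc, h.z2, one_mul]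
  calc (g * t⁻¹) * u = g * (t⁻¹ * u) := by group
    _ = g * (z * (u * t⁻¹)) := by rw [h3]
    _ = (g * z) * (u * t⁻¹) := by group
    _ = (z * g) * (u * t⁻¹) := by rw [h.zc g]
    _ = z * (g * u) * t⁻¹ := by group
    _ = z * (z * (u * g)) * t⁻¹ := by rw [h1]
    _ = (z * z) * (u * (g * t⁻¹)) := by group
    _ = u * (g * t⁻¹) := by rw [h.z2, one_mul]

theorem comm_of_comm {g t u : E} (h1 : g * u = u * g) (h2 : t * u = u * t) :
    (g * t⁻¹) * u = u * (g * t⁻¹) := by
  have h3 : t⁻¹ * u = u * t⁻¹ := (Commute.inv_left (show Commute t u from h2))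
  calc (g * t⁻¹) * u = g * (t⁻¹ * u) := by group
    _ = g * (u * t⁻¹) := by rw [h3]
    _ = (g * u) * t⁻¹ := by group
    _ = (u * g) * t⁻¹ := by rw [h1]
    _ = u * (g * t⁻¹) := by group

theorem exists_decomp (h : GE E z) (hxy : x * y = z * (y * x)) (g : E) :
    ∃ c ∈ CC x y, ∃ a b : Bool, g = c * wf x y a b := by
  have h1 := h.anti_symm hxy
  rcases h.com g x with hx | hx <;> rcases h.com g y with hy | hy
  · exact ⟨g, mem_CC.2 ⟨hx, hy⟩, false, false, by simp [wf]⟩
  · exact ⟨g * x⁻¹, mem_CC.2 ⟨comm_of_comm hx rfl, comm_of_anti h hy hxy⟩, true, false,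
      by simp [wf]⟩
  · exact ⟨g * y⁻¹, mem_CC.2 ⟨comm_of_anti h hx h1, comm_of_comm hy rfl⟩, false, true,
      by simp [wf]⟩
  · have h2 : (x * y) * x = z * (x * (x * y)) := by
      have := wf_comm_x (x := x) (y := y) h hxy true true
      simpa [wf] using this
    have h3 : (x * y) * y = z * (y * (x * y)) := by
      have := wf_comm_y (x := x) (y := y) (z := z) hxy true true
      simpa [wf] using this
    exact ⟨g * (x * y)⁻¹, mem_CC.2 ⟨comm_of_anti h hx h2, comm_of_anti h hy h3⟩, true, true,
      by simp only [wf, cond_true]; group⟩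

theorem decomp_injective (h : GE E z) (hxy : x * y = z * (y * x)) {c c' : E} (hc : c ∈ CC x y)
    (hc' : c' ∈ CC x y) {a b a' b' : Bool} (he : c * wf x y a b = c' * wf x y a' b') :
    c = c' ∧ a = a' ∧ b = b' := by
  -- the commutation of `c * wf` with `x` and `y`
  have hy : ∀ (d : E) (a b : Bool), d ∈ CC x y →
      (d * wf x y a b) * y = cond a z 1 * (y * (d * wf x y a b)) := by
    intro d a b hd
    have h1 := (mem_CC.1 hd).2
    rw [mul_assoc, wf_comm_y hxy a b]
    cases a <;> simp only [cond_true, cond_false, one_mul]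
    · rw [← mul_assoc, h1, mul_assoc]
    · calc d * (z * (y * wf x y true b)) = (d * z) * (y * wf x y true b) := by group
        _ = (z * d) * (y * wf x y true b) := by rw [h.zc d]
        _ = z * (d * y) * wf x y true b := by group
        _ = z * (y * d) * wf x y true b := by rw [h1]
        _ = _ := by group
  have hx : ∀ (d : E) (a b : Bool), d ∈ CC x y →
      (d * wf x y a b) * x = cond b z 1 * (x * (d * wf x y a b)) := by
    intro d a b hd
    have h1 := (mem_CC.1 hd).1
    rw [mul_assoc, wf_comm_x h hxy a b]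
    cases b <;> simp only [cond_true, cond_false, one_mul]
    · rw [← mul_assoc, h1, mul_assoc]
    · calc d * (z * (x * wf x y a true)) = (d * z) * (x * wf x y a true) := by group
        _ = (z * d) * (x * wf x y a true) := by rw [h.zc d]
        _ = z * (d * x) * wf x y a true := by group
        _ = z * (x * d) * wf x y a true := by rw [h1]
        _ = _ := by group
  have haa : a = a' := by
    have h1 := hy c a b hc
    have h2 := hy c' a' b' hc'
    rw [he] at h1
    rw [h1] at h2
    have h3 := mul_right_cancel h2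
    cases a <;> cases a' <;> simp only [cond_true, cond_false] at h3 ⊢
    · exact absurd h3.symm h.z1
    · exact absurd h3 h.z1
  have hbb : b = b' := by
    have h1 := hx c a b hc
    have h2 := hx c' a' b' hc'
    rw [he] at h1
    rw [h1] at h2
    have h3 := mul_right_cancel h2
    cases b <;> cases b' <;> simp only [cond_true, cond_false] at h3 ⊢
    · exact absurd h3.symm h.z1
    · exact absurd h3 h.z1
  subst haa hbb
  exact ⟨mul_right_cancel he, rfl, rfl⟩

/-- The parametrisation of the group. -/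
noncomputable def Psi (h : GE E z) (hxy : x * y = z * (y * x)) : ↥(CC x y) × Bool × Bool ≃ E :=
  Equiv.ofBijective (fun p => (p.1 : E) * wf x y p.2.1 p.2.2) (by
    constructor
    · rintro ⟨⟨c, hc⟩, a, b⟩ ⟨⟨c', hc'⟩, a', b'⟩ he
      obtain ⟨rfl, rfl, rfl⟩ := decomp_injective h hxy hc hc' he
      rfl
    · intro g
      obtain ⟨c, hc, a, b, he⟩ := exists_decomp h hxy g
      exact ⟨(⟨c, hc⟩, a, b), he.symm⟩)

theorem card_eq [Finite E] (h : GE E z) (hxy : x * y = z * (y * x)) :
    Nat.card E = 4 * Nat.card ↥(CC x y) := by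
  rw [← Nat.card_congr (Psi h hxy), Nat.card_prod, Nat.card_prod]
  simp [Nat.card_eq_fintype_card]
  ring

open Classical in
/-- signs -/
noncomputable def sg (g : E) : ℤ := if g * g = 1 then 1 else -1

/-- The excess of the group. -/
noncomputable def ee (E : Type*) [Group E] : ℤ := 2 * (Nat.card {g : E // g * g = 1} : ℤ) - Nat.card E

theorem ee_eq_sum [Fintype E] : ee E = ∑ g : E, sg g := by
  classical
  have h1 : ∀ g : E, sg g = 2 * (if g * g = 1 then 1 else 0) - 1 := by
    intro g
    rw [sg]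
    split_ifs <;> norm_num
  rw [Finset.sum_congr rfl (fun g _ => h1 g), Finset.sum_sub_distrib, ← Finset.mul_sum, ee]
  congr 1
  · congr 1
    rw [Finset.sum_boole, Nat.card_eq_fintype_card, Fintype.card_subtype]
  · simp [Nat.card_eq_fintype_card]

theorem sg_mul (h : GE E z) {c w : E} (hcw : c * w = w * c) : sg (c * w) = sg c * sg w := by
  have h1 := h.sq_of_comm hcw
  rw [sg, sg, sg, h1]
  rcases h.sq c with hc | hc <;> rcases h.sq w with hw | hw <;> rw [hc, hw]
  · simp
  · simp [h.z1]
  · simp [h.z1]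
  · simp [h.z1, h.z2]

theorem sg_coe {C : Subgroup E} (c : ↥C) : sg c = sg (c : E) := by
  rw [sg, sg]
  have : c * c = 1 ↔ (c : E) * c = 1 := by
    rw [Subtype.ext_iff]
    rfl
  by_cases hc : (c : E) * c = 1
  · rw [if_pos hc, if_pos (this.mpr hc)]
  · rw [if_neg hc, if_neg (fun h => hc (this.mp h))]

theorem ee_rec [Finite E] (h : GE E z) (hxy : x * y = z * (y * x)) :
    ee E = ee ↥(CC x y) * (sg (1 : E) + sg x + sg y + sg (x * y)) := by
  classical
  letI : Fintype E := Fintype.ofFinite E
  letI : Fintype ↥(CC x y) := Fintype.ofFinite _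
  rw [ee_eq_sum, ee_eq_sum, ← Equiv.sum_comp (Psi h hxy)]
  rw [Fintype.sum_prod_type, Finset.sum_mul]
  refine Finset.sum_congr rfl fun c _ => ?_
  rw [Fintype.sum_prod_type]
  simp only [Fintype.sum_bool]
  have hc := (mem_CC.1 c.2)
  have e : ∀ (a b : Bool), (Psi h hxy (c, a, b)) = (c : E) * wf x y a b := fun _ _ => rfl
  simp only [e]
  have hw : ∀ a b : Bool, (c : E) * wf x y a b = wf x y a b * c := by
    intro a b
    cases a <;> cases b <;> simp only [wf, cond_true, cond_false, one_mul, mul_one]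
    · exact hc.2
    · exact hc.1
    · calc (c : E) * (x * y) = (c * x) * y := by group
        _ = (x * c) * y := by rw [hc.1]
        _ = x * (c * y) := by group
        _ = x * (y * c) := by rw [hc.2]
        _ = _ := by group
  have hsg : ∀ a b : Bool, sg ((c : E) * wf x y a b) = sg (c : E) * sg (wf x y a b) :=
    fun a b => sg_mul h (hw a b)
  rw [hsg, hsg, hsg, hsg, sg_coe c]
  simp only [wf, cond_true, cond_false, one_mul, mul_one]
  ring

/-- The centraliser is again of this type. -/
theorem ge_CC (h : GE E z) (hxy : x * y = z * (y * x)) :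
    GE ↥(CC x y) ⟨z, mem_CC.2 ⟨(h.zc x).symm, (h.zc y).symm⟩⟩ where
  z1 := fun he => h.z1 (congrArg Subtype.val he)
  z2 := Subtype.ext h.z2
  zc := fun g => Subtype.ext (h.zc g)
  sq := fun g => by
    rcases h.sq g with h1 | h1
    · exact Or.inl (Subtype.ext h1)
    · exact Or.inr (Subtype.ext h1)
  com := fun a b => by
    rcases h.com a b with h1 | h1
    · exact Or.inl (Subtype.ext h1)
    · exact Or.inr (Subtype.ext h1)
  cen := fun g hg => by
    have h1 : (g : E) = 1 ∨ (g : E) = z := by
      apply h.cen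
      intro u
      obtain ⟨c, hc, a, b, rfl⟩ := exists_decomp h hxy u
      have h2 : (g : E) * c = c * g := congrArg Subtype.val (hg ⟨c, hc⟩)
      have h3 := mem_CC.1 g.2
      have h4 : (g : E) * wf x y a b = wf x y a b * g := by
        cases a <;> cases b <;> simp only [wf, cond_true, cond_false, one_mul, mul_one]
        · exact h3.2
        · exact h3.1
        · calc (g : E) * (x * y) = (g * x) * y := by group
            _ = (x * g) * y := by rw [h3.1]
            _ = x * (g * y) := by group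
            _ = x * (y * g) := by rw [h3.2]
            _ = _ := by group
      calc (g : E) * (c * wf x y a b) = (g * c) * wf x y a b := by group
        _ = (c * g) * wf x y a b := by rw [h2]
        _ = c * (g * wf x y a b) := by group
        _ = c * (wf x y a b * g) := by rw [h4]
        _ = _ := by group
    rcases h1 with h1 | h1
    · exact Or.inl (Subtype.ext h1)
    · exact Or.inr (Subtype.ext h1)

/-- The extension step, with all the values. -/
theorem step_full {E' : Type v} [Group E'] {z' x' y' : E'} (h : GE E z) (h' : GE E' z')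
    (hxy : x * y = z * (y * x)) (hxy' : x' * y' = z' * (y' * x'))
    (hsx : (x * x = 1 ∧ x' * x' = 1) ∨ (x * x = z ∧ x' * x' = z'))
    (hsy : (y * y = 1 ∧ y' * y' = 1) ∨ (y * y = z ∧ y' * y' = z'))
    (φ : ↥(CC x y) →* ↥(CC x' y'))
    (hφ : φ ⟨z, mem_CC.2 ⟨(h.zc x).symm, (h.zc y).symm⟩⟩ =
      ⟨z', mem_CC.2 ⟨(h'.zc x').symm, (h'.zc y').symm⟩⟩) :
    ∃ Φ : E →* E', Φ z = z' ∧ Φ x = x' ∧ Φ y = y' ∧ ∀ c : ↥(CC x y), Φ c = (φ c : E') := by
  classical
  have hzC : z ∈ CC x y := mem_CC.2 ⟨(h.zc x).symm, (h.zc y).symm⟩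
  have h1C : (1 : E) ∈ CC x y := one_mem _
  let f₀ : E → E' := fun g => if hg : g ∈ CC x y then ((φ ⟨g, hg⟩ : ↥(CC x' y')) : E') else 1
  have hf₀ : ∀ (g : E) (hg : g ∈ CC x y), f₀ g = ((φ ⟨g, hg⟩ : ↥(CC x' y')) : E') :=
    fun g hg => dif_pos hg
  have hf₀mul : ∀ a ∈ CC x y, ∀ b ∈ CC x y, f₀ (a * b) = f₀ a * f₀ b := by
    intro a ha b hb
    rw [hf₀ _ (mul_mem ha hb), hf₀ a ha, hf₀ b hb]
    have : (⟨a * b, mul_mem ha hb⟩ : ↥(CC x y)) = ⟨a, ha⟩ * ⟨b, hb⟩ := rfl
    rw [this, map_mul]
    rfl
  have hf₀C : ∀ a ∈ CC x y, f₀ a ∈ CC x' y' := by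
    intro a ha
    rw [hf₀ a ha]
    exact (φ ⟨a, ha⟩).2
  have hf₀z : f₀ z = z' := by
    rw [hf₀ z hzC]
    exact congrArg Subtype.val hφ
  have hf₀1 : f₀ 1 = 1 := by
    rw [hf₀ 1 h1C]
    exact congrArg Subtype.val (map_one φ)
  have hxC : x ∉ CC x y := by
    intro hx
    have h2 := (mem_CC.1 hx).2
    rw [hxy] at h2
    apply h.z1
    have h3 : z * (y * x) = 1 * (y * x) := by rw [h2, one_mul]
    exact mul_right_cancel h3
  -- step one
  have hy1 := h.anti_symm hxy
  have hy1' := h'.anti_symm hxy'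
  have hcov₁ : ∀ g ∈ centralizer ({x} : Set E), g ∈ CC x y ∨ g * x⁻¹ ∈ CC x y := by
    intro g hg
    have hgx := Subgroup.mem_centralizer_singleton_iff.mp hg
    rcases h.com g y with hgy | hgy
    · exact Or.inl (mem_CC.2 ⟨hgx, hgy⟩)
    · exact Or.inr (mem_CC.2 ⟨comm_of_comm hgx rfl, comm_of_anti h hgy hxy⟩)
  have hsqC : ∀ {t : E}, (t * t = 1 ∨ t * t = z) → t * t ∈ CC x y := by
    intro t ht
    rcases ht with ht | ht <;> rw [ht]
    · exact h1C
    · exact hzC
  obtain ⟨F₁, hF₁, hF₁N, hF₁t⟩ := ext_hom (CC x y) (centralizer ({x} : Set E)) f₀ x x' hf₀mul hxC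
    hcov₁ (by
      intro n hn
      have h2 := (mem_CC.1 hn).1
      have e : x * n * x⁻¹ = n := by
        rw [← h2]
        group
      rw [e]
      exact hn)
    (by
      intro n hn
      have h2 := (mem_CC.1 hn).1
      have e : x * n * x⁻¹ = n := by
        rw [← h2]
        group
      rw [e]
      have h3 := (mem_CC.1 (hf₀C n hn)).1
      rw [← h3]
      group)
    (hsqC (by rcases hsx with ⟨hs, -⟩ | ⟨hs, -⟩
              · exact Or.inl hs
              · exact Or.inr hs))
    (by
      rcases hsx with ⟨hs, hs'⟩ | ⟨hs, hs'⟩ <;> rw [hs, hs']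
      · exact hf₀1
      · exact hf₀z)
  -- step two
  have hyC : y ∉ centralizer ({x} : Set E) := by
    intro hy
    have h2 := Subgroup.mem_centralizer_singleton_iff.mp hy
    rw [hy1] at h2
    apply h.z1
    have h3 : z * (x * y) = 1 * (x * y) := by rw [h2, one_mul]
    exact mul_right_cancel h3
  have hF₁1 : F₁ 1 = 1 := by rw [hF₁N 1 h1C, hf₀1]
  have hF₁z : F₁ z = z' := by rw [hF₁N z hzC, hf₀z]
  obtain ⟨F, hF, hFN, hFt⟩ := ext_hom (centralizer ({x} : Set E)) ⊤ F₁ y y' hF₁ hyC
    (by
      intro g _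
      rcases h.com g x with hgx | hgx
      · exact Or.inl (Subgroup.mem_centralizer_singleton_iff.mpr hgx)
      · exact Or.inr (Subgroup.mem_centralizer_singleton_iff.mpr (comm_of_anti h hgx hy1)))
    (by
      intro n hn
      have hnx := Subgroup.mem_centralizer_singleton_iff.mp hn
      rw [Subgroup.mem_centralizer_singleton_iff]
      -- `y n y⁻¹ = n` or `z n`
      rcases h.com n y with hny | hny
      · have e : y * n * y⁻¹ = n := by
          rw [← hny]
          group
        rw [e]
        exact hnx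
      · have e : y * n * y⁻¹ = z * n := by
          have h2 := h.anti_symm hny
          rw [h2]
          group
        rw [e]
        calc z * n * x = z * (n * x) := by group
          _ = z * (x * n) := by rw [hnx]
          _ = (z * x) * n := by group
          _ = (x * z) * n := by rw [h.zc x]
          _ = x * (z * n) := by group)
    (by
      intro n hn
      rcases hcov₁ n hn with hnC | hnC
      · have h2 := (mem_CC.1 hnC).2
        have e : y * n * y⁻¹ = n := by
          rw [← h2]
          group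
        rw [e, hF₁N n hnC]
        have h3 := (mem_CC.1 (hf₀C n hnC)).2
        rw [← h3]
        group
      · obtain ⟨c, hc, rfl⟩ : ∃ c ∈ CC x y, n = c * x := ⟨_, hnC, by group⟩
        have h2 := (mem_CC.1 hc).2
        have hcz : c * z ∈ CC x y := mul_mem hc hzC
        have e : y * (c * x) * y⁻¹ = c * z * x := by
          calc y * (c * x) * y⁻¹ = (y * c) * x * y⁻¹ := by group
            _ = (c * y) * x * y⁻¹ := by rw [h2]
            _ = c * ((y * x) * y⁻¹) := by group
            _ = c * ((z * (x * y)) * y⁻¹) := by rw [hy1]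
            _ = c * z * x := by group
        rw [e, hF₁t _ hcz, hF₁t _ hc, hf₀mul c hc z hzC, hf₀z]
        have h3 := (mem_CC.1 (hf₀C c hc)).2
        calc f₀ c * z' * x' = f₀ c * (z' * (x' * y')) * y'⁻¹ := by group
          _ = f₀ c * (y' * x') * y'⁻¹ := by rw [← hy1']
          _ = (f₀ c * y') * x' * y'⁻¹ := by group
          _ = (y' * f₀ c) * x' * y'⁻¹ := by rw [h3]
          _ = _ := by group)
    (by
      rcases hsy with ⟨hs, -⟩ | ⟨hs, -⟩ <;> rw [hs]
      · exact one_mem _
      · exact Subgroup.mem_centralizer_singleton_iff.mpr (h.zc x).symm)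
    (by
      rcases hsy with ⟨hs, hs'⟩ | ⟨hs, hs'⟩ <;> rw [hs, hs']
      · exact hF₁1
      · exact hF₁z)
  have hxmem : x ∈ centralizer ({x} : Set E) := Subgroup.mem_centralizer_singleton_iff.mpr rfl
  have h1mem : (1 : E) ∈ centralizer ({x} : Set E) := one_mem _
  refine ⟨MonoidHom.mk' F (fun a b => hF a trivial b trivial), ?_, ?_, ?_, ?_⟩
  · change F z = z'
    rw [hFN z (Subgroup.mem_centralizer_singleton_iff.mpr (h.zc x).symm), hF₁z]
  · change F x = x'
    have e : x = 1 * x := (one_mul x).symm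
    rw [hFN x hxmem, e, hF₁t 1 h1C, hf₀1, one_mul]
  · change F y = y'
    have e : y = 1 * y := (one_mul y).symm
    rw [e, hFt 1 h1mem, hF₁1, one_mul]
  · intro c
    change F c = _
    have hc1 : (c : E) ∈ centralizer ({x} : Set E) :=
      Subgroup.mem_centralizer_singleton_iff.mpr (mem_CC.1 c.2).1
    rw [hFN _ hc1, hF₁N _ c.2, hf₀ _ c.2]

/-- The extension step. -/
theorem step {E' : Type v} [Group E'] {z' x' y' : E'} (h : GE E z) (h' : GE E' z')
    (hxy : x * y = z * (y * x)) (hxy' : x' * y' = z' * (y' * x'))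
    (hsx : (x * x = 1 ∧ x' * x' = 1) ∨ (x * x = z ∧ x' * x' = z'))
    (hsy : (y * y = 1 ∧ y' * y' = 1) ∨ (y * y = z ∧ y' * y' = z'))
    (φ : ↥(CC x y) →* ↥(CC x' y'))
    (hφ : φ ⟨z, mem_CC.2 ⟨(h.zc x).symm, (h.zc y).symm⟩⟩ =
      ⟨z', mem_CC.2 ⟨(h'.zc x').symm, (h'.zc y').symm⟩⟩) :
    ∃ Φ : E →* E', Φ z = z' := by
  obtain ⟨Φ, hΦ, -⟩ := step_full h h' hxy hxy' hsx hsy φ hφ
  exact ⟨Φ, hΦ⟩

theorem injective_of_map_z {E' : Type v} [Group E'] {z' : E'} (h : GE E z) (h' : GE E' z')
    (Φ : E →* E') (hΦ : Φ z = z') : Function.Injective Φ := by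
  rw [injective_iff_map_eq_one]
  intro g hg
  by_contra hg1
  have hgz : g ≠ z := by
    rintro rfl
    exact h'.z1 (hΦ ▸ hg)
  have hnc : ¬ ∀ u, g * u = u * g := by
    intro hc
    rcases h.cen g hc with h1 | h1
    · exact hg1 h1
    · exact hgz h1
  push Not at hnc
  obtain ⟨u, hu⟩ := hnc
  rcases h.com g u with h1 | h1
  · exact hu h1
  · have h2 := congrArg Φ h1
    rw [map_mul, map_mul, map_mul, hg, one_mul, hΦ, mul_one] at h2
    apply h'.z1
    have h3 : z' * Φ u = 1 * Φ u := by rw [← h2, one_mul]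
    exact mul_right_cancel h3

theorem card_two [Finite E] (h : GE E z) (hall : ∀ g : E, g = 1 ∨ g = z) : Nat.card E = 2 := by
  rw [Nat.card_eq_two_iff]
  refine ⟨1, z, h.z1.symm, ?_⟩
  ext g
  simp only [Set.mem_insert_iff, Set.mem_singleton_iff, Set.mem_univ, iff_true]
  exact hall g

theorem all_of_card_two [Finite E] (h : GE E z) (hc : Nat.card E ≤ 2) (g : E) : g = 1 ∨ g = z := by
  classical
  by_contra hcon
  push Not at hcon
  have h3 : 3 ≤ Nat.card E := by
    letI : Fintype E := Fintype.ofFinite E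
    rw [Nat.card_eq_fintype_card]
    have hs : ({1, z, g} : Finset E).card = 3 := by
      rw [Finset.card_insert_of_notMem, Finset.card_insert_of_notMem, Finset.card_singleton]
      · simpa using hcon.2.symm
      · simp only [Finset.mem_insert, Finset.mem_singleton, not_or]
        exact ⟨h.z1.symm, hcon.1.symm⟩
    rw [← hs]
    exact Finset.card_le_univ _
  omega

theorem ee_two [Finite E] (h : GE E z) (hc : Nat.card E = 2) : ee E = 2 := by
  have hall : ∀ g : E, g * g = 1 := by
    intro g
    rcases all_of_card_two h hc.le g with rfl | rfl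
    · simp
    · exact h.z2
  have h1 : Nat.card {g : E // g * g = 1} = Nat.card E := by
    apply Nat.card_congr
    exact Equiv.subtypeUnivEquiv hall
  rw [ee, h1, hc]
  norm_num

/-- Choice of a pair. -/
theorem exists_pair [Finite E] (h : GE E z) (hc : 2 < Nat.card E) :
    ∃ x y : E, x * y = z * (y * x) ∧ ((x * x = 1 ∧ y * y = 1) ∨
      (x * x = z ∧ y * y = z ∧ ∀ g : E, g * g = 1 → g = 1 ∨ g = z)) := by
  have hnc : ∀ g : E, g ≠ 1 → g ≠ z → ∃ u, g * u = z * (u * g) := by
    intro g hg1 hgz
    by_contra hcon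
    push Not at hcon
    have hc' : ∀ u, g * u = u * g := by
      intro u
      rcases h.com g u with h1 | h1
      · exact h1
      · exact absurd h1 (hcon u)
    rcases h.cen g hc' with h1 | h1
    · exact hg1 h1
    · exact hgz h1
  by_cases hinv : ∃ g : E, g * g = 1 ∧ g ≠ 1 ∧ g ≠ z
  · obtain ⟨g, hg, hg1, hgz⟩ := hinv
    obtain ⟨u, hu⟩ := hnc g hg1 hgz
    rcases h.sq u with hs | hs
    · exact ⟨g, u, hu, Or.inl ⟨hg, hs⟩⟩
    · refine ⟨g, g * u, ?_, Or.inl ⟨hg, ?_⟩⟩
      · have h1 := h.anti_symm hu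
        calc g * (g * u) = (z * z) * (g * (g * u)) := by rw [h.z2, one_mul]
          _ = z * (z * g) * (g * u) := by group
          _ = z * (g * z) * (g * u) := by rw [h.zc g]
          _ = z * (g * (z * (g * u))) := by group
          _ = z * (g * (u * g)) := by rw [← h1]
          _ = z * (g * u * g) := by group
      · rw [h.sq_of_anti hu, hg, hs, one_mul]
        exact h.z2
  · push Not at hinv
    have hinv' : ∀ g : E, g * g = 1 → g = 1 ∨ g = z := by
      intro g hg
      by_contra hcon
      push Not at hcon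
      exact hcon.2 (hinv g hg hcon.1)
    have hex : ∃ g : E, g ≠ 1 ∧ g ≠ z := by
      by_contra hcon
      push Not at hcon
      have h1 := all_of_card_two h
      have := card_two h (fun g => by
        by_cases hg : g = 1
        · exact Or.inl hg
        · exact Or.inr (hcon g hg))
      omega
    obtain ⟨g, hg1, hgz⟩ := hex
    obtain ⟨u, hu⟩ := hnc g hg1 hgz
    have hu' : u ≠ 1 ∧ u ≠ z := by
      constructor
      · intro hu1
        rw [hu1] at hu
        apply h.z1
        have h3 : z * g = 1 * g := by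
          simpa using hu.symm
        exact mul_right_cancel h3
      · intro huz
        rw [huz, ← mul_assoc, h.z2, one_mul] at hu
        exact h.z1 (mul_left_cancel (hu.trans (mul_one g).symm))
    have hgg : g * g = z := by
      rcases h.sq g with hs | hs
      · rcases hinv' g hs with h1 | h1
        · exact absurd h1 hg1
        · exact absurd h1 hgz
      · exact hs
    have huu : u * u = z := by
      rcases h.sq u with hs | hs
      · rcases hinv' u hs with h1 | h1
        · exact absurd h1 hu'.1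
        · exact absurd h1 hu'.2
      · exact hs
    exact ⟨g, u, hu, Or.inr ⟨hgg, huu, hinv'⟩⟩

/-- In the quaternion case the centraliser is just the centre. -/
theorem CC_of_quat (h : GE E z) (hxy : x * y = z * (y * x)) (hxx : x * x = z)
    (hinv : ∀ g : E, g * g = 1 → g = 1 ∨ g = z) (c : ↥(CC x y)) :
    c = 1 ∨ c = ⟨z, mem_CC.2 ⟨(h.zc x).symm, (h.zc y).symm⟩⟩ := by
  have hc := mem_CC.1 c.2
  by_contra hcon
  push Not at hcon
  have h1 : (c : E) ≠ 1 := fun he => hcon.1 (Subtype.ext he)
  have h2 : (c : E) ≠ z := fun he => hcon.2 (Subtype.ext he)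
  have hcc : (c : E) * c = z := by
    rcases h.sq (c : E) with hs | hs
    · rcases hinv _ hs with h3 | h3
      · exact absurd h3 h1
      · exact absurd h3 h2
    · exact hs
  have hsq : ((c : E) * x) * ((c : E) * x) = 1 := by
    rw [h.sq_of_comm hc.1, hcc, hxx]
    exact h.z2
  have hcen : ∀ u : E, ((c : E) * x) * u = u * ((c : E) * x) := by
    intro u
    rcases hinv _ hsq with h3 | h3 <;> rw [h3]
    · simp
    · exact (h.zc u).symm
  have h4 := hcen y
  have h5 : x * y = y * x := by
    have h6 : (c : E) * (x * y) = (c : E) * (y * x) := by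
      calc (c : E) * (x * y) = ((c : E) * x) * y := by group
        _ = y * ((c : E) * x) := h4
        _ = (y * c) * x := by group
        _ = (c * y) * x := by rw [hc.2]
        _ = (c : E) * (y * x) := by group
    exact mul_left_cancel h6
  rw [hxy] at h5
  apply h.z1
  have h7 : z * (y * x) = 1 * (y * x) := by rw [h5, one_mul]
  exact mul_right_cancel h7

theorem sum_hyp (h : GE E z) (hxy : x * y = z * (y * x)) (hxx : x * x = 1) (hyy : y * y = 1) :
    sg (1 : E) + sg x + sg y + sg (x * y) = 2 := by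
  have h1 : sg (x * y) = -1 := by
    rw [sg, if_neg]
    rw [h.sq_of_anti hxy, hxx, hyy]
    simpa using h.z1
  have h2 : sg x = 1 := by rw [sg, if_pos hxx]
  have h3 : sg y = 1 := by rw [sg, if_pos hyy]
  have h4 : sg (1 : E) = 1 := by rw [sg, if_pos (mul_one 1)]
  rw [h1, h2, h3, h4]
  norm_num

theorem sum_quat (h : GE E z) (hxy : x * y = z * (y * x)) (hxx : x * x = z) (hyy : y * y = z) :
    sg (1 : E) + sg x + sg y + sg (x * y) = -2 := by
  have h1 : sg (x * y) = -1 := by
    rw [sg, if_neg]
    rw [h.sq_of_anti hxy, hxx, hyy, h.z2, mul_one]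
    exact h.z1
  have h2 : sg x = -1 := by
    rw [sg, if_neg]
    rw [hxx]
    exact h.z1
  have h3 : sg y = -1 := by
    rw [sg, if_neg]
    rw [hyy]
    exact h.z1
  have h4 : sg (1 : E) = 1 := by rw [sg, if_pos (mul_one 1)]
  rw [h1, h2, h3, h4]
  norm_num

end basic

section main

theorem classify_A (n : ℕ) : ∀ (E : Type u) [Group E] [Finite E] (z : E), GE E z → Nat.card E = n →
    ∃ m : ℕ, Nat.card E = 2 ^ (2 * m + 1) ∧
      (ee E = 2 ^ (m + 1) ∨ (1 ≤ m ∧ ee E = -(2 ^ (m + 1)))) := by
  induction n using Nat.strong_induction_on with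
  | _ n ih =>
    intro E _ _ z h hn
    by_cases hc : 2 < Nat.card E
    · obtain ⟨x, y, hxy, hcases⟩ := exists_pair h hc
      have hcard := card_eq h hxy
      have hrec := ee_rec h hxy
      have hC := ge_CC h hxy
      rcases hcases with ⟨hxx, hyy⟩ | ⟨hxx, hyy, hinv⟩
      · obtain ⟨m, hm, he⟩ := ih (Nat.card ↥(CC x y)) (by
          have : 0 < Nat.card ↥(CC x y) := Nat.card_pos
          omega) ↥(CC x y) _ hC rfl
        refine ⟨m + 1, ?_, ?_⟩
        · rw [hcard, hm]
          ring
        · rw [hrec, sum_hyp h hxy hxx hyy]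
          rcases he with he | ⟨hm1, he⟩
          · left
            rw [he]
            ring
          · right
            exact ⟨by omega, by rw [he]; ring⟩
      · have hall := CC_of_quat h hxy hxx hinv
        have hC2 := card_two hC hall
        refine ⟨1, ?_, Or.inr ⟨le_refl _, ?_⟩⟩
        · rw [hcard, hC2]
          norm_num
        · rw [hrec, sum_quat h hxy hxx hyy, ee_two hC hC2]
          norm_num
    · have hc2 : Nat.card E = 2 := card_two h (all_of_card_two h (by omega))
      exact ⟨0, by rw [hc2]; norm_num, Or.inl (by rw [ee_two h hc2]; norm_num)⟩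

theorem classify_B (n : ℕ) : ∀ (E : Type u) [Group E] [Finite E] (z : E) (E' : Type v) [Group E']
    [Finite E'] (z' : E'), GE E z → GE E' z' → Nat.card E = n → Nat.card E' = n → ee E = ee E' →
    ∃ Φ : E →* E', Φ z = z' := by
  induction n using Nat.strong_induction_on with
  | _ n ih =>
    intro E _ _ z E' _ _ z' h h' hn hn' hee
    by_cases hc : 2 < n
    · obtain ⟨x, y, hxy, hcases⟩ := exists_pair h (by omega)
      obtain ⟨x', y', hxy', hcases'⟩ := exists_pair h' (by omega)
      have hcard := card_eq h hxy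
      have hcard' := card_eq h' hxy'
      have hrec := ee_rec h hxy
      have hrec' := ee_rec h' hxy'
      have hC := ge_CC h hxy
      have hC' := ge_CC h' hxy'
      have hCC : Nat.card ↥(CC x y) = Nat.card ↥(CC x' y') := by omega
      have hpos : 0 < Nat.card ↥(CC x y) := Nat.card_pos
      rcases hcases with ⟨hxx, hyy⟩ | ⟨hxx, hyy, hinv⟩ <;>
        rcases hcases' with ⟨hxx', hyy'⟩ | ⟨hxx', hyy', hinv'⟩
      · rw [sum_hyp h hxy hxx hyy] at hrec
        rw [sum_hyp h' hxy' hxx' hyy'] at hrec'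
        have hee' : ee ↥(CC x y) = ee ↥(CC x' y') := by linarith
        obtain ⟨φ, hφ⟩ := ih (Nat.card ↥(CC x y)) (by omega) ↥(CC x y) _ ↥(CC x' y') _ hC hC' rfl
          hCC.symm hee'
        exact step h h' hxy hxy' (Or.inl ⟨hxx, hxx'⟩) (Or.inl ⟨hyy, hyy'⟩) φ hφ
      · exfalso
        have hC'2 := card_two hC' (CC_of_quat h' hxy' hxx' hinv')
        rw [sum_hyp h hxy hxx hyy, ee_two hC (hCC.trans hC'2)] at hrec
        rw [sum_quat h' hxy' hxx' hyy', ee_two hC' hC'2] at hrec'
        linarith
      · exfalso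
        have hC2 := card_two hC (CC_of_quat h hxy hxx hinv)
        rw [sum_quat h hxy hxx hyy, ee_two hC hC2] at hrec
        rw [sum_hyp h' hxy' hxx' hyy', ee_two hC' (hCC.symm.trans hC2)] at hrec'
        linarith
      · have hC2 := card_two hC (CC_of_quat h hxy hxx hinv)
        have hC'2 := card_two hC' (CC_of_quat h' hxy' hxx' hinv')
        obtain ⟨φ, hφ⟩ := ih 2 (by omega) ↥(CC x y) _ ↥(CC x' y') _ hC hC' hC2 hC'2
          (by rw [ee_two hC hC2, ee_two hC' hC'2])
        exact step h h' hxy hxy' (Or.inr ⟨hxx, hxx'⟩) (Or.inr ⟨hyy, hyy'⟩) φ hφ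
    · classical
      have hall := all_of_card_two h (show Nat.card E ≤ 2 by omega)
      refine ⟨MonoidHom.mk' (fun g => if g = 1 then 1 else z') ?_, ?_⟩
      · intro a b
        rcases hall a with rfl | rfl <;> rcases hall b with rfl | rfl
        · simp
        · simp
        · simp
        · simp [h.z2, h.z1, h'.z2]
      · change (if z = 1 then 1 else z') = z'
        rw [if_neg h.z1]

theorem ge_of_extraspecial {E : Type u} [Group E] [Finite E] (hE : Cfsg.IsExtraspecial 2 E) :
    ∃ z : E, GE E z := by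
  obtain ⟨z, hz⟩ := Cfsg.Agent.Lib.Amalgam.exists_extraFacts hE
  refine ⟨z, hz.z_ne_one, ?_, ?_, ?_, ?_, ?_⟩
  · rw [← sq, ← hz.hz]
    exact pow_orderOf_eq_one z
  · intro g
    exact (hz.central (mem_zpowers z) (mem_top g)).symm
  · intro g
    exact hz.eq_one_or (hz.hsq g (mem_top _))
  · intro a b
    rcases hz.eq_one_or (hz.hcom a (mem_top _) b (mem_top _)) with h1 | h1
    · left
      exact commutatorElement_eq_one_iff_mul_comm.mp h1
    · right
      rw [commutatorElement_def] at h1
      calc a * b = (a * b * a⁻¹ * b⁻¹) * (b * a) := by group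
        _ = z * (b * a) := by rw [h1]
  · intro g hg
    have h1 : g ∈ (⊤ : Subgroup E) ⊓ centralizer ((⊤ : Subgroup E) : Set E) := by
      refine ⟨mem_top g, ?_⟩
      change g ∈ centralizer ((⊤ : Subgroup E) : Set E)
      rw [Subgroup.mem_centralizer_iff]
      intro u _
      exact (hg u).symm
    rw [hz.hcent] at h1
    exact hz.eq_one_or h1

theorem not_card_two {E : Type u} [Group E] [Finite E] (hE : Cfsg.IsExtraspecial 2 E)
    {z : E} (h : GE E z) : Nat.card E ≠ 2 := by
  intro hc
  have hall := all_of_card_two h hc.le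
  have hcomm : ∀ a b : E, a * b = b * a := by
    intro a b
    rcases hall a with rfl | rfl
    · simp
    · exact (h.zc b).symm
  obtain ⟨⟨-, -, hcom⟩, hcen⟩ := hE
  have hbot : commutator E = ⊥ := by
    rw [eq_bot_iff, commutator_def, Subgroup.commutator_le]
    intro a _ b _
    rw [commutatorElement_eq_one_iff_mul_comm.mpr (hcomm a b)]
    exact one_mem _
  rw [← hcom, hbot] at hcen
  simp at hcen

theorem main (E : Type u) [Group E] [Finite E] (hE : Cfsg.IsExtraspecial 2 E) :
    (∃ m : ℕ, 1 ≤ m ∧ Nat.card E = 2 ^ (2 * m + 1) ∧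
      (Nat.card {x : E // x ^ 2 = 1} = 2 ^ (2 * m) + 2 ^ m ∨
        Nat.card {x : E // x ^ 2 = 1} = 2 ^ (2 * m) - 2 ^ m)) ∧
    ∀ (E' : Type v) [Group E'] [Finite E'], Cfsg.IsExtraspecial 2 E' → Nat.card E' = Nat.card E →
      Nat.card {x : E' // x ^ 2 = 1} = Nat.card {x : E // x ^ 2 = 1} → Nonempty (E ≃* E') := by
  obtain ⟨z, h⟩ := ge_of_extraspecial hE
  have hsqE : Nat.card {x : E // x ^ 2 = 1} = Nat.card {x : E // x * x = 1} :=
    Nat.card_congr (Equiv.subtypeEquivRight (fun x => by rw [sq]))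
  constructor
  · obtain ⟨m, hm, he⟩ := classify_A _ E z h rfl
    have hm1 : 1 ≤ m := by
      by_contra hcon
      have h0 : m = 0 := by omega
      subst h0
      exact not_card_two hE h (by simpa using hm)
    refine ⟨m, hm1, hm, ?_⟩
    rw [hsqE]
    have hp : (2 : ℕ) ^ (2 * m + 1) = 2 * 2 ^ (2 * m) := by ring
    have hp2 : (2 : ℕ) ^ (m + 1) = 2 * 2 ^ m := by ring
    rw [ee, hm] at he
    have hcast : (((2 : ℕ) ^ (2 * m + 1) : ℕ) : ℤ) = 2 * 2 ^ (2 * m) := by
      push_cast
      ring
    rw [hcast] at he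
    have h2m : (2 : ℤ) ^ (m + 1) = 2 * 2 ^ m := by ring
    rw [h2m] at he
    rcases he with he | ⟨-, he⟩
    · left
      have : (Nat.card {g : E // g * g = 1} : ℤ) = 2 ^ (2 * m) + 2 ^ m := by linarith
      exact_mod_cast this
    · right
      have h3 : (Nat.card {g : E // g * g = 1} : ℤ) = 2 ^ (2 * m) - 2 ^ m := by linarith
      have h4 : 2 ^ m ≤ 2 ^ (2 * m) := Nat.pow_le_pow_right (by norm_num) (by omega)
      zify [h4]
      exact h3
  · intro E' _ _ hE' hcard hcount
    obtain ⟨z', h'⟩ := ge_of_extraspecial hE'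
    have hsqE' : Nat.card {x : E' // x ^ 2 = 1} = Nat.card {x : E' // x * x = 1} :=
      Nat.card_congr (Equiv.subtypeEquivRight (fun x => by rw [sq]))
    rw [hsqE', hsqE] at hcount
    have hee : ee E = ee E' := by
      rw [ee, ee, hcard, hcount]
    obtain ⟨Φ, hΦ⟩ := classify_B _ E z E' z' h h' rfl hcard hee
    have hinj := injective_of_map_z h h' Φ hΦ
    exact ⟨MulEquiv.ofBijective Φ ((Nat.bijective_iff_injective_and_card Φ).mpr ⟨hinj, hcard.symm⟩)⟩

end main

end Cfsg.Agent.Lib.ClassSizes.ExtraClass
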