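import Mathlib
import Cfsg.Agent.Lib.ClassSizes.ExtraClass

/-! The automorphism group of the extraspecial group of order 32 without elementary abelian
subgroups of order 8. -/

set_option autoImplicit false

namespace Cfsg.Agent.Lib.ClassSizes.ExtraOut

open Subgroup Cfsg.Agent.Lib.ClassSizes.ExtraClass

universe u

section general

variable {E : Type u} [Group E] {z : E}

theorem noncentral_left (h : GE E z) {x y : E} (hxy : x * y = z * (y * x)) : x ≠ 1 ∧ x ≠ z := by
  constructor
  · rintro rfl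
    apply h.z1
    have h1 : z * y = 1 * y := by simpa using hxy.symm
    exact mul_right_cancel h1
  · intro he
    rw [he, h.zc y, ← mul_assoc, h.z2, one_mul] at hxy
    apply h.z1
    have h1 : z * y = 1 * y := by rw [hxy, one_mul]
    exact mul_right_cancel h1

theorem noncentral_right (h : GE E z) {x y : E} (hxy : x * y = z * (y * x)) : y ≠ 1 ∧ y ≠ z :=
  noncentral_left h (h.anti_symm hxy)

variable [Finite E]

theorem card_anti (h : GE E z) {a b₀ : E} (hb₀ : a * b₀ = z * (b₀ * a)) :
    2 * Nat.card {b : E // a * b = z * (b * a)} = Nat.card E := by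
  classical
  have h1 : Nat.card {b : E // a * b = b * a} = Nat.card {b : E // a * b = z * (b * a)} := by
    refine Nat.card_congr ⟨fun b => ⟨b.1 * b₀, ?_⟩, fun b => ⟨b.1 * b₀⁻¹, ?_⟩, ?_, ?_⟩
    · have hb := b.2
      calc a * (b.1 * b₀) = (a * b.1) * b₀ := by group
        _ = (b.1 * a) * b₀ := by rw [hb]
        _ = b.1 * (a * b₀) := by group
        _ = b.1 * (z * (b₀ * a)) := by rw [hb₀]
        _ = (b.1 * z) * (b₀ * a) := by group
        _ = (z * b.1) * (b₀ * a) := by rw [h.zc b.1]
        _ = z * (b.1 * b₀ * a) := by group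
    · have hb := b.2
      have h3 : a * b₀⁻¹ = z * (b₀⁻¹ * a) := by
        have h4 : b₀⁻¹ * a = z * (a * b₀⁻¹) := by
          calc b₀⁻¹ * a = b₀⁻¹ * (a * b₀) * b₀⁻¹ := by group
            _ = b₀⁻¹ * (z * (b₀ * a)) * b₀⁻¹ := by rw [hb₀]
            _ = (b₀⁻¹ * z) * b₀ * (a * b₀⁻¹) := by group
            _ = (z * b₀⁻¹) * b₀ * (a * b₀⁻¹) := by rw [h.zc b₀⁻¹]
            _ = z * (a * b₀⁻¹) := by group
        rw [h4, ← mul_assoc, h.z2, one_mul]
      calc a * (b.1 * b₀⁻¹) = (a * b.1) * b₀⁻¹ := by group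
        _ = (z * (b.1 * a)) * b₀⁻¹ := by rw [hb]
        _ = z * b.1 * (a * b₀⁻¹) := by group
        _ = z * b.1 * (z * (b₀⁻¹ * a)) := by rw [h3]
        _ = z * (b.1 * z) * (b₀⁻¹ * a) := by group
        _ = z * (z * b.1) * (b₀⁻¹ * a) := by rw [h.zc b.1]
        _ = (z * z) * (b.1 * b₀⁻¹ * a) := by group
        _ = b.1 * b₀⁻¹ * a := by rw [h.z2, one_mul]
    · intro b
      apply Subtype.ext
      simp
    · intro b
      apply Subtype.ext
      simp
  have h2 : Nat.card {b : E // ¬ a * b = b * a} = Nat.card {b : E // a * b = z * (b * a)} := by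
    apply Nat.card_congr
    refine Equiv.subtypeEquivRight (fun b => ?_)
    constructor
    · intro hn
      rcases h.com a b with h3 | h3
      · exact absurd h3 hn
      · exact h3
    · intro h3 h4
      apply h.z1
      have h5 : z * (b * a) = 1 * (b * a) := by rw [← h3, h4, one_mul]
      exact mul_right_cancel h5
  have h3 := Nat.card_congr (Equiv.sumCompl (fun b : E => a * b = b * a))
  rw [Nat.card_sum, h1, h2] at h3
  omega

theorem sq_count (h : GE E z) :
    Nat.card {a : E // a * a = 1} + Nat.card {a : E // a * a = z} = Nat.card E := by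
  classical
  have h2 : Nat.card {a : E // ¬ a * a = 1} = Nat.card {a : E // a * a = z} := by
    apply Nat.card_congr
    refine Equiv.subtypeEquivRight (fun a => ?_)
    constructor
    · intro hn
      rcases h.sq a with h3 | h3
      · exact absurd h3 hn
      · exact h3
    · intro h3 h4
      rw [h3] at h4
      exact h.z1 h4
  have h3 := Nat.card_congr (Equiv.sumCompl (fun a : E => a * a = 1))
  rw [Nat.card_sum, h2] at h3
  exact h3

theorem card_sq_eq_two (h : GE E z) (hu : ∀ u : E, u * u = 1 → u = 1 ∨ u = z) :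
    Nat.card {u : E // u * u = 1} = 2 := by
  rw [Nat.card_eq_two_iff]
  refine ⟨⟨1, mul_one 1⟩, ⟨z, h.z2⟩, ?_, ?_⟩
  · intro he
    exact h.z1 (congrArg Subtype.val he).symm
  · ext ⟨g, hg⟩
    simp only [Set.mem_insert_iff, Set.mem_singleton_iff, Set.mem_univ, iff_true, Subtype.mk.injEq]
    exact hu g hg

theorem card_sigma_const {α : Type*} [Finite α] {β : α → Type*} [∀ a, Finite (β a)] (n : ℕ)
    (h : ∀ a, Nat.card (β a) = n) : Nat.card (Sigma β) = Nat.card α * n := by
  classical
  letI : Fintype α := Fintype.ofFinite α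
  rw [Nat.card_sigma, Finset.sum_congr rfl (fun a _ => h a), Finset.sum_const, smul_eq_mul,
    Finset.card_univ, Nat.card_eq_fintype_card]

end general

section main

variable {P : Type u} [Group P] [Finite P] {z : P}

/-- The hypotheses in elementary form. -/
structure Hyp (P : Type u) [Group P] (z : P) : Prop where
  h : GE P z
  h32 : Nat.card P = 32
  hno : ∀ x u : P, x * x = 1 → u * u = 1 → x * u = u * x → x ≠ 1 → x ≠ z → u ≠ 1 → u ≠ z →
    u ≠ x → u ≠ z * x → False

/-- A frame of the group. -/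
def Fr (z x y a b : P) : Prop :=
  x * x = 1 ∧ y * y = 1 ∧ x * y = z * (y * x) ∧ a ∈ CC x y ∧ a * a = z ∧ b ∈ CC x y ∧
    a * b = z * (b * a)

namespace Hyp

variable (H : Hyp P z)
include H

theorem exists_hyp : ∃ x y : P, x * x = 1 ∧ y * y = 1 ∧ x * y = z * (y * x) := by
  obtain ⟨x, y, hxy, hc⟩ := exists_pair H.h (by rw [H.h32]; norm_num)
  rcases hc with ⟨hxx, hyy⟩ | ⟨hxx, hyy, hinv⟩
  · exact ⟨x, y, hxx, hyy, hxy⟩
  · exfalso
    have h1 := card_two (ge_CC H.h hxy) (CC_of_quat H.h hxy hxx hinv)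
    have h2 := card_eq H.h hxy
    rw [h1, H.h32] at h2
    omega

theorem card_CC {x y : P} (hxy : x * y = z * (y * x)) : Nat.card ↥(CC x y) = 8 := by
  have h2 := card_eq H.h hxy
  rw [H.h32] at h2
  omega

theorem invol_CC {x y : P} (hxx : x * x = 1) (hxy : x * y = z * (y * x)) (u : P) (hu : u ∈ CC x y)
    (huu : u * u = 1) : u = 1 ∨ u = z := by
  by_contra hcon
  push Not at hcon
  have hc := mem_CC.1 hu
  have hx := noncentral_left H.h hxy
  refine H.hno x u hxx huu hc.1.symm hx.1 hx.2 hcon.1 hcon.2 ?_ ?_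
  · rintro rfl
    rw [hc.2] at hxy
    apply H.h.z1
    have h5 : z * (y * u) = 1 * (y * u) := by rw [← hxy, one_mul]
    exact mul_right_cancel h5
  · intro he
    have h1 := hc.2
    rw [he] at h1
    apply H.h.z1
    -- `z x y = y z x`
    have h2 : z * x * y = z * (y * x) := by
      rw [h1]
      calc y * (z * x) = (y * z) * x := by group
        _ = (z * y) * x := by rw [H.h.zc y]
        _ = z * (y * x) := by group
    have h3 : x * y = y * x := by
      rw [mul_assoc] at h2
      exact mul_left_cancel h2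
    rw [hxy] at h3
    have h5 : z * (y * x) = 1 * (y * x) := by rw [h3, one_mul]
    exact mul_right_cancel h5

theorem count_CC {x y : P} (hxx : x * x = 1) (hxy : x * y = z * (y * x)) :
    Nat.card {u : ↥(CC x y) // u * u = 1} = 2 := by
  have hC := ge_CC H.h hxy
  apply card_sq_eq_two hC
  intro u huu
  rcases H.invol_CC hxx hxy u.1 u.2 (congrArg Subtype.val huu) with h1 | h1
  · exact Or.inl (Subtype.ext h1)
  · exact Or.inr (Subtype.ext h1)

theorem count_P : Nat.card {g : P // g * g = 1} = 12 := by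
  obtain ⟨x, y, hxx, hyy, hxy⟩ := H.exists_hyp
  have h1 := ee_rec H.h hxy
  rw [sum_hyp H.h hxy hxx hyy] at h1
  have h2 : ee ↥(CC x y) = -4 := by
    rw [ee, H.count_CC hxx hxy, H.card_CC hxy]
    norm_num
  rw [h2, ee, H.h32] at h1
  push_cast at h1
  have h3 : (Nat.card {g : P // g * g = 1} : ℤ) = 12 := by linarith
  exact_mod_cast h3

/-- the involutions -/
theorem count_F1 : Nat.card {x : P // x * x = 1 ∧ x ≠ 1 ∧ x ≠ z} = 10 := by
  classical
  letI : Fintype P := Fintype.ofFinite P
  have h1 := H.count_P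
  rw [Nat.card_eq_fintype_card, Fintype.card_subtype] at h1 ⊢
  have h2 : (Finset.univ.filter (fun x : P => x * x = 1 ∧ x ≠ 1 ∧ x ≠ z)) =
      (Finset.univ.filter (fun x : P => x * x = 1)) \ {1, z} := by
    ext x
    simp only [Finset.mem_filter, Finset.mem_univ, true_and, Finset.mem_sdiff, Finset.mem_insert,
      Finset.mem_singleton, not_or]
  have h3 : ({1, z} : Finset P) ⊆ Finset.univ.filter (fun x : P => x * x = 1) := by
    intro x hx
    simp only [Finset.mem_insert, Finset.mem_singleton] at hx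
    simp only [Finset.mem_filter, Finset.mem_univ, true_and]
    rcases hx with rfl | rfl
    · simp
    · exact H.h.z2
  rw [h2, Finset.card_sdiff_of_subset h3, h1, Finset.card_pair H.h.z1.symm]

theorem count_F2 {x : P} (hxx : x * x = 1) (hx1 : x ≠ 1) (hxz : x ≠ z) :
    Nat.card {y : P // y * y = 1 ∧ x * y = z * (y * x)} = 8 := by
  classical
  letI : Fintype P := Fintype.ofFinite P
  have h1 := H.count_P
  rw [Nat.card_eq_fintype_card, Fintype.card_subtype] at h1 ⊢
  have h2 := Finset.card_filter_add_card_filter_not (s := Finset.univ.filter (fun y : P => y * y = 1))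
    (fun y : P => x * y = y * x)
  have h3 : (Finset.univ.filter (fun y : P => y * y = 1)).filter (fun y : P => x * y = y * x) =
      {1, z, x, z * x} := by
    ext y
    simp only [Finset.mem_filter, Finset.mem_univ, true_and, Finset.mem_insert,
      Finset.mem_singleton]
    constructor
    · rintro ⟨hyy, hxy⟩
      by_contra hcon
      push Not at hcon
      exact H.hno x y hxx hyy hxy hx1 hxz hcon.1 hcon.2.1 hcon.2.2.1 hcon.2.2.2
    · rintro (rfl | rfl | rfl | rfl)
      · simp
      · exact ⟨H.h.z2, H.h.zc x⟩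
      · exact ⟨hxx, rfl⟩
      · refine ⟨?_, ?_⟩
        · rw [H.h.sq_of_comm (H.h.zc x).symm, H.h.z2, hxx, one_mul]
        · calc x * (z * x) = (x * z) * x := by group
            _ = (z * x) * x := by rw [H.h.zc x]
  have h4 : (Finset.univ.filter (fun y : P => y * y = 1)).filter (fun y : P => ¬ x * y = y * x) =
      Finset.univ.filter (fun y : P => y * y = 1 ∧ x * y = z * (y * x)) := by
    ext y
    simp only [Finset.mem_filter, Finset.mem_univ, true_and]
    constructor
    · rintro ⟨hyy, hn⟩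
      rcases H.h.com x y with h5 | h5
      · exact absurd h5 hn
      · exact ⟨hyy, h5⟩
    · rintro ⟨hyy, h5⟩
      refine ⟨hyy, fun h6 => ?_⟩
      rw [h6] at h5
      apply H.h.z1
      have h7 : z * (y * x) = 1 * (y * x) := by rw [← h5, one_mul]
      exact mul_right_cancel h7
  have h5 : ({1, z, x, z * x} : Finset P).card = 4 := by
    rw [Finset.card_insert_of_notMem, Finset.card_insert_of_notMem, Finset.card_pair]
    · intro he
      apply H.h.z1
      have h6 : z * x = 1 * x := by rw [← he, one_mul]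
      exact mul_right_cancel h6
    · simp only [Finset.mem_insert, Finset.mem_singleton, not_or]
      refine ⟨hxz.symm, ?_⟩
      intro he
      apply hx1
      have h6 : z * x = z * 1 := by rw [← he, mul_one]
      exact mul_left_cancel h6
    · simp only [Finset.mem_insert, Finset.mem_singleton, not_or]
      refine ⟨H.h.z1.symm, hx1.symm, ?_⟩
      intro he
      apply hxz
      have h6 : z * x = z * z := by rw [← he, H.h.z2]
      exact mul_left_cancel h6
  rw [h3, h4, h1, h5] at h2
  omega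

theorem count_F3 {x y : P} (hxx : x * x = 1) (hxy : x * y = z * (y * x)) :
    Nat.card {a : ↥(CC x y) // (a : P) * a = z} = 6 := by
  have hC := ge_CC H.h hxy
  have h1 := sq_count hC
  rw [H.count_CC hxx hxy, H.card_CC hxy] at h1
  have h2 : Nat.card {a : ↥(CC x y) // (a : P) * a = z} =
      Nat.card {a : ↥(CC x y) // a * a = ⟨z, mem_CC.2 ⟨(H.h.zc x).symm, (H.h.zc y).symm⟩⟩} := by
    apply Nat.card_congr
    refine Equiv.subtypeEquivRight (fun a => ?_)
    constructor
    · intro h3
      exact Subtype.ext h3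
    · intro h3
      exact congrArg Subtype.val h3
  omega

theorem count_F4 {x y : P} (hxx : x * x = 1) (hxy : x * y = z * (y * x)) (a : ↥(CC x y))
    (haa : (a : P) * a = z) :
    Nat.card {b : ↥(CC x y) // (a : P) * b = z * (b * a)} = 4 := by
  have hC := ge_CC H.h hxy
  set zt : ↥(CC x y) := ⟨z, mem_CC.2 ⟨(H.h.zc x).symm, (H.h.zc y).symm⟩⟩ with hzt
  have h1 : ∃ b₀ : ↥(CC x y), a * b₀ = zt * (b₀ * a) := by
    by_contra hcon
    push Not at hcon
    have hcen : ∀ u, a * u = u * a := by
      intro u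
      rcases hC.com a u with h3 | h3
      · exact h3
      · exact absurd h3 (hcon u)
    rcases hC.cen a hcen with h3 | h3
    · rw [h3] at haa
      exact H.h.z1 (by simpa using haa.symm)
    · have h4 : (a : P) = z := congrArg Subtype.val h3
      rw [h4, H.h.z2] at haa
      exact H.h.z1 haa.symm
  obtain ⟨b₀, hb₀⟩ := h1
  have h2 := card_anti hC hb₀
  rw [H.card_CC hxy] at h2
  have h3 : Nat.card {b : ↥(CC x y) // (a : P) * b = z * (b * a)} =
      Nat.card {b : ↥(CC x y) // a * b = zt * (b * a)} := by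
    apply Nat.card_congr
    refine Equiv.subtypeEquivRight (fun b => ?_)
    constructor
    · intro h4
      exact Subtype.ext h4
    · intro h4
      exact congrArg Subtype.val h4
  omega

end Hyp

/-- The counting model. -/
abbrev FSig (z : P) := Σ x : {x : P // x * x = 1 ∧ x ≠ 1 ∧ x ≠ z},
  Σ y : {y : P // y * y = 1 ∧ x.1 * y = z * (y * x.1)},
  Σ a : {a : ↥(CC x.1 y.1) // (a : P) * a = z},
  {b : ↥(CC x.1 y.1) // (a.1 : P) * b = z * (b * a.1)}

theorem card_FSig (H : Hyp P z) : Nat.card (FSig z) = 1920 := by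
  have h1 : Nat.card (FSig z) = 10 * (8 * (6 * 4)) := by
    rw [card_sigma_const (8 * (6 * 4)), H.count_F1]
    rintro ⟨x, hxx, hx1, hxz⟩
    rw [card_sigma_const (6 * 4), H.count_F2 hxx hx1 hxz]
    rintro ⟨y, hyy, hxy⟩
    rw [card_sigma_const 4, H.count_F3 hxx hxy]
    rintro ⟨a, haa⟩
    exact H.count_F4 hxx hxy a haa
  rw [h1]

/-- Frames as tuples. -/
abbrev FrT (z : P) := {t : P × P × P × P // Fr z t.1 t.2.1 t.2.2.1 t.2.2.2}

/-- The equivalence of the two models. -/
def frEquiv (H : Hyp P z) : FrT z ≃ FSig z where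
  toFun t := ⟨⟨t.1.1, t.2.1, (noncentral_left H.h t.2.2.2.1).1, (noncentral_left H.h t.2.2.2.1).2⟩,
    ⟨t.1.2.1, t.2.2.1, t.2.2.2.1⟩, ⟨⟨t.1.2.2.1, t.2.2.2.2.1⟩, t.2.2.2.2.2.1⟩,
    ⟨⟨t.1.2.2.2, t.2.2.2.2.2.2.1⟩, t.2.2.2.2.2.2.2⟩⟩
  invFun s := ⟨(s.1.1, s.2.1.1, s.2.2.1.1.1, s.2.2.2.1.1),
    s.1.2.1, s.2.1.2.1, s.2.1.2.2, s.2.2.1.1.2, s.2.2.1.2, s.2.2.2.1.2, s.2.2.2.2⟩
  left_inv _ := rfl
  right_inv _ := rfl

theorem card_FrT (H : Hyp P z) : Nat.card (FrT z) = 1920 := by
  rw [Nat.card_congr (frEquiv H), card_FSig H]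

theorem exists_frame (H : Hyp P z) : Nonempty (FrT z) :=
  (Nat.card_pos_iff.mp (by rw [card_FrT H]; norm_num)).1

theorem exists_frame' (H : Hyp P z) : ∃ t : FrT z, True := by
  have h1 : Nonempty (FrT z) := (Nat.card_pos_iff.mp (by rw [card_FrT H]; norm_num)).1
  obtain ⟨t⟩ := h1
  exact ⟨t, trivial⟩

/-- Homomorphisms between frames. -/
theorem frame_hom (H : Hyp P z) {x y a b x' y' a' b' : P} (hf : Fr z x y a b)
    (hf' : Fr z x' y' a' b') :
    ∃ Φ : P →* P, Φ z = z ∧ Φ x = x' ∧ Φ y = y' ∧ Φ a = a' ∧ Φ b = b' := by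
  obtain ⟨hxx, hyy, hxy, ha, haa, hb, hab⟩ := hf
  obtain ⟨hxx', hyy', hxy', ha', haa', hb', hab'⟩ := hf'
  have hC := ge_CC H.h hxy
  have hC' := ge_CC H.h hxy'
  let at₁ : ↥(CC x y) := ⟨a, ha⟩
  let bt₁ : ↥(CC x y) := ⟨b, hb⟩
  let at₂ : ↥(CC x' y') := ⟨a', ha'⟩
  let bt₂ : ↥(CC x' y') := ⟨b', hb'⟩
  have hab₁ : at₁ * bt₁ = ⟨z, mem_CC.2 ⟨(H.h.zc x).symm, (H.h.zc y).symm⟩⟩ * (bt₁ * at₁) :=
    Subtype.ext hab
  have hab₂ : at₂ * bt₂ = ⟨z, mem_CC.2 ⟨(H.h.zc x').symm, (H.h.zc y').symm⟩⟩ * (bt₂ * at₂) :=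
    Subtype.ext hab'
  have hD := ge_CC hC hab₁
  have hD' := ge_CC hC' hab₂
  have hcD : Nat.card ↥(CC at₁ bt₁) = 2 := by
    have := card_eq hC hab₁
    rw [H.card_CC hxy] at this
    omega
  have hcD' : Nat.card ↥(CC at₂ bt₂) = 2 := by
    have := card_eq hC' hab₂
    rw [H.card_CC hxy'] at this
    omega
  obtain ⟨φ₀, hφ₀⟩ := classify_B 2 ↥(CC at₁ bt₁) _ ↥(CC at₂ bt₂) _ hD hD' hcD hcD'
    (by rw [ee_two hD hcD, ee_two hD' hcD'])
  obtain ⟨φ₁, hz₁, ha₁, hb₁, -⟩ := step_full hC hC' hab₁ hab₂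
    (Or.inr ⟨Subtype.ext haa, Subtype.ext haa'⟩) (Or.inr ⟨Subtype.ext (by
      -- `b * b = z`
      rcases H.h.sq b with h3 | h3
      · exact absurd (H.invol_CC hxx hxy b hb h3) (by
          rintro (rfl | rfl)
          · exact (noncentral_right hC hab₁).1 (Subtype.ext rfl)
          · exact (noncentral_right hC hab₁).2 (Subtype.ext rfl))
      · exact h3), Subtype.ext (by
      rcases H.h.sq b' with h3 | h3
      · exact absurd (H.invol_CC hxx' hxy' b' hb' h3) (by
          rintro (rfl | rfl)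
          · exact (noncentral_right hC' hab₂).1 (Subtype.ext rfl)
          · exact (noncentral_right hC' hab₂).2 (Subtype.ext rfl))
      · exact h3)⟩) φ₀ hφ₀
  obtain ⟨Φ, hz, hx, hy, hc⟩ := step_full H.h H.h hxy hxy' (Or.inl ⟨hxx, hxx'⟩)
    (Or.inl ⟨hyy, hyy'⟩) φ₁ hz₁
  refine ⟨Φ, hz, hx, hy, ?_, ?_⟩
  · rw [show a = ((at₁ : ↥(CC x y)) : P) from rfl, hc at₁, ha₁]
  · rw [show b = ((bt₁ : ↥(CC x y)) : P) from rfl, hc bt₁, hb₁]

/-- Homomorphisms are determined on frames. -/
theorem hom_unique (H : Hyp P z) {x y a b : P} (hf : Fr z x y a b) (α β : P →* P)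
    (hz : α z = β z) (hx : α x = β x) (hy : α y = β y) (ha : α a = β a) (hb : α b = β b) : α = β := by
  obtain ⟨hxx, hyy, hxy, ha', haa, hb', hab⟩ := hf
  have hC := ge_CC H.h hxy
  let at₁ : ↥(CC x y) := ⟨a, ha'⟩
  let bt₁ : ↥(CC x y) := ⟨b, hb'⟩
  have hab₁ : at₁ * bt₁ = ⟨z, mem_CC.2 ⟨(H.h.zc x).symm, (H.h.zc y).symm⟩⟩ * (bt₁ * at₁) :=
    Subtype.ext hab
  have hD := ge_CC hC hab₁
  have hcD : Nat.card ↥(CC at₁ bt₁) = 2 := by
    have := card_eq hC hab₁
    rw [H.card_CC hxy] at this
    omega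
  have hwf : ∀ i j : Bool, α (wf x y i j) = β (wf x y i j) := by
    intro i j
    cases i <;> cases j <;> simp [wf, hx, hy]
  have hwf' : ∀ i j : Bool, α ((wf at₁ bt₁ i j : ↥(CC x y)) : P) = β ((wf at₁ bt₁ i j : ↥(CC x y)) : P) := by
    intro i j
    cases i <;> cases j <;> simp [wf, at₁, bt₁, ha, hb]
  ext g
  obtain ⟨c, hc, i, j, rfl⟩ := exists_decomp H.h hxy g
  obtain ⟨d, hd, k, l, hdec⟩ := exists_decomp hC hab₁ ⟨c, hc⟩
  have hc' : c = ((d : ↥(CC x y)) : P) * ((wf at₁ bt₁ k l : ↥(CC x y)) : P) :=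
    congrArg Subtype.val hdec
  have hd2 := all_of_card_two hD hcD.le ⟨d, hd⟩
  rw [map_mul, map_mul, hwf i j, hc', map_mul, map_mul, hwf' k l]
  congr 2
  rcases hd2 with h3 | h3
  · have h4 : ((d : ↥(CC x y)) : P) = 1 := congrArg (fun u : ↥(CC at₁ bt₁) => (((u : ↥(CC x y))) : P)) h3
    rw [h4, map_one, map_one]
  · have h4 : ((d : ↥(CC x y)) : P) = z := congrArg (fun u : ↥(CC at₁ bt₁) => (((u : ↥(CC x y))) : P)) h3
    rw [h4, hz]

section aut

theorem aut_z (H : Hyp P z) (α : MulAut P) : α z = z := by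
  have hne : α z ≠ 1 := by
    intro he
    exact H.h.z1 (α.injective (he.trans (map_one α).symm))
  have hc : ∀ u, α z * u = u * α z := by
    intro u
    obtain ⟨v, rfl⟩ := α.surjective u
    rw [← map_mul, ← map_mul, H.h.zc v]
  rcases H.h.cen (α z) hc with h1 | h1
  · exact absurd h1 hne
  · exact h1

theorem Fr_map (H : Hyp P z) (α : MulAut P) {x y a b : P} (hf : Fr z x y a b) :
    Fr z (α x) (α y) (α a) (α b) := by
  obtain ⟨hxx, hyy, hxy, ha, haa, hb, hab⟩ := hf
  have hz := aut_z H α
  have ha' := mem_CC.1 ha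
  have hb' := mem_CC.1 hb
  refine ⟨?_, ?_, ?_, ?_, ?_, ?_, ?_⟩
  · rw [← map_mul, hxx, map_one]
  · rw [← map_mul, hyy, map_one]
  · rw [← map_mul, hxy, map_mul, map_mul, hz]
  · exact mem_CC.2 ⟨by rw [← map_mul, ha'.1, map_mul], by rw [← map_mul, ha'.2, map_mul]⟩
  · rw [← map_mul, haa, hz]
  · exact mem_CC.2 ⟨by rw [← map_mul, hb'.1, map_mul], by rw [← map_mul, hb'.2, map_mul]⟩
  · rw [← map_mul, hab, map_mul, map_mul, hz]

/-- The frame map. -/
def autFrame (H : Hyp P z) (f₀ : FrT z) (α : MulAut P) : FrT z :=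
  ⟨(α f₀.1.1, α f₀.1.2.1, α f₀.1.2.2.1, α f₀.1.2.2.2), Fr_map H α f₀.2⟩

theorem autFrame_bijective (H : Hyp P z) (f₀ : FrT z) : Function.Bijective (autFrame H f₀) := by
  constructor
  · intro α β he
    have h1 := congrArg Subtype.val he
    simp only [autFrame, Prod.mk.injEq] at h1
    obtain ⟨h2, h3, h4, h5⟩ := h1
    have h6 := hom_unique H f₀.2 (α : P →* P) (β : P →* P) (by
      change α z = β z
      rw [aut_z H α, aut_z H β]) h2 h3 h4 h5
    ext g
    exact congrArg (fun φ : P →* P => φ g) h6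
  · rintro ⟨⟨x', y', a', b'⟩, hf'⟩
    obtain ⟨Φ, hz, hx, hy, ha, hb⟩ := frame_hom H f₀.2 hf'
    have hinj := injective_of_map_z H.h H.h Φ hz
    have hbij : Function.Bijective Φ := ⟨hinj, Finite.injective_iff_surjective.mp hinj⟩
    refine ⟨MulEquiv.ofBijective Φ hbij, ?_⟩
    apply Subtype.ext
    simp only [autFrame, MulEquiv.ofBijective_apply, Prod.mk.injEq]
    exact ⟨hx, hy, ha, hb⟩

theorem card_aut (H : Hyp P z) : Nat.card (MulAut P) = 1920 := by
  obtain ⟨f₀⟩ := exists_frame H
  rw [Nat.card_congr (Equiv.ofBijective _ (autFrame_bijective H f₀)), card_FrT H]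

/-- Singular points. -/
def ptSetoid (H : Hyp P z) : Setoid {x : P // x * x = 1 ∧ x ≠ 1 ∧ x ≠ z} where
  r x y := y.1 = x.1 ∨ y.1 = z * x.1
  iseqv := by
    refine ⟨fun x => Or.inl rfl, ?_, ?_⟩
    · rintro x y (h1 | h1)
      · exact Or.inl h1.symm
      · right
        rw [h1, ← mul_assoc, H.h.z2, one_mul]
    · rintro x y w (h1 | h1) (h2 | h2)
      · exact Or.inl (h2.trans h1)
      · right
        rw [h2, h1]
      · right
        rw [h2, h1]
      · left
        rw [h2, h1, ← mul_assoc, H.h.z2, one_mul]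

/-- The action on involutions. -/
def autF1 (H : Hyp P z) (α : MulAut P) (x : {x : P // x * x = 1 ∧ x ≠ 1 ∧ x ≠ z}) :
    {x : P // x * x = 1 ∧ x ≠ 1 ∧ x ≠ z} :=
  ⟨α x.1, by rw [← map_mul, x.2.1, map_one], fun he => x.2.2.1 (α.injective (he.trans (map_one α).symm)),
    fun he => x.2.2.2 (α.injective (he.trans (aut_z H α).symm))⟩

theorem autF1_resp (H : Hyp P z) (α : MulAut P) (x y : {x : P // x * x = 1 ∧ x ≠ 1 ∧ x ≠ z})
    (hxy : (ptSetoid H).r x y) : (ptSetoid H).r (autF1 H α x) (autF1 H α y) := by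
  rcases hxy with h1 | h1
  · left
    change α y.1 = α x.1
    rw [h1]
  · right
    change α y.1 = z * α x.1
    rw [h1, map_mul, aut_z H α]

/-- The permutation representation on the singular points. -/
def rho (H : Hyp P z) : MulAut P →* Equiv.Perm (Quotient (ptSetoid H)) where
  toFun α :=
    { toFun := Quotient.map (autF1 H α) (autF1_resp H α)
      invFun := Quotient.map (autF1 H α⁻¹) (autF1_resp H α⁻¹)
      left_inv := by
        rintro ⟨x⟩
        apply congrArg (Quotient.mk (ptSetoid H))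
        apply Subtype.ext
        exact MulAut.inv_apply_self P α x.1
      right_inv := by
        rintro ⟨x⟩
        apply congrArg (Quotient.mk (ptSetoid H))
        apply Subtype.ext
        exact MulAut.apply_inv_self P α x.1 }
  map_one' := by
    ext ⟨x⟩
    rfl
  map_mul' := by
    intro α β
    ext ⟨x⟩
    rfl

theorem card_pts (H : Hyp P z) : Nat.card (Quotient (ptSetoid H)) = 5 := by
  have h1 := Nat.card_congr (Equiv.sigmaFiberEquiv (Quotient.mk (ptSetoid H)))
  rw [H.count_F1, card_sigma_const 2] at h1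
  · omega
  · intro q
    induction q using Quotient.ind with
    | _ x₀ =>
    rw [Nat.card_eq_two_iff]
    have hzx : (z * x₀.1) * (z * x₀.1) = 1 ∧ z * x₀.1 ≠ 1 ∧ z * x₀.1 ≠ z := by
      refine ⟨?_, ?_, ?_⟩
      · rw [H.h.sq_of_comm (H.h.zc x₀.1).symm, H.h.z2, x₀.2.1, one_mul]
      · intro he
        apply x₀.2.2.2
        have h6 : z * x₀.1 = z * z := by rw [he, H.h.z2]
        exact mul_left_cancel h6
      · intro he
        apply x₀.2.2.1
        have h6 : z * x₀.1 = z * 1 := by rw [he, mul_one]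
        exact mul_left_cancel h6
    refine ⟨⟨x₀, rfl⟩, ⟨⟨z * x₀.1, hzx⟩, Quotient.sound (Or.inr (by rw [← mul_assoc, H.h.z2, one_mul]))⟩, ?_, ?_⟩
    · intro he
      have h2 : x₀.1 = z * x₀.1 := congrArg (fun u => (u.1 : {x : P // x * x = 1 ∧ x ≠ 1 ∧ x ≠ z}).1) he
      apply H.h.z1
      have h3 : z * x₀.1 = 1 * x₀.1 := by rw [← h2, one_mul]
      exact mul_right_cancel h3
    · ext ⟨x, hx⟩
      simp only [Set.mem_insert_iff, Set.mem_singleton_iff, Set.mem_univ, iff_true]
      have h2 := Quotient.exact hx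
      rcases h2 with h3 | h3
      · left
        apply Subtype.ext
        apply Subtype.ext
        exact h3.symm
      · right
        apply Subtype.ext
        apply Subtype.ext
        change x.1 = z * x₀.1
        rw [h3, ← mul_assoc, H.h.z2, one_mul]

theorem ker_rho_apply (H : Hyp P z) {α : MulAut P} (hα : α ∈ (rho H).ker)
    (x : {x : P // x * x = 1 ∧ x ≠ 1 ∧ x ≠ z}) : α x.1 = x.1 ∨ α x.1 = z * x.1 := by
  have h1 : rho H α (Quotient.mk (ptSetoid H) x) = Quotient.mk (ptSetoid H) x := by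
    rw [MonoidHom.mem_ker.mp hα]
    rfl
  have h2 : (ptSetoid H).r (autF1 H α x) x := Quotient.exact h1
  rcases h2 with h3 | h3
  · exact Or.inl h3.symm
  · right
    have h4 : x.1 = z * α x.1 := h3
    calc α x.1 = z * (z * α x.1) := by rw [← mul_assoc, H.h.z2, one_mul]
      _ = z * x.1 := by rw [← h4]

theorem inn_le_ker (H : Hyp P z) : (MulAut.conj : P →* MulAut P).range ≤ (rho H).ker := by
  rintro _ ⟨h, rfl⟩
  rw [MonoidHom.mem_ker]
  ext ⟨x⟩
  change Quotient.mk (ptSetoid H) (autF1 H (MulAut.conj h) x) = Quotient.mk (ptSetoid H) x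
  apply Quotient.sound
  change x.1 = h * x.1 * h⁻¹ ∨ x.1 = z * (h * x.1 * h⁻¹)
  rcases H.h.com h x.1 with h1 | h1
  · left
    rw [h1]
    group
  · right
    rw [h1]
    calc x.1 = (z * z) * x.1 := by rw [H.h.z2, one_mul]
      _ = z * (z * (x.1 * h) * h⁻¹) := by group

theorem card_inn (H : Hyp P z) : Nat.card ↥(MulAut.conj : P →* MulAut P).range = 16 := by
  have h1 := (MulAut.conj : P →* MulAut P).ker.card_mul_index
  rw [Subgroup.index_ker, H.h32] at h1
  have h2 : Nat.card ↥(MulAut.conj : P →* MulAut P).ker = 2 := by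
    rw [Nat.card_eq_two_iff]
    have hz : z ∈ (MulAut.conj : P →* MulAut P).ker := by
      rw [MonoidHom.mem_ker]
      ext g
      change z * g * z⁻¹ = g
      rw [← H.h.zc g]
      group
    refine ⟨1, ⟨z, hz⟩, ?_, ?_⟩
    · intro he
      exact H.h.z1 (congrArg Subtype.val he).symm
    · ext ⟨g, hg⟩
      simp only [Set.mem_insert_iff, Set.mem_singleton_iff, Set.mem_univ, iff_true]
      have h3 : ∀ u, g * u = u * g := by
        intro u
        have h4 := congrArg (fun φ : MulAut P => φ u) (MonoidHom.mem_ker.mp hg)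
        change g * u * g⁻¹ = u at h4
        calc g * u = g * u * g⁻¹ * g := by group
          _ = u * g := by rw [h4]
      rcases H.h.cen g h3 with h4 | h4
      · left
        exact Subtype.ext h4
      · right
        exact Subtype.ext h4
  rw [h2] at h1
  omega

/-- Two values differing by the centre. -/
def Zc (z g g' : P) : Prop := g' = g ∨ g' = z * g

theorem Zc_mul (H : Hyp P z) {g g' k k' : P} (h1 : Zc z g g') (h2 : Zc z k k') :
    Zc z (g * k) (g' * k') := by
  rcases h1 with rfl | rfl <;> rcases h2 with rfl | rfl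
  · exact Or.inl rfl
  · right
    calc g' * (z * k) = (g' * z) * k := by group
      _ = (z * g') * k := by rw [H.h.zc g']
      _ = z * (g' * k) := by group
  · right
    group
  · left
    calc z * g * (z * k) = z * (g * z) * k := by group
      _ = z * (z * g) * k := by rw [H.h.zc g]
      _ = (z * z) * (g * k) := by group
      _ = g * k := by rw [H.h.z2, one_mul]

theorem Zc_cancel (H : Hyp P z) {g g' k k' : P} (h1 : Zc z g g') (h2 : Zc z (g * k) (g' * k')) :
    Zc z k k' := by
  rcases h1 with rfl | rfl <;> rcases h2 with h2 | h2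
  · exact Or.inl (mul_left_cancel h2)
  · right
    have h3 : g' * k' = g' * (z * k) := by
      rw [h2]
      calc z * (g' * k) = (z * g') * k := by group
        _ = (g' * z) * k := by rw [H.h.zc g']
        _ = g' * (z * k) := by group
    exact mul_left_cancel h3
  · right
    have h3 : g * (z * k') = g * k := by
      calc g * (z * k') = (g * z) * k' := by group
        _ = (z * g) * k' := by rw [H.h.zc g]
        _ = g * k := h2
    have h4 := mul_left_cancel h3
    rw [← h4, ← mul_assoc, H.h.z2, one_mul]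
  · left
    have h4 : (z * g) * k' = z * (g * k) := h2
    rw [mul_assoc] at h4
    exact mul_left_cancel (mul_left_cancel h4)

theorem card_ker_le (H : Hyp P z) : Nat.card ↥(rho H).ker ≤ 16 := by
  classical
  obtain ⟨⟨⟨x, y, a, b⟩, hf⟩⟩ := exists_frame H
  obtain ⟨hxx, hyy, hxy, ha, haa, hb, hab⟩ := id hf
  have hz' := H.h.z1
  have hf2 := hf
  have hx1 := noncentral_left H.h hxy
  have hy1 := noncentral_right H.h hxy
  have hac := mem_CC.1 ha
  have hbc := mem_CC.1 hb
  -- the auxiliary involutions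
  have hxyc : ∀ c, c ∈ CC x y → (x * y) * c = c * (x * y) := by
    intro c hc
    have h1 := mem_CC.1 hc
    calc (x * y) * c = x * (y * c) := by group
      _ = x * (c * y) := by rw [h1.2]
      _ = (x * c) * y := by group
      _ = (c * x) * y := by rw [h1.1]
      _ = c * (x * y) := by group
  have hxysq : (x * y) * (x * y) = z := by
    rw [H.h.sq_of_anti hxy, hxx, hyy, one_mul, mul_one]
  have hbb : b * b = z := by
    rcases H.h.sq b with h3 | h3
    · rcases H.invol_CC hxx hxy b hb h3 with h4 | h4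
      · exfalso
        rw [h4, mul_one, one_mul] at hab
        apply hz'
        have h5 : z * a = 1 * a := by rw [← hab, one_mul]
        exact mul_right_cancel h5
      · exfalso
        rw [h4, H.h.zc a, ← mul_assoc, H.h.z2, one_mul] at hab
        apply hz'
        have h5 : z * a = 1 * a := by rw [hab, one_mul]
        exact mul_right_cancel h5
    · exact h3
  have huanti : (x * y * a) * b = z * (b * (x * y * a)) := by
    have h1 := hxyc b hb
    calc (x * y * a) * b = (x * y) * (a * b) := by group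
      _ = (x * y) * (z * (b * a)) := by rw [hab]
      _ = ((x * y) * z) * (b * a) := by group
      _ = (z * (x * y)) * (b * a) := by rw [H.h.zc]
      _ = z * (((x * y) * b) * a) := by group
      _ = z * ((b * (x * y)) * a) := by rw [h1]
      _ = z * (b * (x * y * a)) := by group
  have hvanti : (x * y * b) * a = z * (a * (x * y * b)) := by
    have h1 := hxyc a ha
    have h2 := H.h.anti_symm hab
    calc (x * y * b) * a = (x * y) * (b * a) := by group
      _ = (x * y) * (z * (a * b)) := by rw [h2]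
      _ = ((x * y) * z) * (a * b) := by group
      _ = (z * (x * y)) * (a * b) := by rw [H.h.zc]
      _ = z * (((x * y) * a) * b) := by group
      _ = z * ((a * (x * y)) * b) := by rw [h1]
      _ = z * (a * (x * y * b)) := by group
  let u : {x : P // x * x = 1 ∧ x ≠ 1 ∧ x ≠ z} := ⟨x * y * a, by
    rw [H.h.sq_of_comm (hxyc a ha), hxysq, haa, H.h.z2], (noncentral_left H.h huanti).1,
    (noncentral_left H.h huanti).2⟩
  let v : {x : P // x * x = 1 ∧ x ≠ 1 ∧ x ≠ z} := ⟨x * y * b, by
    rw [H.h.sq_of_comm (hxyc b hb), hxysq, hbb, H.h.z2], (noncentral_left H.h hvanti).1,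
    (noncentral_left H.h hvanti).2⟩
  let X : {x : P // x * x = 1 ∧ x ≠ 1 ∧ x ≠ z} := ⟨x, hxx, hx1.1, hx1.2⟩
  let Y : {x : P // x * x = 1 ∧ x ≠ 1 ∧ x ≠ z} := ⟨y, hyy, hy1.1, hy1.2⟩
  have hker : ∀ α : MulAut P, α ∈ (rho H).ker → Zc z x (α x) ∧ Zc z y (α y) ∧ Zc z a (α a) ∧ Zc z b (α b) := by
    intro α hα
    have h1 : Zc z x (α x) := ker_rho_apply H hα X
    have h2 : Zc z y (α y) := ker_rho_apply H hα Y
    have h3 : Zc z (x * y * a) (α (x * y * a)) := ker_rho_apply H hα u
    have h4 : Zc z (x * y * b) (α (x * y * b)) := ker_rho_apply H hα v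
    rw [map_mul] at h3 h4
    exact ⟨h1, h2, Zc_cancel H (Zc_mul H h1 h2) (by rw [← map_mul]; exact h3),
      Zc_cancel H (Zc_mul H h1 h2) (by rw [← map_mul]; exact h4)⟩
  let f : ↥(rho H).ker → Bool × Bool × Bool × Bool := fun α =>
    (decide (α.1 x = x), decide (α.1 y = y), decide (α.1 a = a), decide (α.1 b = b))
  have hf_inj : Function.Injective f := by
    rintro ⟨α, hα⟩ ⟨β, hβ⟩ he
    obtain ⟨ha1, ha2, ha3, ha4⟩ := hker α hα
    obtain ⟨hb1, hb2, hb3, hb4⟩ := hker β hβ
    simp only [f, Prod.mk.injEq, decide_eq_decide] at he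
    obtain ⟨h1, h2, h3, h4⟩ := he
    have key : ∀ {g g₁ g₂ : P}, Zc z g g₁ → Zc z g g₂ → (g₁ = g ↔ g₂ = g) → g₁ = g₂ := by
      intro g g₁ g₂ h5 h6 h7
      rcases h5 with h5 | h5
      · rw [h5]
        exact (h7.mp h5).symm
      · rcases h6 with h6 | h6
        · rw [h6]
          exact h7.mpr h6
        · rw [h5, h6]
    apply Subtype.ext
    apply MulEquiv.ext
    intro g
    have h6 := hom_unique H hf2 (α : P →* P) (β : P →* P) (by
      change α z = β z
      rw [aut_z H α, aut_z H β]) (key ha1 hb1 h1) (key ha2 hb2 h2) (key ha3 hb3 h3) (key ha4 hb4 h4)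
    exact congrArg (fun φ : P →* P => φ g) h6
  have h2 := Nat.card_le_card_of_injective f hf_inj
  simpa [Nat.card_eq_fintype_card] using h2

theorem ker_eq_inn (H : Hyp P z) : (MulAut.conj : P →* MulAut P).range = (rho H).ker :=
  Subgroup.eq_of_le_of_card_ge (inn_le_ker H) (by rw [card_inn H]; exact card_ker_le H)

end aut

/-- The theorem from the elementary hypotheses. -/
theorem main_hyp (H : Hyp P z) [hN : (MulAut.conj : P →* MulAut P).range.Normal] :
    Nonempty ((MulAut P ⧸ (MulAut.conj : P →* MulAut P).range) ≃* Equiv.Perm (Fin 5)) := by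
  classical
  have hle := inn_le_ker H
  let ρ' := QuotientGroup.lift (MulAut.conj : P →* MulAut P).range (rho H) (fun x hx => hle hx)
  have hinj : Function.Injective ρ' := by
    rw [injective_iff_map_eq_one]
    intro q hq
    obtain ⟨α, rfl⟩ := QuotientGroup.mk'_surjective _ q
    have h1 : rho H α = 1 := hq
    have h2 : α ∈ (MulAut.conj : P →* MulAut P).range := by
      rw [ker_eq_inn H]
      exact h1
    exact (QuotientGroup.eq_one_iff α).mpr h2
  have hc1 : Nat.card (MulAut P ⧸ (MulAut.conj : P →* MulAut P).range) = 120 := by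
    have := Subgroup.card_eq_card_quotient_mul_card_subgroup (MulAut.conj : P →* MulAut P).range
    rw [card_aut H, card_inn H] at this
    omega
  have hfin : Finite (Quotient (ptSetoid H)) := by
    exact Quotient.finite _
  letI : Fintype (Quotient (ptSetoid H)) := Fintype.ofFinite _
  have hc2 : Nat.card (Equiv.Perm (Quotient (ptSetoid H))) = 120 := by
    rw [Nat.card_eq_fintype_card, Fintype.card_perm, ← Nat.card_eq_fintype_card, card_pts H]
    rfl
  have hbij : Function.Bijective ρ' :=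
    (Nat.bijective_iff_injective_and_card ρ').mpr ⟨hinj, by rw [hc1, hc2]⟩
  have hcardP : Fintype.card (Quotient (ptSetoid H)) = Fintype.card (Fin 5) := by
    rw [← Nat.card_eq_fintype_card, card_pts H]
    rfl
  exact ⟨(MulEquiv.ofBijective ρ' hbij).trans (Equiv.permCongrHom (Fintype.equivOfCardEq hcardP))⟩

end main

theorem hno_of {P : Type u} [Group P] [Finite P] {z : P} (h : GE P z)
    (hminus : ∀ A : Subgroup P, Cfsg.IsElementaryAbelian 2 A → Nat.card ↥A ≤ 4) :
    ∀ x u : P, x * x = 1 → u * u = 1 → x * u = u * x → x ≠ 1 → x ≠ z → u ≠ 1 → u ≠ z →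
      u ≠ x → u ≠ z * x → False := by
  classical
  intro x u hxx huu hxu hx1 hxz hu1 huz hux huzx
  let S : Set P := {x, u, z}
  have hcomm : ∀ p ∈ S, ∀ q ∈ S, p * q = q * p := by
    rintro p (rfl | rfl | rfl) q (rfl | rfl | rfl)
    · rfl
    · exact hxu
    · exact (h.zc _)
    · exact hxu.symm
    · rfl
    · exact (h.zc _)
    · exact (h.zc _).symm
    · exact (h.zc _).symm
    · rfl
  let A := Subgroup.closure S
  have hAc : ∀ a ∈ A, ∀ b ∈ A, a * b = b * a := by
    have h1 : A ≤ centralizer S := (Subgroup.closure_le _).2 (fun p hp =>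
      Subgroup.mem_centralizer_iff.2 (fun q hq => hcomm q hq p hp))
    have h2 : ∀ a ∈ A, A ≤ centralizer ({a} : Set P) := fun a ha => (Subgroup.closure_le _).2
      (fun p hp => Subgroup.mem_centralizer_singleton_iff.2
        (Subgroup.mem_centralizer_iff.1 (h1 ha) p hp))
    intro a ha b hb
    exact (Subgroup.mem_centralizer_singleton_iff.1 (h2 b hb ha))
  have hA2 : ∀ a ∈ A, a * a = 1 := by
    intro a ha
    induction ha using Subgroup.closure_induction with
    | mem p hp =>
      rcases hp with rfl | rfl | rfl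
      · exact hxx
      · exact huu
      · exact h.z2
    | one => simp
    | mul p q hp hq ihp ihq =>
      rw [h.sq_of_comm (hAc p hp q hq), ihp, ihq, one_mul]
    | inv p hp ihp =>
      rw [← mul_inv_rev, ihp, inv_one]
  have hel : Cfsg.IsElementaryAbelian 2 A := by
    refine ⟨⟨⟨?_⟩⟩, ?_⟩
    · rintro ⟨a, ha⟩ ⟨b, hb⟩
      exact Subtype.ext (hAc a ha b hb)
    · intro a ha
      rw [sq]
      exact hA2 a ha
  have hle := hminus A hel
  -- five elements
  have hmemx : x ∈ A := Subgroup.subset_closure (Or.inl rfl)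
  have hmemu : u ∈ A := Subgroup.subset_closure (Or.inr (Or.inl rfl))
  have hmemz : z ∈ A := Subgroup.subset_closure (Or.inr (Or.inr rfl))
  have h5 : 5 ≤ Nat.card A := by
    let T : Finset P := {1, z, x, z * x, u}
    have hT : T.card = 5 := by
      have hzx1 : z * x ≠ 1 := by
        intro he
        apply hxz
        have h6 : z * x = z * z := by rw [he, h.z2]
        exact mul_left_cancel h6
      have hzxz : z * x ≠ z := by
        intro he
        apply hx1
        have h6 : z * x = z * 1 := by rw [he, mul_one]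
        exact mul_left_cancel h6
      have hzxx : z * x ≠ x := by
        intro he
        apply h.z1
        have h6 : z * x = 1 * x := by rw [he, one_mul]
        exact mul_right_cancel h6
      simp only [T]
      rw [Finset.card_insert_of_notMem, Finset.card_insert_of_notMem, Finset.card_insert_of_notMem,
        Finset.card_pair]
      · exact huzx.symm
      · simp only [Finset.mem_insert, Finset.mem_singleton, not_or]
        exact ⟨hzxx.symm, hux.symm⟩
      · simp only [Finset.mem_insert, Finset.mem_singleton, not_or]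
        exact ⟨hxz.symm, hzxz.symm, huz.symm⟩
      · simp only [Finset.mem_insert, Finset.mem_singleton, not_or]
        exact ⟨h.z1.symm, hx1.symm, hzx1.symm, hu1.symm⟩
    rw [← hT, ← Set.ncard_coe_finset T]
    have hcA : Nat.card ↥A = Set.ncard (A : Set P) := Nat.card_coe_set_eq (A : Set P)
    rw [hcA]
    apply Set.ncard_le_ncard
    · intro p hp
      simp only [T, Finset.coe_insert, Finset.coe_singleton, Set.mem_insert_iff,
        Set.mem_singleton_iff] at hp
      rcases hp with rfl | rfl | rfl | rfl | rfl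
      · exact A.one_mem
      · exact hmemz
      · exact hmemx
      · exact A.mul_mem hmemz hmemx
      · exact hmemu
    · exact Set.toFinite _
  omega

theorem main {P : Type u} [Group P] [Finite P]
    (hex : Cfsg.IsExtraspecial 2 P) (h32 : Nat.card P = 32)
    (hminus : ∀ A : Subgroup P, Cfsg.IsElementaryAbelian 2 A → Nat.card ↥A ≤ 4)
    [(MulAut.conj : P →* MulAut P).range.Normal] :
    Nat.card ↥(MulAut.conj : P →* MulAut P).range = 16 ∧ Nat.card (MulAut P) = 1920 ∧
      Nonempty ((MulAut P ⧸ (MulAut.conj : P →* MulAut P).range) ≃* Equiv.Perm (Fin 5)) := by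
  obtain ⟨z, h⟩ := ge_of_extraspecial hex
  have H : Hyp P z := ⟨h, h32, hno_of h hminus⟩
  exact ⟨card_inn H, card_aut H, main_hyp H⟩

end Cfsg.Agent.Lib.ClassSizes.ExtraOut
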