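import Mathlib
import Cfsg.Agent.S0126
import Cfsg.Agent.Lib.Core.Basic
import Cfsg.Agent.Lib.PGroup.MaxNormal
import Cfsg.Agent.Lib.Hall.Elementary

/-! Group theory for the bound on the derived length of `p`-subgroups of `GL_n(q)`. -/

set_option autoImplicit false

namespace Cfsg.Agent.Lib.ClassSizes.GLDer

open Subgroup

section gt

variable {G : Type*} [Group G] [Finite G] {p : ℕ} [hp : Fact p.Prime]

theorem exists_yz_of_elem (hG : IsPGroup p G) (E : Subgroup G) [hEn : E.Normal]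
    (hEp : ∀ a ∈ E, a ^ p = 1) (hEc : ¬ IsCyclic E) :
    ∃ y z : G, z ∈ center G ∧ z ≠ 1 ∧ z ^ p = 1 ∧ y ^ p = 1 ∧ y ∉ zpowers z ∧
      ∀ g, ∃ k : ℕ, g * y * g⁻¹ = z ^ k * y := by
  haveI : Group.IsNilpotent G := hG.isNilpotent
  have hE1 : E ≠ ⊥ := by
    rintro rfl
    exact hEc inferInstance
  have h1 := Cfsg.Agent.Lib.Core.normal_inf_center_ne_bot E hE1
  obtain ⟨⟨z, hzE, hzc⟩, hz1⟩ := Subgroup.ne_bot_iff_exists_ne_one.mp h1
  have hz1' : z ≠ 1 := fun h => hz1 (Subtype.ext h)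
  have hZn : (zpowers z).Normal := by
    refine ⟨?_⟩
    rintro _ ⟨i, rfl⟩ g
    have h2 : Commute g z := (mem_center_iff.mp hzc g)
    have h3 : g * z ^ i * g⁻¹ = z ^ i := by
      rw [(h2.zpow_right i).eq]; group
    show g * z ^ i * g⁻¹ ∈ zpowers z
    rw [h3]
    exact zpow_mem (mem_zpowers z) i
  let π := QuotientGroup.mk' (zpowers z)
  have hπs : Function.Surjective π := QuotientGroup.mk'_surjective _
  haveI hEn' : (E.map π).Normal := hEn.map π hπs
  have hQ : IsPGroup p (G ⧸ zpowers z) := hG.to_quotient _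
  haveI : Group.IsNilpotent (G ⧸ zpowers z) := hQ.isNilpotent
  have hE2 : E.map π ≠ ⊥ := by
    intro h
    have hle : E ≤ zpowers z := by
      intro a ha
      have : π a ∈ E.map π := mem_map_of_mem π ha
      rw [h] at this
      exact (QuotientGroup.eq_one_iff a).mp this
    exact hEc (Subgroup.isCyclic_of_le hle)
  have h2 := Cfsg.Agent.Lib.Core.normal_inf_center_ne_bot (E.map π) hE2
  obtain ⟨⟨c, hcE, hcc⟩, hc1⟩ := Subgroup.ne_bot_iff_exists_ne_one.mp h2
  have hc1' : c ≠ 1 := fun h => hc1 (Subtype.ext h)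
  obtain ⟨y, hyE, rfl⟩ := hcE
  refine ⟨y, z, hzc, hz1', hEp z hzE, hEp y hyE, ?_, fun g => ?_⟩
  · intro h
    exact hc1' ((QuotientGroup.eq_one_iff y).mpr h)
  · have h3 : g * y * g⁻¹ * y⁻¹ ∈ zpowers z := by
      rw [← QuotientGroup.eq_one_iff]
      show π (g * y * g⁻¹ * y⁻¹) = 1
      have h4 : π g * π y = π y * π g := mem_center_iff.mp hcc (π g)
      rw [map_mul, map_mul, map_mul, map_inv, map_inv, h4]
      group
    rw [← mem_powers_iff_mem_zpowers] at h3
    obtain ⟨k, hk⟩ := h3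
    refine ⟨k, ?_⟩
    have hk' : z ^ k = g * y * g⁻¹ * y⁻¹ := hk
    rw [hk']
    group

omit hp [Finite G] in
theorem commutator_comm_of_cyclic (A : Subgroup G) [hAn : A.Normal] (hAc : IsCyclic A)
    (g h : G) (a : G) (ha : a ∈ A) :
    (g * h * g⁻¹ * h⁻¹) * a = a * (g * h * g⁻¹ * h⁻¹) := by
  have hcomm : ∀ a b : MulAut A, a * b = b * a := by
    intro a b
    apply (IsCyclic.mulAutMulEquiv A).injective
    rw [map_mul, map_mul, mul_comm]
  have h1 : MulAut.conjNormal (H := A) (g * h * g⁻¹ * h⁻¹) = 1 := by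
    rw [map_mul, map_mul, map_mul, map_inv, map_inv, hcomm (MulAut.conjNormal g)]
    group
  have h2 := congrArg (fun f : MulAut A => ((f ⟨a, ha⟩ : A) : G)) h1
  simp only [MulAut.conjNormal_apply, MulAut.one_apply] at h2
  calc (g * h * g⁻¹ * h⁻¹) * a = ((g * h * g⁻¹ * h⁻¹) * a * (g * h * g⁻¹ * h⁻¹)⁻¹) * (g * h * g⁻¹ * h⁻¹) := by group
    _ = a * (g * h * g⁻¹ * h⁻¹) := by rw [h2]

omit hp [Finite G] in
theorem derived_of_cyclic (A : Subgroup G) [hAn : A.Normal] (hAc : IsCyclic A)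
    (hC : centralizer (A : Set G) ≤ A) : derivedSeries G 2 = ⊥ := by
  have h1 : derivedSeries G 1 ≤ A := by
    rw [derivedSeries_one, commutator_def, Subgroup.commutator_le]
    intro g _ h _
    apply hC
    rw [Subgroup.mem_centralizer_iff]
    intro a ha
    exact (commutator_comm_of_cyclic A hAc g h a ha).symm
  have h2 : derivedSeries G 2 = ⁅derivedSeries G 1, derivedSeries G 1⁆ := derivedSeries_succ G 1
  rw [h2, eq_bot_iff]
  refine (Subgroup.commutator_mono h1 h1).trans ?_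
  rw [Subgroup.commutator_le]
  intro a ha b hb
  obtain ⟨c, hc⟩ := hAc.exists_generator
  have hab : a * b = b * a := by
    obtain ⟨i, hi⟩ := Subgroup.mem_zpowers_iff.1 (hc ⟨a, ha⟩)
    obtain ⟨j, hj⟩ := Subgroup.mem_zpowers_iff.1 (hc ⟨b, hb⟩)
    have := zpow_mul_comm c i j
    rw [hi, hj] at this
    exact congrArg Subtype.val this
  rw [commutatorElement_def, hab]
  simp

/-- the elements of order dividing `p` of a commutative normal subgroup. -/
def omegaN (A : Subgroup G) (hAc : ∀ a ∈ A, ∀ b ∈ A, a * b = b * a) (p : ℕ) : Subgroup G where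
  carrier := {a | a ∈ A ∧ a ^ p = 1}
  one_mem' := ⟨A.one_mem, one_pow p⟩
  mul_mem' := by
    rintro a b ⟨ha, ha'⟩ ⟨hb, hb'⟩
    refine ⟨A.mul_mem ha hb, ?_⟩
    have : Commute a b := hAc a ha b hb
    rw [this.mul_pow, ha', hb', one_mul]
  inv_mem' := by
    rintro a ⟨ha, ha'⟩
    exact ⟨A.inv_mem ha, by rw [inv_pow, ha', inv_one]⟩

omit hp in
theorem omegaN_normal (A : Subgroup G) [hAn : A.Normal] (hAc : ∀ a ∈ A, ∀ b ∈ A, a * b = b * a) :
    (omegaN A hAc p).Normal := by
  refine ⟨?_⟩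
  rintro a ⟨ha, ha'⟩ g
  refine ⟨hAn.conj_mem a ha g, ?_⟩
  rw [conj_pow, ha']
  group

theorem omegaN_not_cyclic (hG : IsPGroup p G) (A : Subgroup G)
    (hAc : ∀ a ∈ A, ∀ b ∈ A, a * b = b * a) (hnc : ¬ IsCyclic A) :
    ¬ IsCyclic (omegaN A hAc p) := by
  intro hcyc
  haveI : IsMulCommutative A := ⟨⟨fun a b => Subtype.ext (hAc a a.2 b b.2)⟩⟩
  obtain ⟨p', hp', E₀, hcard, hexp⟩ :=
    Cfsg.Agent.Lib.Hall.exists_elementary_of_not_isCyclic (B := A) hnc
  have hpA : IsPGroup p A := hG.to_subgroup A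
  obtain ⟨k, hk⟩ := IsPGroup.iff_card.mp hpA
  have h1 : Nat.card E₀ ∣ Nat.card A := Subgroup.card_subgroup_dvd_card E₀
  rw [hcard, hk] at h1
  have h2 : p' ∣ p ^ k := (dvd_pow_self p' two_ne_zero).trans h1
  have h3 : p' = p := (Nat.prime_dvd_prime_iff_eq hp' hp.out).mp (hp'.dvd_of_dvd_pow h2)
  subst h3
  -- `E₀` embeds in the cyclic group
  let f : E₀ → omegaN A hAc p' := fun x => ⟨((x : A) : G), (x : A).2, by
    have := hexp x x.2
    exact congrArg Subtype.val this⟩
  have hf : Function.Injective f := by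
    intro a b hab
    apply Subtype.ext
    apply Subtype.ext
    exact congrArg (fun u : omegaN A hAc p' => (u : G)) hab
  have h4 : Nat.card E₀ ≤ Nat.card (omegaN A hAc p') := Nat.card_le_card_of_injective f hf
  obtain ⟨c, hc⟩ := hcyc.exists_generator
  have h5 : orderOf c ∣ p' := by
    apply orderOf_dvd_of_pow_eq_one
    apply Subtype.ext
    exact c.2.2
  have h6 : Nat.card (omegaN A hAc p') = orderOf c := by
    rw [← Nat.card_zpowers c]
    have : zpowers c = ⊤ := by
      rw [eq_top_iff]; intro u _; exact hc u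
    rw [this, Subgroup.card_top]
  rw [hcard, h6] at h4
  have h7 := Nat.le_of_dvd hp'.pos h5
  have h8 := hp'.two_le
  nlinarith

/-- dichotomy -/
theorem dichotomy (hG : IsPGroup p G) :
    (derivedSeries G 2 = ⊥ ∧ (p ≠ 2 → derivedSeries G 1 = ⊥)) ∨
    ∃ y z : G, z ∈ center G ∧ z ≠ 1 ∧ z ^ p = 1 ∧ y ^ p = 1 ∧ y ∉ zpowers z ∧
      ∀ g, ∃ k : ℕ, g * y * g⁻¹ = z ^ k * y := by
  by_cases hp2 : p = 2
  · haveI : Group.IsNilpotent G := hG.isNilpotent
    obtain ⟨A, hAn, hAc, hC⟩ := Cfsg.Agent.Lib.PGroup.exists_normal_abelian_self_centralizing (G := G)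
    by_cases hcyc : IsCyclic A
    · left
      exact ⟨derived_of_cyclic A hcyc hC, fun h => absurd hp2 h⟩
    · right
      have hcomm : ∀ a ∈ A, ∀ b ∈ A, a * b = b * a := by
        intro a ha b hb
        exact congrArg Subtype.val (hAc.is_comm.comm ⟨a, ha⟩ ⟨b, hb⟩)
      haveI := omegaN_normal (p := p) A hcomm
      exact exists_yz_of_elem hG (omegaN A hcomm p) (fun a ha => ha.2)
        (omegaN_not_cyclic hG A hcomm hcyc)
  · by_cases hcyc : IsCyclic G
    · left
      have hd : derivedSeries G 1 = ⊥ := by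
        rw [derivedSeries_one, commutator_def, eq_bot_iff, Subgroup.commutator_le]
        intro a _ b _
        obtain ⟨c, hc⟩ := hcyc.exists_generator
        obtain ⟨i, hi⟩ := Subgroup.mem_zpowers_iff.1 (hc a)
        obtain ⟨j, hj⟩ := Subgroup.mem_zpowers_iff.1 (hc b)
        have := zpow_mul_comm c i j
        rw [hi, hj] at this
        rw [commutatorElement_def, this]
        simp
      refine ⟨?_, fun _ => hd⟩
      rw [eq_bot_iff, ← hd]
      exact derivedSeries_antitone G (by omega)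
    · right
      obtain ⟨A, hAn, hAe, hAc⟩ := Cfsg.Agent.S0126.result hp2 hG hcyc
      refine exists_yz_of_elem hG A hAe.2 ?_
      intro hc
      obtain ⟨c, hc⟩ := hc.exists_generator
      have h5 : orderOf c ∣ p := by
        apply orderOf_dvd_of_pow_eq_one
        apply Subtype.ext
        exact hAe.2 c c.2
      have h6 : Nat.card A = orderOf c := by
        rw [← Nat.card_zpowers c]
        have : zpowers c = ⊤ := by
          rw [eq_top_iff]; intro u _; exact hc u
        rw [this, Subgroup.card_top]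
      have h7 := Nat.le_of_dvd hp.out.pos h5
      have h8 := hp.out.two_le
      rw [← h6, hAc] at h7
      nlinarith

end gt

section rep

variable {F V : Type*} [Field F] [AddCommGroup V] [Module F V]
variable {G : Type*} [Group G] (ρ : G →* (V ≃ₗ[F] V))

theorem rep_mul (g h : G) (v : V) : ρ (g * h) v = ρ g (ρ h v) := by
  rw [map_mul]; rfl

theorem rep_one (v : V) : ρ 1 v = v := by
  rw [map_one]; rfl

theorem rep_inv_left (g : G) (v : V) : ρ g⁻¹ (ρ g v) = v := by
  rw [← rep_mul, inv_mul_cancel, rep_one]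

theorem rep_inv_right (g : G) (v : V) : ρ g (ρ g⁻¹ v) = v := by
  rw [← rep_mul, mul_inv_cancel, rep_one]

/-- restriction to an invariant subspace -/
def resRep (W : Submodule F V) (hW : ∀ g, ∀ w ∈ W, ρ g w ∈ W) : G →* (W ≃ₗ[F] W) where
  toFun g :=
    { toFun := fun w => ⟨ρ g w, hW g w w.2⟩
      map_add' := fun a b => Subtype.ext (map_add (ρ g) _ _)
      map_smul' := fun c a => Subtype.ext (map_smul (ρ g) c _)
      invFun := fun w => ⟨ρ g⁻¹ w, hW g⁻¹ w w.2⟩
      left_inv := fun w => Subtype.ext (rep_inv_left ρ g w)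
      right_inv := fun w => Subtype.ext (rep_inv_right ρ g w) }
  map_one' := by
    ext w
    exact rep_one ρ _
  map_mul' a b := by
    ext w
    exact rep_mul ρ a b _

theorem resRep_apply (W : Submodule F V) (hW : ∀ g, ∀ w ∈ W, ρ g w ∈ W) (g : G) (w : W) :
    ((resRep ρ W hW g w : W) : V) = ρ g w := rfl

theorem map_eq_of_inv (U : Submodule F V) (hU : ∀ g, ∀ w ∈ U, ρ g w ∈ U) (g : G) :
    U.map (ρ g : V →ₗ[F] V) = U := by
  apply le_antisymm
  · rintro _ ⟨u, hu, rfl⟩
    exact hU g u hu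
  · intro u hu
    exact ⟨ρ g⁻¹ u, hU g⁻¹ u hu, rep_inv_right ρ g u⟩

/-- the representation on the quotient by an invariant subspace -/
def quotRep (U : Submodule F V) (hU : ∀ g, ∀ w ∈ U, ρ g w ∈ U) : G →* ((V ⧸ U) ≃ₗ[F] (V ⧸ U)) where
  toFun g := Submodule.Quotient.equiv U U (ρ g) (map_eq_of_inv ρ U hU g)
  map_one' := by
    refine LinearEquiv.ext fun v => ?_
    obtain ⟨v, rfl⟩ := U.mkQ_surjective v
    show U.mkQ (ρ 1 v) = U.mkQ v
    rw [rep_one]
  map_mul' a b := by
    refine LinearEquiv.ext fun v => ?_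
    obtain ⟨v, rfl⟩ := U.mkQ_surjective v
    show U.mkQ (ρ (a * b) v) = U.mkQ (ρ a (ρ b v))
    rw [rep_mul]

theorem quotRep_mk (U : Submodule F V) (hU : ∀ g, ∀ w ∈ U, ρ g w ∈ U) (g : G) (v : V) :
    quotRep ρ U hU g (U.mkQ v) = U.mkQ (ρ g v) := rfl

theorem pow_apply_of_two_step (g : G) (U : Submodule F V) (hg : ∀ v, ρ g v - v ∈ U)
    (hgU : ∀ u ∈ U, ρ g u = u) (v : V) (m : ℕ) :
    ρ (g ^ m) v = v + m • (ρ g v - v) := by
  induction m with
  | zero => simp [rep_one]
  | succ m ih =>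
    rw [pow_succ', rep_mul, ih, map_add, map_nsmul, hgU _ (hg v), succ_nsmul]
    abel

/-- an element of `p`-power order acting trivially on `U` and on `V/U` is trivial -/
theorem trivial_of_two_step {p : ℕ} (hpF : (p : F) ≠ 0) (hinj : Function.Injective ρ) (g : G)
    (a : ℕ) (hga : g ^ (p ^ a) = 1) (U : Submodule F V) (hg : ∀ v, ρ g v - v ∈ U)
    (hgU : ∀ u ∈ U, ρ g u = u) : g = 1 := by
  apply hinj
  rw [map_one]
  refine LinearEquiv.ext fun v => ?_
  have h1 := pow_apply_of_two_step ρ g U hg hgU v (p ^ a)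
  rw [hga, rep_one] at h1
  have h2 : (p ^ a) • (ρ g v - v) = 0 := by
    have : v + (p ^ a) • (ρ g v - v) = v + 0 := by rw [← h1, add_zero]
    exact add_left_cancel this
  rw [← Nat.cast_smul_eq_nsmul F, smul_eq_zero] at h2
  rcases h2 with h2 | h2
  · exfalso
    push_cast at h2
    exact pow_ne_zero a hpF h2
  · exact sub_eq_zero.mp h2

/-- The reducible step. -/
theorem reducible_step {p : ℕ} [hp : Fact p.Prime] [Finite G] (hG : IsPGroup p G)
    (hpF : (p : F) ≠ 0) (hinj : Function.Injective ρ) (U : Submodule F V)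
    (hU : ∀ g, ∀ w ∈ U, ρ g w ∈ U) (D : Subgroup G) (h1 : D ≤ (resRep ρ U hU).ker)
    (h2 : D ≤ (quotRep ρ U hU).ker) : D = ⊥ := by
  rw [eq_bot_iff]
  intro g hg
  obtain ⟨a, ha⟩ := hG g
  rw [Subgroup.mem_bot]
  refine trivial_of_two_step ρ hpF hinj g a ha U ?_ ?_
  · intro v
    have h3 : quotRep ρ U hU g = 1 := h2 hg
    have h4 : quotRep ρ U hU g (U.mkQ v) = U.mkQ v := by rw [h3]; rfl
    rw [quotRep_mk] at h4
    exact (Submodule.Quotient.eq U).mp h4
  · intro u hu
    have h3 : resRep ρ U hU g = 1 := h1 hg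
    have h4 : resRep ρ U hU g ⟨u, hu⟩ = ⟨u, hu⟩ := by rw [h3]; rfl
    exact congrArg Subtype.val h4

/-- the fixed subspace -/
def fixS (A : V ≃ₗ[F] V) : Submodule F V where
  carrier := {v | A v = v}
  add_mem' := by
    intro a b ha hb
    simp only [Set.mem_setOf_eq] at *
    rw [map_add, ha, hb]
  zero_mem' := map_zero A
  smul_mem' := by
    intro c x hx
    simp only [Set.mem_setOf_eq] at *
    rw [map_smul, hx]

theorem mem_fixS (A : V ≃ₗ[F] V) (v : V) : v ∈ fixS A ↔ A v = v := Iff.rfl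

/-- elements of the centre fix nothing, for irreducible faithful representations -/
theorem fix_zero (hinj : Function.Injective ρ)
    (hirr : ∀ W : Submodule F V, (∀ g, ∀ w ∈ W, ρ g w ∈ W) → W = ⊥ ∨ W = ⊤)
    (c : G) (hc : c ∈ Subgroup.center G) (hc1 : c ≠ 1) (v : V) (hv : ρ c v = v) : v = 0 := by
  have hinv : ∀ g, ∀ w ∈ fixS (ρ c), ρ g w ∈ fixS (ρ c) := by
    intro g w hw
    rw [mem_fixS] at hw ⊢
    have h1 : c * g = g * c := (Subgroup.mem_center_iff.mp hc g).symm
    rw [← rep_mul, h1, rep_mul, hw]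
  rcases hirr _ hinv with h | h
  · have : v ∈ fixS (ρ c) := hv
    rw [h] at this
    simpa using this
  · exfalso
    apply hc1
    apply hinj
    rw [map_one]
    refine LinearEquiv.ext fun w => ?_
    have : w ∈ fixS (ρ c) := by rw [h]; trivial
    exact this

/-- the average is fixed -/
theorem sum_pow_fixed {p : ℕ} (a : G) (ha : a ^ p = 1) (v : V) :
    ρ a (∑ i ∈ Finset.range p, ρ (a ^ i) v) = ∑ i ∈ Finset.range p, ρ (a ^ i) v := by
  rw [map_sum]
  have h1 : ∀ i, ρ a (ρ (a ^ i) v) = ρ (a ^ (i + 1)) v := by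
    intro i
    rw [← rep_mul, pow_succ']
  simp_rw [h1]
  have h2 := Finset.sum_range_succ (fun i => ρ (a ^ i) v) p
  have h3 := Finset.sum_range_succ' (fun i => ρ (a ^ i) v) p
  simp only [pow_zero] at h3
  rw [h2, ha] at h3
  exact (add_right_cancel h3).symm

theorem sum_pow_zero {p : ℕ} (t : G) (ht : t ^ p = 1) (hfix : ∀ v, ρ t v = v → v = 0) (v : V) :
    ∑ i ∈ Finset.range p, ρ (t ^ i) v = 0 :=
  hfix _ (sum_pow_fixed ρ t ht v)

/-- `z ^ i` has no fixed points if `z` has none, for `0 < i < p` -/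
theorem fix_pow {p : ℕ} (hp : p.Prime) (z : G) (hz : z ^ p = 1) (hfix : ∀ v, ρ z v = v → v = 0)
    (i : ℕ) (hi0 : 0 < i) (hip : i < p) (v : V) (hv : ρ (z ^ i) v = v) : v = 0 := by
  apply hfix
  have hco : Nat.Coprime i p :=
    Nat.Coprime.symm ((Nat.Prime.coprime_iff_not_dvd hp).mpr (Nat.not_dvd_of_pos_of_lt hi0 hip))
  obtain ⟨m, -, hm⟩ := Nat.exists_mul_mod_eq_one_of_coprime hco hp.one_lt
  have h1 : z = (z ^ i) ^ m := by
    rw [← pow_mul, pow_eq_pow_mod _ hz, hm, pow_one]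
  have h2 : ∀ k : ℕ, ρ ((z ^ i) ^ k) v = v := by
    intro k
    induction k with
    | zero => simp [rep_one]
    | succ k ih => rw [pow_succ, rep_mul, hv, ih]
  rw [h1]
  exact h2 m

/-- the key identity -/
theorem sum_identity {p : ℕ} (hp : p.Prime) (y z : G) (hyz : Commute z y) (hy : y ^ p = 1)
    (hz : z ^ p = 1) (hfix : ∀ v, ρ z v = v → v = 0) (v : V) :
    ∑ j ∈ Finset.range p, ∑ i ∈ Finset.range p, ρ ((z ^ j * y) ^ i) v = p • v := by
  have h1 : ∀ j i, ρ ((z ^ j * y) ^ i) v = ρ ((z ^ i) ^ j) (ρ (y ^ i) v) := by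
    intro j i
    rw [← rep_mul, (hyz.pow_left j).mul_pow, ← pow_mul, ← pow_mul, mul_comm]
  simp_rw [h1]
  rw [Finset.sum_comm, Finset.sum_eq_single 0]
  · simp [rep_one]
  · intro i hi hi0
    exact sum_pow_zero ρ (z ^ i) (by rw [← pow_mul, mul_comm, pow_mul, hz, one_pow])
      (fix_pow ρ hp z hz hfix i (by omega) (Finset.mem_range.mp hi)) _
  · intro h
    exact absurd (Finset.mem_range.mpr hp.pos) h

theorem cancel_smul {p : ℕ} (hpF : (p : F) ≠ 0) {a b : V} (h : p • a = p • b) : a = b := by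
  rw [← Nat.cast_smul_eq_nsmul F, ← Nat.cast_smul_eq_nsmul F] at h
  exact smul_right_injective V hpF h

theorem exists_not_comm {p : ℕ} (hp : p.Prime) (hpF : (p : F) ≠ 0) [Nontrivial V]
    (hinj : Function.Injective ρ)
    (hirr : ∀ W : Submodule F V, (∀ g, ∀ w ∈ W, ρ g w ∈ W) → W = ⊥ ∨ W = ⊤)
    (y z : G) (hzc : z ∈ Subgroup.center G) (hz1 : z ≠ 1) (hz : z ^ p = 1) (hy : y ^ p = 1)
    (hyz : y ∉ Subgroup.zpowers z) : ∃ x, x * y * x⁻¹ ≠ y := by
  by_contra hno
  push Not at hno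
  have hyc : y ∈ Subgroup.center G := by
    rw [Subgroup.mem_center_iff]
    intro g
    calc g * y = (g * y * g⁻¹) * g := by group
      _ = y * g := by rw [hno]
  have hfix := fix_zero ρ hinj hirr z hzc hz1
  have hcomm : Commute z y := (Subgroup.mem_center_iff.mp hzc y).symm
  have hzero : ∀ j, ∀ v, ∑ i ∈ Finset.range p, ρ ((z ^ j * y) ^ i) v = 0 := by
    intro j v
    have hc : z ^ j * y ∈ Subgroup.center G :=
      Subgroup.mul_mem _ (Subgroup.pow_mem _ hzc j) hyc
    have h1 : z ^ j * y ≠ 1 := by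
      intro h
      apply hyz
      have : y = (z ^ j)⁻¹ := eq_inv_of_mul_eq_one_right h
      rw [this]
      exact Subgroup.inv_mem _ (Subgroup.pow_mem _ (Subgroup.mem_zpowers z) j)
    have h2 : (z ^ j * y) ^ p = 1 := by
      rw [(hcomm.pow_left j).mul_pow, hy, mul_one, ← pow_mul, mul_comm, pow_mul, hz, one_pow]
    exact sum_pow_zero ρ _ h2 (fix_zero ρ hinj hirr _ hc h1) v
  obtain ⟨v, hv⟩ := exists_ne (0 : V)
  apply hv
  have h3 := sum_identity ρ hp y z hcomm hy hz hfix v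
  simp_rw [hzero] at h3
  simp only [Finset.sum_const_zero] at h3
  exact cancel_smul hpF (F := F) (by rw [← h3, smul_zero])

omit [Group G] in
theorem x_pow_conj [Group G] (x y t : G) (htc : t ∈ Subgroup.center G) (hx : x * y * x⁻¹ = t * y)
    (j : ℕ) : x ^ j * y * (x ^ j)⁻¹ = t ^ j * y := by
  induction j with
  | zero => simp
  | succ j ih =>
    have h1 : Commute x (t ^ j) :=
      ((Subgroup.mem_center_iff.mp (Subgroup.pow_mem _ htc j)) x)
    calc x ^ (j + 1) * y * (x ^ (j + 1))⁻¹ = x * (x ^ j * y * (x ^ j)⁻¹) * x⁻¹ := by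
          rw [pow_succ']; group
      _ = x * (t ^ j * y) * x⁻¹ := by rw [ih]
      _ = (x * t ^ j) * y * x⁻¹ := by group
      _ = (t ^ j * x) * y * x⁻¹ := by rw [h1.eq]
      _ = t ^ j * (x * y * x⁻¹) := by group
      _ = t ^ j * (t * y) := by rw [hx]
      _ = t ^ (j + 1) * y := by rw [pow_succ]; group

theorem spanning {p : ℕ} (hp : p.Prime) (x y t : G) (htc : t ∈ Subgroup.center G)
    (htp : t ^ p = 1) (hyp : y ^ p = 1) (hx : x * y * x⁻¹ = t * y) (hfix : ∀ v, ρ t v = v → v = 0)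
    (v : V) :
    p • v = ∑ j ∈ Finset.range p, ρ (x ^ j) (∑ i ∈ Finset.range p, ρ (y ^ i) (ρ (x ^ j)⁻¹ v)) := by
  have hcomm : Commute t y := (Subgroup.mem_center_iff.mp htc y).symm
  rw [← sum_identity ρ hp y t hcomm hyp htp hfix v]
  refine Finset.sum_congr rfl fun j _ => ?_
  rw [map_sum]
  refine Finset.sum_congr rfl fun i _ => ?_
  rw [← x_pow_conj x y t htc hx j, conj_pow, rep_mul, rep_mul]

/-- a normal subgroup acting trivially on the fixed space of `y` is trivial. -/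
theorem bot_of_fix {p : ℕ} (hp : p.Prime) (hpF : (p : F) ≠ 0) (hinj : Function.Injective ρ)
    (x y t : G) (htc : t ∈ Subgroup.center G)
    (htp : t ^ p = 1) (hyp : y ^ p = 1) (hx : x * y * x⁻¹ = t * y) (hfix : ∀ v, ρ t v = v → v = 0)
    (D : Subgroup G) (hDn : D.Normal) (hD : ∀ g ∈ D, ∀ w ∈ fixS (ρ y), ρ g w = w) : D = ⊥ := by
  rw [eq_bot_iff]
  intro g hg
  rw [Subgroup.mem_bot]
  apply hinj
  rw [map_one]
  refine LinearEquiv.ext fun v => ?_
  show ρ g v = v
  apply cancel_smul hpF (F := F)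
  rw [← map_nsmul, spanning ρ hp x y t htc htp hyp hx hfix v, map_sum]
  refine Finset.sum_congr rfl fun j _ => ?_
  set w := ∑ i ∈ Finset.range p, ρ (y ^ i) (ρ (x ^ j)⁻¹ v) with hw
  have hw' : w ∈ fixS (ρ y) := by
    have := sum_pow_fixed ρ y hyp (ρ (x ^ j)⁻¹ v)
    exact this
  have h1 : (x ^ j)⁻¹ * g * x ^ j ∈ D := by
    have := hDn.conj_mem g hg (x ^ j)⁻¹
    rwa [inv_inv] at this
  have h2 := hD _ h1 w hw'
  calc ρ g (ρ (x ^ j) w) = ρ (x ^ j) (ρ ((x ^ j)⁻¹ * g * x ^ j) w) := by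
        rw [← rep_mul, ← rep_mul]
        congr 1
        congr 1
        group
    _ = ρ (x ^ j) w := by rw [h2]

theorem finrank_fix [FiniteDimensional F V] (x y t : G) (hx : x * y * x⁻¹ = t * y)
    (hfix : ∀ v, ρ t v = v → v = 0) :
    2 * Module.finrank F (fixS (ρ y)) ≤ Module.finrank F V := by
  have hdisj : Disjoint (fixS (ρ y)) ((fixS (ρ y)).map (ρ x : V →ₗ[F] V)) := by
    rw [Submodule.disjoint_def]
    rintro w hw ⟨w₁, hw₁, rfl⟩
    apply hfix
    have h1 : ρ (x * y * x⁻¹) (ρ x w₁) = ρ x w₁ := by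
      rw [← rep_mul, inv_mul_cancel_right, rep_mul]
      congr 1
    rw [hx, rep_mul] at h1
    have h2 : ρ y ((ρ x : V →ₗ[F] V) w₁) = (ρ x : V →ₗ[F] V) w₁ := hw
    change ρ y (ρ x w₁) = ρ x w₁ at h2
    rw [h2] at h1
    exact h1
  have h := Submodule.finrank_add_finrank_le_of_disjoint hdisj
  rw [LinearEquiv.finrank_map_eq] at h
  omega

theorem comm_mem_centralizer (y : G)
    (hconj : ∀ g : G, ∃ c ∈ Subgroup.center G, g * y * g⁻¹ = c * y) :
    derivedSeries G 1 ≤ Subgroup.centralizer ({y} : Set G) := by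
  rw [derivedSeries_one, commutator_def, Subgroup.commutator_le]
  intro g _ h _
  rw [Subgroup.mem_centralizer_singleton_iff]
  have key : ∀ a b : G, (a * b) * y * (a * b)⁻¹ = (b * a) * y * (b * a)⁻¹ := by
    intro a b
    obtain ⟨c₁, hc₁, h1⟩ := hconj a
    obtain ⟨c₂, hc₂, h2⟩ := hconj b
    have hac : a * c₂ = c₂ * a := (Subgroup.mem_center_iff.mp hc₂ a)
    have hbc : b * c₁ = c₁ * b := (Subgroup.mem_center_iff.mp hc₁ b)
    have hcc : c₁ * c₂ = c₂ * c₁ := (Subgroup.mem_center_iff.mp hc₂ c₁)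
    calc (a * b) * y * (a * b)⁻¹ = a * (b * y * b⁻¹) * a⁻¹ := by group
      _ = (a * c₂) * y * a⁻¹ := by rw [h2]; group
      _ = c₂ * (a * y * a⁻¹) := by rw [hac]; group
      _ = c₂ * (c₁ * y) := by rw [h1]
      _ = c₁ * (c₂ * y) := by rw [← mul_assoc, ← mul_assoc, hcc]
      _ = c₁ * (b * y * b⁻¹) := by rw [h2]
      _ = (b * c₁) * y * b⁻¹ := by rw [hbc]; group
      _ = b * (c₁ * y) * b⁻¹ := by group
      _ = b * (a * y * a⁻¹) * b⁻¹ := by rw [h1]
      _ = (b * a) * y * (b * a)⁻¹ := by group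
  have h3 := key g⁻¹ h⁻¹
  have h4 : (g * h * g⁻¹ * h⁻¹) * y * (g * h * g⁻¹ * h⁻¹)⁻¹ = y := by
    calc (g * h * g⁻¹ * h⁻¹) * y * (g * h * g⁻¹ * h⁻¹)⁻¹
        = (g * h) * ((g⁻¹ * h⁻¹) * y * (g⁻¹ * h⁻¹)⁻¹) * (g * h)⁻¹ := by group
      _ = (g * h) * ((h⁻¹ * g⁻¹) * y * (h⁻¹ * g⁻¹)⁻¹) * (g * h)⁻¹ := by rw [h3]
      _ = y := by group
  rw [commutatorElement_def]
  calc (g * h * g⁻¹ * h⁻¹) * y = ((g * h * g⁻¹ * h⁻¹) * y * (g * h * g⁻¹ * h⁻¹)⁻¹) * (g * h * g⁻¹ * h⁻¹) := by group
    _ = y * (g * h * g⁻¹ * h⁻¹) := by rw [h4]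

omit [AddCommGroup V] in
theorem derived_le_map (M : Subgroup G) (hM : derivedSeries G 1 ≤ M) (k : ℕ) :
    derivedSeries G (k + 1) ≤ (derivedSeries M k).map M.subtype := by
  induction k with
  | zero =>
    rw [derivedSeries_zero, ← MonoidHom.range_eq_map, Subgroup.range_subtype]
    exact hM
  | succ k ih =>
    rw [derivedSeries_succ G (k + 1), derivedSeries_succ M k, Subgroup.map_commutator]
    exact Subgroup.commutator_mono ih ih

/-- Step for `x, y, t`: the derived series of the centralizer of `y`. -/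
theorem yz_step {p : ℕ} (hp : p.Prime) (hpF : (p : F) ≠ 0) (hinj : Function.Injective ρ)
    (x y t : G) (htc : t ∈ Subgroup.center G) (htp : t ^ p = 1) (hyp : y ^ p = 1)
    (hx : x * y * x⁻¹ = t * y) (hfix : ∀ v, ρ t v = v → v = 0)
    (hconj : ∀ g : G, ∃ c ∈ Subgroup.center G, g * y * g⁻¹ = c * y)
    (hW : ∀ m : ↥(Subgroup.centralizer ({y} : Set G)), ∀ w ∈ fixS (ρ y),
      (ρ.comp (Subgroup.centralizer ({y} : Set G)).subtype) m w ∈ fixS (ρ y))
    (k : ℕ) (hk : derivedSeries ↥(Subgroup.centralizer ({y} : Set G)) k ≤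
      (resRep (ρ.comp (Subgroup.centralizer ({y} : Set G)).subtype) (fixS (ρ y)) hW).ker) :
    derivedSeries G (k + 1) = ⊥ := by
  set M := Subgroup.centralizer ({y} : Set G) with hM
  have hMn : M.Normal := by
    refine ⟨?_⟩
    intro m hm g
    rw [hM, Subgroup.mem_centralizer_singleton_iff] at hm ⊢
    obtain ⟨c, hc, h1⟩ := hconj g⁻¹
    rw [inv_inv] at h1
    have hcm : m * c = c * m := (Subgroup.mem_center_iff.mp hc m)
    have hcg : g * c = c * g := (Subgroup.mem_center_iff.mp hc g)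
    have h2 : g⁻¹ * y = c * y * g⁻¹ := by
      calc g⁻¹ * y = (g⁻¹ * y * g) * g⁻¹ := by group
        _ = c * y * g⁻¹ := by rw [h1]
    have h3 : y * g = g * c * y := by
      have : g * (g⁻¹ * y) * g = g * (c * y * g⁻¹) * g := by rw [h2]
      calc y * g = g * (g⁻¹ * y) * g := by group
        _ = g * (c * y * g⁻¹) * g := this
        _ = g * c * y := by group
    symm
    calc y * (g * m * g⁻¹) = (y * g) * m * g⁻¹ := by group
      _ = g * c * y * m * g⁻¹ := by rw [h3]
      _ = g * c * (y * m) * g⁻¹ := by group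
      _ = g * c * (m * y) * g⁻¹ := by rw [← hm]
      _ = g * (c * m) * y * g⁻¹ := by group
      _ = g * (m * c) * y * g⁻¹ := by rw [hcm]
      _ = g * m * (c * y * g⁻¹) := by group
      _ = g * m * (g⁻¹ * y) := by rw [h2]
      _ = (g * m * g⁻¹) * y := by group
  have hDn : ((derivedSeries M k).map M.subtype).Normal := by
    refine ⟨?_⟩
    rintro _ ⟨m, hm, rfl⟩ g
    let ψ : MulAut M := MulAut.conjNormal g
    have h1 : ψ m ∈ derivedSeries M k := by
      have h2 := (derivedSeries_characteristic (G := M) k).fixed ψ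
      have h3 : ψ.symm (ψ m) ∈ derivedSeries M k := by simpa using hm
      have h4 : ψ m ∈ (derivedSeries M k).comap ψ.symm.toMonoidHom := h3
      rwa [(derivedSeries_characteristic (G := M) k).fixed ψ.symm] at h4
    exact ⟨ψ m, h1, by simp [ψ, MulAut.conjNormal_apply]⟩
  have hD : (derivedSeries M k).map M.subtype = ⊥ := by
    refine bot_of_fix ρ hp hpF hinj x y t htc htp hyp hx hfix _ hDn ?_
    rintro _ ⟨m, hm, rfl⟩ w hw
    have h1 : resRep (ρ.comp M.subtype) (fixS (ρ y)) hW m = 1 := hk hm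
    have h2 : resRep (ρ.comp M.subtype) (fixS (ρ y)) hW m ⟨w, hw⟩ = ⟨w, hw⟩ := by rw [h1]; rfl
    exact congrArg Subtype.val h2
  rw [eq_bot_iff, ← hD]
  exact derived_le_map M (comm_mem_centralizer y hconj) k

/-- A faithful representation on a space of dimension one: abelian image. -/
theorem comm_of_finrank_one (hinj : Function.Injective ρ) (h1 : Module.finrank F V = 1) :
    derivedSeries G 1 = ⊥ := by
  obtain ⟨v₀, hv₀, hsp⟩ := finrank_eq_one_iff'.mp h1
  have hc : ∀ a b : G, a * b = b * a := by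
    intro a b
    apply hinj
    refine LinearEquiv.ext fun w => ?_
    show ρ (a * b) w = ρ (b * a) w
    rw [rep_mul, rep_mul]
    obtain ⟨c, rfl⟩ := hsp w
    obtain ⟨α, hα⟩ := hsp (ρ a v₀)
    obtain ⟨β, hβ⟩ := hsp (ρ b v₀)
    have h1 : ρ a (ρ b v₀) = (α * β) • v₀ := by rw [← hβ, map_smul, ← hα, smul_smul, mul_comm]
    have h2 : ρ b (ρ a v₀) = (α * β) • v₀ := by rw [← hα, map_smul, ← hβ, smul_smul]
    rw [map_smul, map_smul, map_smul, map_smul, h1, h2]
  rw [derivedSeries_one, _root_.commutator_def, eq_bot_iff, Subgroup.commutator_le]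
  intro a _ b _
  rw [commutatorElement_def, hc a b]
  simp

end rep

section arith

/-- the bound -/
def Lf (e n : ℕ) : ℕ := if n < e then 0 else Nat.log 2 (n / e) + 1

theorem Lf_mono (e : ℕ) {m n : ℕ} (h : m ≤ n) : Lf e m ≤ Lf e n := by
  unfold Lf
  split_ifs with h1 h2 h2
  · exact le_rfl
  · omega
  · omega
  · have : Nat.log 2 (m / e) ≤ Nat.log 2 (n / e) :=
      Nat.log_mono_right (Nat.div_le_div_right h)
    omega

theorem Lf_step {e d n : ℕ} (he : 0 < e) (hn : e ≤ n) (hd : 2 * d ≤ n) : Lf e d + 1 ≤ Lf e n := by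
  unfold Lf
  rw [if_neg (by omega : ¬ n < e)]
  split_ifs with h1
  · omega
  · have h2 : 0 < d / e := Nat.div_pos (by omega) he
    have h3 : d / e * 2 ≤ n / e := by
      rw [Nat.le_div_iff_mul_le he]
      have := Nat.div_mul_le_self d e
      nlinarith
    have h4 : Nat.log 2 (d / e * 2) ≤ Nat.log 2 (n / e) := Nat.log_mono_right h3
    rw [Nat.log_mul_base (by norm_num) (by omega)] at h4
    omega

theorem Lf_two {e n : ℕ} (he : 0 < e) (hn : 2 * e ≤ n) : 2 ≤ Lf e n := by
  unfold Lf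
  rw [if_neg (by nlinarith : ¬ n < e)]
  have h3 : 2 ≤ n / e := by
    rw [Nat.le_div_iff_mul_le he]
    nlinarith
  have h4 := Nat.log_pos (by norm_num : 1 < 2) h3
  omega

theorem Lf_one {e n : ℕ} (hn : e ≤ n) : 1 ≤ Lf e n := by
  unfold Lf
  rw [if_neg (by omega : ¬ n < e)]
  omega

end arith

section main

universe u

variable {F : Type u} [Field F]

/-- statement for a group and representation -/
def HH (F : Type u) [Field F] (p e n : ℕ) : Prop :=
  ∀ (V : Type u) [AddCommGroup V] [Module F V] [Module.Finite F V], Module.finrank F V = n →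
    ∀ (G : Type u) [Group G] [Finite G], IsPGroup p G → ∀ ρ : G →* (V ≃ₗ[F] V),
      derivedSeries G (Lf e n) ≤ ρ.ker

/-- it is enough to treat faithful representations -/
theorem of_faithful {p : ℕ} {V : Type u} [AddCommGroup V] [Module F V] [Finite F] [Module.Finite F V] (k : ℕ)
    (h : ∀ (G : Type u) [Group G] [Finite G], IsPGroup p G → ∀ ρ : G →* (V ≃ₗ[F] V),
      Function.Injective ρ → derivedSeries G k = ⊥)
    (G : Type u) [Group G] [Finite G] (hG : IsPGroup p G) (ρ : G →* (V ≃ₗ[F] V)) :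
    derivedSeries G k ≤ ρ.ker := by
  haveI : Finite ρ.range := Finite.of_surjective ρ.rangeRestrict ρ.rangeRestrict_surjective
  have h1 := h ρ.range (IsPGroup.of_surjective hG ρ.rangeRestrict ρ.rangeRestrict_surjective)
    ρ.range.subtype ρ.range.subtype_injective
  have h2 := map_derivedSeries_eq ρ.rangeRestrict_surjective k
  rw [h1, Subgroup.map_eq_bot_iff, MonoidHom.ker_rangeRestrict] at h2
  exact h2

/-- conjugation by a linear equivalence -/
def conjHom {V W : Type*} [AddCommGroup V] [Module F V] [AddCommGroup W] [Module F W]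
    (b : V ≃ₗ[F] W) : (V ≃ₗ[F] V) →* (W ≃ₗ[F] W) where
  toFun g := b.symm.trans (g.trans b)
  map_one' := by
    ext w
    simp
  map_mul' a c := by
    ext w
    simp

theorem conjHom_injective {V W : Type*} [AddCommGroup V] [Module F V] [AddCommGroup W] [Module F W]
    (b : V ≃ₗ[F] W) : Function.Injective (conjHom b) := by
  intro g h hgh
  refine LinearEquiv.ext fun v => ?_
  have h1 : conjHom b g (b v) = conjHom b h (b v) := by rw [hgh]
  have h2 : ∀ u : V ≃ₗ[F] V, conjHom b u (b v) = b (u v) := by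
    intro u
    show b (u (b.symm (b v))) = b (u v)
    rw [b.symm_apply_apply]
  rw [h2, h2] at h1
  exact b.injective h1

/-- from `GL` of the coordinate space to matrices -/
noncomputable def toGLm (n : ℕ) : ((Fin n → F) ≃ₗ[F] (Fin n → F)) ≃* GL (Fin n) F :=
  (LinearMap.GeneralLinearGroup.generalLinearEquiv F (Fin n → F)).symm.trans
    (Matrix.GeneralLinearGroup.toLin (n := Fin n) (R := F)).symm

theorem not_dvd_card_GL [Fintype F] {p : ℕ} [hp : Fact p.Prime] {q : ℕ} (hq : Fintype.card F = q)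
    (hpq : ¬ p ∣ q) {n : ℕ} (hn : n < orderOf (q : ZMod p)) :
    ¬ p ∣ Nat.card (GL (Fin n) F) := by
  rw [Matrix.card_GL_field, hq]
  intro hdvd
  obtain ⟨i, -, hi⟩ := (Prime.dvd_finset_prod_iff hp.out.prime _).mp hdvd
  have hq1 : 1 ≤ q := by
    rw [← hq]; exact Fintype.card_pos
  have hin : (i : ℕ) < n := i.2
  obtain ⟨m, hm⟩ : ∃ m, n = i + m := ⟨n - i, by omega⟩
  have hm0 : 0 < m := by omega
  have h1 : q ^ n - q ^ (i : ℕ) = q ^ (i : ℕ) * (q ^ m - 1) := by
    have h0 : q ^ n = q ^ (i : ℕ) * q ^ m := by rw [← pow_add, ← hm]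
    rw [h0, Nat.mul_sub, mul_one]
  rw [h1] at hi
  rcases (Nat.Prime.dvd_mul hp.out).mp hi with h2 | h2
  · exact hpq (hp.out.dvd_of_dvd_pow h2)
  · have h3 : ((q ^ m - 1 : ℕ) : ZMod p) = 0 := (ZMod.natCast_eq_zero_iff _ _).mpr h2
    rw [Nat.cast_sub (Nat.one_le_pow _ _ hq1)] at h3
    push_cast at h3
    have h4 : (q : ZMod p) ^ m = 1 := sub_eq_zero.mp h3
    have h5 := orderOf_dvd_of_pow_eq_one h4
    have h6 := Nat.le_of_dvd hm0 h5
    omega

theorem natCast_ne_zero_of [Fintype F] {p : ℕ} [hp : Fact p.Prime] {q : ℕ} (hq : Fintype.card F = q)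
    (hpq : ¬ p ∣ q) : (p : F) ≠ 0 := by
  intro h
  apply hpq
  have h1 : p • (1 : F) = 0 := by simpa [nsmul_eq_mul] using h
  have h2 : addOrderOf (1 : F) = p := addOrderOf_eq_prime h1 one_ne_zero
  have h3 := addOrderOf_dvd_natCard (1 : F)
  rw [h2, Nat.card_eq_fintype_card, hq] at h3
  exact h3

theorem zmod2_eq_one (x : ZMod 2) (h : x ≠ 0) : x = 1 := by
  revert x
  decide

/-- the main induction -/
theorem main_HH [Fintype F] {p : ℕ} [hp : Fact p.Prime] {q : ℕ} (hq : Fintype.card F = q)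
    (hpq : ¬ p ∣ q) (e : ℕ) (he : e = orderOf (q : ZMod p)) (n : ℕ) : HH F p e n := by
  induction n using Nat.strong_induction_on with
  | _ n ih =>
  intro V _ _ _ hV G _ _ hG ρ
  haveI : Finite V := Module.finite_of_finite F
  revert G
  apply of_faithful
  intro G _ _ hG ρ hinj
  have he0 : 0 < e := by
    rw [he]
    have h1 : (q : ZMod p) ≠ 0 := fun h => hpq ((ZMod.natCast_eq_zero_iff _ _).mp h)
    have h2 := ZMod.pow_card_sub_one_eq_one h1
    exact Nat.pos_of_dvd_of_pos (orderOf_dvd_of_pow_eq_one h2) (by have := hp.out.two_le; omega)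
  have hpF : (p : F) ≠ 0 := natCast_ne_zero_of hq hpq
  by_cases hne : n < e
  · -- small dimension
    have hLf : Lf e n = 0 := by simp [Lf, hne]
    rw [hLf, derivedSeries_zero]
    obtain ⟨a, ha⟩ := IsPGroup.iff_card.mp hG
    have hb : V ≃ₗ[F] (Fin n → F) := LinearEquiv.ofFinrankEq V (Fin n → F) (by simpa using hV)
    let f : G →* GL (Fin n) F := (toGLm n).toMonoidHom.comp ((conjHom hb).comp ρ)
    have hf : Function.Injective f :=
      (toGLm n).injective.comp ((conjHom_injective hb).comp hinj)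
    have h1 := Subgroup.card_dvd_of_injective f hf
    rw [ha] at h1
    have h2 := not_dvd_card_GL hq hpq (n := n) (he ▸ hne)
    have ha0 : a = 0 := by
      by_contra h0
      exact h2 ((dvd_pow_self p h0).trans h1)
    rw [ha0, pow_zero] at ha
    haveI : Subsingleton G := (Nat.card_eq_one_iff_unique.mp ha).1
    exact Subsingleton.elim _ _
  have hen : e ≤ n := by omega
  by_cases hred : ∃ U : Submodule F V, (∀ g, ∀ w ∈ U, ρ g w ∈ U) ∧ U ≠ ⊥ ∧ U ≠ ⊤
  · obtain ⟨U, hU, h1, h2⟩ := hred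
    have hd1 : Module.finrank F U < n := hV ▸ Submodule.finrank_lt h2
    have hd2 : 1 ≤ Module.finrank F U := Submodule.one_le_finrank_iff.mpr h1
    have hd3 := Submodule.finrank_quotient_add_finrank U
    rw [hV] at hd3
    apply reducible_step ρ hG hpF hinj U hU
    · exact (derivedSeries_antitone G (Lf_mono e hd1.le)).trans
        (ih _ hd1 (↥U) rfl G hG (resRep ρ U hU))
    · have hd4 : Module.finrank F (V ⧸ U) < n := by omega
      exact (derivedSeries_antitone G (Lf_mono e hd4.le)).trans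
        (ih _ hd4 (V ⧸ U) rfl G hG (quotRep ρ U hU))
  · have hirr : ∀ W : Submodule F V, (∀ g, ∀ w ∈ W, ρ g w ∈ W) → W = ⊥ ∨ W = ⊤ := by
      intro W hW
      by_contra hc
      push Not at hc
      exact hred ⟨W, hW, hc.1, hc.2⟩
    haveI : Nontrivial V := by
      apply Module.nontrivial_of_finrank_pos (R := F)
      omega
    rcases dichotomy hG with ⟨h2, hodd⟩ | ⟨y, z, hzc, hz1, hzp, hyp, hyz, hconj⟩
    · by_cases hp2 : p = 2
      · subst hp2
        have he1 : e = 1 := by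
          have h1 : (q : ZMod 2) ≠ 0 := fun h => hpq ((ZMod.natCast_eq_zero_iff _ _).mp h)
          have h2 : (q : ZMod 2) = 1 := zmod2_eq_one _ h1
          rw [he, h2, orderOf_one]
        by_cases hn1 : n = 1
        · have h3 := comm_of_finrank_one ρ hinj (hV.trans hn1)
          rw [eq_bot_iff, ← h3]
          exact derivedSeries_antitone G (Lf_one hen)
        · rw [eq_bot_iff, ← h2]
          exact derivedSeries_antitone G (Lf_two he0 (by omega))
      · have h3 := hodd hp2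
        rw [eq_bot_iff, ← h3]
        exact derivedSeries_antitone G (Lf_one hen)
    · obtain ⟨x, hx⟩ := exists_not_comm ρ hp.out hpF hinj hirr y z hzc hz1 hzp hyp hyz
      obtain ⟨k, hk⟩ := hconj x
      have htc : z ^ k ∈ Subgroup.center G := Subgroup.pow_mem _ hzc k
      have ht1 : z ^ k ≠ 1 := by
        intro h
        rw [h, one_mul] at hk
        exact hx hk
      have htp : (z ^ k) ^ p = 1 := by
        rw [← pow_mul, mul_comm, pow_mul, hzp, one_pow]
      have hfix := fix_zero ρ hinj hirr (z ^ k) htc ht1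
      have hconj' : ∀ g : G, ∃ c ∈ Subgroup.center G, g * y * g⁻¹ = c * y := by
        intro g
        obtain ⟨k', hk'⟩ := hconj g
        exact ⟨z ^ k', Subgroup.pow_mem _ hzc k', hk'⟩
      have hW : ∀ m : ↥(Subgroup.centralizer ({y} : Set G)), ∀ w ∈ fixS (ρ y),
          (ρ.comp (Subgroup.centralizer ({y} : Set G)).subtype) m w ∈ fixS (ρ y) := by
        intro m w hw
        rw [mem_fixS] at hw ⊢
        have hm : (m : G) * y = y * m := Subgroup.mem_centralizer_singleton_iff.mp m.2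
        show ρ y (ρ (m : G) w) = ρ (m : G) w
        rw [← rep_mul, ← hm, rep_mul, hw]
      have hdim := finrank_fix ρ x y (z ^ k) hk hfix
      rw [hV] at hdim
      have hd : Module.finrank F (fixS (ρ y)) < n := by omega
      have hIH := ih _ hd (fixS (ρ y)) rfl ↥(Subgroup.centralizer ({y} : Set G))
        (hG.to_subgroup _) (resRep (ρ.comp (Subgroup.centralizer ({y} : Set G)).subtype)
          (fixS (ρ y)) hW)
      have h3 := yz_step ρ hp.out hpF hinj x y (z ^ k) htc htp hyp hk hfix hconj' hW _ hIH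
      rw [eq_bot_iff, ← h3]
      exact derivedSeries_antitone G (Lf_step he0 hen hdim)

/-- The theorem. -/
theorem main_GL [Fintype F] (q : ℕ) (hF : Fintype.card F = q) (p : ℕ) [Fact p.Prime]
    (hpq : ¬ p ∣ q) (n e : ℕ) (he : e = orderOf (q : ZMod p)) (hen : e ≤ n)
    (P : Subgroup (GL (Fin n) F)) (hP : IsPGroup p P) :
    derivedSeries ↥P (Nat.log 2 (n / e) + 1) = ⊥ := by
  have h1 := main_HH hF hpq e he n (Fin n → F) (by simp) ↥P hP
    ((toGLm n).symm.toMonoidHom.comp P.subtype)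
  have h2 : Lf e n = Nat.log 2 (n / e) + 1 := by
    unfold Lf
    rw [if_neg (by omega)]
  rw [h2] at h1
  have h3 : ((toGLm (F := F) n).symm.toMonoidHom.comp P.subtype).ker = ⊥ := by
    rw [MonoidHom.ker_eq_bot_iff]
    exact (toGLm n).symm.injective.comp P.subtype_injective
  rw [h3] at h1
  exact le_bot_iff.mp h1

end main

end Cfsg.Agent.Lib.ClassSizes.GLDer
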