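import Mathlib
import Cfsg.Agent.Lib.Coprime.Action
import Cfsg.Agent.Lib.Transfer.Frat

/-! Coprime actions all of whose maximal invariant subgroups are conjugate under the fixed points. -/

set_option autoImplicit false
set_option linter.style.haveILetI false

namespace Cfsg.Agent.Lib.ClassSizes.InvMax

open scoped Pointwise commutatorElement

section Maschke

/-- Complements in elementary abelian groups. -/
theorem exists_complement_elementary {p : ℕ} [hp : Fact p.Prime] {V : Type*} [Group V] [Finite V]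
    (hc : ∀ x y : V, x * y = y * x) (h : ∀ x : V, x ^ p = 1) (U : Subgroup V) :
    ∃ W : Subgroup V, U ⊓ W = ⊥ ∧ U ⊔ W = ⊤ := by
  letI : CommGroup V := { (inferInstance : Group V) with mul_comm := hc }
  obtain ⟨W, -, hW⟩ := Finite.exists_le_maximal (α := Subgroup V) (p := fun W => U ⊓ W = ⊥)
    (a := ⊥) (inf_bot_eq _)
  refine ⟨W, hW.1, ?_⟩
  by_contra hne
  obtain ⟨x, hx⟩ : ∃ x, x ∉ U ⊔ W := by
    by_contra hcon
    push Not at hcon
    exact hne (eq_top_iff.mpr fun x _ => hcon x)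
  have hW1 : U ⊓ (W ⊔ Subgroup.zpowers x) = ⊥ := by
    rw [eq_bot_iff]
    rintro y ⟨hyU, hyW⟩
    obtain ⟨w, hw, z, hz, rfl⟩ := Subgroup.mem_sup.mp hyW
    obtain ⟨k, rfl⟩ := Subgroup.mem_zpowers_iff.mp hz
    by_cases hk : (p : ℤ) ∣ k
    · obtain ⟨l, rfl⟩ := hk
      have h0 : x ^ ((p : ℤ) * l) = 1 := by rw [zpow_mul, zpow_natCast, h, one_zpow]
      rw [h0, mul_one] at hyU ⊢
      have h1 : w ∈ U ⊓ W := ⟨hyU, hw⟩
      rw [hW.1] at h1
      exact h1
    · exfalso
      apply hx
      have h1 : x ^ k ∈ U ⊔ W := by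
        have e : x ^ k = (w * x ^ k) * w⁻¹ := by rw [mul_comm w, mul_inv_cancel_right]
        rw [e]
        exact Subgroup.mul_mem_sup hyU (inv_mem hw)
      have hcop : IsCoprime (p : ℤ) k :=
        (Prime.coprime_iff_not_dvd (Nat.prime_iff_prime_int.mp hp.out)).mpr hk
      obtain ⟨s, t, hst⟩ := hcop
      have e2 : x = (x ^ (p : ℤ)) ^ s * (x ^ k) ^ t := by
        rw [← zpow_mul, ← zpow_mul, ← zpow_add, mul_comm (p : ℤ) s, mul_comm k t, hst, zpow_one]
      rw [e2, zpow_natCast, h, one_zpow, one_mul]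
      exact zpow_mem h1 t
  have hle : W ⊔ Subgroup.zpowers x ≤ W := hW.2 hW1 le_sup_left
  exact hx (Subgroup.mem_sup_right (hle (Subgroup.mem_sup_right (Subgroup.mem_zpowers x))))

variable {A V : Type*} [Group A] [Finite A]

/-- **Maschke's theorem**, by averaging. -/
theorem exists_inv_complement [Group V] [Finite V] [MulDistribMulAction A V]
    (hc : ∀ x y : V, x * y = y * x)
    (hcop : (Nat.card A).Coprime (Nat.card V)) (U W : Subgroup V)
    (hU : ∀ a : A, ∀ x ∈ U, a • x ∈ U) (hinf : U ⊓ W = ⊥) (hsup : U ⊔ W = ⊤) :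
    ∃ W' : Subgroup V, (∀ a : A, ∀ x ∈ W', a • x ∈ W') ∧ U ⊓ W' = ⊥ ∧ U ⊔ W' = ⊤ := by
  classical
  letI iC : CommGroup V := { (inferInstance : Group V) with mul_comm := hc }
  letI := Fintype.ofFinite A
  -- the projection
  have hinj : Function.Injective ((QuotientGroup.mk' W).comp U.subtype) := by
    rw [injective_iff_map_eq_one]
    intro u hu
    have h1 : (u : V) ∈ W := (QuotientGroup.eq_one_iff _).mp hu
    have h2 : (u : V) ∈ U ⊓ W := ⟨u.2, h1⟩
    rw [hinf] at h2
    exact Subtype.ext h2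
  have hsurj : Function.Surjective ((QuotientGroup.mk' W).comp U.subtype) := by
    intro q
    induction q using QuotientGroup.induction_on with
    | H v =>
      have hv : v ∈ U ⊔ W := hsup ▸ Subgroup.mem_top v
      obtain ⟨u, hu, w, hw, rfl⟩ := Subgroup.mem_sup.mp hv
      refine ⟨⟨u, hu⟩, ?_⟩
      simp only [MonoidHom.comp_apply, Subgroup.subtype_apply, QuotientGroup.mk'_apply]
      rw [QuotientGroup.eq]
      simpa using hw
  let e : U ≃* V ⧸ W := MulEquiv.ofBijective _ ⟨hinj, hsurj⟩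
  let π : V →* V := U.subtype.comp (e.symm.toMonoidHom.comp (QuotientGroup.mk' W))
  have hπU : ∀ u ∈ U, π u = u := by
    intro u hu
    have : e ⟨u, hu⟩ = (QuotientGroup.mk' W) u := rfl
    have h2 : e.symm ((QuotientGroup.mk' W) u) = ⟨u, hu⟩ := by
      rw [← this]; exact e.symm_apply_apply _
    show ((e.symm ((QuotientGroup.mk' W) u) : U) : V) = u
    rw [h2]
  have hπmem : ∀ v, π v ∈ U := fun v => (e.symm ((QuotientGroup.mk' W) v)).2
  -- averaging
  let F : V → V := fun v => ∏ a : A, a • π (a⁻¹ • v)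
  have hFmul : ∀ x y, F (x * y) = F x * F y := by
    intro x y
    simp only [F, smul_mul', map_mul, Finset.prod_mul_distrib]
  have hFsmul : ∀ (b : A) (v : V), F (b • v) = b • F v := by
    intro b v
    have h1 : b • F v = ∏ c : A, b • (c • π (c⁻¹ • v)) :=
      map_prod (MulDistribMulAction.toMonoidHom V b) _ _
    rw [h1]
    refine (Fintype.prod_equiv (Equiv.mulLeft b⁻¹) _ _ ?_)
    intro a
    simp only [Equiv.coe_mulLeft, smul_smul, mul_inv_rev, inv_inv, mul_inv_cancel_left, mul_assoc]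
  have hFU : ∀ u ∈ U, F u = u ^ Nat.card A := by
    intro u hu
    have : ∀ a : A, a • π (a⁻¹ • u) = u := by
      intro a
      rw [hπU _ (hU _ _ hu), smul_inv_smul]
    simp only [F, this]
    rw [Finset.prod_const, Finset.card_univ, Nat.card_eq_fintype_card]
  have hFmem : ∀ v, F v ∈ U := fun v =>
    Subgroup.prod_mem _ fun a _ => hU a _ (hπmem _)
  -- inverse of `|A|`
  obtain ⟨m, hm⟩ : ∃ m : ℕ, ∀ x : V, (x ^ Nat.card A) ^ m = x := by
    by_cases h1 : Nat.card V = 1
    · refine ⟨0, fun x => ?_⟩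
      haveI := (Nat.card_eq_one_iff_unique.mp h1).1
      exact Subsingleton.elim _ _
    · have h2 : 1 < Nat.card V := by
        have := Nat.card_pos (α := V)
        omega
      obtain ⟨m, hm⟩ := Nat.exists_mul_mod_eq_one_of_coprime hcop h2
      refine ⟨m, fun x => ?_⟩
      rw [← pow_mul, ← pow_mod_natCard, hm.2, pow_one]
  let P : V →* V :=
    { toFun := fun v => F v ^ m
      map_one' := by
        have := hFU 1 (one_mem _)
        simp [this]
      map_mul' := fun x y => by rw [hFmul, mul_pow] }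
  have hPU : ∀ u ∈ U, P u = u := by
    intro u hu
    show F u ^ m = u
    rw [hFU u hu, hm]
  have hPmem : ∀ v, P v ∈ U := fun v => pow_mem (hFmem v) m
  refine ⟨P.ker, ?_, ?_, ?_⟩
  · intro a x hx
    rw [MonoidHom.mem_ker] at hx ⊢
    show F (a • x) ^ m = 1
    rw [hFsmul, ← smul_pow']
    have : F x ^ m = 1 := hx
    rw [this, smul_one]
  · rw [eq_bot_iff]
    rintro u ⟨hu, hk⟩
    have h1 : P u = 1 := hk
    rw [hPU u hu] at h1
    exact h1
  · rw [eq_top_iff]
    intro v _
    have e2 : v = P v * ((P v)⁻¹ * v) := by group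
    rw [e2]
    refine Subgroup.mul_mem_sup (hPmem v) ?_
    rw [MonoidHom.mem_ker, map_mul, map_inv, hPU _ (hPmem v)]
    group

end Maschke

section Main

variable {A G : Type*} [Group A] [Finite A] [Group G] [Finite G] [MulDistribMulAction A G]

/-- Maximal invariant subgroups. -/
abbrev MaxInv (A : Type*) {G : Type*} [Group A] [Group G] [MulDistribMulAction A G] (M : Subgroup G) : Prop :=
  M ≠ ⊤ ∧ (∀ a : A, ∀ x ∈ M, a • x ∈ M) ∧
    ∀ L : Subgroup G, M < L → (∀ a : A, ∀ x ∈ L, a • x ∈ L) → L = ⊤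

omit [Finite A] [Finite G] in
theorem frattini_inv (a : A) {x : G} (hx : x ∈ frattini G) : a • x ∈ frattini G := by
  have h := (frattini_characteristic (G := G)).fixed (MulDistribMulAction.toMulEquiv G a)
  have hx' : x ∈ (frattini G).comap (MulDistribMulAction.toMulEquiv G a).toMonoidHom := by
    rw [h]
    exact hx
  exact hx'

omit [Finite A] [Finite G] in
theorem sup_inv {M N : Subgroup G} (hM : ∀ a : A, ∀ x ∈ M, a • x ∈ M)
    (hN : ∀ a : A, ∀ x ∈ N, a • x ∈ N) : ∀ a : A, ∀ x ∈ M ⊔ N, a • x ∈ M ⊔ N := by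
  intro a x hx
  have h : M ⊔ N ≤ (M ⊔ N).comap (MulDistribMulAction.toMonoidHom G a) :=
    sup_le (fun y hy => Subgroup.mem_sup_left (hM a y hy))
      (fun y hy => Subgroup.mem_sup_right (hN a y hy))
  exact h hx

omit [Finite A] in
theorem exists_maxinv {M : Subgroup G} (hinv : ∀ a : A, ∀ x ∈ M, a • x ∈ M) (hne : M ≠ ⊤) :
    ∃ M' : Subgroup G, M ≤ M' ∧ MaxInv A M' := by
  obtain ⟨b, hb, hmax⟩ := Finite.exists_le_maximal (α := Subgroup G)
    (p := fun L => L ≠ ⊤ ∧ ∀ a : A, ∀ x ∈ L, a • x ∈ L) (a := M) ⟨hne, hinv⟩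
  refine ⟨b, hb, hmax.1.1, hmax.1.2, fun L hL hLinv => ?_⟩
  by_contra hLt
  exact absurd (hmax.2 ⟨hLt, hLinv⟩ hL.le) hL.not_ge

omit [Finite A] in
theorem frattini_le_of_maxinv {M : Subgroup G} (hM : MaxInv A M) : frattini G ≤ M := by
  by_contra hnot
  have hlt : M < M ⊔ frattini G := lt_of_le_of_ne le_sup_left (fun he => hnot (he ▸ le_sup_right))
  have h1 := hM.2.2 _ hlt (sup_inv hM.2.1 (fun a x hx => frattini_inv a hx))
  exact hM.1 (frattini_nongenerating h1)

omit [Finite A] in
theorem maxinv_iff (hirr : ∀ L : Subgroup G, frattini G < L → (∀ a : A, ∀ x ∈ L, a • x ∈ L) → L = ⊤)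
    (M : Subgroup G) : MaxInv A M ↔ (M = frattini G ∧ M ≠ ⊤) := by
  constructor
  · intro hM
    have h1 := frattini_le_of_maxinv hM
    refine ⟨?_, hM.1⟩
    by_contra hne
    exact hM.1 (hirr M (lt_of_le_of_ne h1 (Ne.symm hne)) hM.2.1)
  · rintro ⟨rfl, hne⟩
    exact ⟨hne, fun a x hx => frattini_inv a hx, hirr⟩

theorem isPGroup_of_conj (hcop : (Nat.card A).Coprime (Nat.card G))
    (hsol : Group.IsSolvable A ∨ Group.IsSolvable G)
    (hconj : ∀ M N : Subgroup G, MaxInv A M → MaxInv A N →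
      ∃ c : G, (∀ a : A, a • c = c) ∧ N = MulAut.conj c • M) :
    ∃ p : ℕ, p.Prime ∧ IsPGroup p G := by
  by_contra hnot
  push Not at hnot
  have hbot : (⊥ : Subgroup G) ≠ ⊤ := by
    intro h
    have hs : Subsingleton G := (Subgroup.subsingleton_iff (G := G)).mp <| by
      exact subsingleton_of_bot_eq_top h
    exact hnot 2 Nat.prime_two (IsPGroup.of_card (n := 0) (by simp))
  obtain ⟨M₀, -, hM₀⟩ := exists_maxinv (A := A) (M := (⊥ : Subgroup G))
    (fun a x hx => by
      have : x = 1 := hx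
      rw [this, smul_one]
      exact one_mem _) hbot
  have h1 : M₀.index = 1 := by
    by_contra hne
    obtain ⟨r, hr, hrd⟩ := Nat.exists_prime_and_dvd hne
    haveI := Fact.mk hr
    obtain ⟨S, hS⟩ := Cfsg.Agent.Lib.Coprime.exists_fixed_sylow (A := A) (G := G) hcop hsol r
    have hSinv : ∀ a : A, ∀ x ∈ (S : Subgroup G), a • x ∈ (S : Subgroup G) := by
      intro a x hx
      have h2 : a • x ∈ ((a • S : Sylow r G) : Subgroup G) := by
        rw [Sylow.pointwise_smul_def]
        exact Subgroup.smul_mem_pointwise_smul _ _ _ hx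
      rwa [hS] at h2
    have hSne : (S : Subgroup G) ≠ ⊤ := by
      intro h
      have h3 := S.isPGroup'
      rw [h] at h3
      exact hnot r hr (h3.of_equiv Subgroup.topEquiv)
    obtain ⟨M₁, hSM₁, hM₁⟩ := exists_maxinv hSinv hSne
    obtain ⟨c, -, hc⟩ := hconj M₀ M₁ hM₀ hM₁
    have h4 : M₁.index = M₀.index := by
      rw [hc]
      exact Subgroup.index_map_equiv M₀ (MulAut.conj c)
    have h5 : M₁.index ∣ (S : Subgroup G).index := Subgroup.index_dvd_of_le hSM₁
    exact S.not_dvd_index (hrd.trans (h4 ▸ h5))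
  exact hM₀.1 (Subgroup.index_eq_one.mp h1)

/-- The action on the quotient by an invariant normal subgroup. -/
@[reducible] def quotAction (N : Subgroup G) [N.Normal] (hN : ∀ a : A, ∀ x ∈ N, a • x ∈ N) :
    MulDistribMulAction A (G ⧸ N) where
  smul a := QuotientGroup.map N N (MulDistribMulAction.toMonoidHom G a) (fun x hx => hN a x hx)
  one_smul v := by
    induction v using QuotientGroup.induction_on with
    | H x =>
      exact congrArg (QuotientGroup.mk (s := N)) (one_smul A x)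
  mul_smul a b v := by
    induction v using QuotientGroup.induction_on with
    | H x =>
      exact congrArg (QuotientGroup.mk (s := N)) (mul_smul a b x)
  smul_mul a v w := map_mul _ v w
  smul_one a := map_one _

theorem irreducible_of_conj (hcop : (Nat.card A).Coprime (Nat.card G)) {p : ℕ} [hp : Fact p.Prime]
    (hP : IsPGroup p G)
    (hconj : ∀ M N : Subgroup G, MaxInv A M → MaxInv A N →
      ∃ c : G, (∀ a : A, a • c = c) ∧ N = MulAut.conj c • M) :
    ∀ L : Subgroup G, frattini G < L → (∀ a : A, ∀ x ∈ L, a • x ∈ L) → L = ⊤ := by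
  intro L hL hinv
  by_contra hLt
  haveI hΦn : (frattini G).Normal := inferInstance
  letI act := quotAction (A := A) (frattini G) (fun a x hx => frattini_inv a hx)
  have hact : ∀ (a : A) (x : G), a • (x : G ⧸ frattini G) = ((a • x : G) : G ⧸ frattini G) :=
    fun a x => rfl
  have hcomm : ∀ x y : G ⧸ frattini G, x * y = y * x := by
    intro x y
    induction x using QuotientGroup.induction_on with
    | H x =>
      induction y using QuotientGroup.induction_on with
      | H y =>
        rw [← QuotientGroup.mk_mul, ← QuotientGroup.mk_mul, QuotientGroup.eq]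
        have h1 : (x * y)⁻¹ * (y * x) = ⁅y⁻¹, x⁻¹⁆ := by
          rw [commutatorElement_def]
          group
        rw [h1]
        exact Cfsg.Agent.Lib.Transfer.commutator_le_frattini hP
          (Subgroup.commutator_mem_commutator (Subgroup.mem_top _) (Subgroup.mem_top _))
  have hpow : ∀ x : G ⧸ frattini G, x ^ p = 1 := by
    intro x
    induction x using QuotientGroup.induction_on with
    | H x =>
      rw [← QuotientGroup.mk_pow, QuotientGroup.eq_one_iff]
      exact Cfsg.Agent.Lib.Transfer.pow_mem_frattini hP x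
  let π := QuotientGroup.mk' (frattini G)
  have hker : ∀ x : G, π x = 1 ↔ x ∈ frattini G := fun x => QuotientGroup.eq_one_iff x
  obtain ⟨W₀, h1, h2⟩ := exists_complement_elementary hcomm hpow (L.map π)
  have hcard : Nat.card (G ⧸ frattini G) ∣ Nat.card G := by
    rw [Subgroup.card_eq_card_quotient_mul_card_subgroup (frattini G)]
    exact Dvd.intro _ rfl
  obtain ⟨W', hW'inv, hinf, hsup⟩ := exists_inv_complement (A := A) hcomm
    (Nat.Coprime.coprime_dvd_right hcard hcop) (L.map π) W₀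
    (by
      rintro a _ ⟨x, hx, rfl⟩
      exact ⟨a • x, hinv a x hx, rfl⟩) h1 h2
  let W := W'.comap π
  have hWinv : ∀ a : A, ∀ x ∈ W, a • x ∈ W := by
    intro a x hx
    exact hW'inv a _ hx
  have hWne : W ≠ ⊤ := by
    intro he
    have hLle : L ≤ frattini G := by
      intro x hx
      have h3 : π x ∈ L.map π ⊓ W' := ⟨⟨x, hx, rfl⟩, (he ▸ Subgroup.mem_top x : x ∈ W)⟩
      rw [hinf] at h3
      exact (hker x).mp h3
    exact absurd hLle hL.not_ge
  obtain ⟨M₁, hLM₁, hM₁⟩ := exists_maxinv hinv hLt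
  obtain ⟨M₂, hWM₂, hM₂⟩ := exists_maxinv hWinv hWne
  obtain ⟨c, -, hc⟩ := hconj M₁ M₂ hM₁ hM₂
  have hM₁n : M₁.Normal := by
    constructor
    intro x hx g
    have e : g * x * g⁻¹ = ⁅g, x⁆ * x := by
      rw [commutatorElement_def]
      group
    rw [e]
    refine mul_mem (frattini_le_of_maxinv hM₁ (Cfsg.Agent.Lib.Transfer.commutator_le_frattini hP
      (Subgroup.commutator_mem_commutator (Subgroup.mem_top _) (Subgroup.mem_top _)))) hx
  have hEq : M₂ = M₁ := by
    rw [hc]
    exact Subgroup.Normal.conj_smul_eq_self c M₁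
  apply hM₁.1
  rw [eq_top_iff]
  intro g _
  have hg : π g ∈ L.map π ⊔ W' := hsup ▸ Subgroup.mem_top _
  letI iC : CommGroup (G ⧸ frattini G) := { (inferInstance : Group (G ⧸ frattini G)) with mul_comm := hcomm }
  obtain ⟨u, ⟨l, hl, rfl⟩, w, hw, he⟩ := Subgroup.mem_sup.mp hg
  obtain ⟨y, rfl⟩ := QuotientGroup.mk'_surjective (frattini G) w
  have hy : y ∈ W := hw
  have hyM : y ∈ M₁ := by
    have := hWM₂ hy
    rwa [hEq] at this
  have hrest : (l * y)⁻¹ * g ∈ frattini G := by
    rw [← hker, map_mul, map_inv, map_mul, ← he]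
    exact inv_mul_cancel _
  have e3 : g = (l * y) * ((l * y)⁻¹ * g) := by group
  rw [e3]
  exact mul_mem (mul_mem (hLM₁ hl) hyM) (frattini_le_of_maxinv hM₁ hrest)

theorem main_result (hcop : (Nat.card A).Coprime (Nat.card G))
    (hsol : Group.IsSolvable A ∨ Group.IsSolvable G) :
    ((∀ M N : Subgroup G, MaxInv A M → MaxInv A N →
        ∃ c : G, (∀ a : A, a • c = c) ∧ N = MulAut.conj c • M) ↔
      ((∃ p : ℕ, p.Prime ∧ IsPGroup p G) ∧
        ∀ L : Subgroup G, frattini G < L → (∀ a : A, ∀ x ∈ L, a • x ∈ L) → L = ⊤)) ∧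
    (((∃ p : ℕ, p.Prime ∧ IsPGroup p G) ∧
        ∀ L : Subgroup G, frattini G < L → (∀ a : A, ∀ x ∈ L, a • x ∈ L) → L = ⊤) →
      ∀ M : Subgroup G, MaxInv A M ↔ (M = frattini G ∧ M ≠ ⊤)) := by
  refine ⟨⟨fun hconj => ?_, fun h M N hM hN => ?_⟩, fun h M => maxinv_iff h.2 M⟩
  · obtain ⟨p, hp, hP⟩ := isPGroup_of_conj hcop hsol hconj
    haveI := Fact.mk hp
    exact ⟨⟨p, hp, hP⟩, irreducible_of_conj hcop hP hconj⟩
  · have h1 := ((maxinv_iff h.2 M).mp hM).1
    have h2 := ((maxinv_iff h.2 N).mp hN).1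
    refine ⟨1, fun a => smul_one a, ?_⟩
    rw [h1, h2, map_one, one_smul]

end Main

end Cfsg.Agent.Lib.ClassSizes.InvMax
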