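import Mathlib
import Cfsg.Agent.Lib.Transfer.Frobenius
import Cfsg.Agent.Lib.Techniques.SylowIn
import Cfsg.Agent.Lib.PGroup.MaxNormal
import Cfsg.Agent.Lib.Hall.CoprimeSylow
import Cfsg.Agent.Lib.ClassSizes.DPi
import Cfsg.Prelude.Def_SolvableStructure

/-! Groups all of whose maximal subgroups of order divisible by `p` are nilpotent. -/

set_option autoImplicit false
set_option linter.style.haveILetI false

namespace Cfsg.Agent.Lib.ClassSizes.MaxNil

open Cfsg Cfsg.Agent.Lib.Techniques Cfsg.Agent.Lib.Transfer Cfsg.Agent.Lib.ClassSizes.DPi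

variable {G : Type*} [Group G] [Finite G]

theorem nil_of_le {A B : Subgroup G} (h : A ≤ B) (hB : Group.IsNilpotent B) : Group.IsNilpotent A := by
  haveI := hB
  exact Group.nilpotent_of_mulEquiv (Subgroup.subgroupOfEquivOfLe h)

theorem comm_in_nil {p : ℕ} [hp : Fact p.Prime] {H : Subgroup G} (hH : Group.IsNilpotent H) {a b : G}
    (ha : a ∈ H) (hb : b ∈ H) {k : ℕ} (hap : a ^ p ^ k = 1) (hbp : (orderOf b).Coprime p) :
    a * b = b * a := by
  haveI := hH
  have h1 : IsPGroup p (Subgroup.zpowers (⟨a, ha⟩ : H)) := by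
    have h2 : orderOf (⟨a, ha⟩ : H) ∣ p ^ k := by
      rw [Subgroup.orderOf_mk]; exact orderOf_dvd_of_pow_eq_one hap
    obtain ⟨j, -, hj⟩ := (Nat.dvd_prime_pow hp.out).mp h2
    exact isPGroup_zpowers_of_orderOf j hj
  have := Cfsg.Agent.Lib.PGroup.commute_of_nilpotent_of_coprime (G := H) (p := p) (x := ⟨a, ha⟩) (y := ⟨b, hb⟩) h1
    (by rwa [Subgroup.orderOf_mk])
  exact congrArg Subtype.val this.eq

theorem le_of_sylows {M C : Subgroup G}
    (h : ∀ r : ℕ, r.Prime → r ∣ Nat.card M → ∃ R : Subgroup G, R ≤ M ∧ ¬ r ∣ R.relIndex M ∧ R ≤ C) :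
    M ≤ C := by
  have h1 : (C ⊓ M).relIndex M = 1 := by
    by_contra hne
    obtain ⟨r, hr, hrd⟩ := Nat.exists_prime_and_dvd hne
    obtain ⟨R, hRM, hnd, hRC⟩ := h r hr (hrd.trans (Subgroup.relIndex_dvd_card _ _))
    have := Subgroup.relIndex_mul_relIndex R (C ⊓ M) M (le_inf hRC hRM) inf_le_right
    exact hnd (this ▸ Dvd.dvd.mul_left hrd _)
  exact (Subgroup.relIndex_eq_one.mp h1).trans inf_le_left

theorem nil_of_proper {p : ℕ} (hmax : ∀ M : Subgroup G, IsCoatom M → p ∣ Nat.card M → Group.IsNilpotent M)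
    {H : Subgroup G} (hH : H ≠ ⊤) (hd : p ∣ Nat.card H) : Group.IsNilpotent H := by
  obtain ⟨M, hM, hHM⟩ := (eq_top_or_exists_le_coatom H).resolve_left hH
  exact nil_of_le hHM (hmax M hM (hd.trans (Subgroup.card_dvd_of_le hHM)))

theorem card_sup_dvd_normal {A B : Subgroup G} [A.Normal] :
    Nat.card (A ⊔ B : Subgroup G) ∣ Nat.card A * Nat.card B := by
  have h2 : Nat.card A * A.relIndex (A ⊔ B) = Nat.card (A ⊔ B : Subgroup G) := by
    have := Subgroup.relIndex_mul_relIndex (⊥ : Subgroup G) A (A ⊔ B) bot_le le_sup_left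
    rwa [Subgroup.relIndex_bot_left, Subgroup.relIndex_bot_left] at this
  rw [← h2, Subgroup.relIndex_sup_left]
  exact Nat.mul_dvd_mul_left _ (Subgroup.relIndex_dvd_card _ _)

theorem card_sup_dvd_of_le_normalizer {A B : Subgroup G} (h : B ≤ Subgroup.normalizer (A : Set G)) :
    Nat.card (A ⊔ B : Subgroup G) ∣ Nat.card A * Nat.card B := by
  set N := Subgroup.normalizer (A : Set G) with hN
  have hA : A ≤ N := Subgroup.le_normalizer
  haveI : (A.subgroupOf N).Normal := Subgroup.normal_subgroupOf_of_le_normalizer le_rfl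
  have h1 := card_sup_dvd_normal (A := A.subgroupOf N) (B := B.subgroupOf N)
  have e0 : Nat.card (A.subgroupOf N) = Nat.card A :=
    Nat.card_congr (Subgroup.subgroupOfEquivOfLe hA).toEquiv
  have e1 : Nat.card (B.subgroupOf N) = Nat.card B :=
    Nat.card_congr (Subgroup.subgroupOfEquivOfLe h).toEquiv
  rw [e0, e1] at h1
  have e2 : (A.subgroupOf N ⊔ B.subgroupOf N).map N.subtype = A ⊔ B := by
    rw [Subgroup.map_sup, Subgroup.map_subgroupOf_eq_of_le hA, Subgroup.map_subgroupOf_eq_of_le h]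
  have e3 : Nat.card ((A.subgroupOf N ⊔ B.subgroupOf N).map N.subtype) =
      Nat.card (A.subgroupOf N ⊔ B.subgroupOf N : Subgroup N) :=
    Subgroup.card_map_of_injective N.subtype_injective
  rw [e2] at e3
  rw [e3]
  exact h1

theorem coprime_of_pgroup {p : ℕ} [hp : Fact p.Prime] {Q M : Subgroup G} (hQ : IsPGroup p Q)
    (hM : ¬ p ∣ Nat.card M) : (Nat.card Q).Coprime (Nat.card M) := by
  obtain ⟨k, hk⟩ := IsPGroup.iff_card.mp hQ
  rw [hk]
  exact Nat.Coprime.pow_left k ((Nat.Prime.coprime_iff_not_dvd hp.out).mpr hM)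

theorem order_coprime {p : ℕ} [hp : Fact p.Prime] {M : Subgroup G} (hM : ¬ p ∣ Nat.card M) {b : G}
    (hb : b ∈ M) : (orderOf b).Coprime p := by
  apply Nat.Coprime.symm
  apply (Nat.Prime.coprime_iff_not_dvd hp.out).mpr
  intro h
  apply hM
  exact h.trans (Subgroup.orderOf_dvd_natCard M hb)

theorem final_data {p : ℕ} [hp : Fact p.Prime] {Q M : Subgroup G}
    (hmax : ∀ M : Subgroup G, IsCoatom M → p ∣ Nat.card M → Group.IsNilpotent M) (hQn : Q.Normal)
    (hQc : Nat.card Q = p) (hc : ∀ a ∈ Q, ∀ b ∈ M, a * b = b * a) (hsup : Q ⊔ M = ⊤)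
    (hMp : ¬ p ∣ Nat.card M) (hMn : ¬ Group.IsNilpotent M) :
    ∃ Z K : Subgroup G, Z.Normal ∧ K.Normal ∧ Z ⊓ K = ⊥ ∧ Z ⊔ K = ⊤ ∧ Nat.card Z = p ∧
      IsMinimalNonNilpotent K ∧ ¬ p ∣ Nat.card K := by
  have hMnorm : M.Normal := by
    constructor
    intro u hu g
    have hg : g ∈ Q ⊔ M := hsup ▸ Subgroup.mem_top g
    obtain ⟨q, hq, m, hm, rfl⟩ := Subgroup.mem_sup_of_normal_left.mp hg
    have hmem : m * u * m⁻¹ ∈ M := mul_mem (mul_mem hm hu) (inv_mem hm)
    have hcomm := hc q hq _ hmem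
    have e : q * m * u * (q * m)⁻¹ = m * u * m⁻¹ := by
      calc q * m * u * (q * m)⁻¹ = q * (m * u * m⁻¹) * q⁻¹ := by group
        _ = (m * u * m⁻¹) * q * q⁻¹ := by rw [hcomm]
        _ = _ := by group
    rw [e]
    exact hmem
  have hQpg : IsPGroup p Q := IsPGroup.of_card (n := 1) (by rw [hQc, pow_one])
  have hinf : Q ⊓ M = ⊥ := Subgroup.inf_eq_bot_of_coprime (coprime_of_pgroup hQpg hMp)
  have hcompl : Q.IsComplement' M := isComplement'_of_inf_sup Q M hinf hsup
  have hGc : Nat.card Q * Nat.card M = Nat.card G := hcompl.card_mul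
  refine ⟨Q, M, hQn, hMnorm, hinf, hsup, hQc, ⟨hMn, fun H hH => ?_⟩, hMp⟩
  have hcard : Nat.card (H.map M.subtype) = Nat.card H :=
    Subgroup.card_map_of_injective M.subtype_injective
  have hlt : Nat.card H < Nat.card M := by
    refine lt_of_le_of_ne (by
      rw [← Subgroup.card_top (G := M)]
      exact Subgroup.card_le_of_le le_top) ?_
    intro he
    exact hH (Subgroup.eq_top_of_card_eq H he)
  have hne : Q ⊔ H.map M.subtype ≠ ⊤ := by
    intro htop
    have h2 := card_sup_dvd_normal (A := Q) (B := H.map M.subtype)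
    rw [htop, Subgroup.card_top, hcard, ← hGc] at h2
    have h3 := Nat.le_of_dvd (Nat.mul_pos Nat.card_pos Nat.card_pos) h2
    have h4 := Nat.le_of_mul_le_mul_left h3 Nat.card_pos
    omega
  have hnil := nil_of_proper hmax hne
    ((hQc ▸ dvd_refl _ : p ∣ Nat.card Q).trans (Subgroup.card_dvd_of_le le_sup_left))
  have hnil2 := nil_of_le le_sup_right hnil
  haveI := hnil2
  exact Group.nilpotent_of_mulEquiv (H.equivMapOfInjective M.subtype M.subtype_injective).symm

theorem caseB {p : ℕ} [hp : Fact p.Prime] {Q M : Subgroup G}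
    (hmax : ∀ M : Subgroup G, IsCoatom M → p ∣ Nat.card M → Group.IsNilpotent M)
    (hM : IsCoatom M) (hQn : Q.Normal) (hQp : IsPGroup p Q) (hQb : Q ≠ ⊥)
    (hMp : ¬ p ∣ Nat.card M) (hMn : ¬ Group.IsNilpotent M) :
    ∃ Z K : Subgroup G, Z.Normal ∧ K.Normal ∧ Z ⊓ K = ⊥ ∧ Z ⊔ K = ⊤ ∧ Nat.card Z = p ∧
      IsMinimalNonNilpotent K ∧ ¬ p ∣ Nat.card K := by
  have hQd : p ∣ Nat.card Q := by
    obtain ⟨k, hk⟩ := IsPGroup.iff_card.mp hQp
    rw [hk]
    refine dvd_pow_self p ?_
    rintro rfl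
    rw [pow_zero] at hk
    exact hQb (Subgroup.eq_bot_of_card_eq _ hk)
  have hinf : Q ⊓ M = ⊥ := Subgroup.inf_eq_bot_of_coprime (coprime_of_pgroup hQp hMp)
  have hsup : Q ⊔ M = ⊤ := by
    refine hM.2 _ (lt_of_le_of_ne le_sup_right ?_)
    intro he
    have hle : Q ≤ M := by rw [he]; exact le_sup_left
    exact hMp (hQd.trans (Subgroup.card_dvd_of_le hle))
  have hcompl : Q.IsComplement' M := isComplement'_of_inf_sup Q M hinf hsup
  have hGc : Nat.card Q * Nat.card M = Nat.card G := hcompl.card_mul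
  have hcent : M ≤ Subgroup.centralizer (Q : Set G) := by
    apply le_of_sylows
    intro r hr hrd
    haveI : Fact r.Prime := ⟨hr⟩
    obtain ⟨R, hR⟩ := exists_sylowIn (p := r) M
    refine ⟨R, hR.1, hR.2.2, ?_⟩
    have hRM : R ≠ M := by
      rintro rfl
      haveI := hR.2.1.isNilpotent
      exact hMn inferInstance
    have hlt : Nat.card R < Nat.card M := by
      refine lt_of_le_of_ne (Subgroup.card_le_of_le hR.1) ?_
      intro he
      exact hRM (Subgroup.eq_of_le_of_card_ge hR.1 he.ge)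
    have hne : Q ⊔ R ≠ ⊤ := by
      intro htop
      have h2 := card_sup_dvd_normal (A := Q) (B := R)
      rw [htop, Subgroup.card_top, ← hGc] at h2
      have h3 := Nat.le_of_dvd (Nat.mul_pos Nat.card_pos Nat.card_pos) h2
      have h4 := Nat.le_of_mul_le_mul_left h3 Nat.card_pos
      omega
    have hnil := nil_of_proper hmax hne (hQd.trans (Subgroup.card_dvd_of_le le_sup_left))
    intro b hb
    rw [Subgroup.mem_centralizer_iff]
    intro a ha
    obtain ⟨k, hk⟩ := hQp ⟨a, ha⟩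
    exact comm_in_nil hnil (Subgroup.mem_sup_left ha) (Subgroup.mem_sup_right hb)
      (k := k) (congrArg Subtype.val hk) (order_coprime hMp (hR.1 hb))
  obtain ⟨x, hx⟩ := exists_prime_orderOf_dvd_card' (G := Q) p hQd
  have hxne : (x : G) ≠ 1 := by
    intro h1
    have : x = 1 := Subtype.ext h1
    rw [this, orderOf_one] at hx
    exact hp.out.one_lt.ne hx
  have hZ : Subgroup.zpowers (x : G) ⊔ M = ⊤ := by
    refine hM.2 _ (lt_of_le_of_ne le_sup_right ?_)
    intro he
    have hle : Subgroup.zpowers (x : G) ≤ M := by rw [he]; exact le_sup_left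
    have h1 : (x : G) ∈ Q ⊓ M := ⟨x.2, hle (Subgroup.mem_zpowers _)⟩
    rw [hinf] at h1
    exact hxne h1
  have hdv := card_sup_dvd (A := Subgroup.zpowers (x : G)) (B := M) (by
    intro a ha b hb
    have : a ∈ Q := (Subgroup.zpowers_le.mpr x.2) ha
    exact (Subgroup.mem_centralizer_iff.mp (hcent hb) a this))
  rw [hZ, Subgroup.card_top, Nat.card_zpowers, Subgroup.orderOf_coe, hx, ← hGc, mul_comm p] at hdv
  have hdv2 : Nat.card Q ∣ p := by
    rw [mul_comm (Nat.card M)] at hdv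
    exact Nat.dvd_of_mul_dvd_mul_right Nat.card_pos hdv
  have hQc : Nat.card Q = p := by
    rcases (Nat.dvd_prime hp.out).mp hdv2 with h | h
    · rw [h] at hQd
      exact absurd (Nat.dvd_one.mp hQd) hp.out.one_lt.ne'
    · exact h
  exact final_data hmax hQn hQc (fun a ha b hb => Subgroup.mem_centralizer_iff.mp (hcent hb) a ha)
    hsup hMp hMn

theorem caseA {p : ℕ} [hp : Fact p.Prime] (hpG : p ∣ Nat.card G) {M : Subgroup G}
    (hmax : ∀ M : Subgroup G, IsCoatom M → p ∣ Nat.card M → Group.IsNilpotent M)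
    (hM : IsCoatom M) (hO : ∀ Q : Subgroup G, Q.Normal → IsPGroup p Q → Q = ⊥)
    (hMp : ¬ p ∣ Nat.card M) (hMn : ¬ Group.IsNilpotent M) : False := by
  obtain ⟨P⟩ : Nonempty (Sylow p G) := inferInstance
  have hF : FrobeniusHyp p (P : Subgroup G) := by
    intro Q hQ g hg hgc
    have hQp : IsPGroup p Q := P.isPGroup'.to_le hQ
    by_cases hQb : Q = ⊥
    · rw [Subgroup.mem_centralizer_iff]
      intro h hh
      rw [hQb] at hh
      have : h = 1 := hh
      simp [this]
    have hQd : p ∣ Nat.card Q := by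
      obtain ⟨k, hk⟩ := IsPGroup.iff_card.mp hQp
      rw [hk]
      refine dvd_pow_self p ?_
      rintro rfl
      rw [pow_zero] at hk
      exact hQb (Subgroup.eq_bot_of_card_eq _ hk)
    have hne : Subgroup.normalizer (Q : Set G) ≠ ⊤ := by
      intro h
      exact hQb (hO Q (Subgroup.normalizer_eq_top_iff.mp h) hQp)
    have hnil := nil_of_proper hmax hne (hQd.trans (Subgroup.card_dvd_of_le Subgroup.le_normalizer))
    rw [Subgroup.mem_centralizer_iff]
    intro a ha
    obtain ⟨k, hk⟩ := hQp ⟨a, ha⟩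
    exact comm_in_nil hnil (Subgroup.le_normalizer ha) hg (k := k) (congrArg Subtype.val hk) hgc
  obtain ⟨N, hNn, hNc⟩ := frobenius P hF
  haveI := hNn
  have hle : M ≤ N := fun m hm =>
    (mem_of_coprime_of_complement hNc m).mpr (order_coprime hMp hm)
  have hNtop : N ≠ ⊤ := by
    rintro rfl
    have := P.not_dvd_index
    rw [hNc.index_eq_card, Subgroup.card_top] at this
    exact this hpG
  have hMN : M = N := by
    by_contra hne
    exact hNtop (hM.2 N (lt_of_le_of_ne hle hne))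
  subst hMN
  have hMc := hNc
  have hGc : Nat.card M * Nat.card (P : Subgroup G) = Nat.card G := hMc.card_mul
  have hPd : p ∣ Nat.card (P : Subgroup G) := by
    rw [← hGc] at hpG
    rcases hp.out.dvd_mul.mp hpG with h | h
    · exact absurd h hMp
    · exact h
  have hPb : (P : Subgroup G) ≠ ⊥ := by
    intro h
    rw [h, Subgroup.card_bot] at hPd
    exact hp.out.one_lt.ne' (Nat.dvd_one.mp hPd)
  obtain ⟨x, hx⟩ := exists_prime_orderOf_dvd_card' (G := (P : Subgroup G)) p hPd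
  have hinf : M ⊓ (P : Subgroup G) = ⊥ :=
    Subgroup.inf_eq_bot_of_coprime (coprime_of_pgroup P.isPGroup' hMp).symm
  have hxne : (x : G) ≠ 1 := by
    intro h1
    have : x = 1 := Subtype.ext h1
    rw [this, orderOf_one] at hx
    exact hp.out.one_lt.ne hx
  have hZ : M ⊔ Subgroup.zpowers (x : G) = ⊤ := by
    refine hM.2 _ (lt_of_le_of_ne le_sup_left ?_)
    intro he
    have hle : Subgroup.zpowers (x : G) ≤ M := by rw [he]; exact le_sup_right
    have h1 : (x : G) ∈ M ⊓ (P : Subgroup G) := ⟨hle (Subgroup.mem_zpowers _), x.2⟩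
    rw [hinf] at h1
    exact hxne h1
  have hcent : M ≤ Subgroup.centralizer ((P : Subgroup G) : Set G) := by
    apply le_of_sylows
    intro r hr hrd
    haveI : Fact r.Prime := ⟨hr⟩
    haveI : (M : Subgroup G).Normal := hNn
    have hAK : (P : Subgroup G) ≤ Subgroup.normalizer (M : Set G) := by
      rw [Subgroup.normalizer_eq_top_iff.mpr hNn]
      exact le_top
    haveI : Group.IsNilpotent (P : Subgroup G) := P.isPGroup'.isNilpotent
    obtain ⟨R, hR⟩ := Cfsg.Agent.Lib.Hall.exists_invariant_sylow (P : Subgroup G) M hAK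
      (coprime_of_pgroup P.isPGroup' hMp) (Or.inl inferInstance) r
    have hS := sylowIn_of_sylow R
    refine ⟨_, hS.1, hS.2.2, ?_⟩
    have hRM : (R : Subgroup M).map M.subtype ≠ M := by
      intro he
      have h1 := hS.2.1
      rw [he] at h1
      haveI := h1.isNilpotent
      exact hMn inferInstance
    have hlt : Nat.card ((R : Subgroup M).map M.subtype) < Nat.card M := by
      refine lt_of_le_of_ne (Subgroup.card_le_of_le hS.1) ?_
      intro he
      exact hRM (Subgroup.eq_of_le_of_card_ge hS.1 he.ge)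
    have hne : (R : Subgroup M).map M.subtype ⊔ (P : Subgroup G) ≠ ⊤ := by
      intro htop
      have h2 := card_sup_dvd_of_le_normalizer hR
      rw [htop, Subgroup.card_top, ← hGc] at h2
      have h3 := Nat.le_of_dvd (Nat.mul_pos Nat.card_pos Nat.card_pos) h2
      have h4 := Nat.le_of_mul_le_mul_right h3 Nat.card_pos
      omega
    have hnil := nil_of_proper hmax hne (hPd.trans (Subgroup.card_dvd_of_le le_sup_right))
    intro b hb
    rw [Subgroup.mem_centralizer_iff]
    intro a ha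
    obtain ⟨k, hk⟩ := P.isPGroup' ⟨a, ha⟩
    exact comm_in_nil hnil (Subgroup.mem_sup_right ha) (Subgroup.mem_sup_left hb)
      (k := k) (congrArg Subtype.val hk) (order_coprime hMp (hS.1 hb))
  have hPn : (P : Subgroup G).Normal := by
    rw [← Subgroup.normalizer_eq_top_iff, eq_top_iff, ← hMc.sup_eq_top, sup_le_iff]
    exact ⟨hcent.trans (Subgroup.centralizer_le_normalizer _), Subgroup.le_normalizer⟩
  exact hPb (hO _ hPn P.isPGroup')

theorem forward {p : ℕ} (hp : p.Prime) (hpG : p ∣ Nat.card G)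
    (hmax : ∀ M : Subgroup G, IsCoatom M → p ∣ Nat.card M → Group.IsNilpotent M) :
    Group.IsNilpotent G ∨ IsMinimalNonNilpotent G ∨
      ∃ Z K : Subgroup G, Z.Normal ∧ K.Normal ∧ Z ⊓ K = ⊥ ∧ Z ⊔ K = ⊤ ∧ Nat.card Z = p ∧
        IsMinimalNonNilpotent K ∧ ¬ p ∣ Nat.card K := by
  haveI : Fact p.Prime := ⟨hp⟩
  by_cases hnil : Group.IsNilpotent G
  · exact Or.inl hnil
  by_cases hmin : IsMinimalNonNilpotent G
  · exact Or.inr (Or.inl hmin)
  right; right
  have : ∃ H : Subgroup G, H ≠ ⊤ ∧ ¬ Group.IsNilpotent H := by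
    by_contra hcon
    push Not at hcon
    exact hmin ⟨hnil, hcon⟩
  obtain ⟨H, hHt, hHn⟩ := this
  obtain ⟨M, hM, hHM⟩ := (eq_top_or_exists_le_coatom H).resolve_left hHt
  have hMn : ¬ Group.IsNilpotent M := fun h => hHn (nil_of_le hHM h)
  have hMp : ¬ p ∣ Nat.card M := fun h => hMn (hmax M hM h)
  by_cases hQ : ∃ Q : Subgroup G, Q.Normal ∧ IsPGroup p Q ∧ Q ≠ ⊥
  · obtain ⟨Q, h1, h2, h3⟩ := hQ
    exact caseB hmax hM h1 h2 h3 hMp hMn
  · exfalso
    push Not at hQ
    exact caseA hpG hmax hM hQ hMp hMn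

theorem backward {p : ℕ} (hp : p.Prime)
    (h : Group.IsNilpotent G ∨ IsMinimalNonNilpotent G ∨
      ∃ Z K : Subgroup G, Z.Normal ∧ K.Normal ∧ Z ⊓ K = ⊥ ∧ Z ⊔ K = ⊤ ∧ Nat.card Z = p ∧
        IsMinimalNonNilpotent K ∧ ¬ p ∣ Nat.card K) :
    ∀ M : Subgroup G, IsCoatom M → p ∣ Nat.card M → Group.IsNilpotent M := by
  intro M hM hd
  rcases h with h | h | ⟨Z, K, hZn, hKn, hinf, hsup, hZc, hmin, hKp⟩
  · haveI := h
    infer_instance
  · exact h.2 M hM.1
  haveI : Fact p.Prime := ⟨hp⟩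
  obtain ⟨x, hx⟩ := exists_prime_orderOf_dvd_card' (G := M) p hd
  have hxsup : (x : G) ∈ Z ⊔ K := hsup ▸ Subgroup.mem_top _
  obtain ⟨z, hz, k, hk, hzk⟩ := Subgroup.mem_sup_of_normal_left.mp hxsup
  have hcomm : ∀ a ∈ Z, ∀ b ∈ K, Commute a b := fun a ha b hb =>
    Subgroup.commute_of_normal_of_disjoint Z K hZn hKn (disjoint_iff.mpr hinf) a b ha hb
  have hzp : z ^ p = 1 := by
    have : (⟨z, hz⟩ : Z) ^ Nat.card Z = 1 := pow_card_eq_one'
    rw [hZc] at this
    exact congrArg Subtype.val this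
  have hxp : (x : G) ^ p = 1 := by
    rw [← hx]
    exact_mod_cast congrArg Subtype.val (pow_orderOf_eq_one x)
  have hkp : k ^ p = 1 := by
    rw [← hzk, (hcomm z hz k hk).mul_pow, hzp, one_mul] at hxp
    exact hxp
  have hk1 : k = 1 := by
    have h1 : orderOf k ∣ p := orderOf_dvd_of_pow_eq_one hkp
    have h2 : orderOf k ∣ Nat.card K := Subgroup.orderOf_dvd_natCard K hk
    rcases (Nat.dvd_prime hp).mp h1 with h3 | h3
    · exact orderOf_eq_one_iff.mp h3
    · exact absurd (h3 ▸ h2) hKp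
  rw [hk1, mul_one] at hzk
  have hzord : orderOf z = p := by rw [hzk, Subgroup.orderOf_coe, hx]
  have hZle : Z ≤ M := by
    have h1 : Subgroup.zpowers z ≤ Z := Subgroup.zpowers_le.mpr hz
    have h2 : Z = Subgroup.zpowers z :=
      (Subgroup.eq_of_le_of_card_ge h1 (by rw [Nat.card_zpowers, hzord, hZc])).symm
    rw [h2, Subgroup.zpowers_le, hzk]
    exact x.2
  have hne : M.subgroupOf K ≠ ⊤ := by
    intro ht
    have hKM : K ≤ M := Subgroup.subgroupOf_eq_top.mp ht
    apply hM.1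
    rw [eq_top_iff, ← hsup]
    exact sup_le hZle hKM
  have hnilH := hmin.2 _ hne
  have hnil2 : Group.IsNilpotent (M ⊓ K : Subgroup G) := by
    haveI := hnilH
    have e := (M.subgroupOf K).equivMapOfInjective K.subtype K.subtype_injective
    rw [Subgroup.subgroupOf_map_subtype] at e
    exact Group.nilpotent_of_mulEquiv e
  have hnilZ : Group.IsNilpotent Z :=
    (IsPGroup.of_card (p := p) (n := 1) (by rw [hZc, pow_one])).isNilpotent
  haveI := hnil2
  haveI := hnilZ
  let f : Z × (M ⊓ K : Subgroup G) →* M :=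
    MonoidHom.noncommCoprod (Subgroup.inclusion hZle) (Subgroup.inclusion inf_le_left)
      (fun a b => by
        apply Subtype.ext
        exact hcomm a a.2 b b.2.2)
  refine Group.nilpotent_of_surjective f ?_
  intro m
  have hm : (m : G) ∈ Z ⊔ K := hsup ▸ Subgroup.mem_top _
  obtain ⟨z', hz', k', hk', he⟩ := Subgroup.mem_sup_of_normal_left.mp hm
  have hk'M : k' ∈ M := by
    have : k' = z'⁻¹ * m := by rw [← he]; group
    rw [this]
    exact mul_mem (inv_mem (hZle hz')) m.2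
  refine ⟨(⟨z', hz'⟩, ⟨k', ⟨hk'M, hk'⟩⟩), ?_⟩
  apply Subtype.ext
  exact he

end Cfsg.Agent.Lib.ClassSizes.MaxNil
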