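import Mathlib
import Cfsg.Agent.Lib.ClassSizes.KulSylow
import Cfsg.Agent.Lib.PGroup.Basic

/-! Basic combinatorics of the Sylow 3-subgroups of a finite group with `22` of them:
near pairs and lines. -/

set_option autoImplicit false

namespace Cfsg.Agent.Lib.ClassSizes.NThree

open Subgroup MulAction KulSylow
open scoped Classical

variable {G : Type*} [Group G] [Finite G]

theorem coe_smul (g : G) (α : Sylow 3 G) : ((g • α : Sylow 3 G) : Subgroup G) = cj g (α : Subgroup G) := rfl

theorem card_sylow_eq (α β : Sylow 3 G) : Nat.card (α : Subgroup G) = Nat.card (β : Subgroup G) := by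
  obtain ⟨g, rfl⟩ := MulAction.exists_smul_eq G α β
  rw [coe_smul, card_cj]

theorem eq_of_le {α β : Sylow 3 G} (h : (α : Subgroup G) ≤ β) : α = β := by
  apply Sylow.ext
  exact Subgroup.eq_of_le_of_card_ge h (card_sylow_eq β α).le

theorem smul_eq_of_mem {g : G} {γ : Sylow 3 G} (h : g ∈ (γ : Subgroup G)) : g • γ = γ := by
  apply Sylow.ext
  rw [coe_smul]
  exact cj_self h

theorem mem_of_smul_eq {F : Subgroup G} (hF : IsPGroup 3 F) {g : G} (hg : g ∈ F) {γ : Sylow 3 G}
    (h : g • γ = γ) : g ∈ (γ : Subgroup G) := by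
  have h1 : g ∈ F ⊓ normalizer (γ : Set G) := ⟨hg, Sylow.smul_eq_iff_mem_normalizer.1 h⟩
  rw [hF.inf_normalizer_sylow] at h1
  exact h1.2

/-- Two distinct Sylow subgroups meeting in a subgroup of index `3`. -/
def Near (α β : Sylow 3 G) : Prop :=
  α ≠ β ∧ Nat.card (α : Subgroup G) = 3 * Nat.card ↥((α : Subgroup G) ⊓ (β : Subgroup G))

theorem Near.symm {α β : Sylow 3 G} (h : Near α β) : Near β α := by
  refine ⟨h.1.symm, ?_⟩
  rw [inf_comm, card_sylow_eq β α]
  exact h.2

theorem Near.smul {α β : Sylow 3 G} (h : Near α β) (g : G) : Near (g • α) (g • β) := by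
  refine ⟨fun e => h.1 (smul_left_cancel g e), ?_⟩
  rw [coe_smul, coe_smul, ← cj_inf, card_cj, card_cj]
  exact h.2

variable [Fintype (Sylow 3 G)]

/-- The Sylow subgroups containing a given subgroup. -/
noncomputable def fixS (D : Subgroup G) : Finset (Sylow 3 G) :=
  Finset.univ.filter (fun γ => D ≤ (γ : Subgroup G))

theorem mem_fixS {D : Subgroup G} {γ : Sylow 3 G} : γ ∈ fixS D ↔ D ≤ (γ : Subgroup G) := by
  simp [fixS]

theorem smul_mem_fixS {D : Subgroup G} {γ : Sylow 3 G} (g : G) (h : γ ∈ fixS D) : g • γ ∈ fixS (cj g D) := by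
  rw [mem_fixS] at h ⊢
  rw [coe_smul]
  exact cj_le h

theorem card_fixS_modEq {D : Subgroup G} (hD : IsPGroup 3 D) :
    (fixS D).card ≡ Fintype.card (Sylow 3 G) [MOD 3] := by
  have h1 := hD.card_modEq_card_fixedPoints (Sylow 3 G)
  have h2 : Nat.card (fixedPoints D (Sylow 3 G)) = (fixS D).card := by
    have : fixedPoints D (Sylow 3 G) = ((fixS D : Finset (Sylow 3 G)) : Set (Sylow 3 G)) := by
      ext γ
      rw [hD.sylow_mem_fixedPoints_iff]
      simp [mem_fixS]
    rw [this]
    simp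
  rw [h2, Nat.card_eq_fintype_card] at h1
  exact h1.symm

/-- The line through two Sylow subgroups. -/
noncomputable def ln (α β : Sylow 3 G) : Finset (Sylow 3 G) :=
  fixS ((α : Subgroup G) ⊓ (β : Subgroup G))

theorem mem_ln {α β γ : Sylow 3 G} : γ ∈ ln α β ↔ (α : Subgroup G) ⊓ (β : Subgroup G) ≤ γ := mem_fixS

theorem left_mem_ln (α β : Sylow 3 G) : α ∈ ln α β := mem_ln.2 inf_le_left

theorem right_mem_ln (α β : Sylow 3 G) : β ∈ ln α β := mem_ln.2 inf_le_right

theorem inf_eq_of_mem {α β γ δ : Sylow 3 G} (h : Near α β) (hγ : γ ∈ ln α β) (hδ : δ ∈ ln α β) (hne : γ ≠ δ) :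
    (γ : Subgroup G) ⊓ (δ : Subgroup G) = (α : Subgroup G) ⊓ (β : Subgroup G) := by
  rw [mem_ln] at hγ hδ
  have hc : Nat.card (γ : Subgroup G) = 3 * Nat.card ↥((α : Subgroup G) ⊓ (β : Subgroup G)) := by
    rw [card_sylow_eq γ α]
    exact h.2
  rcases between (p := 3) (A := (α : Subgroup G) ⊓ (β : Subgroup G)) (B := (γ : Subgroup G))
      (C := (γ : Subgroup G) ⊓ (δ : Subgroup G)) (le_inf hγ hδ) inf_le_left hc with h1 | h1
  · exact h1
  · exfalso
    exact hne (eq_of_le (inf_eq_left.1 h1))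

theorem near_of_mem {α β γ δ : Sylow 3 G} (h : Near α β) (hγ : γ ∈ ln α β) (hδ : δ ∈ ln α β) (hne : γ ≠ δ) :
    Near γ δ := by
  refine ⟨hne, ?_⟩
  rw [inf_eq_of_mem h hγ hδ hne, card_sylow_eq γ α]
  exact h.2

theorem ln_eq_of_mem {α β γ δ : Sylow 3 G} (h : Near α β) (hγ : γ ∈ ln α β) (hδ : δ ∈ ln α β) (hne : γ ≠ δ) :
    ln γ δ = ln α β := by
  unfold ln
  rw [inf_eq_of_mem h hγ hδ hne]

theorem ln_comm (α β : Sylow 3 G) : ln α β = ln β α := by
  unfold ln
  rw [inf_comm]

theorem smul_mem_ln {α β γ : Sylow 3 G} (g : G) (h : γ ∈ ln α β) : g • γ ∈ ln (g • α) (g • β) := by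
  have := smul_mem_fixS g h
  rw [cj_inf] at this
  exact this

theorem mem_ln_smul {α β γ : Sylow 3 G} (g : G) : g • γ ∈ ln (g • α) (g • β) ↔ γ ∈ ln α β := by
  refine ⟨fun h => ?_, smul_mem_ln g⟩
  have := smul_mem_ln g⁻¹ h
  simpa [inv_smul_smul] using this

theorem card_ln_smul (α β : Sylow 3 G) (g : G) : (ln (g • α) (g • β)).card = (ln α β).card := by
  apply Finset.card_bij (fun γ _ => g⁻¹ • γ)
  · intro γ hγ
    have := smul_mem_ln g⁻¹ hγ
    simpa using this
  · intro a _ b _ h
    exact smul_left_cancel _ h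
  · intro γ hγ
    exact ⟨g • γ, smul_mem_ln g hγ, by simp⟩

/-- The core of a near pair is normal in each member. -/
theorem cj_inf_self {α β : Sylow 3 G} (h : Near α β) {g : G} (hg : g ∈ (α : Subgroup G)) :
    cj g ((α : Subgroup G) ⊓ (β : Subgroup G)) = (α : Subgroup G) ⊓ (β : Subgroup G) := by
  set D := (α : Subgroup G) ⊓ (β : Subgroup G) with hD
  have hle : D ≤ (α : Subgroup G) := inf_le_left
  have hi : (D.subgroupOf (α : Subgroup G)).index = 3 := by
    have h1 := Subgroup.card_mul_index (D.subgroupOf (α : Subgroup G))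
    have h2 : Nat.card (D.subgroupOf (α : Subgroup G)) = Nat.card D :=
      Nat.card_congr (subgroupOfEquivOfLe hle).toEquiv
    rw [h2, h.2] at h1
    have hpos : 0 < Nat.card D := Nat.card_pos
    nlinarith
  have hn : (D.subgroupOf (α : Subgroup G)).Normal :=
    Lib.PGroup.normal_of_index_eq_prime (p := 3) α.isPGroup' hi
  ext x
  rw [mem_cj]
  constructor
  · intro hx
    have hxα : g⁻¹ * x * g ∈ (α : Subgroup G) := hle hx
    have h3 := hn.conj_mem (⟨g⁻¹ * x * g, hxα⟩ : (α : Subgroup G))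
      (mem_subgroupOf.2 hx) (⟨g, hg⟩ : (α : Subgroup G))
    rw [mem_subgroupOf] at h3
    have e : g * (g⁻¹ * x * g) * g⁻¹ = x := by group
    simpa [e] using h3
  · intro hx
    have h3 := hn.conj_mem (⟨x, hle hx⟩ : (α : Subgroup G))
      (mem_subgroupOf.2 hx) (⟨g⁻¹, (α : Subgroup G).inv_mem hg⟩ : (α : Subgroup G))
    rw [mem_subgroupOf] at h3
    simpa using h3

theorem smul_mem_ln_of_mem {α β γ : Sylow 3 G} (h : Near α β) {g : G} (hg : g ∈ (α : Subgroup G))
    (hγ : γ ∈ ln α β) : g • γ ∈ ln α β := by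
  have h1 := smul_mem_fixS g hγ
  rw [cj_inf_self h hg] at h1
  exact h1

/-- Orbit-size formula for the action of a `3`-subgroup. -/
theorem card_orbit_inf {F : Subgroup G} (hF : IsPGroup 3 F) (γ : Sylow 3 G) :
    Nat.card (orbit F γ) * Nat.card ↥(F ⊓ (γ : Subgroup G)) = Nat.card F := by
  have hst : stabilizer F γ = ((γ : Subgroup G)).subgroupOf F := by
    ext g
    rw [mem_stabilizer_iff, mem_subgroupOf]
    constructor
    · intro h
      exact mem_of_smul_eq hF g.2 h
    · intro h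
      exact smul_eq_of_mem h
  have h1 : (stabilizer F γ).index = Nat.card (orbit F γ) := index_stabilizer F γ
  have h2 := Subgroup.card_mul_index (stabilizer F γ)
  rw [h1] at h2
  have h3 : Nat.card (stabilizer F γ) = Nat.card ↥(F ⊓ (γ : Subgroup G)) := by
    have e : ((γ : Subgroup G)).subgroupOf F = (F ⊓ (γ : Subgroup G)).subgroupOf F := by
      ext x
      simp [mem_subgroupOf]
    rw [hst, e]
    exact Nat.card_congr (subgroupOfEquivOfLe inf_le_left).toEquiv
  rw [mul_comm, ← h3, h2]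

/-- Near neighbours. -/
noncomputable def nb (α : Sylow 3 G) : Finset (Sylow 3 G) := Finset.univ.filter (fun β => Near α β)

theorem mem_nb {α β : Sylow 3 G} : β ∈ nb α ↔ Near α β := by simp [nb]

/-- The points at distance two. -/
noncomputable def xi (α : Sylow 3 G) : Finset (Sylow 3 G) :=
  Finset.univ.filter (fun β => β ≠ α ∧ ¬ Near α β)

theorem mem_xi {α β : Sylow 3 G} : β ∈ xi α ↔ β ≠ α ∧ ¬ Near α β := by simp [xi]

theorem card_nb_add_xi (α : Sylow 3 G) : (nb α).card + (xi α).card + 1 = Fintype.card (Sylow 3 G) := by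
  have h1 : Disjoint (nb α) (xi α) := by
    rw [Finset.disjoint_left]
    intro β h1 h2
    exact (mem_xi.1 h2).2 (mem_nb.1 h1)
  have h2 : α ∉ nb α ∪ xi α := by
    rw [Finset.mem_union, mem_nb, mem_xi]
    rintro (h | h)
    · exact h.1 rfl
    · exact h.1 rfl
  have h3 : insert α (nb α ∪ xi α) = Finset.univ := by
    ext β
    simp only [Finset.mem_insert, Finset.mem_union, mem_nb, mem_xi, Finset.mem_univ, iff_true]
    by_cases h : β = α
    · exact Or.inl h
    · by_cases h' : Near α β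
      · exact Or.inr (Or.inl h')
      · exact Or.inr (Or.inr ⟨h, h'⟩)
  rw [← Finset.card_univ, ← h3, Finset.card_insert_of_notMem h2, Finset.card_union_of_disjoint h1]

theorem nine_dvd_card_xi (α : Sylow 3 G) : 9 ∣ (xi α).card := by
  have hP : IsPGroup 3 (α : Subgroup G) := α.isPGroup'
  have := dvd_sum_orbits (K := (α : Subgroup G)) (xi α) (fun g a ha => by
      rw [mem_xi] at ha ⊢
      have hg : (g : G) • α = α := smul_eq_of_mem g.2
      refine ⟨fun e => ha.1 ?_, fun hn => ha.2 ?_⟩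
      · have e' : (g : G) • a = (g : G) • α := by
          rw [hg]
          exact e
        exact smul_left_cancel _ e'
      · have h2 := hn.smul ((g : G)⁻¹)
        have h3 : (g : G)⁻¹ • α = α := smul_eq_of_mem ((α : Subgroup G).inv_mem g.2)
        have h4 : (g : G)⁻¹ • (g • a) = a := by
          show (g : G)⁻¹ • ((g : G) • a) = a
          simp
        rw [h3, h4] at h2
        exact h2) (fun _ => 1) (fun _ _ => rfl) 9 1 (fun γ hγ => by
      rw [mem_xi] at hγ
      obtain ⟨k, hk⟩ := hP.card_orbit γ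
      have h1 := card_orbit_inf hP γ
      rw [hk] at h1 ⊢
      match k, h1 with
      | 0, h1 =>
        exfalso
        have h2 : Nat.card ↥((α : Subgroup G) ⊓ (γ : Subgroup G)) = Nat.card (α : Subgroup G) := by
          simpa using h1
        have h3 : (α : Subgroup G) ⊓ (γ : Subgroup G) = (α : Subgroup G) :=
          Subgroup.eq_of_le_of_card_ge inf_le_left h2.ge
        exact hγ.1 (eq_of_le (inf_eq_left.1 h3)).symm
      | 1, h1 =>
        exfalso
        apply hγ.2
        refine ⟨fun e => hγ.1 e.symm, ?_⟩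
        simpa using h1.symm
      | (k + 2), _ =>
        exact ⟨3 ^ k, by ring⟩) (fun _ _ => one_dvd _)
  simpa using this

end Cfsg.Agent.Lib.ClassSizes.NThree
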