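import Mathlib
import Cfsg.Agent.Lib.ClassSizes.NThree1

/-! Line sizes for a group with `22` Sylow 3-subgroups; all lines of size `4` is impossible. -/

set_option autoImplicit false

namespace Cfsg.Agent.Lib.ClassSizes.NThree

open Subgroup MulAction KulSylow
open scoped Classical

variable {G : Type*} [Group G] [Finite G] [Fintype (Sylow 3 G)]

/-- Neighbours along lines of size `s`. -/
noncomputable def nbS (α : Sylow 3 G) (s : ℕ) : Finset (Sylow 3 G) :=
  (nb α).filter (fun β => (ln α β).card = s)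

theorem mem_nbS {α β : Sylow 3 G} {s : ℕ} : β ∈ nbS α s ↔ Near α β ∧ (ln α β).card = s := by
  simp [nbS, mem_nb]

/-- Lines of size `s` through a point. -/
noncomputable def Lat (α : Sylow 3 G) (s : ℕ) : Finset (Finset (Sylow 3 G)) := (nbS α s).image (ln α)

theorem mem_Lat {α : Sylow 3 G} {s : ℕ} {ℓ : Finset (Sylow 3 G)} :
    ℓ ∈ Lat α s ↔ ∃ β, Near α β ∧ (ln α β).card = s ∧ ln α β = ℓ := by
  simp only [Lat, Finset.mem_image, mem_nbS]
  constructor
  · rintro ⟨β, ⟨h1, h2⟩, h3⟩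
    exact ⟨β, h1, h2, h3⟩
  · rintro ⟨β, h1, h2, h3⟩
    exact ⟨β, ⟨h1, h2⟩, h3⟩

theorem card_nbS (α : Sylow 3 G) (s : ℕ) : (nbS α s).card = (s - 1) * (Lat α s).card := by
  rw [Finset.card_eq_sum_card_fiberwise (f := ln α) (s := nbS α s) (t := Lat α s)
    (fun β hβ => Finset.mem_image_of_mem _ hβ)]
  rw [Finset.sum_const_nat (m := s - 1)]
  · ring
  intro ℓ hℓ
  obtain ⟨β, h1, h2, rfl⟩ := mem_Lat.1 hℓ
  have h3 : (nbS α s).filter (fun γ => ln α γ = ln α β) = (ln α β).erase α := by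
    ext γ
    simp only [Finset.mem_filter, mem_nbS, Finset.mem_erase]
    constructor
    · rintro ⟨⟨h4, _⟩, h6⟩
      refine ⟨h4.1.symm, ?_⟩
      rw [← h6]
      exact right_mem_ln _ _
    · rintro ⟨h4, h5⟩
      have h6 := near_of_mem h1 (left_mem_ln _ _) h5 h4.symm
      have h7 := ln_eq_of_mem h1 (left_mem_ln _ _) h5 h4.symm
      refine ⟨⟨h6, ?_⟩, h7⟩
      rw [h7]
      exact h2
  rw [h3, Finset.card_erase_of_mem (left_mem_ln _ _), h2]

theorem card_nbS_smul (α : Sylow 3 G) (s : ℕ) (g : G) : (nbS (g • α) s).card = (nbS α s).card := by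
  apply Finset.card_bij (fun γ _ => g⁻¹ • γ)
  · intro γ hγ
    rw [mem_nbS] at hγ ⊢
    obtain ⟨h1, h2⟩ := hγ
    have h3 := h1.smul g⁻¹
    rw [inv_smul_smul] at h3
    refine ⟨h3, ?_⟩
    rw [← h2]
    have := card_ln_smul α (g⁻¹ • γ) g
    rw [smul_inv_smul] at this
    exact this.symm
  · intro a _ b _ h
    exact smul_left_cancel _ h
  · intro γ hγ
    rw [mem_nbS] at hγ
    refine ⟨g • γ, ?_, by simp⟩
    rw [mem_nbS]
    refine ⟨hγ.1.smul g, ?_⟩
    rw [card_ln_smul]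
    exact hγ.2

/-- All lines of size `s`. -/
noncomputable def Ls (s : ℕ) : Finset (Finset (Sylow 3 G)) :=
  (Finset.univ.filter (fun p : Sylow 3 G × Sylow 3 G => Near p.1 p.2 ∧ (ln p.1 p.2).card = s)).image
    (fun p => ln p.1 p.2)

theorem mem_Ls {s : ℕ} {ℓ : Finset (Sylow 3 G)} :
    ℓ ∈ Ls s ↔ ∃ α β, Near α β ∧ (ln α β).card = s ∧ ln α β = ℓ := by
  simp only [Ls, Finset.mem_image, Finset.mem_filter, Finset.mem_univ, true_and, Prod.exists]
  constructor
  · rintro ⟨α, β, ⟨h1, h2⟩, h3⟩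
    exact ⟨α, β, h1, h2, h3⟩
  · rintro ⟨α, β, h1, h2, h3⟩
    exact ⟨α, β, ⟨h1, h2⟩, h3⟩

theorem Lat_eq_filter (α : Sylow 3 G) (s : ℕ) : Lat α s = (Ls s).filter (fun ℓ => α ∈ ℓ) := by
  ext ℓ
  rw [mem_Lat, Finset.mem_filter, mem_Ls]
  constructor
  · rintro ⟨β, h1, h2, rfl⟩
    exact ⟨⟨α, β, h1, h2, rfl⟩, left_mem_ln _ _⟩
  · rintro ⟨⟨γ, δ, h1, h2, rfl⟩, h3⟩
    by_cases hγ : γ = α
    · subst hγ
      exact ⟨δ, h1, h2, rfl⟩
    · refine ⟨γ, near_of_mem h1 h3 (left_mem_ln _ _) (Ne.symm hγ), ?_, ln_eq_of_mem h1 h3 (left_mem_ln _ _) (Ne.symm hγ)⟩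
      rw [ln_eq_of_mem h1 h3 (left_mem_ln _ _) (Ne.symm hγ)]
      exact h2

theorem sum_Lat (s : ℕ) : ∑ α : Sylow 3 G, (Lat α s).card = ∑ ℓ ∈ (Ls s : Finset (Finset (Sylow 3 G))), ℓ.card := by
  have := Finset.sum_card_bipartiteAbove_eq_sum_card_bipartiteBelow (s := (Finset.univ : Finset (Sylow 3 G)))
    (t := (Ls s : Finset (Finset (Sylow 3 G)))) (fun α ℓ => α ∈ ℓ)
  simp only [Finset.bipartiteAbove, Finset.bipartiteBelow] at this
  simp only [Lat_eq_filter]
  rw [this]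
  apply Finset.sum_congr rfl
  intro ℓ _
  congr 1
  ext α
  simp

theorem card_Ls_mul (s : ℕ) : ∑ ℓ ∈ (Ls s : Finset (Finset (Sylow 3 G))), ℓ.card = s * (Ls s : Finset (Finset (Sylow 3 G))).card := by
  rw [Finset.sum_const_nat (m := s)]
  · ring
  intro ℓ hℓ
  obtain ⟨α, β, _, h2, rfl⟩ := mem_Ls.1 hℓ
  exact h2

theorem double_count (α : Sylow 3 G) {s : ℕ} (hs : 2 ≤ s) :
    Fintype.card (Sylow 3 G) * (Lat α s).card = s * (Ls s : Finset (Finset (Sylow 3 G))).card := by
  rw [← card_Ls_mul, ← sum_Lat]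
  have h1 : ∀ β : Sylow 3 G, (Lat β s).card = (Lat α s).card := by
    intro β
    obtain ⟨g, rfl⟩ := MulAction.exists_smul_eq G α β
    have h2 := card_nbS_smul α s g
    rw [card_nbS, card_nbS] at h2
    exact Nat.eq_of_mul_eq_mul_left (by omega) h2
  simp only [h1, Finset.sum_const, Finset.card_univ, smul_eq_mul]

/-- The line sizes are `4` or `22`. -/
theorem line_size (hΩ : Fintype.card (Sylow 3 G) = 22) {α β : Sylow 3 G} (h : Near α β) :
    (ln α β).card = 4 ∨ (ln α β).card = 22 := by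
  have hmod := card_fixS_modEq (D := (α : Subgroup G) ⊓ (β : Subgroup G)) ((α.isPGroup').to_le inf_le_left)
  rw [hΩ] at hmod
  change (ln α β).card ≡ 22 [MOD 3] at hmod
  have h2 : 1 < (ln α β).card := Finset.one_lt_card.2 ⟨α, left_mem_ln _ _, β, right_mem_ln _ _, h.1⟩
  have h3 : (ln α β).card ≤ 22 := by
    rw [← hΩ]
    exact Finset.card_le_univ _
  set s := (ln α β).card with hs
  have h4 : 1 ≤ (Lat α s).card := by
    apply Finset.card_pos.2
    exact ⟨ln α β, mem_Lat.2 ⟨β, h, hs.symm, rfl⟩⟩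
  have h5 := double_count α (s := s) h2
  rw [hΩ] at h5
  have h6 : (nbS α s).card ≤ 21 := by
    have h7 := card_nb_add_xi α
    rw [hΩ] at h7
    have h8 : (nbS α s).card ≤ (nb α).card := Finset.card_filter_le _ _
    omega
  rw [card_nbS] at h6
  set r := (Lat α s).card
  set L := (Ls s : Finset (Finset (Sylow 3 G))).card
  have hm : s % 3 = 1 := hmod
  clear_value s r L
  interval_cases s <;> first | omega | (exfalso; omega)

section partA

variable (hΩ : Fintype.card (Sylow 3 G) = 22) (hL : ∀ α β : Sylow 3 G, Near α β → (ln α β).card = 4)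
include hΩ hL

theorem nb_eq_nbS (α : Sylow 3 G) : nbS α 4 = nb α := by
  ext β
  rw [mem_nbS, mem_nb]
  exact ⟨fun h => h.1, fun h => ⟨h, hL _ _ h⟩⟩

theorem card_Lat_four (α : Sylow 3 G) : (Lat α 4).card = 4 := by
  have h1 := card_nbS α 4
  rw [nb_eq_nbS hΩ hL] at h1
  have h2 := double_count α (s := 4) (by norm_num)
  rw [hΩ] at h2
  have h3 := card_nb_add_xi α
  rw [hΩ] at h3
  obtain ⟨k, hk⟩ := nine_dvd_card_xi α
  omega

theorem card_nb_twelve (α : Sylow 3 G) : (nb α).card = 12 := by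
  have h1 := card_nbS α 4
  rw [nb_eq_nbS hΩ hL, card_Lat_four hΩ hL] at h1
  simpa using h1

omit hΩ in
/-- A 3-subgroup of a Sylow subgroup moving one point of a line acts transitively on the rest of the line. -/
theorem orbit_line {β δ γ : Sylow 3 G} (h1 : Near β δ) {F : Subgroup G} (hFle : F ≤ (β : Subgroup G))
    (hFδ : ¬ F ≤ (δ : Subgroup G)) (hγ : γ ∈ ln β δ) (hne : γ ≠ β) : ∃ g ∈ F, g • δ = γ := by
  have hF : IsPGroup 3 F := (β.isPGroup').to_le hFle
  obtain ⟨k, hk⟩ := hF.card_orbit δ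
  have hT : (((ln β δ).erase β : Finset (Sylow 3 G)) : Set (Sylow 3 G)).ncard = 3 := by
    rw [Set.ncard_coe_finset, Finset.card_erase_of_mem (left_mem_ln _ _), hL _ _ h1]
  have hsub : orbit F δ ⊆ (((ln β δ).erase β : Finset (Sylow 3 G)) : Set (Sylow 3 G)) := by
    rintro _ ⟨f, rfl⟩
    rw [Finset.mem_coe, Finset.mem_erase]
    have hfβ : (f : G) ∈ (β : Subgroup G) := hFle f.2
    refine ⟨fun e => ?_, smul_mem_ln_of_mem h1 hfβ (right_mem_ln _ _)⟩
    have e' : (f : G) • δ = (f : G) • β := by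
      rw [smul_eq_of_mem hfβ]
      exact e
    exact h1.1 (smul_left_cancel _ e').symm
  have hc := Set.ncard_le_ncard hsub (Set.toFinite _)
  rw [hT, ← Nat.card_coe_set_eq, hk] at hc
  have hk1 : k ≤ 1 := by
    by_contra hcon
    have : 3 ^ 2 ≤ 3 ^ k := Nat.pow_le_pow_right (by norm_num) (by omega)
    omega
  interval_cases k
  · exfalso
    apply hFδ
    intro f hf
    have h3 : Nat.card (orbit F δ) = 1 := by simpa using hk
    have h4 : Subsingleton (orbit F δ) := by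
      rw [Nat.card_eq_one_iff_unique] at h3
      exact h3.1
    have h5 := h4.elim ⟨(⟨f, hf⟩ : F) • δ, mem_orbit _ _⟩ ⟨δ, mem_orbit_self _⟩
    have h6 : (f : G) • δ = δ := congrArg Subtype.val h5
    exact mem_of_smul_eq hF hf h6
  · have h3 : orbit F δ = (((ln β δ).erase β : Finset (Sylow 3 G)) : Set (Sylow 3 G)) := by
      apply Set.eq_of_subset_of_ncard_le hsub
      rw [hT, ← Nat.card_coe_set_eq, hk]
      norm_num
    have h4 : γ ∈ orbit F δ := by
      rw [h3, Finset.mem_coe, Finset.mem_erase]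
      exact ⟨hne, hγ⟩
    obtain ⟨f, hf⟩ := h4
    exact ⟨f, f.2, hf⟩

omit hΩ in
/-- If a point off a line is near two points of the line, it is near all of them. -/
theorem line_rule {β δ ξ γ : Sylow 3 G} (h1 : Near β δ) (h2 : Near β ξ) (h3 : Near δ ξ) (hξ : ξ ∉ ln β δ)
    (hγ : γ ∈ ln β δ) : Near γ ξ := by
  by_cases hγβ : γ = β
  · rw [hγβ]
    exact h2
  have hFδ : ¬ (β : Subgroup G) ⊓ (ξ : Subgroup G) ≤ (δ : Subgroup G) := by
    intro hle
    have h4 : (β : Subgroup G) ⊓ (ξ : Subgroup G) ≤ (β : Subgroup G) ⊓ (δ : Subgroup G) := le_inf inf_le_left hle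
    have h5 : Nat.card ↥((β : Subgroup G) ⊓ (δ : Subgroup G)) = Nat.card ↥((β : Subgroup G) ⊓ (ξ : Subgroup G)) := by
      have h6 := h1.2
      have h7 := h2.2
      omega
    have h8 := Subgroup.eq_of_le_of_card_ge h4 h5.le
    apply hξ
    rw [mem_ln, ← h8]
    exact inf_le_right
  obtain ⟨g, hg, hgδ⟩ := orbit_line hL h1 inf_le_left hFδ hγ hγβ
  have h9 := h3.smul g
  rw [hgδ, smul_eq_of_mem hg.2] at h9
  exact h9

theorem exists_common {α β : Sylow 3 G} (h : Near α β) : ∃ γ, γ ∉ ln α β ∧ Near α γ ∧ Near β γ := by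
  by_contra hcon
  push_neg at hcon
  have hc4 := hL _ _ h
  have hcx : ∀ x ∈ ln α β, (nb x \ ln α β).card = 9 := by
    intro x hx
    have h1 : nb x \ ln α β = nb x \ ((ln α β).erase x) := by
      ext y
      simp only [Finset.mem_sdiff, Finset.mem_erase, mem_nb]
      constructor
      · rintro ⟨h2, h3⟩
        exact ⟨h2, fun h4 => h3 h4.2⟩
      · rintro ⟨h2, h3⟩
        exact ⟨h2, fun h4 => h3 ⟨h2.1.symm, h4⟩⟩
    have h2 : (ln α β).erase x ⊆ nb x := by
      intro y hy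
      rw [Finset.mem_erase] at hy
      rw [mem_nb]
      exact near_of_mem h hx hy.2 hy.1.symm
    rw [h1, Finset.card_sdiff_of_subset h2, card_nb_twelve hΩ hL, Finset.card_erase_of_mem hx, hc4]
  obtain ⟨δ, hδ, hδne⟩ : ∃ δ ∈ ln α β, δ ∉ ({α, β} : Finset (Sylow 3 G)) := by
    apply Finset.exists_mem_notMem_of_card_lt_card
    rw [hc4]
    exact lt_of_le_of_lt Finset.card_le_two (by norm_num)
  simp only [Finset.mem_insert, Finset.mem_singleton, not_or] at hδne
  have hα := left_mem_ln α β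
  have hβ := right_mem_ln α β
  have hd1 : Disjoint (nb α \ ln α β) (nb β \ ln α β) := by
    rw [Finset.disjoint_left]
    intro y hy hy'
    rw [Finset.mem_sdiff, mem_nb] at hy hy'
    exact hcon y hy.2 hy.1 hy'.1
  have hd2 : Disjoint (nb α \ ln α β) (nb δ \ ln α β) := by
    rw [Finset.disjoint_left]
    intro y hy hy'
    rw [Finset.mem_sdiff, mem_nb] at hy hy'
    have hl := ln_eq_of_mem h hα hδ (Ne.symm hδne.1)
    have h1 := line_rule hL (near_of_mem h hα hδ (Ne.symm hδne.1)) hy.1 hy'.1 (by rw [hl]; exact hy.2)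
      (γ := β) (by rw [hl]; exact hβ)
    exact hcon y hy.2 hy.1 h1
  have hd3 : Disjoint (nb β \ ln α β) (nb δ \ ln α β) := by
    rw [Finset.disjoint_left]
    intro y hy hy'
    rw [Finset.mem_sdiff, mem_nb] at hy hy'
    have hl := ln_eq_of_mem h hβ hδ (Ne.symm hδne.2)
    have h1 := line_rule hL (near_of_mem h hβ hδ (Ne.symm hδne.2)) hy.1 hy'.1 (by rw [hl]; exact hy.2)
      (γ := α) (by rw [hl]; exact hα)
    exact hcon y hy.2 h1 hy.1
  have hsub : ((nb α \ ln α β) ∪ (nb β \ ln α β)) ∪ (nb δ \ ln α β) ⊆ Finset.univ \ ln α β := by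
    intro y hy
    simp only [Finset.mem_union, Finset.mem_sdiff] at hy
    simp only [Finset.mem_sdiff, Finset.mem_univ, true_and]
    tauto
  have hc := Finset.card_le_card hsub
  rw [Finset.card_union_of_disjoint (by
      rw [Finset.disjoint_union_left]
      exact ⟨hd2, hd3⟩), Finset.card_union_of_disjoint hd1, hcx α hα, hcx β hβ, hcx δ hδ,
    Finset.card_sdiff_of_subset (Finset.subset_univ _), Finset.card_univ, hΩ, hc4] at hc
  omega

theorem near_trans {α β ξ : Sylow 3 G} (h₁ : Near α β) (h₂ : Near β ξ) (hne : ξ ≠ α) : Near α ξ := by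
  by_cases hξ : ξ ∈ ln α β
  · exact near_of_mem h₁ (left_mem_ln _ _) hξ hne.symm
  obtain ⟨γ, hγ, hαγ, hβγ⟩ := exists_common hΩ hL h₁
  have hβ : β ∉ ln α γ := by
    intro hb
    apply hγ
    rw [ln_eq_of_mem hαγ (left_mem_ln _ _) hb h₁.1]
    exact right_mem_ln _ _
  have hc3 : ((ln α γ).erase α).card = 3 := by
    rw [Finset.card_erase_of_mem (left_mem_ln _ _), hL _ _ hαγ]
  have hnc : ∀ c ∈ (ln α γ).erase α, Near β c := by
    intro c hc
    exact (line_rule hL hαγ h₁ hβγ.symm hβ (Finset.mem_erase.1 hc).2).symm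
  have hlab : ln β α = ln α β := ln_comm _ _
  have hb : ∀ c ∈ (ln α γ).erase α, ln β c ≠ ln β α := by
    intro c hc e
    rw [Finset.mem_erase] at hc
    have h1 : c ∈ ln α β := by
      rw [← hlab, ← e]
      exact right_mem_ln _ _
    have h2 := ln_eq_of_mem h₁ (left_mem_ln _ _) h1 (Ne.symm hc.1)
    have h3 := ln_eq_of_mem hαγ (left_mem_ln _ _) hc.2 (Ne.symm hc.1)
    apply hγ
    rw [← h2, h3]
    exact right_mem_ln _ _
  have hcc : ∀ c ∈ (ln α γ).erase α, ∀ c' ∈ (ln α γ).erase α, c ≠ c' → ln β c ≠ ln β c' := by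
    intro c hc c' hc' hne' e
    have h1 := hnc c hc
    rw [Finset.mem_erase] at hc hc'
    have h2 : c' ∈ ln β c := by
      rw [e]
      exact right_mem_ln _ _
    have h3 := ln_eq_of_mem h1 (right_mem_ln _ _) h2 hne'
    have h4 := ln_eq_of_mem hαγ hc.2 hc'.2 hne'
    apply hβ
    rw [← h4, h3]
    exact left_mem_ln _ _
  obtain ⟨c₁, c₂, c₃, h12, h13, h23, heq⟩ := Finset.card_eq_three.1 hc3
  have hm1 : c₁ ∈ (ln α γ).erase α := by rw [heq]; simp
  have hm2 : c₂ ∈ (ln α γ).erase α := by rw [heq]; simp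
  have hm3 : c₃ ∈ (ln α γ).erase α := by rw [heq]; simp
  have hsub : ({ln β α, ln β c₁, ln β c₂, ln β c₃} : Finset (Finset (Sylow 3 G))) ⊆ Lat β 4 := by
    intro ℓ hℓ
    simp only [Finset.mem_insert, Finset.mem_singleton] at hℓ
    rw [mem_Lat]
    rcases hℓ with rfl | rfl | rfl | rfl
    · exact ⟨α, h₁.symm, hL _ _ h₁.symm, rfl⟩
    · exact ⟨c₁, hnc _ hm1, hL _ _ (hnc _ hm1), rfl⟩
    · exact ⟨c₂, hnc _ hm2, hL _ _ (hnc _ hm2), rfl⟩
    · exact ⟨c₃, hnc _ hm3, hL _ _ (hnc _ hm3), rfl⟩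
  have hcard : ({ln β α, ln β c₁, ln β c₂, ln β c₃} : Finset (Finset (Sylow 3 G))).card = 4 := by
    rw [Finset.card_insert_of_notMem, Finset.card_insert_of_notMem, Finset.card_insert_of_notMem,
      Finset.card_singleton]
    · rw [Finset.mem_singleton]
      exact hcc _ hm2 _ hm3 h23
    · simp only [Finset.mem_insert, Finset.mem_singleton, not_or]
      exact ⟨hcc _ hm1 _ hm2 h12, hcc _ hm1 _ hm3 h13⟩
    · simp only [Finset.mem_insert, Finset.mem_singleton, not_or]
      exact ⟨(hb _ hm1).symm, (hb _ hm2).symm, (hb _ hm3).symm⟩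
  have heqL : ({ln β α, ln β c₁, ln β c₂, ln β c₃} : Finset (Finset (Sylow 3 G))) = Lat β 4 := by
    apply Finset.eq_of_subset_of_card_le hsub
    rw [card_Lat_four hΩ hL, hcard]
  have hξL : ln β ξ ∈ Lat β 4 := mem_Lat.2 ⟨ξ, h₂, hL _ _ h₂, rfl⟩
  rw [← heqL] at hξL
  simp only [Finset.mem_insert, Finset.mem_singleton] at hξL
  have key : ∀ c ∈ (ln α γ).erase α, ln β ξ = ln β c → Near α ξ := by
    intro c hc e
    have hαc : α ∉ ln β c := by
      intro hac
      have h3 := ln_eq_of_mem (hnc c hc) (left_mem_ln _ _) hac h₁.1.symm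
      exact hb c hc h3.symm
    have h4 : Near c α := by
      have := hc
      rw [Finset.mem_erase] at this
      exact near_of_mem hαγ this.2 (left_mem_ln _ _) this.1
    have h5 : ξ ∈ ln β c := by
      rw [← e]
      exact right_mem_ln _ _
    exact (line_rule hL (hnc c hc) h₁.symm h4 hαc h5).symm
  rcases hξL with e | e | e | e
  · exfalso
    apply hξ
    rw [← hlab, ← e]
    exact right_mem_ln _ _
  · exact key _ hm1 e
  · exact key _ hm2 e
  · exact key _ hm3 e

/-- All lines of size `4` is impossible. -/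
theorem partA (α : Sylow 3 G) : False := by
  have h1 := card_nb_add_xi α
  rw [hΩ, card_nb_twelve hΩ hL] at h1
  obtain ⟨ξ, hξ⟩ : (xi α).Nonempty := by
    apply Finset.card_pos.1
    omega
  rw [mem_xi] at hξ
  have hd : Disjoint (insert α (nb α)) (insert ξ (nb ξ)) := by
    rw [Finset.disjoint_left]
    intro y hy hy'
    simp only [Finset.mem_insert, mem_nb] at hy hy'
    rcases hy with rfl | hy
    · rcases hy' with e | hy'
      · exact hξ.1 e.symm
      · exact hξ.2 hy'.symm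
    · rcases hy' with rfl | hy'
      · exact hξ.2 hy
      · exact hξ.2 (near_trans hΩ hL hy hy'.symm hξ.1)
  have hc := Finset.card_le_univ (insert α (nb α) ∪ insert ξ (nb ξ))
  rw [Finset.card_union_of_disjoint hd, Finset.card_insert_of_notMem, Finset.card_insert_of_notMem,
    card_nb_twelve hΩ hL, card_nb_twelve hΩ hL, hΩ] at hc
  · omega
  · rw [mem_nb]
    exact fun h => h.1 rfl
  · rw [mem_nb]
    exact fun h => h.1 rfl

end partA

/-- Some near pair exists. -/
theorem exists_near (hΩ : Fintype.card (Sylow 3 G) = 22) (α : Sylow 3 G) : ∃ β, Near α β := by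
  have h1 := card_nb_add_xi α
  rw [hΩ] at h1
  obtain ⟨k, hk⟩ := nine_dvd_card_xi α
  obtain ⟨β, hβ⟩ : (nb α).Nonempty := by
    apply Finset.card_pos.1
    omega
  exact ⟨β, mem_nb.1 hβ⟩

/-- In the faithful case there is a line of size `22`, so the Sylow subgroups have order `3`. -/
theorem card_sylow_three (hΩ : Fintype.card (Sylow 3 G) = 22)
    (hf : ∀ g : G, (∀ Q : Sylow 3 G, g • Q = Q) → g = 1) (α : Sylow 3 G) :
    Nat.card (α : Subgroup G) = 3 := by
  by_cases hL : ∀ α β : Sylow 3 G, Near α β → (ln α β).card = 4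
  · exact (partA hΩ hL α).elim
  push_neg at hL
  obtain ⟨γ, δ, h1, h2⟩ := hL
  have h3 := (line_size hΩ h1).resolve_left h2
  have h4 : ln γ δ = Finset.univ := by
    apply Finset.eq_univ_of_card
    rw [h3, hΩ]
  have h5 : (γ : Subgroup G) ⊓ (δ : Subgroup G) = ⊥ := by
    rw [eq_bot_iff]
    intro g hg
    rw [mem_bot]
    apply hf
    intro Q
    apply smul_eq_of_mem
    have h6 : Q ∈ ln γ δ := by
      rw [h4]
      exact Finset.mem_univ _
    exact (mem_ln.1 h6) hg
  have h6 := h1.2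
  rw [h5] at h6
  rw [card_sylow_eq α γ, h6]
  simp

end Cfsg.Agent.Lib.ClassSizes.NThree
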