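import Mathlib

/-! Generic tools: the action on the orbits of a normal subgroup, free actions, and centralizers of
subgroups of prime order. -/

set_option autoImplicit false

namespace Cfsg.Agent.Lib.ClassSizes.NThree

open Subgroup MulAction
open scoped Classical

section QuotAct

variable {C T : Type*} [Group C] [MulAction C T] (P : Subgroup C) [hP : P.Normal]

theorem orb_rel_smul (g : C) {a b : T} (h : (orbitRel P T) a b) : (orbitRel P T) (g • a) (g • b) := by
  rw [orbitRel_apply] at h ⊢
  obtain ⟨p, rfl⟩ := h
  refine ⟨⟨g * p * g⁻¹, hP.conj_mem _ p.2 g⟩, ?_⟩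
  show (g * p * g⁻¹) • (g • b) = g • ((p : C) • b)
  simp [mul_smul]

/-- The action on orbits of a normal subgroup. -/
noncomputable instance qAct : MulAction C (orbitRel.Quotient P T) where
  smul g q := Quotient.map' (fun t => g • t) (fun _ _ h => orb_rel_smul P g h) q
  one_smul q := by
    induction q using Quotient.inductionOn' with
    | h t =>
      show Quotient.mk'' ((1 : C) • t) = _
      rw [one_smul]
  mul_smul a b q := by
    induction q using Quotient.inductionOn' with
    | h t =>
      show Quotient.mk'' ((a * b) • t) = _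
      rw [mul_smul]
      rfl

theorem qAct_mk (g : C) (t : T) :
    g • (Quotient.mk'' t : orbitRel.Quotient P T) = Quotient.mk'' (g • t) := rfl

theorem qAct_eq_iff (g : C) (t : T) :
    g • (Quotient.mk'' t : orbitRel.Quotient P T) = Quotient.mk'' t ↔ g • t ∈ orbit P t := by
  rw [qAct_mk, ← orbitRel_apply]
  exact Quotient.eq''

end QuotAct

/-- A free action: the size of the set is the size of the group times the number of orbits. -/
theorem card_eq_mul_quot {P T : Type*} [Group P] [MulAction P T] [Finite P] [Finite T]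
    (hfree : ∀ (p : P) (t : T), p • t = t → p = 1) :
    Nat.card T = Nat.card P * Nat.card (orbitRel.Quotient P T) := by
  haveI : Fintype (orbitRel.Quotient P T) := Fintype.ofFinite _
  rw [Nat.card_congr (selfEquivSigmaOrbits' P T), Nat.card_sigma]
  rw [Finset.sum_const_nat (m := Nat.card P)]
  · rw [Finset.card_univ, ← Nat.card_eq_fintype_card, mul_comm]
  intro ω _
  induction ω using Quotient.inductionOn' with
  | h t =>
    rw [show orbitRel.Quotient.orbit (Quotient.mk'' t : orbitRel.Quotient P T) = orbit P t from
      orbitRel.Quotient.orbit_mk t]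
    symm
    apply Nat.card_congr
    refine Equiv.ofBijective (fun p => ⟨p • t, mem_orbit _ _⟩) ⟨?_, ?_⟩
    · intro a b hab
      have h1 : a • t = b • t := congrArg Subtype.val hab
      have h2 : (b⁻¹ * a) • t = t := by rw [mul_smul, h1, inv_smul_smul]
      have h3 := hfree _ _ h2
      rw [inv_mul_eq_one] at h3
      exact h3.symm
    · rintro ⟨_, p, rfl⟩
      exact ⟨p, rfl⟩

variable {G : Type*} [Group G] [Finite G]

theorem pow_smul_of_central {C T : Type*} [Group C] [MulAction C T] {g a : C} (hc : Commute a g) {t : T}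
    (h : g • t = a • t) (k : ℕ) : g ^ k • t = a ^ k • t := by
  induction k with
  | zero => simp
  | succ k ih =>
    have hc' : Commute a (g ^ k) := hc.pow_right k
    rw [pow_succ, mul_smul, h, ← mul_smul, ← hc'.eq, mul_smul, ih, ← mul_smul, ← pow_succ']

theorem isCommutative_of_card_prime {p : ℕ} [hp : Fact p.Prime] (A : Subgroup G) (hAc : Nat.card A = p) :
    A ≤ centralizer (A : Set G) := by
  haveI : IsCyclic A := isCyclic_of_prime_card hAc
  haveI : IsMulCommutative A := IsCyclic.isMulCommutative
  exact Subgroup.le_centralizer A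

/-- The centralizer of a Sylow subgroup of prime order, acting on a set on which the Sylow subgroup
acts freely. -/
theorem card_centralizer_eq {p : ℕ} [hp : Fact p.Prime] (A C : Subgroup G) (hAc : Nat.card A = p)
    (hle : A ≤ C) (hcomm : ∀ g ∈ C, ∀ a ∈ A, a * g = g * a)
    (hS : ∀ R : Subgroup G, IsPGroup p R → A ≤ R → R = A) {T : Type*} [Finite T]
    [MulAction C T]
    (hfaith : ∀ g : C, (∀ t : T, g • t = t) → g = 1)
    (hfree : ∀ g : C, (g : G) ∈ A → ∀ t : T, g • t = t → g = 1)
    (n : ℕ) (hn : Nat.card T = p * n) :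
    ∃ W : Subgroup (Equiv.Perm (Fin n)), Nat.card C = p * Nat.card W := by
  have hpp := hp.out
  let A₀ : Subgroup C := A.subgroupOf C
  have hA₀c : Nat.card A₀ = p := by
    rw [← hAc]
    exact Nat.card_congr (subgroupOfEquivOfLe hle).toEquiv
  have hcentral : ∀ (a : C), (a : G) ∈ A → ∀ g : C, Commute a g := by
    intro a ha g
    apply Subtype.ext
    exact hcomm g g.2 a ha
  haveI hN : A₀.Normal := by
    refine ⟨fun a ha g => ?_⟩
    have h1 := (hcentral a (mem_subgroupOf.1 ha) g).eq
    rw [← h1, mul_inv_cancel_right]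
    exact ha
  -- free action of `A₀`
  have hfree' : ∀ (a : A₀) (t : T), a • t = t → a = 1 := by
    intro a t h
    have h1 := hfree (a : C) (mem_subgroupOf.1 a.2) t (show (a : C) • t = t from h)
    exact Subtype.ext h1
  have hX : Nat.card (orbitRel.Quotient A₀ T) = n := by
    have h1 := card_eq_mul_quot hfree'
    rw [hA₀c, hn] at h1
    exact (Nat.eq_of_mul_eq_mul_left hpp.pos h1).symm
  let ψ : C →* Equiv.Perm (orbitRel.Quotient A₀ T) := toPermHom C _
  -- elements of the kernel have exponent `p`
  have hker : ∀ g ∈ ψ.ker, g ^ p = 1 := by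
    intro g hg
    apply hfaith
    intro t
    have h1 : ψ g (Quotient.mk'' t) = Quotient.mk'' t := by
      rw [MonoidHom.mem_ker.1 hg]
      rfl
    have h2 : g • t ∈ orbit A₀ t := (qAct_eq_iff A₀ g t).1 h1
    obtain ⟨a, ha⟩ := h2
    have h3 := pow_smul_of_central (hcentral (a : C) (mem_subgroupOf.1 a.2) g) (t := t) ha.symm p
    rw [h3]
    have h4 : ((a : C) ^ p) = 1 := by
      have h5 : a ^ p = 1 := by
        rw [← hA₀c]
        exact pow_card_eq_one'
      have h6 := congrArg (Subtype.val) h5
      simpa using h6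
    rw [h4, one_smul]
  have hAker : ∀ a : C, (a : G) ∈ A → a ∈ ψ.ker := by
    intro a ha
    rw [MonoidHom.mem_ker]
    ext q
    induction q using Quotient.inductionOn' with
    | h t =>
      have : a • (Quotient.mk'' t : orbitRel.Quotient A₀ T) = Quotient.mk'' t :=
        (qAct_eq_iff A₀ a t).2 ⟨⟨a, mem_subgroupOf.2 ha⟩, rfl⟩
      exact this
  have hK : (ψ.ker).map C.subtype = A := by
    apply hS
    · intro x
      obtain ⟨x, hx⟩ := x
      obtain ⟨y, hy, rfl⟩ := hx
      refine ⟨1, ?_⟩
      apply Subtype.ext
      have := hker y hy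
      have h2 := congrArg Subtype.val this
      simpa using h2
    · intro a ha
      exact ⟨⟨a, hle ha⟩, hAker _ ha, rfl⟩
  have hkc : Nat.card ψ.ker = p := by
    rw [← hAc, ← hK]
    exact (Subgroup.card_map_of_injective C.subtype_injective).symm
  let e : orbitRel.Quotient A₀ T ≃ Fin n := Finite.equivFinOfCardEq hX
  refine ⟨ψ.range.map (Equiv.permCongrHom e).toMonoidHom, ?_⟩
  rw [Subgroup.card_map_of_injective (Equiv.permCongrHom e).injective]
  have h1 := Subgroup.card_mul_index ψ.ker
  rw [Subgroup.index_ker, hkc] at h1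
  exact h1.symm

/-- The normalizer and centralizer of a subgroup of prime order. -/
theorem normalizer_eq_mul {p : ℕ} [hp : Fact p.Prime] (A : Subgroup G) (hAc : Nat.card A = p) :
    ∃ e, e ∣ p - 1 ∧ Nat.card (normalizer (A : Set G)) = e * Nat.card (centralizer (A : Set G)) := by
  haveI : IsCyclic A := isCyclic_of_prime_card hAc
  have key := card_dvd_of_injective _ (QuotientGroup.kerLift_injective A.normalizerMonoidHom)
  rw [normalizerMonoidHom_ker, ← index, ← relIndex, IsCyclic.card_mulAut, hAc, Nat.totient_prime hp.out] at key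
  refine ⟨_, key, ?_⟩
  have hle : centralizer (A : Set G) ≤ normalizer (A : Set G) := centralizer_le_normalizer _
  have h1 := Subgroup.card_mul_index ((centralizer (A : Set G)).subgroupOf (normalizer (A : Set G)))
  have h2 : Nat.card ((centralizer (A : Set G)).subgroupOf (normalizer (A : Set G))) = Nat.card (centralizer (A : Set G)) :=
    Nat.card_congr (subgroupOfEquivOfLe hle).toEquiv
  rw [h2] at h1
  rw [← h1, mul_comm]
  rfl

/-- Elements of prime order `p` when the Sylow `p`-subgroups have order `p`. -/
theorem card_filter_orderOf {H : Type*} [Group H] [Fintype H] {p : ℕ} [hp : Fact p.Prime]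
    (hc : ∀ S : Sylow p H, Nat.card (S : Subgroup H) = p) :
    (Finset.univ.filter (fun g : H => orderOf g = p)).card = Nat.card (Sylow p H) * (p - 1) := by
  haveI : Fintype (Sylow p H) := Fintype.ofFinite _
  let f : Sylow p H → Finset H := fun S => (Finset.univ.filter (fun g => g ∈ (S : Subgroup H))).erase 1
  have hmem : ∀ (S : Sylow p H) (g : H), g ∈ f S ↔ g ≠ 1 ∧ g ∈ (S : Subgroup H) := by
    intro S g
    simp [f]
  have hunion : Finset.univ.filter (fun g : H => orderOf g = p) = Finset.univ.biUnion f := by
    ext g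
    simp only [Finset.mem_filter, Finset.mem_univ, true_and, Finset.mem_biUnion, hmem]
    constructor
    · intro h
      have h1 : IsPGroup p (zpowers g) := by
        apply IsPGroup.of_card (n := 1)
        rw [Nat.card_zpowers, h, pow_one]
      obtain ⟨S, hS⟩ := h1.exists_le_sylow
      refine ⟨S, ?_, hS (mem_zpowers g)⟩
      rintro rfl
      rw [orderOf_one] at h
      exact hp.out.one_lt.ne h
    · rintro ⟨S, h1, h2⟩
      have h3 : orderOf g ∣ p := by
        rw [← hc S]
        exact Subgroup.orderOf_dvd_natCard _ h2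
      rcases (Nat.dvd_prime hp.out).1 h3 with h4 | h4
      · exact (h1 (orderOf_eq_one_iff.1 h4)).elim
      · exact h4
  have hdisj : ((Finset.univ : Finset (Sylow p H)) : Set (Sylow p H)).PairwiseDisjoint f := by
    intro S _ S' _ hne
    show Disjoint (f S) (f S')
    rw [Finset.disjoint_left]
    intro g hg hg'
    rw [hmem] at hg hg'
    apply hne
    have h1 : zpowers g ≤ (S : Subgroup H) := (zpowers_le).2 hg.2
    have h2 : zpowers g ≤ (S' : Subgroup H) := (zpowers_le).2 hg'.2
    have h3 : Nat.card (zpowers g) = p := by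
      rw [Nat.card_zpowers]
      have h3 : orderOf g ∣ p := by
        rw [← hc S]
        exact Subgroup.orderOf_dvd_natCard _ hg.2
      rcases (Nat.dvd_prime hp.out).1 h3 with h4 | h4
      · exact (hg.1 (orderOf_eq_one_iff.1 h4)).elim
      · exact h4
    have h4 : zpowers g = (S : Subgroup H) :=
      Subgroup.eq_of_le_of_card_ge h1 (by rw [hc S, h3])
    have h5 : zpowers g = (S' : Subgroup H) :=
      Subgroup.eq_of_le_of_card_ge h2 (by rw [hc S', h3])
    exact Sylow.ext (h4.symm.trans h5)
  rw [hunion, Finset.card_biUnion hdisj]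
  rw [Finset.sum_const_nat (m := p - 1)]
  · rw [Finset.card_univ, Nat.card_eq_fintype_card]
  intro S _
  have h1 : (Finset.univ.filter (fun g => g ∈ (S : Subgroup H))).card = p := by
    have h2 := hc S
    rw [Nat.card_eq_fintype_card, Fintype.card_subtype] at h2
    convert h2
  rw [Finset.card_erase_of_mem (by simp [one_mem]), h1]

end Cfsg.Agent.Lib.ClassSizes.NThree
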