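import Mathlib
import Cfsg.Agent.Lib.ClassSizes.NThree3

/-! Subgroups of `S₇` of order prime to `3` and divisible by `7` have order dividing `14`. -/

set_option autoImplicit false

namespace Cfsg.Agent.Lib.ClassSizes.NThree

open Subgroup MulAction
open scoped Classical

local instance fact7 : Fact (Nat.Prime 7) := ⟨by norm_num⟩

theorem seven_cycle {σ : Equiv.Perm (Fin 7)} (h : orderOf σ = 7) :
    (∀ a, σ a ≠ a) ∧ ∀ a b, ∃ i : ℤ, (σ ^ i) a = b := by
  have h1 : σ.IsCycle := Equiv.Perm.isCycle_of_prime_order'' (by simp; norm_num) (by simp [h])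
  have h2 : σ.support.card = 7 := by
    rw [← h1.orderOf, h]
  have h3 : σ.support = Finset.univ := by
    apply Finset.eq_univ_of_card
    rw [h2]
    simp
  have h4 : ∀ a, σ a ≠ a := by
    intro a
    have : a ∈ σ.support := by
      rw [h3]
      exact Finset.mem_univ _
    exact Equiv.Perm.mem_support.1 this
  refine ⟨h4, fun a b => ?_⟩
  exact h1.sameCycle (h4 a) (h4 b)

theorem comm_power {σ g : Equiv.Perm (Fin 7)} (h : orderOf σ = 7) (hc : Commute g σ) : ∃ i : ℤ, g = σ ^ i := by
  obtain ⟨h1, h2⟩ := seven_cycle h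
  obtain ⟨i, hi⟩ := h2 0 (g 0)
  refine ⟨i, ?_⟩
  ext b
  obtain ⟨j, rfl⟩ := h2 0 b
  have h3 : Commute g (σ ^ j) := hc.zpow_right j
  have h4 : g ((σ ^ j) 0) = (σ ^ j) (g 0) := by
    have := congrArg (fun f : Equiv.Perm (Fin 7) => f 0) h3.eq
    simpa using this
  rw [h4, ← hi]
  have h5 : Commute (σ ^ i) (σ ^ j) := (Commute.refl σ).zpow_zpow i j
  have h6 := congrArg (fun f : Equiv.Perm (Fin 7) => f 0) h5.eq
  simp only [Equiv.Perm.coe_mul, Function.comp_apply] at h6
  rw [h6]

variable (W : Subgroup (Equiv.Perm (Fin 7)))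

theorem card_dvd_560 (h3 : ¬ 3 ∣ Nat.card W) : Nat.card W ∣ 560 := by
  have h1 : Nat.card W ∣ 5040 := by
    have := Subgroup.card_subgroup_dvd_card W
    have h2 : Nat.card (Equiv.Perm (Fin 7)) = 5040 := by
      rw [Nat.card_eq_fintype_card, Fintype.card_perm, Fintype.card_fin]
      rfl
    rwa [h2] at this
  have h2 : Nat.Coprime (Nat.card W) 9 := by
    have h4 : Nat.Coprime (Nat.card W) 3 := (Nat.coprime_comm.1 ((Nat.Prime.coprime_iff_not_dvd Nat.prime_three).2 h3))
    exact Nat.Coprime.pow_right 2 h4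
  exact Nat.Coprime.dvd_of_dvd_mul_left h2 (by simpa using h1)

theorem sylow_facts (h3 : ¬ 3 ∣ Nat.card W) (h7 : 7 ∣ Nat.card W) :
    (∀ S : Sylow 7 W, Nat.card (S : Subgroup W) = 7) ∧
    ∃ N, (N = 7 ∨ N = 14) ∧ Nat.card (Sylow 7 W) * N = Nat.card W := by
  have h560 := card_dvd_560 W h3
  have hc : ∀ S : Sylow 7 W, Nat.card (S : Subgroup W) = 7 := by
    intro S
    obtain ⟨k, hk⟩ := IsPGroup.iff_card.1 S.isPGroup'
    have h1 : 7 ^ 1 ∣ Nat.card (S : Subgroup W) := S.pow_dvd_card_of_pow_dvd_card (by simpa using h7)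
    have h2 : Nat.card (S : Subgroup W) ∣ 560 := (Subgroup.card_subgroup_dvd_card _).trans h560
    rw [hk] at h1 h2 ⊢
    have hk1 : 1 ≤ k := (Nat.pow_dvd_pow_iff_le_right (by norm_num)).1 h1
    have hk2 : k < 2 := by
      by_contra hcon
      have h4 : 7 ^ 2 ∣ 7 ^ k := pow_dvd_pow 7 (by omega)
      have h5 := h4.trans h2
      norm_num at h5
    have : k = 1 := by omega
    rw [this, pow_one]
  refine ⟨hc, ?_⟩
  obtain ⟨S⟩ : Nonempty (Sylow 7 W) := inferInstance
  have hS := hc S
  refine ⟨Nat.card (normalizer ((S : Subgroup W) : Set W)), ?_, ?_⟩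
  · obtain ⟨e, he, hN⟩ := normalizer_eq_mul (p := 7) (S : Subgroup W) hS
    haveI : IsCyclic (S : Subgroup W) := isCyclic_of_prime_card hS
    obtain ⟨c, hcgen⟩ := IsCyclic.exists_generator (α := (S : Subgroup W))
    have hcord : orderOf ((c : W) : Equiv.Perm (Fin 7)) = 7 := by
      have h1 : orderOf c = 7 := (orderOf_eq_card_of_forall_mem_zpowers hcgen).trans hS
      have e1 : orderOf ((c : W) : Equiv.Perm (Fin 7)) = orderOf (c : W) :=
        Subgroup.orderOf_coe _
      have e2 : orderOf (c : W) = orderOf c := Subgroup.orderOf_coe _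
      exact e1.trans (e2.trans h1)
    have hC : centralizer ((S : Subgroup W) : Set W) = (S : Subgroup W) := by
      apply le_antisymm
      · intro g hg
        have h1 : Commute (g : W) (c : W) := by
          have := (Subgroup.mem_centralizer_iff.1 hg) (c : W) c.2
          exact this.symm
        have h2 : Commute ((g : W) : Equiv.Perm (Fin 7)) ((c : W) : Equiv.Perm (Fin 7)) := by
          have := congrArg (fun x : W => (x : Equiv.Perm (Fin 7))) h1.eq
          simpa [Commute, SemiconjBy] using this
        obtain ⟨i, hi⟩ := comm_power hcord h2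
        have h3 : g = (c : W) ^ i := by
          apply Subtype.ext
          rw [hi]
          simp
        rw [h3]
        exact (S : Subgroup W).zpow_mem c.2 i
      · exact isCommutative_of_card_prime _ hS
    rw [hC, hS] at hN
    have he3 : ¬ 3 ∣ e := by
      intro hd
      apply h3
      have h1 : Nat.card (normalizer ((S : Subgroup W) : Set W)) ∣ Nat.card W := Subgroup.card_subgroup_dvd_card _
      exact (hd.trans ⟨7, hN⟩).trans h1
    have he6 : e ≤ 6 := Nat.le_of_dvd (by norm_num) he
    have he1 : e = 1 ∨ e = 2 := by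
      interval_cases e <;> first | omega | (exfalso; revert he; decide) | (exfalso; apply he3; decide)
    rcases he1 with rfl | rfl
    · left
      simpa using hN
    · right
      simpa using hN
  · rw [Sylow.card_eq_index_normalizer S]
    rw [mul_comm]
    exact Subgroup.card_mul_index _

theorem W_cases (h3 : ¬ 3 ∣ Nat.card W) (h7 : 7 ∣ Nat.card W) :
    Nat.card W ∣ 14 ∨ (Nat.card W = 56 ∧ Nat.card (Sylow 7 W) = 8) ∨ Nat.card W = 112 := by
  obtain ⟨_, N, hN, hm⟩ := sylow_facts W h3 h7
  have h560 := card_dvd_560 W h3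
  have hmod : Nat.card (Sylow 7 W) % 7 = 1 := card_sylow_modEq_one 7 W
  set n := Nat.card (Sylow 7 W) with hn
  have hd : n ∣ 80 := by
    rw [← hm] at h560
    rcases hN with rfl | rfl
    · obtain ⟨k, hk⟩ := h560
      exact ⟨k, by nlinarith⟩
    · obtain ⟨k, hk⟩ := h560
      exact ⟨2 * k, by nlinarith⟩
  have hle : n ≤ 80 := Nat.le_of_dvd (by norm_num) hd
  clear_value n
  rw [← hm]
  rcases hN with rfl | rfl <;> interval_cases n <;> first | omega | (exfalso; revert hd; decide) | norm_num

theorem W_ne_56 (h3 : ¬ 3 ∣ Nat.card W) (h : Nat.card W = 56) : False := by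
  have h7 : 7 ∣ Nat.card W := by rw [h]; norm_num
  have h5 : Nat.card (Sylow 7 W) = 8 := by
    rcases W_cases W h3 h7 with h1 | h1 | h1
    · rw [h] at h1
      norm_num at h1
    · exact h1.2
    · omega
  obtain ⟨hc, _⟩ := sylow_facts W h3 h7
  haveI : Fintype W := Fintype.ofFinite _
  let E : Finset W := Finset.univ.filter (fun g => orderOf g = 7)
  have hE : E.card = 48 := by
    have := card_filter_orderOf (H := W) (p := 7) hc
    rw [h5] at this
    exact this
  have hW : Fintype.card W = 56 := by rw [← Nat.card_eq_fintype_card, h]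
  let F : Fin 7 → Finset W := fun a => Finset.univ.filter (fun g => (g : Equiv.Perm (Fin 7)) a = a)
  have hFE : ∀ a, Disjoint (F a) E := by
    intro a
    rw [Finset.disjoint_left]
    intro g hg hg'
    simp only [F, E, Finset.mem_filter, Finset.mem_univ, true_and] at hg hg'
    have h1 : orderOf (g : Equiv.Perm (Fin 7)) = 7 := (Subgroup.orderOf_coe g).trans hg'
    exact (seven_cycle h1).1 a hg
  -- transitivity
  obtain ⟨S⟩ : Nonempty (Sylow 7 W) := inferInstance
  haveI : IsCyclic (S : Subgroup W) := isCyclic_of_prime_card (hc S)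
  obtain ⟨c, hcgen⟩ := IsCyclic.exists_generator (α := (S : Subgroup W))
  have hcord : orderOf ((c : W) : Equiv.Perm (Fin 7)) = 7 := by
    have h1 : orderOf c = 7 := (orderOf_eq_card_of_forall_mem_zpowers hcgen).trans (hc S)
    have e1 : orderOf ((c : W) : Equiv.Perm (Fin 7)) = orderOf (c : W) :=
      Subgroup.orderOf_coe _
    have e2 : orderOf (c : W) = orderOf c := Subgroup.orderOf_coe _
    exact e1.trans (e2.trans h1)
  have htrans := (seven_cycle hcord).2
  have hFc : ∀ a, (F a).card = 8 := by
    intro a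
    have h1 : orbit W a = Set.univ := by
      ext b
      simp only [Set.mem_univ, iff_true]
      obtain ⟨i, hi⟩ := htrans a b
      refine ⟨(c : W) ^ i, ?_⟩
      show (((c : W) ^ i : W) : Equiv.Perm (Fin 7)) a = b
      rw [← hi]
      simp
    have h2 := index_stabilizer W a
    have h3' := Subgroup.card_mul_index (stabilizer W a)
    rw [h2, h1, h] at h3'
    have h4 : (Set.univ : Set (Fin 7)).ncard = 7 := by simp [Set.ncard_univ]
    rw [h4] at h3'
    have h5' : Nat.card (stabilizer W a) = (F a).card := by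
      rw [Nat.card_eq_fintype_card, Fintype.card_subtype]
      congr 1
    omega
  have hsub : ∀ a, F a = Finset.univ \ E := by
    intro a
    apply Finset.eq_of_subset_of_card_le
    · intro g hg
      rw [Finset.mem_sdiff]
      exact ⟨Finset.mem_univ _, Finset.disjoint_left.1 (hFE a) hg⟩
    · rw [Finset.card_sdiff_of_subset (Finset.subset_univ _), Finset.card_univ, hW, hE, hFc]
  have h8 : F 0 = {1} := by
    apply Finset.eq_singleton_iff_unique_mem.2
    refine ⟨?_, ?_⟩
    · simp [F]
    · intro g hg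
      apply Subtype.ext
      ext b
      have h9 : g ∈ F b := by
        rw [hsub b, ← hsub 0]
        exact hg
      simp only [F, Finset.mem_filter, Finset.mem_univ, true_and] at h9
      simp [h9]
  have := hFc 0
  rw [h8] at this
  simp at this

theorem W_ne_112 (h3 : ¬ 3 ∣ Nat.card W) (h : Nat.card W = 112) : False := by
  let χ : W →* ℤˣ := Equiv.Perm.sign.comp W.subtype
  have h1 : Nat.card χ.range = 2 := by
    have h2 : Nat.card χ.range ∣ Nat.card ℤˣ := Subgroup.card_subgroup_dvd_card _
    have h3' : Nat.card ℤˣ = 2 := by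
      rw [Nat.card_eq_fintype_card]
      rfl
    rw [h3'] at h2
    have h4 : Nat.card χ.range ≠ 1 := by
      intro h5
      have h6 : χ.range = ⊥ := Subgroup.eq_bot_of_card_eq _ h5
      have h7 : W ≤ alternatingGroup (Fin 7) := by
        intro g hg
        have h8 : χ ⟨g, hg⟩ ∈ χ.range := ⟨_, rfl⟩
        rw [h6, mem_bot] at h8
        exact h8
      have h9 := Subgroup.card_dvd_of_le h7
      have h10 := two_mul_nat_card_alternatingGroup (α := Fin 7)
      have h11 : Nat.card (Equiv.Perm (Fin 7)) = 5040 := by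
        rw [Nat.card_eq_fintype_card, Fintype.card_perm, Fintype.card_fin]
        rfl
      rw [h11] at h10
      have h12 : Nat.card (alternatingGroup (Fin 7)) = 2520 := by omega
      rw [h12, h] at h9
      norm_num at h9
    rcases (Nat.dvd_prime Nat.prime_two).1 h2 with h5 | h5
    · exact (h4 h5).elim
    · exact h5
  have h2 := Subgroup.card_mul_index χ.ker
  rw [Subgroup.index_ker, h1, h] at h2
  have h4 : Nat.card χ.ker = 56 := by omega
  apply W_ne_56 (χ.ker.map W.subtype)
  · rw [Subgroup.card_map_of_injective W.subtype_injective, h4]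
    norm_num
  · rw [Subgroup.card_map_of_injective W.subtype_injective, h4]

/-- Subgroups of `S₇` of order prime to `3` and divisible by `7` have order dividing `14`. -/
theorem W_main (h3 : ¬ 3 ∣ Nat.card W) (h7 : 7 ∣ Nat.card W) : Nat.card W ∣ 14 := by
  rcases W_cases W h3 h7 with h | h | h
  · exact h
  · exact (W_ne_56 W h3 h.1).elim
  · exact (W_ne_112 W h3 h).elim

end Cfsg.Agent.Lib.ClassSizes.NThree
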