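import Mathlib
import Cfsg.Agent.Lib.ClassSizes.NThree1
import Cfsg.Agent.Lib.ClassSizes.NThree3
import Cfsg.Agent.Lib.ClassSizes.NThree4

/-! The faithful case with Sylow 3-subgroups of order `3`: the order of the group, and the number of
Sylow 11-subgroups. -/

set_option autoImplicit false

namespace Cfsg.Agent.Lib.ClassSizes.NThree

open Subgroup MulAction KulSylow
open scoped Classical

variable {G : Type*} [Group G] [Finite G]

theorem mem_of_smul_eq' {p : ℕ} [hp : Fact p.Prime] {F : Subgroup G} (hF : IsPGroup p F) {g : G} (hg : g ∈ F)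
    {γ : Sylow p G} (h : g • γ = γ) : g ∈ (γ : Subgroup G) := by
  have h1 : g ∈ F ⊓ normalizer (γ : Set G) := ⟨hg, Sylow.smul_eq_iff_mem_normalizer.1 h⟩
  rw [hF.inf_normalizer_sylow] at h1
  exact h1.2

theorem eq_of_mem_of_mem {p : ℕ} [hp : Fact p.Prime] {Q R : Sylow p G} (hc : Nat.card (Q : Subgroup G) = p)
    {g : G} (hg : g ∈ (Q : Subgroup G)) (hg' : g ∈ (R : Subgroup G)) (hne : g ≠ 1) : Q = R := by
  have h1 : orderOf g ∣ p := by
    rw [← hc]
    exact Subgroup.orderOf_dvd_natCard _ hg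
  have h2 : orderOf g = p := by
    rcases (Nat.dvd_prime hp.out).1 h1 with h4 | h4
    · exact (hne (orderOf_eq_one_iff.1 h4)).elim
    · exact h4
  have h3 : zpowers g = (Q : Subgroup G) :=
    Subgroup.eq_of_le_of_card_ge ((zpowers_le).2 hg) (by rw [hc, Nat.card_zpowers, h2])
  have h4 : (Q : Subgroup G) ≤ R := by
    rw [← h3]
    exact (zpowers_le).2 hg'
  exact (Sylow.ext (Q.is_maximal' R.isPGroup' h4)).symm

section

variable [Fintype (Sylow 3 G)] (hΩ : Fintype.card (Sylow 3 G) = 22)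
  (hf : ∀ g : G, (∀ Q : Sylow 3 G, g • Q = Q) → g = 1)
  (h3 : ∀ Q : Sylow 3 G, Nat.card (Q : Subgroup G) = 3)

theorem fix_eq (h3 : ∀ Q : Sylow 3 G, Nat.card (Q : Subgroup G) = 3) {Q R : Sylow 3 G} {g : G}
    (hg : g ∈ (Q : Subgroup G)) (hne : g ≠ 1) (h : g • R = R) : Q = R :=
  eq_of_mem_of_mem (h3 Q) hg (mem_of_smul_eq' Q.isPGroup' hg h) hne

omit [Finite G] [Fintype (Sylow 3 G)] in
theorem cent_smul {Q : Sylow 3 G} {g : G} (hg : g ∈ centralizer ((Q : Subgroup G) : Set G)) : g • Q = Q :=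
  Sylow.smul_eq_iff_mem_normalizer.2 (centralizer_le_normalizer _ hg)

/-- The action of the centralizer of `Q` on the other Sylow subgroups. -/
noncomputable instance actT (Q : Sylow 3 G) :
    MulAction (centralizer ((Q : Subgroup G) : Set G)) {β : Sylow 3 G // β ≠ Q} where
  smul g β := ⟨(g : G) • β.1, fun e => β.2 (by
    have h1 : (g : G) • β.1 = (g : G) • Q := by rw [e, cent_smul g.2]
    exact smul_left_cancel _ h1)⟩
  one_smul β := Subtype.ext (one_smul _ _)
  mul_smul a b β := Subtype.ext (mul_smul (a : G) (b : G) β.1)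

include hΩ hf h3

theorem cent_three (Q : Sylow 3 G) : ∃ W : Subgroup (Equiv.Perm (Fin 7)),
    Nat.card (centralizer ((Q : Subgroup G) : Set G)) = 3 * Nat.card W ∧ ¬ 3 ∣ Nat.card W := by
  have hT : Nat.card {β : Sylow 3 G // β ≠ Q} = 3 * 7 := by
    rw [Nat.card_eq_fintype_card, Fintype.card_subtype_compl, hΩ]
    simp
  obtain ⟨W, hW⟩ := card_centralizer_eq (p := 3) (Q : Subgroup G) (centralizer ((Q : Subgroup G) : Set G)) (h3 Q)
    (isCommutative_of_card_prime _ (h3 Q))
    (fun g hg a ha => Subgroup.mem_centralizer_iff.1 hg a ha)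
    (fun R hR hle => Q.is_maximal' hR hle)
    (T := {β : Sylow 3 G // β ≠ Q})
    (fun g hg => by
      apply Subtype.ext
      apply hf
      intro R
      by_cases hR : R = Q
      · rw [hR]
        exact cent_smul g.2
      · exact congrArg Subtype.val (hg ⟨R, hR⟩))
    (fun g hg t ht => by
      apply Subtype.ext
      by_contra hne
      exact t.2 (fix_eq h3 hg hne (congrArg Subtype.val ht)).symm) 7 hT
  refine ⟨W, hW, fun hd => ?_⟩
  have h9 : 3 ^ 2 ∣ Nat.card G := by
    have h1 : 3 ^ 2 ∣ Nat.card (centralizer ((Q : Subgroup G) : Set G)) := by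
      rw [hW, pow_two]
      exact mul_dvd_mul_left 3 hd
    exact h1.trans (Subgroup.card_subgroup_dvd_card _)
  have h10 := Q.pow_dvd_card_of_pow_dvd_card h9
  rw [h3 Q] at h10
  norm_num at h10

theorem order_struct (Q : Sylow 3 G) : ∃ e m, e ∣ 2 ∧ m ∣ 560 ∧ (7 ∣ m → m ∣ 14) ∧
    Nat.card (centralizer ((Q : Subgroup G) : Set G)) = 3 * m ∧ Nat.card G = 66 * (e * m) := by
  obtain ⟨W, hW, hW3⟩ := cent_three hΩ hf h3 Q
  obtain ⟨e, he, hN⟩ := normalizer_eq_mul (p := 3) (Q : Subgroup G) (h3 Q)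
  refine ⟨e, Nat.card W, he, card_dvd_560 W hW3, W_main W hW3, hW, ?_⟩
  have h1 := Subgroup.card_mul_index (normalizer ((Q : Subgroup G) : Set G))
  have h2 : (normalizer ((Q : Subgroup G) : Set G)).index = 22 := by
    rw [← hΩ, ← Nat.card_eq_fintype_card]
    exact (Sylow.card_eq_index_normalizer Q).symm
  rw [h2, hN, hW] at h1
  rw [← h1]
  ring

end

section eleven

local instance fact11 : Fact (Nat.Prime 11) := ⟨by norm_num⟩

variable {M : ℕ} [Fintype (Sylow 3 G)] (hΩ : Fintype.card (Sylow 3 G) = 22)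
  (hf : ∀ g : G, (∀ Q : Sylow 3 G, g • Q = Q) → g = 1)
  (h3 : ∀ Q : Sylow 3 G, Nat.card (Q : Subgroup G) = 3)
  (hG : Nat.card G = 66 * M) (hM : ¬ 11 ∣ M)

include hG hM

omit [Fintype (Sylow 3 G)] in
theorem card_L (L : Sylow 11 G) : Nat.card (L : Subgroup G) = 11 := by
  obtain ⟨k, hk⟩ := IsPGroup.iff_card.1 L.isPGroup'
  have h1 : 11 ^ 1 ∣ Nat.card (L : Subgroup G) := L.pow_dvd_card_of_pow_dvd_card (by
    rw [hG]
    exact ⟨6 * M, by ring⟩)
  have h2 : Nat.card (L : Subgroup G) ∣ 66 * M := by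
    rw [← hG]
    exact Subgroup.card_subgroup_dvd_card _
  rw [hk] at h1 h2 ⊢
  have hk1 : 1 ≤ k := (Nat.pow_dvd_pow_iff_le_right (by norm_num)).1 h1
  have hk2 : k < 2 := by
    by_contra hcon
    have h4 : 11 ^ 2 ∣ 11 ^ k := pow_dvd_pow 11 (by omega)
    have h5 := h4.trans h2
    have h6 : 121 ∣ 66 * M := by simpa using h5
    apply hM
    omega
  have : k = 1 := by omega
  rw [this, pow_one]

include hΩ in
theorem free_L (L : Sylow 11 G) {g : G} (hg : g ∈ (L : Subgroup G)) (R : Sylow 3 G) (h : g • R = R) : g = 1 := by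
  have hN : g ∈ normalizer ((R : Subgroup G) : Set G) := Sylow.smul_eq_iff_mem_normalizer.1 h
  have h1 := Subgroup.card_mul_index (normalizer ((R : Subgroup G) : Set G))
  have h2 : (normalizer ((R : Subgroup G) : Set G)).index = 22 := by
    rw [← hΩ, ← Nat.card_eq_fintype_card]
    exact (Sylow.card_eq_index_normalizer R).symm
  rw [h2, hG] at h1
  have h4 : Nat.card (normalizer ((R : Subgroup G) : Set G)) = 3 * M := by omega
  have h5 : orderOf g ∣ 3 * M := by
    rw [← h4]
    exact Subgroup.orderOf_dvd_natCard _ hN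
  have h6 : orderOf g ∣ 11 := by
    have := Subgroup.orderOf_dvd_natCard _ hg
    rwa [card_L hG hM] at this
  rcases (Nat.dvd_prime (by norm_num)).1 h6 with h7 | h7
  · exact orderOf_eq_one_iff.1 h7
  · exfalso
    rw [h7] at h5
    apply hM
    omega

include hΩ hf in
theorem cent_L (L : Sylow 11 G) : ∃ w, w ∣ 2 ∧ Nat.card (centralizer ((L : Subgroup G) : Set G)) = 11 * w := by
  have hT : Nat.card (Sylow 3 G) = 11 * 2 := by
    rw [Nat.card_eq_fintype_card, hΩ]
  obtain ⟨W, hW⟩ := card_centralizer_eq (p := 11) (L : Subgroup G) (centralizer ((L : Subgroup G) : Set G)) (card_L hG hM L)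
    (isCommutative_of_card_prime _ (card_L hG hM L))
    (fun g hg a ha => Subgroup.mem_centralizer_iff.1 hg a ha)
    (fun R hR hle => L.is_maximal' hR hle)
    (T := Sylow 3 G)
    (fun g hg => by
      apply Subtype.ext
      exact hf _ (fun R => hg R))
    (fun g hg t ht => by
      apply Subtype.ext
      exact free_L hΩ hG hM L hg t ht) 2 hT
  refine ⟨Nat.card W, ?_, hW⟩
  have := Subgroup.card_subgroup_dvd_card W
  have h2 : Nat.card (Equiv.Perm (Fin 2)) = 2 := by
    rw [Nat.card_eq_fintype_card, Fintype.card_perm, Fintype.card_fin]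
    rfl
  rwa [h2] at this

end eleven

/-- The arithmetic forcing twelve Sylow 11-subgroups. -/
theorem arith_twelve {n M f : ℕ} (h : 6 * M = n * f) (hf : f ∣ 20) (hM : M ∣ 160 ∨ (M ∣ 28 ∧ 7 ∣ M))
    (hn : n % 11 = 1) : n = 12 := by
  have h3f : ¬ 3 ∣ f := fun h3 => by
    have := h3.trans hf
    omega
  have h3n : 3 ∣ n := by
    have h1 : 3 ∣ n * f := by
      rw [← h]
      exact ⟨2 * M, by ring⟩
    exact ((Nat.Prime.dvd_mul Nat.prime_three).1 h1).resolve_right h3f
  have h6 : n ∣ 6 * M := by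
    rw [h]
    exact dvd_mul_right _ _
  rcases hM with hM | ⟨hM, h7⟩
  · have h1 : n ∣ 960 := h6.trans (by
      have := mul_dvd_mul_left 6 hM
      simpa using this)
    obtain ⟨d, rfl⟩ := h3n
    have h2 : d ∣ 320 := by
      have h1' : 3 * d ∣ 3 * 320 := by rwa [show 3 * 320 = 960 from rfl]
      exact Nat.dvd_of_mul_dvd_mul_left (by norm_num) h1'
    have h4 : d ≤ 320 := Nat.le_of_dvd (by norm_num) h2
    have h5 : d % 11 = 4 := by omega
    interval_cases d <;> omega
  · exfalso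
    have h7f : ¬ 7 ∣ f := fun h7' => by
      have := h7'.trans hf
      omega
    have h7n : 7 ∣ n := by
      have h1 : 7 ∣ n * f := by
        rw [← h]
        exact Dvd.dvd.mul_left h7 6
      exact ((Nat.Prime.dvd_mul (by norm_num)).1 h1).resolve_right h7f
    have h1 : n ∣ 168 := h6.trans (by
      have := mul_dvd_mul_left 6 hM
      simpa using this)
    have h21 : 21 ∣ n := Nat.Coprime.mul_dvd_of_dvd_of_dvd (by norm_num) h3n h7n
    obtain ⟨d, rfl⟩ := h21
    have h2 : d ∣ 8 := by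
      have h1' : 21 * d ∣ 21 * 8 := by rwa [show 21 * 8 = 168 from rfl]
      exact Nat.dvd_of_mul_dvd_mul_left (by norm_num) h1'
    have h4 : d ≤ 8 := Nat.le_of_dvd (by norm_num) h2
    interval_cases d <;> omega

end Cfsg.Agent.Lib.ClassSizes.NThree
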