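import Mathlib
import Cfsg.Agent.Lib.ClassSizes.NThree2
import Cfsg.Agent.Lib.ClassSizes.NThree5

/-! The faithful case with Sylow 3-subgroups of order `3`: contradiction. -/

set_option autoImplicit false

namespace Cfsg.Agent.Lib.ClassSizes.NThree

open Subgroup MulAction KulSylow
open scoped Classical

variable {G : Type*} [Group G] [Finite G]

theorem card_orbit_of_free {P T : Type*} [Group P] [MulAction P T] (t : T)
    (hfree : ∀ p : P, p • t = t → p = 1) : Nat.card (orbit P t) = Nat.card P := by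
  symm
  apply Nat.card_congr
  refine Equiv.ofBijective (fun p => ⟨p • t, mem_orbit _ _⟩) ⟨?_, ?_⟩
  · intro a b hab
    have h1 : a • t = b • t := congrArg Subtype.val hab
    have h2 : (b⁻¹ * a) • t = t := by rw [mul_smul, h1, inv_smul_smul]
    have h3 := hfree _ h2
    rw [inv_mul_eq_one] at h3
    exact h3.symm
  · rintro ⟨_, p, rfl⟩
    exact ⟨p, rfl⟩

theorem card_fix_modEq {T : Type*} [Fintype T] [MulAction G T] {p : ℕ} [hp : Fact p.Prime] {w : G}
    (hw : orderOf w = p) :
    (Finset.univ.filter (fun t : T => w • t = t)).card ≡ Fintype.card T [MOD p] := by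
  have hZ : IsPGroup p (zpowers w) := IsPGroup.of_card (n := 1) (by rw [Nat.card_zpowers, hw, pow_one])
  have h1 := hZ.card_modEq_card_fixedPoints T
  have h2 : Nat.card (fixedPoints (zpowers w) T) = (Finset.univ.filter (fun t : T => w • t = t)).card := by
    have : fixedPoints (zpowers w) T = ((Finset.univ.filter (fun t : T => w • t = t) : Finset T) : Set T) := by
      ext t
      simp only [mem_fixedPoints, Finset.coe_filter, Finset.mem_univ, true_and, Set.mem_setOf_eq]
      constructor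
      · intro h
        exact h ⟨w, mem_zpowers w⟩
      · intro h z
        obtain ⟨z, i, rfl⟩ := z
        have h3 : w ^ i ∈ stabilizer G t := Subgroup.zpow_mem _ (mem_stabilizer_iff.2 h) i
        exact mem_stabilizer_iff.1 h3
    rw [this]
    simp
  rw [h2, Nat.card_eq_fintype_card] at h1
  exact h1.symm

theorem fix_unique {T : Type*} [MulAction G T] {L : Subgroup G} {w l : G} (hl : l ∈ L)
    (hwN : w ∈ normalizer (L : Set G)) {p : T} (hp : w • p = p) (hq : w • (l • p) = l • p)
    (hfree : ∀ x ∈ L, x • p = p → x = 1) : w * l * w⁻¹ = l := by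
  have h1 : w * l * w⁻¹ ∈ L := (mem_normalizer_iff.1 hwN l).1 hl
  have h2 : w⁻¹ • p = p := by rw [inv_smul_eq_iff, hp]
  have h3 : (w * l * w⁻¹) • p = l • p := by rw [mul_smul, h2, mul_smul, hq]
  have h4 : (l⁻¹ * (w * l * w⁻¹)) • p = p := by rw [mul_smul, h3, inv_smul_smul]
  have h5 := hfree _ (L.mul_mem (L.inv_mem hl) h1) h4
  rw [inv_mul_eq_one] at h5
  exact h5.symm

theorem mem_cent_of_comm {p : ℕ} [hp : Fact p.Prime] {L : Subgroup G} (hc : Nat.card L = p) {w l : G}
    (hl : l ∈ L) (hne : l ≠ 1) (h : w * l * w⁻¹ = l) : w ∈ centralizer (L : Set G) := by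
  have h0 : orderOf l = p := by
    have h1 : orderOf l ∣ p := by
      rw [← hc]
      exact Subgroup.orderOf_dvd_natCard _ hl
    rcases (Nat.dvd_prime hp.out).1 h1 with h4 | h4
    · exact (hne (orderOf_eq_one_iff.1 h4)).elim
    · exact h4
  have h1 : zpowers l = L :=
    Subgroup.eq_of_le_of_card_ge ((zpowers_le).2 hl) (by rw [hc, Nat.card_zpowers, h0])
  rw [mem_centralizer_iff]
  intro a ha
  have ha' : a ∈ zpowers l := by
    rw [h1]
    exact ha
  obtain ⟨i, rfl⟩ := ha'
  have h2 : Commute w l := by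
    show w * l = l * w
    rw [mul_inv_eq_iff_eq_mul] at h
    exact h
  exact (h2.zpow_right i).eq.symm

theorem three_dvd_card [Fintype (Sylow 3 G)] (A : Finset (Sylow 3 G)) (Q : Sylow 3 G)
    (hA : ∀ g ∈ (Q : Subgroup G), ∀ ω ∈ A, g • ω ∈ A) (hQ : Q ∉ A) : 3 ∣ A.card := by
  have := dvd_sum_orbits (K := (Q : Subgroup G)) A (fun g a ha => hA g g.2 a ha) (fun _ => 1) (fun _ _ => rfl)
    3 1 (fun ω hω => by
      have hP : IsPGroup 3 (Q : Subgroup G) := Q.isPGroup'
      obtain ⟨k, hk⟩ := hP.card_orbit ω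
      have h1 := card_orbit_inf hP ω
      rw [hk] at h1 ⊢
      match k, h1 with
      | 0, h1 =>
        exfalso
        have h2 : Nat.card ↥((Q : Subgroup G) ⊓ (ω : Subgroup G)) = Nat.card (Q : Subgroup G) := by
          simpa using h1
        have h3 : (Q : Subgroup G) ⊓ (ω : Subgroup G) = (Q : Subgroup G) :=
          Subgroup.eq_of_le_of_card_ge inf_le_left h2.ge
        have h4 := eq_of_le (inf_eq_left.1 h3)
        rw [h4] at hQ
        exact hQ hω
      | (k + 1), _ =>
        exact ⟨3 ^ k, by ring⟩) (fun _ _ => one_dvd _)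
  simpa using this

section partB

local instance fact11' : Fact (Nat.Prime 11) := ⟨by norm_num⟩
local instance fact5' : Fact (Nat.Prime 5) := ⟨by norm_num⟩
local instance fact2' : Fact (Nat.Prime 2) := ⟨by norm_num⟩

variable [Fintype (Sylow 3 G)] (hΩ : Fintype.card (Sylow 3 G) = 22)
  (hf : ∀ g : G, (∀ Q : Sylow 3 G, g • Q = Q) → g = 1)
  (h3 : ∀ Q : Sylow 3 G, Nat.card (Q : Subgroup G) = 3)

include hΩ hf h3 in
theorem struct (Q₀ : Sylow 3 G) : ∃ M, Nat.card G = 66 * M ∧ (M ∣ 160 ∨ (M ∣ 28 ∧ 7 ∣ M)) ∧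
    (5 ∣ M → 5 ∣ Nat.card (centralizer ((Q₀ : Subgroup G) : Set G))) := by
  obtain ⟨e, m, he, hm, hm7, hC, hG⟩ := order_struct hΩ hf h3 Q₀
  refine ⟨e * m, hG, ?_, ?_⟩
  · by_cases h7 : 7 ∣ m
    · right
      have h14 := hm7 h7
      exact ⟨mul_dvd_mul he h14, Dvd.dvd.mul_left h7 e⟩
    · left
      have h80 : m ∣ 80 := by
        have h1 : Nat.Coprime m 7 := Nat.coprime_comm.1 ((Nat.Prime.coprime_iff_not_dvd (by norm_num)).2 h7)
        exact Nat.Coprime.dvd_of_dvd_mul_right h1 (by simpa using hm)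
      exact mul_dvd_mul he h80
  · intro h5
    rw [hC]
    have h5e : ¬ 5 ∣ e := fun h => by
      have := h.trans he
      omega
    have := ((Nat.Prime.dvd_mul (by norm_num)).1 h5).resolve_left h5e
    exact Dvd.dvd.mul_left this 3

variable {M : ℕ} (hG : Nat.card G = 66 * M) (hM : M ∣ 160 ∨ (M ∣ 28 ∧ 7 ∣ M))

omit [Finite G] [Fintype (Sylow 3 G)] in
include hM in
theorem not_eleven_dvd : ¬ 11 ∣ M := by
  intro h
  rcases hM with h1 | ⟨h1, _⟩
  · have := h.trans h1
    omega
  · have := h.trans h1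
    omega

include hΩ hf hG hM in
theorem n11 : Nat.card (Sylow 11 G) = 12 := by
  have hM11 := not_eleven_dvd hM
  obtain ⟨L⟩ : Nonempty (Sylow 11 G) := inferInstance
  obtain ⟨w, hw, hCL⟩ := cent_L hΩ hf hG hM11 L
  have hLc := card_L hG hM11 L
  obtain ⟨e', he', hN⟩ := normalizer_eq_mul (p := 11) (L : Subgroup G) hLc
  have hmod : Nat.card (Sylow 11 G) % 11 = 1 := card_sylow_modEq_one 11 G
  have h1 := Subgroup.card_mul_index (normalizer ((L : Subgroup G) : Set G))
  have h2 : (normalizer ((L : Subgroup G) : Set G)).index = Nat.card (Sylow 11 G) :=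
    (Sylow.card_eq_index_normalizer L).symm
  rw [h2, hN, hCL, hG] at h1
  apply arith_twelve (M := M) (f := e' * w) ?_ (mul_dvd_mul he' hw |>.trans (by norm_num)) hM hmod
  nlinarith

/-- Two Sylow 11-subgroups are in the same orbit of one of them. -/
theorem trans_L (hLc : ∀ L : Sylow 11 G, Nat.card (L : Subgroup G) = 11)
    [Fintype (Sylow 11 G)] (hn : Fintype.card (Sylow 11 G) = 12) {L R₀ R : Sylow 11 G} (h0 : R₀ ≠ L) (h1 : R ≠ L) :
    ∃ l ∈ (L : Subgroup G), l • R₀ = R := by
  have hfree : ∀ l : (L : Subgroup G), l • R₀ = R₀ → l = 1 := by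
    intro l hl
    apply Subtype.ext
    by_contra hne
    have h2 := mem_of_smul_eq' (L.isPGroup') l.2 hl
    exact h0 (eq_of_mem_of_mem (hLc L) l.2 h2 hne).symm
  have h2 := card_orbit_of_free R₀ hfree
  rw [hLc L] at h2
  have hsub : orbit (L : Subgroup G) R₀ ⊆ ((Finset.univ.erase L : Finset (Sylow 11 G)) : Set (Sylow 11 G)) := by
    rintro _ ⟨l, rfl⟩
    simp only [Finset.coe_erase, Finset.coe_univ, Set.mem_sdiff, Set.mem_univ, Set.mem_singleton_iff, true_and]
    intro e
    apply h0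
    have h3 : (l : G) • L = L := Sylow.smul_eq_iff_mem_normalizer.2 (le_normalizer l.2)
    have h4 : (l : G) • R₀ = (l : G) • L := by
      rw [h3]
      exact e
    exact smul_left_cancel _ h4
  have h3 : orbit (L : Subgroup G) R₀ = ((Finset.univ.erase L : Finset (Sylow 11 G)) : Set (Sylow 11 G)) := by
    apply Set.eq_of_subset_of_ncard_le hsub
    rw [Set.ncard_coe_finset, Finset.card_erase_of_mem (Finset.mem_univ _), Finset.card_univ, hn,
      ← Nat.card_coe_set_eq, h2]
  have h4 : R ∈ orbit (L : Subgroup G) R₀ := by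
    rw [h3]
    simp [h1]
  obtain ⟨l, hl⟩ := h4
  exact ⟨l, l.2, hl⟩

end partB

end Cfsg.Agent.Lib.ClassSizes.NThree
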