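import Mathlib
import Cfsg.Agent.Lib.ClassSizes.NThree6

/-! The faithful case with Sylow 3-subgroups of order `3`: contradiction. -/

set_option autoImplicit false

namespace Cfsg.Agent.Lib.ClassSizes.NThree

open Subgroup MulAction KulSylow
open scoped Classical

variable {G : Type*} [Group G] [Finite G]

theorem sylow_eq_zpowers {p : ℕ} [hp : Fact p.Prime] {x : G} (hx : orderOf x = p)
    (hnd : ¬ p ^ 2 ∣ Nat.card G) : ∃ S : Sylow p G, (S : Subgroup G) = zpowers x := by
  have h1 : IsPGroup p (zpowers x) := IsPGroup.of_card (n := 1) (by rw [Nat.card_zpowers, hx, pow_one])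
  obtain ⟨S, hS⟩ := h1.exists_le_sylow
  refine ⟨S, ?_⟩
  symm
  apply Subgroup.eq_of_le_of_card_ge hS
  rw [Nat.card_zpowers, hx]
  obtain ⟨k, hk⟩ := IsPGroup.iff_card.1 S.isPGroup'
  have h2 : Nat.card (S : Subgroup G) ∣ Nat.card G := Subgroup.card_subgroup_dvd_card _
  rw [hk] at h2 ⊢
  by_contra hcon
  have hk2 : 2 ≤ k := by
    by_contra h
    have : k = 0 ∨ k = 1 := by omega
    rcases this with rfl | rfl
    · simp at hcon
      have := hp.out.pos
      omega
    · simp at hcon
  exact hnd ((pow_dvd_pow p hk2).trans h2)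

section partB

local instance fact11'' : Fact (Nat.Prime 11) := ⟨by norm_num⟩
local instance fact5'' : Fact (Nat.Prime 5) := ⟨by norm_num⟩
local instance fact2'' : Fact (Nat.Prime 2) := ⟨by norm_num⟩

variable [Fintype (Sylow 3 G)] (hΩ : Fintype.card (Sylow 3 G) = 22)
  (hf : ∀ g : G, (∀ Q : Sylow 3 G, g • Q = Q) → g = 1)
  (h3 : ∀ Q : Sylow 3 G, Nat.card (Q : Subgroup G) = 3)
  {M : ℕ} (hG : Nat.card G = 66 * M) (hM : M ∣ 160 ∨ (M ∣ 28 ∧ 7 ∣ M))

include hΩ hf hG hM in
/-- No element of order `5` normalizes a Sylow 11-subgroup. -/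
theorem no_five (Q₀ : Sylow 3 G) (hC5 : 5 ∣ M → 5 ∣ Nat.card (centralizer ((Q₀ : Subgroup G) : Set G)))
    (L : Sylow 11 G) {w : G} (hw : orderOf w = 5) (hwN : w ∈ normalizer ((L : Subgroup G) : Set G)) : False := by
  have hM11 := not_eleven_dvd hM
  have hLc := card_L hG hM11 L
  have h5G : 5 ∣ Nat.card G := by
    rw [← hw]
    exact orderOf_dvd_natCard w
  have h5M : 5 ∣ M := by
    rw [hG] at h5G
    omega
  have hnd : ¬ 5 ^ 2 ∣ Nat.card G := by
    intro h
    rw [hG] at h
    have h25 : 25 ∣ M := by omega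
    rcases hM with h1 | ⟨h1, _⟩
    · have := h25.trans h1
      omega
    · have := h25.trans h1
      omega
  obtain ⟨w₀, hw₀⟩ := exists_prime_orderOf_dvd_card' (G := centralizer ((Q₀ : Subgroup G) : Set G)) 5 (hC5 h5M)
  have hw₀' : orderOf ((w₀ : _) : G) = 5 := by
    rw [Subgroup.orderOf_coe]
    exact hw₀
  obtain ⟨S, hS⟩ := sylow_eq_zpowers hw hnd
  obtain ⟨S₀, hS₀⟩ := sylow_eq_zpowers hw₀' hnd
  obtain ⟨g, hg⟩ := MulAction.exists_smul_eq G S₀ S
  have hwS : w ∈ (S : Subgroup G) := by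
    rw [hS]
    exact mem_zpowers w
  rw [← hg, Sylow.coe_subgroup_smul] at hwS
  have hu : g⁻¹ * w * g ∈ zpowers ((w₀ : _) : G) := by
    rw [← hS₀]
    exact mem_cj.1 hwS
  have hzle : zpowers ((w₀ : _) : G) ≤ centralizer ((Q₀ : Subgroup G) : Set G) := (zpowers_le).2 w₀.2
  have hucent := hzle hu
  let Q' : Sylow 3 G := g • Q₀
  have hwcent : w ∈ centralizer ((Q' : Subgroup G) : Set G) := by
    rw [mem_centralizer_iff]
    intro x hx
    have hx' : g⁻¹ * x * g ∈ (Q₀ : Subgroup G) := mem_cj.1 hx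
    have h1 := (mem_centralizer_iff.1 hucent) _ hx'
    have e1 : g⁻¹ * x * g * (g⁻¹ * w * g) = g⁻¹ * (x * w) * g := by group
    have e2 : g⁻¹ * w * g * (g⁻¹ * x * g) = g⁻¹ * (w * x) * g := by group
    rw [e1, e2] at h1
    have h2 := mul_left_cancel (mul_right_cancel h1)
    exact h2
  let F : Finset (Sylow 3 G) := Finset.univ.filter (fun ω => w • ω = ω)
  have hmod5 : F.card ≡ 22 [MOD 5] := by
    have := card_fix_modEq (T := Sylow 3 G) hw
    rwa [hΩ] at this
  have hQ'F : Q' ∈ F := by
    simp only [F, Finset.mem_filter, Finset.mem_univ, true_and]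
    exact cent_smul hwcent
  -- at most two fixed points
  obtain ⟨w', hw', hCL⟩ := cent_L hΩ hf hG hM11 L
  have hX : Nat.card (orbitRel.Quotient (L : Subgroup G) (Sylow 3 G)) = 2 := by
    have h1 := card_eq_mul_quot (P := (L : Subgroup G)) (T := Sylow 3 G) (fun p t hp => by
      apply Subtype.ext
      exact free_L hΩ hG hM11 L p.2 t hp)
    rw [hLc, Nat.card_eq_fintype_card, hΩ] at h1
    omega
  haveI : Fintype (orbitRel.Quotient (L : Subgroup G) (Sylow 3 G)) := Fintype.ofFinite _
  have hF2 : F.card ≤ 2 := by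
    rw [← hX, Nat.card_eq_fintype_card, ← Finset.card_univ]
    apply Finset.card_le_card_of_injOn (fun ω => (Quotient.mk'' ω : orbitRel.Quotient (L : Subgroup G) (Sylow 3 G)))
    · intro _ _
      exact Finset.mem_coe.2 (Finset.mem_univ _)
    · intro p hp q hq hpq
      simp only [F, Finset.coe_filter, Finset.mem_univ, true_and, Set.mem_setOf_eq] at hp hq
      have h1 : p ∈ orbit (L : Subgroup G) q := by
        rw [← orbitRel_apply]
        exact Quotient.eq''.1 hpq
      obtain ⟨l, rfl⟩ := h1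
      have hl' : (l : G) • q = l • q := rfl
      have h2 := fix_unique (T := Sylow 3 G) l.2 hwN hq (by rw [hl']; exact hp)
        (fun x hx hxq => free_L hΩ hG hM11 L hx q hxq)
      by_cases hl1 : (l : G) = 1
      · show (l : G) • q = q
        rw [hl1, one_smul]
      · exfalso
        have h3 := mem_cent_of_comm hLc l.2 hl1 h2
        have h4 : orderOf w ∣ Nat.card (centralizer ((L : Subgroup G) : Set G)) := Subgroup.orderOf_dvd_natCard _ h3
        rw [hw, hCL] at h4
        have h5 : w' ≤ 2 := Nat.le_of_dvd (by norm_num) hw'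
        interval_cases w' <;> omega
  have hF3 : F.card = 2 := by
    have : F.card % 5 = 2 := hmod5
    omega
  have h1 : 3 ∣ (F.erase Q').card := by
    apply three_dvd_card _ Q'
    · intro g' hg' ω hω
      rw [Finset.mem_erase] at hω ⊢
      simp only [F, Finset.mem_filter, Finset.mem_univ, true_and] at hω ⊢
      refine ⟨fun e => hω.1 ?_, ?_⟩
      · have e' : g' • ω = g' • Q' := by
          rw [e, smul_eq_of_mem hg']
        exact smul_left_cancel _ e'
      · have h2 := (mem_centralizer_iff.1 hwcent) g' hg'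
        rw [← mul_smul, ← h2, mul_smul, hω.2]
    · simp
  rw [Finset.card_erase_of_mem hQ'F, hF3] at h1
  omega

include hΩ hf h3 hG hM in
/-- The action on the Sylow 11-subgroups is faithful. -/
theorem faithful_eleven (Q₀ : Sylow 3 G) {g : G} (hg : ∀ R : Sylow 11 G, g • R = R) : g = 1 := by
  have hn := n11 hΩ hf hG hM
  have hM11 := not_eleven_dvd hM
  let K₀ : Subgroup G := (toPermHom G (Sylow 11 G)).ker
  have hmem : ∀ k : G, k ∈ K₀ ↔ ∀ R : Sylow 11 G, k • R = R := by
    intro k
    rw [MonoidHom.mem_ker]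
    constructor
    · intro h R
      have := congrArg (fun f : Equiv.Perm (Sylow 11 G) => f R) h
      exact this
    · intro h
      ext1 R
      exact h R
  haveI hN : K₀.Normal := MonoidHom.normal_ker _
  let B : Set (Sylow 3 G) := orbit K₀ Q₀
  have hblock : IsBlock G B := IsBlock.orbit_of_normal Q₀
  have hc : B.ncard ∣ Nat.card (Sylow 3 G) := hblock.ncard_dvd_card ⟨Q₀, mem_orbit_self _⟩
  rw [Nat.card_eq_fintype_card, hΩ] at hc
  have hQB : Q₀ ∈ B := mem_orbit_self _
  have hB : (Set.toFinite B).toFinset.card = B.ncard := by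
    rw [Set.ncard_eq_toFinset_card _ (Set.toFinite B)]
  have h3d : 3 ∣ ((Set.toFinite B).toFinset.erase Q₀).card := by
    apply three_dvd_card _ Q₀
    · intro g' hg' ω hω
      rw [Finset.mem_erase, Set.Finite.mem_toFinset] at hω ⊢
      refine ⟨fun e => hω.1 ?_, ?_⟩
      · have e' : g' • ω = g' • Q₀ := by
          rw [e, smul_eq_of_mem hg']
        exact smul_left_cancel _ e'
      · obtain ⟨k, hk⟩ := hω.2
        rw [← hk]
        refine ⟨⟨g' * k * g'⁻¹, hN.conj_mem _ k.2 g'⟩, ?_⟩
        show (g' * k * g'⁻¹) • Q₀ = g' • ((k : G) • Q₀)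
        rw [mul_smul, mul_smul, smul_eq_of_mem ((Q₀ : Subgroup G).inv_mem hg')]
    · simp
  rw [Finset.card_erase_of_mem ((Set.Finite.mem_toFinset _).2 hQB), hB] at h3d
  have hcpos : 0 < B.ncard := by
    rw [Set.ncard_pos (Set.toFinite B)]
    exact ⟨Q₀, hQB⟩
  have hle : B.ncard ≤ 22 := Nat.le_of_dvd (by norm_num) hc
  have hcases : B.ncard = 1 ∨ B.ncard = 22 := by
    set c := B.ncard
    clear_value c
    interval_cases c <;> first | omega | (exfalso; revert hc; decide) | (exfalso; revert h3d; decide)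
  rcases hcases with h1 | h1
  · -- the kernel fixes `Q₀`, hence everything
    have hfix : ∀ k ∈ K₀, k • Q₀ = Q₀ := by
      intro k hk
      obtain ⟨a, ha⟩ := (Set.ncard_eq_one).1 h1
      have h2 : k • Q₀ ∈ B := ⟨⟨k, hk⟩, rfl⟩
      rw [ha, Set.mem_singleton_iff] at h2 hQB
      rw [h2, hQB]
    apply hf
    intro Q'
    obtain ⟨h, rfl⟩ := MulAction.exists_smul_eq G Q₀ Q'
    have h2 : h⁻¹ * g * h ∈ K₀ := by
      have := hN.conj_mem g ((hmem g).2 hg) h⁻¹
      simpa using this
    have h4 := hfix _ h2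
    have h5 : g • h • Q₀ = h • ((h⁻¹ * g * h) • Q₀) := by
      rw [mul_smul, mul_smul, smul_inv_smul]
    rw [h5, h4]
  · -- the kernel has order divisible by `11`
    exfalso
    have h2 : Nat.card (orbit K₀ Q₀) ∣ Nat.card K₀ := by
      have h4 := index_stabilizer K₀ Q₀
      rw [Nat.card_coe_set_eq, ← h4]
      exact Subgroup.index_dvd_card _
    have h4 : Nat.card (orbit K₀ Q₀) = 22 := by
      rw [← h1]
      exact Nat.card_coe_set_eq _
    rw [h4] at h2
    obtain ⟨z, hz⟩ := exists_prime_orderOf_dvd_card' (G := K₀) 11 (Dvd.dvd.trans (by norm_num) h2)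
    have hz' : orderOf (z : G) = 11 := by
      rw [Subgroup.orderOf_coe]
      exact hz
    have hzne : (z : G) ≠ 1 := by
      intro e
      rw [e, orderOf_one] at hz'
      omega
    have hzR : ∀ R : Sylow 11 G, (z : G) ∈ (R : Subgroup G) := by
      intro R
      have hp : IsPGroup 11 (zpowers (z : G)) := IsPGroup.of_card (n := 1) (by rw [Nat.card_zpowers, hz', pow_one])
      exact mem_of_smul_eq' hp (mem_zpowers _) ((hmem _).1 z.2 R)
    have hs : Subsingleton (Sylow 11 G) := by
      constructor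
      intro R R'
      exact eq_of_mem_of_mem (card_L hG hM11 R) (hzR R) (hzR R') hzne
    have : Nat.card (Sylow 11 G) = 1 := Nat.card_eq_one_iff_unique.2 ⟨hs, inferInstance⟩
    omega

end partB

end Cfsg.Agent.Lib.ClassSizes.NThree
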