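import Mathlib
import Cfsg.Agent.Lib.ClassSizes.NThree7

/-! No finite group has exactly `22` Sylow 3-subgroups. -/

set_option autoImplicit false

namespace Cfsg.Agent.Lib.ClassSizes.NThree

open Subgroup MulAction KulSylow
open scoped Classical

variable {G : Type*} [Group G] [Finite G]

section partB

local instance fact11''' : Fact (Nat.Prime 11) := ⟨by norm_num⟩
local instance fact5''' : Fact (Nat.Prime 5) := ⟨by norm_num⟩
local instance fact2''' : Fact (Nat.Prime 2) := ⟨by norm_num⟩

/-- At least `165` elements of odd order. -/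
theorem count_odd (K : Subgroup G) (hK3 : ∀ g : G, orderOf g = 3 → g ∈ K) (hK11 : ∀ g : G, orderOf g = 11 → g ∈ K)
    (h3 : ∀ Q : Sylow 3 G, Nat.card (Q : Subgroup G) = 3) (hn3 : Nat.card (Sylow 3 G) = 22)
    (h11 : ∀ L : Sylow 11 G, Nat.card (L : Subgroup G) = 11) (hn11 : Nat.card (Sylow 11 G) = 12) :
    165 ≤ Nat.card K := by
  haveI : Fintype G := Fintype.ofFinite _
  have hE3 := card_filter_orderOf (H := G) (p := 3) h3
  have hE11 := card_filter_orderOf (H := G) (p := 11) h11
  rw [hn3] at hE3
  rw [hn11] at hE11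
  have hd : Disjoint (Finset.univ.filter (fun g : G => orderOf g = 3)) (Finset.univ.filter (fun g : G => orderOf g = 11)) := by
    rw [Finset.disjoint_left]
    intro g hg hg'
    simp only [Finset.mem_filter, Finset.mem_univ, true_and] at hg hg'
    omega
  have h1 : (1 : G) ∉ (Finset.univ.filter (fun g : G => orderOf g = 3)) ∪ (Finset.univ.filter (fun g : G => orderOf g = 11)) := by
    simp
  have hsub : insert (1 : G) ((Finset.univ.filter (fun g : G => orderOf g = 3)) ∪ (Finset.univ.filter (fun g : G => orderOf g = 11))) ⊆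
      Finset.univ.filter (fun g : G => g ∈ K) := by
    intro g hg
    simp only [Finset.mem_insert, Finset.mem_union, Finset.mem_filter, Finset.mem_univ, true_and] at hg ⊢
    rcases hg with rfl | hg | hg
    · exact K.one_mem
    · exact hK3 g hg
    · exact hK11 g hg
  have hc := Finset.card_le_card hsub
  rw [Finset.card_insert_of_notMem h1, Finset.card_union_of_disjoint hd, hE3, hE11] at hc
  have h2 : (Finset.univ.filter (fun g : G => g ∈ K)).card = Nat.card K := by
    rw [Nat.card_eq_fintype_card, Fintype.card_subtype]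
  rw [h2] at hc
  omega

variable [Fintype (Sylow 3 G)] (hΩ : Fintype.card (Sylow 3 G) = 22)
  (hf : ∀ g : G, (∀ Q : Sylow 3 G, g • Q = Q) → g = 1)
  (h3 : ∀ Q : Sylow 3 G, Nat.card (Q : Subgroup G) = 3)

include hΩ hf h3 in
/-- The faithful case with Sylow 3-subgroups of order `3` does not occur. -/
theorem partB (Q₀ : Sylow 3 G) : False := by
  obtain ⟨M, hG, hM, hC5⟩ := struct hΩ hf h3 Q₀
  have hn := n11 hΩ hf hG hM
  have hM11 := not_eleven_dvd hM
  have hLc := card_L (G := G) hG hM11
  haveI : Fintype (Sylow 11 G) := Fintype.ofFinite _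
  have hn' : Fintype.card (Sylow 11 G) = 12 := by
    rw [← Nat.card_eq_fintype_card, hn]
  have hf11 : ∀ g : G, (∀ R : Sylow 11 G, g • R = R) → g = 1 := fun g hg =>
    faithful_eleven hΩ hf h3 hG hM Q₀ hg
  obtain ⟨L⟩ : Nonempty (Sylow 11 G) := inferInstance
  -- the centralizer of `L`
  have hC : Nat.card (centralizer ((L : Subgroup G) : Set G)) = 11 := by
    obtain ⟨w, hw, hCL⟩ := cent_L hΩ hf hG hM11 L
    have hw2 : w = 1 ∨ w = 2 := by
      have := Nat.le_of_dvd (by norm_num) hw
      interval_cases w <;> omega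
    rcases hw2 with rfl | rfl
    · simpa using hCL
    · exfalso
      rw [show 11 * 2 = 22 from rfl] at hCL
      obtain ⟨τ, hτ⟩ := exists_prime_orderOf_dvd_card' (G := centralizer ((L : Subgroup G) : Set G)) 2 (by rw [hCL]; norm_num)
      have hτ' : orderOf ((τ : _) : G) = 2 := by
        rw [Subgroup.orderOf_coe]
        exact hτ
      have hτL : ((τ : _) : G) • L = L := Sylow.smul_eq_iff_mem_normalizer.2 (centralizer_le_normalizer _ τ.2)
      have hmod := card_fix_modEq (T := Sylow 11 G) hτ'
      rw [hn'] at hmod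
      have hmod' : (Finset.univ.filter (fun R : Sylow 11 G => ((τ : _) : G) • R = R)).card % 2 = 0 := hmod
      have hLF : L ∈ Finset.univ.filter (fun R : Sylow 11 G => ((τ : _) : G) • R = R) := by simp [hτL]
      have hpos : 0 < (Finset.univ.filter (fun R : Sylow 11 G => ((τ : _) : G) • R = R)).card := Finset.card_pos.2 ⟨L, hLF⟩
      obtain ⟨R₀, hR₀, hR₀L⟩ := Finset.exists_mem_ne (by omega : 1 < (Finset.univ.filter (fun R : Sylow 11 G => ((τ : _) : G) • R = R)).card) L
      simp only [Finset.mem_filter, Finset.mem_univ, true_and] at hR₀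
      have hall : ∀ R : Sylow 11 G, ((τ : _) : G) • R = R := by
        intro R
        by_cases hR : R = L
        · rw [hR]
          exact hτL
        · obtain ⟨l, hl, rfl⟩ := trans_L hLc hn' hR₀L hR
          have hcomm : ((τ : _) : G) * l = l * ((τ : _) : G) := ((mem_centralizer_iff.1 τ.2) l hl).symm
          rw [← mul_smul, hcomm, mul_smul, hR₀]
      have h1 := hf11 _ hall
      rw [h1, orderOf_one] at hτ'
      omega
  obtain ⟨e', he', hN⟩ := normalizer_eq_mul (p := 11) (L : Subgroup G) (hLc L)
  rw [hC] at hN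
  have hno5 : ¬ 5 ∣ e' := by
    intro h5
    have h6 : 5 ∣ Nat.card (normalizer ((L : Subgroup G) : Set G)) := by
      rw [hN]
      exact Dvd.dvd.mul_right h5 _
    obtain ⟨w, hw⟩ := exists_prime_orderOf_dvd_card' (G := normalizer ((L : Subgroup G) : Set G)) 5 h6
    have hw' : orderOf ((w : _) : G) = 5 := by
      rw [Subgroup.orderOf_coe]
      exact hw
    exact no_five hΩ hf hG hM Q₀ hC5 L hw' w.2
  have he'2 : e' = 1 ∨ e' = 2 := by
    have h10 : e' ≤ 10 := Nat.le_of_dvd (by norm_num) he'
    interval_cases e' <;> first | omega | (exfalso; revert he'; decide) | (exfalso; apply hno5; decide)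
  have hGc : Nat.card G = 12 * (e' * 11) := by
    have h1 := Subgroup.card_mul_index (normalizer ((L : Subgroup G) : Set G))
    have h2 : (normalizer ((L : Subgroup G) : Set G)).index = Nat.card (Sylow 11 G) :=
      (Sylow.card_eq_index_normalizer L).symm
    rw [h2, hN, hn] at h1
    rw [← h1]
    ring
  -- the sign of the action on the Sylow 11-subgroups
  let χ : G →* ℤˣ := Equiv.Perm.sign.comp (toPermHom G (Sylow 11 G))
  have hodd : ∀ (g : G) (k : ℕ), Odd k → orderOf g = k → g ∈ χ.ker := by
    intro g k hk hg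
    rw [MonoidHom.mem_ker]
    have h1 : χ g ^ k = 1 := by
      rw [← map_pow, ← hg, pow_orderOf_eq_one, map_one]
    rcases Int.units_eq_one_or (χ g) with h2 | h2
    · exact h2
    · rw [h2, hk.neg_one_pow] at h1
      exact absurd h1 (by decide)
  have hcount := count_odd χ.ker (fun g hg => hodd g 3 (by decide) hg) (fun g hg => hodd g 11 (by decide) hg) h3
    (by rw [Nat.card_eq_fintype_card, hΩ]) hLc hn
  rcases he'2 with rfl | rfl
  · have h1 : Nat.card χ.ker ≤ Nat.card G := Subgroup.card_le_card_group _
    rw [hGc] at h1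
    omega
  · -- an involution in the normalizer of `L`
    have h2N : 2 ∣ Nat.card (normalizer ((L : Subgroup G) : Set G)) := by
      rw [hN]
      norm_num
    obtain ⟨t, ht⟩ := exists_prime_orderOf_dvd_card' (G := normalizer ((L : Subgroup G) : Set G)) 2 h2N
    have ht' : orderOf ((t : _) : G) = 2 := by
      rw [Subgroup.orderOf_coe]
      exact ht
    have htC : ((t : _) : G) ∉ centralizer ((L : Subgroup G) : Set G) := by
      intro h
      have h4 : orderOf ((t : _) : G) ∣ Nat.card (centralizer ((L : Subgroup G) : Set G)) := Subgroup.orderOf_dvd_natCard _ h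
      rw [ht', hC] at h4
      omega
    have htL : ((t : _) : G) • L = L := Sylow.smul_eq_iff_mem_normalizer.2 t.2
    let F : Finset (Sylow 11 G) := Finset.univ.filter (fun R => ((t : _) : G) • R = R)
    have hmod := card_fix_modEq (T := Sylow 11 G) ht'
    rw [hn'] at hmod
    have hmod' : F.card % 2 = 0 := hmod
    have hLF : L ∈ F := by simp [F, htL]
    have hpos : 0 < F.card := Finset.card_pos.2 ⟨L, hLF⟩
    have hle : (F.erase L).card ≤ 1 := by
      rw [Finset.card_le_one]
      intro R₀ hR₀ R₁ hR₁
      rw [Finset.mem_erase] at hR₀ hR₁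
      have hR₀' : ((t : _) : G) • R₀ = R₀ := by simpa [F] using hR₀.2
      have hR₁' : ((t : _) : G) • R₁ = R₁ := by simpa [F] using hR₁.2
      obtain ⟨l, hl, rfl⟩ := trans_L hLc hn' hR₀.1 hR₁.1
      have h4 := fix_unique (T := Sylow 11 G) hl t.2 hR₀' hR₁' (fun x hx hxR => by
        by_contra hne
        have h5 : IsPGroup 11 ((L : Subgroup G)) := L.isPGroup'
        exact hR₀.1 (eq_of_mem_of_mem (hLc L) hx (mem_of_smul_eq' h5 hx hxR) hne).symm)
      by_cases hl1 : l = 1
      · rw [hl1, one_smul]
      · exact (htC (mem_cent_of_comm (hLc L) hl hl1 h4)).elim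
    rw [Finset.card_erase_of_mem hLF] at hle
    have hF2 : F.card = 2 := by omega
    -- the sign of the involution
    have hp2 : (toPermHom G (Sylow 11 G) ((t : _) : G)) ^ 2 = 1 := by
      rw [← map_pow, ← ht', pow_orderOf_eq_one, map_one]
    have hsign := Equiv.Perm.sign_of_pow_two_eq_one hp2
    have hfix : Fintype.card (Function.fixedPoints (toPermHom G (Sylow 11 G) ((t : _) : G))) = F.card := by
      apply Fintype.card_of_subtype
      intro R
      simp only [F, Finset.mem_filter, Finset.mem_univ, true_and]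
      rfl
    rw [hfix, hF2, hn'] at hsign
    have hχt : χ ((t : _) : G) = -1 := by
      show Equiv.Perm.sign _ = _
      rw [hsign]
      decide
    have hr : Nat.card χ.range = 2 := by
      have h2 : Nat.card χ.range ∣ Nat.card ℤˣ := Subgroup.card_subgroup_dvd_card _
      have h3' : Nat.card ℤˣ = 2 := by
        rw [Nat.card_eq_fintype_card]
        rfl
      rw [h3'] at h2
      have h4 : Nat.card χ.range ≠ 1 := by
        intro h5
        have h6 : χ.range = ⊥ := Subgroup.eq_bot_of_card_eq _ h5
        have h8 : χ ((t : _) : G) ∈ χ.range := ⟨_, rfl⟩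
        rw [h6, mem_bot, hχt] at h8
        exact absurd h8 (by decide)
      rcases (Nat.dvd_prime Nat.prime_two).1 h2 with h5 | h5
      · exact (h4 h5).elim
      · exact h5
    have h2 := Subgroup.card_mul_index χ.ker
    rw [Subgroup.index_ker, hr, hGc] at h2
    omega

end partB

/-- The faithful case. -/
theorem main_faithful [Fintype (Sylow 3 G)] (hΩ : Fintype.card (Sylow 3 G) = 22)
    (hf : ∀ g : G, (∀ Q : Sylow 3 G, g • Q = Q) → g = 1) : False := by
  obtain ⟨Q₀⟩ : Nonempty (Sylow 3 G) := inferInstance
  exact partB hΩ hf (fun Q => card_sylow_three hΩ hf Q) Q₀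

/-- Reduction to the faithful case. -/
theorem main (hΩ : Nat.card (Sylow 3 G) = 22) : False := by
  let φ : G →* Equiv.Perm (Sylow 3 G) := toPermHom G (Sylow 3 G)
  let H := φ.range
  let f : G →* H := φ.rangeRestrict
  have hfs : Function.Surjective f := φ.rangeRestrict_surjective
  let m : Sylow 3 G → Sylow 3 H := Sylow.mapSurjective hfs
  have hm : ∀ Q : Sylow 3 G, (m Q : Subgroup H) = (Q : Subgroup G).map f := fun _ => rfl
  have hker : ∀ g : G, f g = 1 ↔ ∀ Q : Sylow 3 G, g • Q = Q := by
    intro g
    constructor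
    · intro h Q
      have h1 : φ g = 1 := congrArg Subtype.val h
      have := congrArg (fun p : Equiv.Perm (Sylow 3 G) => p Q) h1
      exact this
    · intro h
      apply Subtype.ext
      show φ g = 1
      ext1 Q
      exact h Q
  have hinj : Function.Injective m := by
    intro Q R hQR
    have h1 : (Q : Subgroup G).map f = (R : Subgroup G).map f := by
      rw [← hm, ← hm, hQR]
    have h3 : (Q : Subgroup G) ≤ R := by
      intro x hx
      have h3 : f x ∈ (R : Subgroup G).map f := by
        rw [← h1]
        exact ⟨x, hx, rfl⟩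
      obtain ⟨y, hy, hyx⟩ := h3
      have h4 : f (x * y⁻¹) = 1 := by
        rw [map_mul, map_inv, ← hyx, mul_inv_cancel]
      have h5 := (hker _).1 h4 R
      have h6 : x • R = R := by
        have e : x = (x * y⁻¹) * y := by group
        rw [e, mul_smul, smul_eq_of_mem hy, h5]
      exact mem_of_smul_eq' Q.isPGroup' hx h6
    exact eq_of_le h3
  have hmb : Function.Bijective m := ⟨hinj, Sylow.mapSurjective_surjective hfs 3⟩
  have hc : Nat.card (Sylow 3 H) = 22 := by
    rw [← Nat.card_congr (Equiv.ofBijective m hmb), hΩ]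
  haveI : Fintype (Sylow 3 H) := Fintype.ofFinite _
  apply main_faithful (G := H)
  · rw [← Nat.card_eq_fintype_card, hc]
  · intro x hx
    obtain ⟨g, rfl⟩ := hfs x
    rw [hker]
    intro Q
    apply hinj
    have h1 := hx (m Q)
    apply Sylow.ext
    have h2 : (f g • m Q : Sylow 3 H) = m Q := h1
    have h3 : cj (f g) ((m Q : Sylow 3 H) : Subgroup H) = m Q := congrArg (fun S : Sylow 3 H => (S : Subgroup H)) h2
    have hcj : ∀ A : Subgroup G, (cj g A).map f = cj (f g) (A.map f) := by
      intro A
      unfold cj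
      rw [Subgroup.map_map, Subgroup.map_map]
      congr 1
      ext y
      simp [MulAut.conj_apply, map_mul, map_inv]
    show ((g • Q : Sylow 3 G) : Subgroup G).map f = (Q : Subgroup G).map f
    rw [coe_smul, hcj]
    exact h3

end Cfsg.Agent.Lib.ClassSizes.NThree
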