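import Mathlib

/-!
# Simple groups of order 1092: Sylow data
-/

namespace Cfsg.Agent.Lib.ClassSizes.Nm1092

section general
variable {G : Type*} [Group G] [Finite G]

lemma index_normalizer_mod {p : ℕ} [Fact p.Prime] (P : Subgroup G) (hP : IsPGroup p P)
    (hi : ¬ p ∣ P.index) : (Subgroup.normalizer (P : Set G)).index % p = 1 % p := by
  let Q : Sylow p G := hP.toSylow hi
  have h1 : Nat.card (Sylow p G) ≡ 1 [MOD p] := card_sylow_modEq_one p G
  have h2 := Q.card_eq_index_normalizer
  rw [h2] at h1
  exact h1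

lemma normal_of_card {p d : ℕ} [Fact p.Prime] (hG : Nat.card G = p * d) (hpd : ¬ p ∣ d)
    (hn : ∀ n, n ∣ d → n % p = 1 % p → n = 1) (P : Subgroup G) (hP : Nat.card P = p) :
    P.Normal := by
  have hpos : 0 < p := (Fact.out : p.Prime).pos
  have hidx : P.index = d := by
    have := P.index_mul_card
    rw [hG, hP, mul_comm] at this
    exact Nat.eq_of_mul_eq_mul_left hpos this
  have hpg : IsPGroup p P := IsPGroup.of_card (n := 1) (by rw [hP, pow_one])
  have h1 := index_normalizer_mod P hpg (by rw [hidx]; exact hpd)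
  have h2 : (Subgroup.normalizer (P : Set G)).index ∣ d := by
    rw [← hidx]; exact Subgroup.index_dvd_of_le Subgroup.le_normalizer
  have h3 := hn _ h2 h1
  rw [Subgroup.index_eq_one, Subgroup.normalizer_eq_top_iff] at h3
  exact h3

lemma elt_mem {P N : Subgroup G} (hPN : P ≤ N) (hN : N ≤ Subgroup.normalizer (P : Set G)) {p : ℕ}
    (hc : (P.relIndex N).Coprime p) {x : G} (hxN : x ∈ N) (hx : x ^ p = 1) : x ∈ P := by
  haveI : (P.subgroupOf N).Normal := (Subgroup.normal_subgroupOf_iff_le_normalizer hPN).2 hN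
  let y : N := ⟨x, hxN⟩
  let q : N ⧸ P.subgroupOf N := QuotientGroup.mk y
  have h1 : q ^ p = 1 := by
    have e : y ^ p = 1 := Subtype.ext hx
    show ((y : N) : N ⧸ P.subgroupOf N) ^ p = 1
    rw [← QuotientGroup.mk_pow, e]
    rfl
  have h2 : q ^ (Nat.card (N ⧸ P.subgroupOf N)) = 1 := pow_card_eq_one'
  have h3 : orderOf q ∣ Nat.gcd (Nat.card (N ⧸ P.subgroupOf N)) p :=
    Nat.dvd_gcd (orderOf_dvd_of_pow_eq_one h2) (orderOf_dvd_of_pow_eq_one h1)
  have hcop : Nat.gcd (Nat.card (N ⧸ P.subgroupOf N)) p = 1 := hc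
  rw [hcop, Nat.dvd_one, orderOf_eq_one_iff] at h3
  have h4 : y ∈ P.subgroupOf N := (QuotientGroup.eq_one_iff y).1 h3
  exact Subgroup.mem_subgroupOf.1 h4

lemma normalizer_le_of_char {P H : Subgroup G} (hPH : P ≤ H)
    (hH : H ≤ Subgroup.normalizer (P : Set G)) {p : ℕ} (hc : (P.relIndex H).Coprime p)
    (hp : ∀ y ∈ P, y ^ p = 1) :
    Subgroup.normalizer (H : Set G) ≤ Subgroup.normalizer (P : Set G) := by
  have key : ∀ g ∈ Subgroup.normalizer (H : Set G), ∀ y ∈ P, g * y * g⁻¹ ∈ P := by
    intro g hg y hy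
    have h1 : g * y * g⁻¹ ∈ H := (Subgroup.mem_normalizer_iff.1 hg y).1 (hPH hy)
    refine elt_mem hPH hH hc h1 ?_
    rw [conj_pow, hp y hy]
    simp
  intro g hg
  rw [Subgroup.mem_normalizer_iff]
  intro y
  refine ⟨fun hy => key g hg y hy, fun hy => ?_⟩
  have := key g⁻¹ (Subgroup.inv_mem _ hg) _ hy
  simpa [mul_assoc] using this

lemma exists_order_mem {p : ℕ} [Fact p.Prime] (L : Subgroup G) (h : p ∣ Nat.card L) :
    ∃ x ∈ L, orderOf x = p := by
  obtain ⟨x, hx⟩ := exists_prime_orderOf_dvd_card' p h
  exact ⟨x, x.2, by rw [← hx, Subgroup.orderOf_coe]⟩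

lemma zp_le {x : G} {L : Subgroup G} (hx : x ∈ L) : Subgroup.zpowers x ≤ L := by
  rwa [Subgroup.zpowers_le]

end general

variable {K : Type*} [Group K] [Finite K] [IsSimpleGroup K]

lemma normalizer_ne_top {H : Subgroup K} (h1 : H ≠ ⊥) (h2 : H ≠ ⊤) :
    Subgroup.normalizer (H : Set K) ≠ ⊤ := by
  intro h
  rw [Subgroup.normalizer_eq_top_iff] at h
  rcases h.eq_bot_or_eq_top with h | h
  · exact h1 h
  · exact h2 h

lemma index_ge (hK : Nat.card K = 1092) {L : Subgroup K} (hL : L ≠ ⊤) : 13 ≤ L.index := by
  have hcore : L.normalCore = ⊥ := by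
    rcases L.normalCore_normal.eq_bot_or_eq_top with h | h
    · exact h
    · exfalso
      apply hL
      rw [eq_top_iff, ← h]
      exact L.normalCore_le
  have h : L.normalCore.index ∣ L.index.factorial := by
    rw [Subgroup.normalCore_eq_ker, Subgroup.index_ker, Subgroup.index_eq_card, ← Nat.card_perm]
    exact Subgroup.card_subgroup_dvd_card (MulAction.toPermHom K (K ⧸ L)).range
  rw [hcore, Subgroup.index_bot, hK] at h
  have h13 : 13 ∣ L.index.factorial := dvd_trans (by norm_num) h
  exact (Nat.Prime.dvd_factorial (by norm_num)).1 h13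

lemma card_le (hK : Nat.card K = 1092) {L : Subgroup K} (hL : L ≠ ⊤) : Nat.card L ≤ 84 := by
  have h1 := index_ge hK hL
  have h2 := L.index_mul_card
  rw [hK] at h2
  nlinarith

lemma card_dvd (hK : Nat.card K = 1092) (L : Subgroup K) : Nat.card L ∣ 1092 := by
  rw [← hK]; exact Subgroup.card_subgroup_dvd_card L

lemma le_normalizer_aux (hK : Nat.card K = 1092) {p : ℕ} [Fact p.Prime] {P L : Subgroup K}
    (hP : Nat.card P = p) (hPL : P ≤ L) (hL : L ≠ ⊤)
    (h : ∀ d, p * d ≤ 84 → p * d ∣ 1092 → ¬ p ∣ d ∧ ∀ n, n ∣ d → n % p = 1 % p → n = 1) :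
    L ≤ Subgroup.normalizer (P : Set K) := by
  obtain ⟨d, hd⟩ : p ∣ Nat.card L := hP ▸ Subgroup.card_dvd_of_le hPL
  have h1 := h d (hd ▸ card_le hK hL) (hd ▸ card_dvd hK L)
  have hc : Nat.card (P.subgroupOf L) = p := by
    rw [Nat.card_congr (Subgroup.subgroupOfEquivOfLe hPL).toEquiv, hP]
  have hn := normal_of_card hd h1.1 h1.2 (P.subgroupOf L) hc
  exact (Subgroup.normal_subgroupOf_iff_le_normalizer hPL).1 hn

lemma le_normalizer_13 (hK : Nat.card K = 1092) {P L : Subgroup K} (hP : Nat.card P = 13)
    (hPL : P ≤ L) (hL : L ≠ ⊤) : L ≤ Subgroup.normalizer (P : Set K) := by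
  haveI : Fact (Nat.Prime 13) := ⟨by norm_num⟩
  refine le_normalizer_aux hK hP hPL hL ?_
  intro d hd hd2
  have hd6 : d ≤ 6 := by omega
  have h0 : 0 < d := by
    rcases Nat.eq_zero_or_pos d with h0 | h0
    · subst h0
      norm_num at hd2
    · exact h0
  constructor
  · rintro ⟨c, rfl⟩
    omega
  · intro n hn hn1
    have := Nat.le_of_dvd h0 hn
    omega

lemma le_normalizer_7 (hK : Nat.card K = 1092) {P L : Subgroup K} (hP : Nat.card P = 7)
    (hPL : P ≤ L) (hL : L ≠ ⊤) : L ≤ Subgroup.normalizer (P : Set K) := by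
  haveI : Fact (Nat.Prime 7) := ⟨by norm_num⟩
  refine le_normalizer_aux hK hP hPL hL ?_
  intro d hd hd2
  have hd12 : d ≤ 12 := by omega
  have hd156 : d ∣ 156 := by
    have : 7 * d ∣ 7 * 156 := hd2
    exact Nat.dvd_of_mul_dvd_mul_left (by norm_num) this
  constructor
  · rintro ⟨c, rfl⟩
    have hc : c = 0 ∨ c = 1 := by omega
    rcases hc with rfl | rfl <;> revert hd156 <;> decide
  · intro n hn hn1
    have hn156 : n ∣ 156 := hn.trans hd156
    have h0 : 0 < d := Nat.pos_of_dvd_of_pos hd156 (by norm_num)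
    have hle := Nat.le_of_dvd h0 hn
    have hn12 : n ≤ 12 := hle.trans hd12
    interval_cases n <;> first | rfl | omega | (revert hn156; decide)

lemma card_normalizer_13 (hK : Nat.card K = 1092) {P : Subgroup K} (hP : Nat.card P = 13) :
    Nat.card (Subgroup.normalizer (P : Set K)) = 78 := by
  haveI : Fact (Nat.Prime 13) := ⟨by norm_num⟩
  have hpg : IsPGroup 13 P := IsPGroup.of_card (n := 1) (by rw [hP, pow_one])
  have hidx : P.index = 84 := by
    have := P.index_mul_card
    rw [hK, hP] at this
    omega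
  have h1 := index_normalizer_mod P hpg (by rw [hidx]; norm_num)
  obtain ⟨m, hm⟩ : 13 ∣ Nat.card (Subgroup.normalizer (P : Set K)) :=
    hP ▸ Subgroup.card_dvd_of_le Subgroup.le_normalizer
  have h2 := (Subgroup.normalizer (P : Set K)).index_mul_card
  rw [hK, hm] at h2
  have h3 : (Subgroup.normalizer (P : Set K)).index ≠ 1 := by
    rw [Ne, Subgroup.index_eq_one]
    apply normalizer_ne_top
    · rintro rfl
      simp at hP
    · rintro rfl
      rw [Subgroup.card_top, hK] at hP
      omega
  generalize (Subgroup.normalizer (P : Set K)).index = n at h1 h2 h3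
  have h4 : n * m = 84 := by nlinarith
  have h5 : n ≤ 84 := by
    have : 0 < m := by
      rcases Nat.eq_zero_or_pos m with h | h
      · subst h; omega
      · exact h
    nlinarith
  rw [hm]
  interval_cases n <;> omega

lemma card_normalizer_7 (hK : Nat.card K = 1092) {P : Subgroup K} (hP : Nat.card P = 7) :
    Nat.card (Subgroup.normalizer (P : Set K)) = 14 := by
  haveI : Fact (Nat.Prime 7) := ⟨by norm_num⟩
  have hpg : IsPGroup 7 P := IsPGroup.of_card (n := 1) (by rw [hP, pow_one])
  have hidx : P.index = 156 := by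
    have := P.index_mul_card
    rw [hK, hP] at this
    omega
  have h1 := index_normalizer_mod P hpg (by rw [hidx]; norm_num)
  obtain ⟨m, hm⟩ : 7 ∣ Nat.card (Subgroup.normalizer (P : Set K)) :=
    hP ▸ Subgroup.card_dvd_of_le Subgroup.le_normalizer
  have h2 := (Subgroup.normalizer (P : Set K)).index_mul_card
  rw [hK, hm] at h2
  have h3 : (Subgroup.normalizer (P : Set K)).index ≠ 1 := by
    rw [Ne, Subgroup.index_eq_one]
    apply normalizer_ne_top
    · rintro rfl
      simp at hP
    · rintro rfl
      rw [Subgroup.card_top, hK] at hP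
      omega
  generalize (Subgroup.normalizer (P : Set K)).index = n at h1 h2 h3
  have h4 : n * m = 156 := by nlinarith
  have hm0 : 0 < m := by
    rcases Nat.eq_zero_or_pos m with h | h
    · subst h; omega
    · exact h
  have h5 : n ≤ 156 := by nlinarith
  rw [hm]
  interval_cases n <;> omega

lemma card_zp {x : K} {p : ℕ} (hx : orderOf x = p) : Nat.card (Subgroup.zpowers x) = p := by
  rw [Nat.card_zpowers, hx]

/-- The possible orders of proper subgroups. -/
lemma card_cases (hK : Nat.card K = 1092) {L : Subgroup K} (hL : L ≠ ⊤) :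
    (13 ∣ Nat.card L → Nat.card L ∣ 78) ∧ (7 ∣ Nat.card L → Nat.card L ∣ 14) ∧
      (¬ 13 ∣ Nat.card L → ¬ 7 ∣ Nat.card L → Nat.card L ∣ 12) := by
  refine ⟨fun h => ?_, fun h => ?_, fun h1 h2 => ?_⟩
  · haveI : Fact (Nat.Prime 13) := ⟨by norm_num⟩
    obtain ⟨x, hxL, hx⟩ := exists_order_mem L h
    have hP := card_zp hx
    rw [← card_normalizer_13 hK hP]
    exact Subgroup.card_dvd_of_le (le_normalizer_13 hK hP (zp_le hxL) hL)
  · haveI : Fact (Nat.Prime 7) := ⟨by norm_num⟩
    obtain ⟨x, hxL, hx⟩ := exists_order_mem L h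
    have hP := card_zp hx
    rw [← card_normalizer_7 hK hP]
    exact Subgroup.card_dvd_of_le (le_normalizer_7 hK hP (zp_le hxL) hL)
  · have h3 := card_dvd hK L
    have hc : Nat.Coprime (Nat.card L) 91 := by
      have e : (91 : ℕ) = 7 * 13 := by norm_num
      rw [e]
      apply Nat.Coprime.mul_right
      · exact ((Nat.Prime.coprime_iff_not_dvd (by norm_num)).2 h2).symm
      · exact ((Nat.Prime.coprime_iff_not_dvd (by norm_num)).2 h1).symm
    have e : (1092 : ℕ) = 12 * 91 := by norm_num
    rw [e] at h3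
    exact hc.dvd_of_dvd_mul_right h3

lemma not_burnside (hK : Nat.card K = 1092) {p : ℕ} [Fact p.Prime] (P : Sylow p K)
    (hP1 : Nat.card (P : Subgroup K) ≠ 1) (hP2 : Nat.card (P : Subgroup K) ≠ 1092)
    (hP : Subgroup.normalizer (P : Subgroup K) ≤ Subgroup.centralizer ((P : Subgroup K) : Set K)) :
    False := by
  have hc := MonoidHom.ker_transferSylow_isComplement' P hP
  have hcard := hc.card_mul_card
  rcases (MonoidHom.normal_ker (MonoidHom.transferSylow P hP)).eq_bot_or_eq_top with h | h
  · rw [h, Subgroup.card_bot, one_mul, hK] at hcard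
    exact hP2 hcard
  · rw [h, Subgroup.card_top, hK] at hcard
    apply hP1
    nlinarith [Nat.card_pos (α := (P : Subgroup K))]

lemma card_normalizer_3 (hK : Nat.card K = 1092) {P : Subgroup K} (hP : Nat.card P = 3) :
    Nat.card (Subgroup.normalizer (P : Set K)) = 12 := by
  haveI : Fact (Nat.Prime 3) := ⟨by norm_num⟩
  have hpg : IsPGroup 3 P := IsPGroup.of_card (n := 1) (by rw [hP, pow_one])
  have hidx : P.index = 364 := by
    have := P.index_mul_card
    rw [hK, hP] at this
    omega
  have hnd : ¬ 3 ∣ P.index := by rw [hidx]; norm_num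
  have h1 := index_normalizer_mod P hpg hnd
  have hne : Subgroup.normalizer (P : Set K) ≠ ⊤ := by
    apply normalizer_ne_top
    · rintro rfl
      simp at hP
    · rintro rfl
      rw [Subgroup.card_top, hK] at hP
      omega
  have h3dvd : 3 ∣ Nat.card (Subgroup.normalizer (P : Set K)) :=
    hP ▸ Subgroup.card_dvd_of_le Subgroup.le_normalizer
  have h2 := (Subgroup.normalizer (P : Set K)).index_mul_card
  rw [hK] at h2
  obtain ⟨c13, c7, c12⟩ := card_cases hK hne
  by_cases h13 : 13 ∣ Nat.card (Subgroup.normalizer (P : Set K))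
  · exfalso
    -- then the order is `39` or `78`
    have hd := c13 h13
    have h39 : 39 ∣ Nat.card (Subgroup.normalizer (P : Set K)) :=
      (show 39 = 3 * 13 by norm_num) ▸ Nat.Coprime.mul_dvd_of_dvd_of_dvd (by norm_num) h3dvd h13
    have hcase : Nat.card (Subgroup.normalizer (P : Set K)) = 39 ∨
        Nat.card (Subgroup.normalizer (P : Set K)) = 78 := by
      have hle := Nat.le_of_dvd (by norm_num) hd
      have hpos := Nat.card_pos (α := Subgroup.normalizer (P : Set K))
      obtain ⟨k, hk⟩ := h39
      have : k = 1 ∨ k = 2 := by omega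
      rcases this with rfl | rfl
      · left; omega
      · right; omega
    haveI : Fact (Nat.Prime 13) := ⟨by norm_num⟩
    obtain ⟨x, hxL, hx⟩ := exists_order_mem (Subgroup.normalizer (P : Set K)) h13
    have hQ := card_zp hx
    have hle := le_normalizer_13 hK hQ (zp_le hxL) hne
    have hB := card_normalizer_13 hK hQ
    rcases hcase with h39' | h78
    · -- index two inside the normalizer of the Sylow 13
      rw [h39'] at h2
      have hi : (Subgroup.normalizer (P : Set K)).index = 28 := by omega
      -- `N` is normal in `B`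
      set N := Subgroup.normalizer (P : Set K) with hN
      set B := Subgroup.normalizer ((Subgroup.zpowers x : Subgroup K) : Set K) with hBdef
      have hrel : N.relIndex B = 2 := by
        have e2 : Nat.card ((N.subgroupOf B) : Subgroup B) = Nat.card N := by
          rw [Nat.card_congr (Subgroup.subgroupOfEquivOfLe hle).toEquiv]
        have e3 := (N.subgroupOf B).index_mul_card
        rw [e2, h39', hB] at e3
        have e4 : (N.subgroupOf B).index = 2 := by omega
        exact e4
      have hnorm : (N.subgroupOf B).Normal := Subgroup.normal_of_index_eq_two hrel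
      have hBN : B ≤ Subgroup.normalizer (N : Set K) :=
        (Subgroup.normal_subgroupOf_iff_le_normalizer hle).1 hnorm
      have hPN : P ≤ N := Subgroup.le_normalizer
      have hcop : (P.relIndex N).Coprime 3 := by
        have e1 : Nat.card (P.subgroupOf N) = 3 := by
          rw [Nat.card_congr (Subgroup.subgroupOfEquivOfLe hPN).toEquiv, hP]
        have e3 := (P.subgroupOf N).index_mul_card
        rw [e1, h39'] at e3
        have e4 : (P.subgroupOf N).index = 13 := by omega
        show (P.subgroupOf N).index.Coprime 3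
        rw [e4]
        norm_num
      have hpw : ∀ y ∈ P, y ^ 3 = 1 := by
        intro y hy
        have : (⟨y, hy⟩ : P) ^ Nat.card P = 1 := pow_card_eq_one'
        rw [hP] at this
        exact congrArg Subtype.val this
      have hle2 := normalizer_le_of_char hPN (le_refl N) hcop hpw
      have hBle : B ≤ N := hBN.trans hle2
      have := Subgroup.card_dvd_of_le hBle
      rw [hB, h39'] at this
      revert this
      decide
    · rw [h78] at h2
      have hi : (Subgroup.normalizer (P : Set K)).index = 14 := by omega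
      rw [hi] at h1
      revert h1
      decide
  by_cases h7 : 7 ∣ Nat.card (Subgroup.normalizer (P : Set K))
  · exfalso
    have hd := c7 h7
    have := h3dvd.trans hd
    revert this
    decide
  have h12 := c12 h13 h7
  have hcase : Nat.card (Subgroup.normalizer (P : Set K)) = 3 ∨
      Nat.card (Subgroup.normalizer (P : Set K)) = 6 ∨
      Nat.card (Subgroup.normalizer (P : Set K)) = 12 := by
    have hle := Nat.le_of_dvd (by norm_num) h12
    obtain ⟨k, hk⟩ := h3dvd
    rw [hk] at h12 ⊢
    have hk4 : k ≤ 4 := by omega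
    interval_cases k <;> first | omega | (revert h12; decide)
  rcases hcase with h3' | h6 | h12'
  · exfalso
    have heq : Subgroup.normalizer (P : Set K) = P :=
      (Subgroup.eq_of_le_of_card_ge Subgroup.le_normalizer (by rw [h3', hP])).symm
    let Q : Sylow 3 K := hpg.toSylow hnd
    have hab : ∀ a ∈ P, ∀ b ∈ P, a * b = b * a := by
      intro a ha b hb
      haveI : IsCyclic P := isCyclic_of_prime_card hP
      have := (IsCyclic.commutative (α := P))
      have e := this.is_comm.comm ⟨a, ha⟩ ⟨b, hb⟩
      exact congrArg Subtype.val e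
    refine not_burnside hK Q (by show Nat.card P ≠ 1; omega) (by show Nat.card P ≠ 1092; omega) ?_
    show Subgroup.normalizer (P : Set K) ≤ Subgroup.centralizer (P : Set K)
    rw [heq]
    intro a ha
    rw [Subgroup.mem_centralizer_iff]
    intro b hb
    exact hab b hb a ha
  · exfalso
    rw [h6] at h2
    have hi : (Subgroup.normalizer (P : Set K)).index = 182 := by omega
    rw [hi] at h1
    revert h1
    decide
  · exact h12'

lemma card_normalizer_4 (hK : Nat.card K = 1092) {P : Subgroup K} (hP : Nat.card P = 4) :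
    Nat.card (Subgroup.normalizer (P : Set K)) = 12 := by
  haveI : Fact (Nat.Prime 2) := ⟨by norm_num⟩
  have hpg : IsPGroup 2 P := IsPGroup.of_card (n := 2) (by rw [hP]; norm_num)
  have hidx : P.index = 273 := by
    have := P.index_mul_card
    rw [hK, hP] at this
    omega
  have hnd : ¬ 2 ∣ P.index := by rw [hidx]; norm_num
  have hne : Subgroup.normalizer (P : Set K) ≠ ⊤ := by
    apply normalizer_ne_top
    · rintro rfl
      simp at hP
    · rintro rfl
      rw [Subgroup.card_top, hK] at hP
      omega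
  have h4dvd : 4 ∣ Nat.card (Subgroup.normalizer (P : Set K)) :=
    hP ▸ Subgroup.card_dvd_of_le Subgroup.le_normalizer
  obtain ⟨c13, c7, c12⟩ := card_cases hK hne
  have h13 : ¬ 13 ∣ Nat.card (Subgroup.normalizer (P : Set K)) := by
    intro h
    have := h4dvd.trans (c13 h)
    revert this
    decide
  have h7 : ¬ 7 ∣ Nat.card (Subgroup.normalizer (P : Set K)) := by
    intro h
    have := h4dvd.trans (c7 h)
    revert this
    decide
  have h12 := c12 h13 h7
  have hcase : Nat.card (Subgroup.normalizer (P : Set K)) = 4 ∨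
      Nat.card (Subgroup.normalizer (P : Set K)) = 12 := by
    have hle := Nat.le_of_dvd (by norm_num) h12
    obtain ⟨k, hk⟩ := h4dvd
    rw [hk] at h12 ⊢
    have hk4 : k ≤ 3 := by omega
    interval_cases k <;> first | omega | (revert h12; decide)
  rcases hcase with h4' | h12'
  · exfalso
    have heq : Subgroup.normalizer (P : Set K) = P :=
      (Subgroup.eq_of_le_of_card_ge Subgroup.le_normalizer (by rw [h4', hP])).symm
    let Q : Sylow 2 K := hpg.toSylow hnd
    have hab : ∀ a ∈ P, ∀ b ∈ P, a * b = b * a := by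
      intro a ha b hb
      have h := IsPGroup.isMulCommutative_of_card_eq_prime_sq (p := 2) (G := P)
        (by rw [hP]; norm_num)
      have e := h.is_comm.comm ⟨a, ha⟩ ⟨b, hb⟩
      exact congrArg Subtype.val e
    refine not_burnside hK Q (by show Nat.card P ≠ 1; omega) (by show Nat.card P ≠ 1092; omega) ?_
    show Subgroup.normalizer (P : Set K) ≤ Subgroup.centralizer (P : Set K)
    rw [heq]
    intro a ha
    rw [Subgroup.mem_centralizer_iff]
    intro b hb
    exact hab b hb a ha
  · exact h12'

end Cfsg.Agent.Lib.ClassSizes.Nm1092
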