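import Mathlib
import Cfsg.Agent.Lib.ClassSizes.Nm1092A

/-!
# Simple groups of order 1092: normalizers of proper non-trivial subgroups are maximal
-/

namespace Cfsg.Agent.Lib.ClassSizes.Nm1092

open scoped Pointwise

section general
variable {G : Type*} [Group G]

lemma four_elements {S : Subgroup G} [Finite S] (hS : Nat.card S = 4) {a b c : G} (ha : a ∈ S)
    (hb : b ∈ S) (hc : c ∈ S) (h1a : a ≠ 1) (h1b : b ≠ 1) (h1c : c ≠ 1) (hab : a ≠ b) (hac : a ≠ c)
    (hbc : b ≠ c) : ∀ y ∈ S, y = 1 ∨ y = a ∨ y = b ∨ y = c := by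
  classical
  intro y hy
  by_contra hc'
  push Not at hc'
  obtain ⟨h1, h2, h3, h4⟩ := hc'
  haveI := Fintype.ofFinite S
  let F : Finset S := {⟨1, S.one_mem⟩, ⟨a, ha⟩, ⟨b, hb⟩, ⟨c, hc⟩, ⟨y, hy⟩}
  have hF : F.card = 5 := by
    simp only [F]
    rw [Finset.card_insert_of_notMem, Finset.card_insert_of_notMem, Finset.card_insert_of_notMem,
      Finset.card_insert_of_notMem, Finset.card_singleton]
    · simpa [Subtype.ext_iff] using h4.symm
    · simpa [Subtype.ext_iff] using ⟨hbc, h3.symm⟩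
    · simpa [Subtype.ext_iff] using ⟨hab, hac, h2.symm⟩
    · simpa [Subtype.ext_iff] using ⟨h1a.symm, h1b.symm, h1c.symm, h1.symm⟩
  have h5 := Finset.card_le_univ F
  rw [hF, ← Nat.card_eq_fintype_card, hS] at h5
  omega

lemma trans_aux {S : Subgroup G} [Finite S] (hS : Nat.card S = 4) {x : G} (hx : x ^ 3 = 1)
    (hxS : ∀ a ∈ S, x * a * x⁻¹ ∈ S) (hnc : ∃ u ∈ S, x * u * x⁻¹ ≠ u) {t t₀ : G} (ht : t ∈ S)
    (ht₀ : t₀ ∈ S) (ht₀2 : t₀ ^ 2 = 1) (ht2 : t ^ 2 = 1) (h1 : t ≠ 1) (h01 : t₀ ≠ 1) :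
    ∃ h : G, (h = 1 ∨ h = x ∨ h = x ^ 2) ∧ h * t₀ * h⁻¹ = t := by
  by_cases e : t = t₀
  · exact ⟨1, Or.inl rfl, by rw [e]; simp⟩
  obtain ⟨A, hAdef⟩ : ∃ A : G → G, ∀ y, A y = x * y * x⁻¹ := ⟨_, fun _ => rfl⟩
  have hA1 : A 1 = 1 := by rw [hAdef]; simp
  have hAmul : ∀ a b, A (a * b) = A a * A b := by
    intro a b; rw [hAdef, hAdef, hAdef]; group
  have hAinj : ∀ a b, A a = A b → a = b := by
    intro a b h
    rw [hAdef, hAdef] at h
    exact mul_left_cancel (mul_right_cancel h)
  have hA3 : ∀ y, A (A (A y)) = y := by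
    intro y
    rw [hAdef, hAdef, hAdef]
    calc x * (x * (x * y * x⁻¹) * x⁻¹) * x⁻¹ = x ^ 3 * y * (x ^ 3)⁻¹ := by
          simp only [pow_succ, pow_zero, one_mul, mul_inv_rev, mul_assoc]
      _ = y := by rw [hx]; simp
  have hAS : ∀ y ∈ S, A y ∈ S := fun y hy => by rw [hAdef]; exact hxS y hy
  obtain ⟨c, hcdef⟩ : ∃ c, c = t₀ * t := ⟨_, rfl⟩
  have hcS : c ∈ S := by rw [hcdef]; exact S.mul_mem ht₀ ht
  have hc1 : c ≠ 1 := by
    intro h
    apply e
    rw [hcdef] at h
    have h2 : t₀ * t₀ = 1 := by rw [← pow_two]; exact ht₀2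
    calc t = t₀ * t₀ * t := by rw [h2, one_mul]
      _ = t₀ * (t₀ * t) := by rw [mul_assoc]
      _ = t₀ := by rw [h, mul_one]
  have hct₀ : t₀ ≠ c := by
    intro h
    apply h1
    rw [hcdef] at h
    exact (mul_eq_left.1 h.symm)
  have hct : t ≠ c := by
    intro h
    apply h01
    rw [hcdef] at h
    exact (mul_eq_right.1 h.symm)
  have hall := four_elements hS ht₀ ht hcS h01 h1 hc1 (Ne.symm e) hct₀ hct
  have hAc : A c = A t₀ * A t := by rw [hcdef, hAmul]
  have step1 : A t₀ ≠ t₀ := by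
    intro e1
    rcases hall (A t) (hAS t ht) with h | h | h | h
    · exact h1 (hAinj _ _ (by rw [h, hA1]))
    · exact e (hAinj _ _ (by rw [h, e1]))
    · obtain ⟨u, huS, hu⟩ := hnc
      rw [← hAdef] at hu
      apply hu
      rcases hall u huS with h' | h' | h' | h'
      · rw [h', hA1]
      · rw [h', e1]
      · rw [h', h]
      · rw [h', hAc, e1, h, hcdef]
    · have h2 : A (A t) = t := by
        rw [h, hAc, e1, h, hcdef, ← mul_assoc, ← pow_two, ht₀2, one_mul]
      have h3 := hA3 t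
      rw [h2, h] at h3
      exact hct h3.symm
  rcases hall (A t₀) (hAS t₀ ht₀) with h | h | h | h
  · exact absurd (hAinj _ _ (by rw [h, hA1])) h01
  · exact absurd h step1
  · exact ⟨x, Or.inr (Or.inl rfl), by rw [← hAdef]; exact h⟩
  · rcases hall (A (A t₀)) (hAS _ (hAS t₀ ht₀)) with h' | h' | h' | h'
    · exfalso
      have h2 : A t₀ = 1 := hAinj _ _ (by rw [h', hA1])
      exact h01 (hAinj _ _ (by rw [h2, hA1]))
    · exfalso
      have h2 := hA3 t₀
      rw [h'] at h2
      exact step1 h2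
    · refine ⟨x ^ 2, Or.inr (Or.inr rfl), ?_⟩
      have e2 : A (A t₀) = x ^ 2 * t₀ * (x ^ 2)⁻¹ := by
        rw [hAdef, hAdef]
        simp only [pow_succ, pow_zero, one_mul, mul_inv_rev, mul_assoc]
      rw [← e2]
      exact h'
    · exfalso
      have h2 : A t₀ = t₀ := hAinj _ _ (by rw [h', h])
      exact step1 h2

lemma centralizer_le_normalizer_zp (x : G) :
    Subgroup.centralizer ({x} : Set G) ≤ Subgroup.normalizer ((Subgroup.zpowers x : Subgroup G) : Set G) := by
  rw [Subgroup.le_normalizer_iff]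
  intro g hg h hh
  obtain ⟨k, rfl⟩ := hh
  have hc : g * x = x * g := Subgroup.mem_centralizer_singleton_iff.1 hg
  have hk : g * x ^ k * g⁻¹ = x ^ k := by
    have : Commute g (x ^ k) := Commute.zpow_right hc k
    rw [this.eq]
    group
  show g * x ^ k * g⁻¹ ∈ Subgroup.zpowers x
  rw [hk]
  exact ⟨k, rfl⟩

end general

variable {K : Type*} [Group K] [Finite K] [IsSimpleGroup K]

/-- An involution lies in an abelian subgroup of order 4. -/
lemma exists_four (hK : Nat.card K = 1092) {t : K} (ht : orderOf t = 2) :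
    ∃ S : Subgroup K, Nat.card S = 4 ∧ t ∈ S ∧ ∀ a ∈ S, ∀ b ∈ S, a * b = b * a := by
  haveI : Fact (Nat.Prime 2) := ⟨by norm_num⟩
  have hpg : IsPGroup 2 (Subgroup.zpowers t) :=
    IsPGroup.of_card (n := 1) (by rw [card_zp ht, pow_one])
  obtain ⟨S, hS⟩ := hpg.exists_le_sylow
  have hc : Nat.card (S : Subgroup K) = 4 := by
    have h1 := (S : Subgroup K).index_mul_card
    obtain ⟨k, hk⟩ := IsPGroup.iff_card.1 S.isPGroup'
    have h2 := S.not_dvd_index
    rw [hK, hk] at h1
    have h3 : 2 ^ k ∣ 1092 := Dvd.intro_left _ h1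
    have hk2 : k ≤ 2 := by
      by_contra hc
      have : 2 ^ 3 ∣ 2 ^ k := pow_dvd_pow 2 (by omega)
      have := this.trans h3
      revert this
      decide
    rw [hk]
    interval_cases k <;> first | rfl | omega
  refine ⟨S, hc, hS (Subgroup.mem_zpowers t), ?_⟩
  intro a ha b hb
  have h := IsPGroup.isMulCommutative_of_card_eq_prime_sq (p := 2) (G := (S : Subgroup K))
    (by rw [hc]; norm_num)
  have e := h.is_comm.comm ⟨a, ha⟩ ⟨b, hb⟩
  exact congrArg Subtype.val e

/-- Any two subgroups of order 4 are conjugate. -/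
lemma conj_four (hK : Nat.card K = 1092) {S S' : Subgroup K} (hS : Nat.card S = 4)
    (hS' : Nat.card S' = 4) : ∃ g : K, ∀ a ∈ S', g * a * g⁻¹ ∈ S := by
  haveI : Fact (Nat.Prime 2) := ⟨by norm_num⟩
  have hpg : ∀ {T : Subgroup K}, Nat.card T = 4 → IsPGroup 2 T := fun hT =>
    IsPGroup.of_card (n := 2) (by rw [hT]; norm_num)
  have hnd : ∀ {T : Subgroup K}, Nat.card T = 4 → ¬ 2 ∣ T.index := by
    intro T hT
    have := T.index_mul_card
    rw [hK, hT] at this
    have e : T.index = 273 := by omega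
    rw [e]
    norm_num
  let Q : Sylow 2 K := (hpg hS).toSylow (hnd hS)
  let Q' : Sylow 2 K := (hpg hS').toSylow (hnd hS')
  obtain ⟨g, hg⟩ := MulAction.exists_smul_eq K Q' Q
  refine ⟨g, fun a ha => ?_⟩
  have h1 : ((g • Q' : Sylow 2 K) : Subgroup K) = (Q : Subgroup K) := by rw [hg]
  have h2 : MulAut.conj g • a ∈ MulAut.conj g • (Q' : Subgroup K) :=
    Subgroup.smul_mem_pointwise_smul _ _ _ ha
  rw [← Sylow.coe_subgroup_smul, h1] at h2
  exact h2

lemma exists_commuting_three (hK : Nat.card K = 1092) {t : K} (ht : orderOf t = 2) :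
    ∃ y, orderOf y = 3 ∧ y * t = t * y := by
  obtain ⟨S, hSc, htS, hab⟩ := exists_four hK ht
  have hN := card_normalizer_4 hK hSc
  haveI f3 : Fact (Nat.Prime 3) := ⟨by norm_num⟩
  haveI f2 : Fact (Nat.Prime 2) := ⟨by norm_num⟩
  obtain ⟨x, hxN, hx⟩ := exists_order_mem (Subgroup.normalizer (S : Set K)) (p := 3)
    (by rw [hN]; norm_num)
  have hx3 : x ^ 3 = 1 := hx ▸ pow_orderOf_eq_one x
  have hxS : ∀ a ∈ S, x * a * x⁻¹ ∈ S := fun a ha => (Subgroup.mem_normalizer_iff.1 hxN a).1 ha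
  have hnc : ∃ u ∈ S, x * u * x⁻¹ ≠ u := by
    by_contra hc
    push Not at hc
    -- `C(S) ∩ N(S)` is everything
    let C := Subgroup.centralizer (S : Set K) ⊓ Subgroup.normalizer (S : Set K)
    have hSC : S ≤ C := by
      intro a ha
      refine Subgroup.mem_inf.2 ⟨?_, Subgroup.le_normalizer ha⟩
      rw [Subgroup.mem_centralizer_iff]
      intro b hb
      exact hab b hb a ha
    have hxC : x ∈ C := by
      refine Subgroup.mem_inf.2 ⟨?_, hxN⟩
      rw [Subgroup.mem_centralizer_iff]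
      intro b hb
      have := hc b hb
      calc b * x = x * (x⁻¹ * b * x⁻¹⁻¹) * x⁻¹ * x := by group
        _ = b * x := by group
        _ = (x * b * x⁻¹) * x := by rw [this]
        _ = x * b := by group
    have h4 : 4 ∣ Nat.card C := hSc ▸ Subgroup.card_dvd_of_le hSC
    have h3 : 3 ∣ Nat.card C := by
      have h1 : orderOf (⟨x, hxC⟩ : C) ∣ Nat.card C := orderOf_dvd_natCard _
      rwa [Subgroup.orderOf_mk, hx] at h1
    have h12 : 12 ∣ Nat.card C :=
      (show 12 = 4 * 3 by norm_num) ▸ Nat.Coprime.mul_dvd_of_dvd_of_dvd (by norm_num) h4 h3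
    have hCN : C ≤ Subgroup.normalizer (S : Set K) := inf_le_right
    have hle := Subgroup.card_dvd_of_le hCN
    rw [hN] at hle
    have hC12 : Nat.card C = 12 := Nat.dvd_antisymm hle h12
    have heq : C = Subgroup.normalizer (S : Set K) :=
      Subgroup.eq_of_le_of_card_ge hCN (by rw [hN, hC12])
    have hnot := not_burnside hK (p := 2) ((IsPGroup.of_card (n := 2) (by rw [hSc]; norm_num) :
      IsPGroup 2 S).toSylow (by
        have := S.index_mul_card
        rw [hK, hSc] at this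
        have e : S.index = 273 := by omega
        rw [e]
        norm_num))
      (by show Nat.card S ≠ 1; omega) (by show Nat.card S ≠ 1092; omega)
    apply hnot
    show Subgroup.normalizer (S : Set K) ≤ Subgroup.centralizer (S : Set K)
    rw [← heq]
    exact inf_le_left
  -- an involution commuting with `x`
  have hQ := card_zp hx
  have hNQ := card_normalizer_3 hK hQ
  obtain ⟨s, hsC, hs⟩ : ∃ s, s * x = x * s ∧ orderOf s = 2 := by
    let Q := Subgroup.zpowers x
    have key := Subgroup.card_dvd_of_injective _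
      (QuotientGroup.kerLift_injective Q.normalizerMonoidHom)
    rw [Subgroup.normalizerMonoidHom_ker, ← Subgroup.index, ← Subgroup.relIndex] at key
    haveI : IsCyclic Q := Subgroup.isCyclic_zpowers x
    rw [IsCyclic.card_mulAut, hQ] at key
    have hphi : Nat.totient 3 = 2 := by decide
    rw [hphi] at key
    have hmul := ((Subgroup.centralizer (Q : Set K)).subgroupOf
      (Subgroup.normalizer (Q : Set K))).index_mul_card
    rw [hNQ] at hmul
    have hdvd2 : 2 ∣ Nat.card ((Subgroup.centralizer (Q : Set K)).subgroupOf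
        (Subgroup.normalizer (Q : Set K))) := by
      have hle := Nat.le_of_dvd (by norm_num) key
      have hrel : ((Subgroup.centralizer (Q : Set K)).subgroupOf
          (Subgroup.normalizer (Q : Set K))).index =
        (Subgroup.centralizer (Q : Set K)).relIndex (Subgroup.normalizer (Q : Set K)) := rfl
      rw [hrel] at hmul
      generalize (Subgroup.centralizer (Q : Set K)).relIndex (Subgroup.normalizer (Q : Set K)) = r
        at hmul key hle
      generalize Nat.card ((Subgroup.centralizer (Q : Set K)).subgroupOf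
        (Subgroup.normalizer (Q : Set K))) = m at hmul
      have hr : r = 1 ∨ r = 2 := by
        have : r ≠ 0 := by
          rintro rfl
          simp at hmul
        omega
      rcases hr with rfl | rfl <;> omega
    obtain ⟨s, hsm, hs⟩ := exists_order_mem _ hdvd2
    have hs' := (Subgroup.mem_subgroupOf.1 hsm)
    have hcomm := Subgroup.mem_centralizer_iff.1 hs' x (Subgroup.mem_zpowers x)
    exact ⟨(s : Subgroup.normalizer (Q : Set K)), hcomm.symm, by rw [Subgroup.orderOf_coe, hs]⟩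
  -- move `s` into `S`
  obtain ⟨S', hS'c, hsS', -⟩ := exists_four hK hs
  obtain ⟨g, hg⟩ := conj_four hK hSc hS'c
  have ht₀S := hg s hsS'
  obtain ⟨t₀, ht₀def⟩ : ∃ t₀, t₀ = g * s * g⁻¹ := ⟨_, rfl⟩
  rw [← ht₀def] at ht₀S
  obtain ⟨y₀, hy₀def⟩ : ∃ y₀, y₀ = g * x * g⁻¹ := ⟨_, rfl⟩
  have ht₀ord : orderOf t₀ = 2 := by
    rw [ht₀def, ← MulAut.conj_apply, MulEquiv.orderOf_eq, hs]
  have hy₀ord : orderOf y₀ = 3 := by
    rw [hy₀def, ← MulAut.conj_apply, MulEquiv.orderOf_eq, hx]
  have hcomm : y₀ * t₀ = t₀ * y₀ := by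
    rw [hy₀def, ht₀def]
    calc g * x * g⁻¹ * (g * s * g⁻¹) = g * (x * s) * g⁻¹ := by group
      _ = g * (s * x) * g⁻¹ := by rw [hsC]
      _ = _ := by group
  have ht1 : t ≠ 1 := by
    rintro rfl
    simp at ht
  have ht₀1 : t₀ ≠ 1 := by
    rintro rfl
    simp at ht₀ord
  obtain ⟨h, -, hh⟩ := trans_aux hSc hx3 hxS hnc htS ht₀S
    (ht₀ord ▸ pow_orderOf_eq_one t₀) (ht ▸ pow_orderOf_eq_one t) ht1 ht₀1
  refine ⟨h * y₀ * h⁻¹, ?_, ?_⟩
  · rw [← MulAut.conj_apply, MulEquiv.orderOf_eq, hy₀ord]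
  · rw [← hh]
    calc h * y₀ * h⁻¹ * (h * t₀ * h⁻¹) = h * (y₀ * t₀) * h⁻¹ := by group
      _ = h * (t₀ * y₀) * h⁻¹ := by rw [hcomm]
      _ = _ := by group

lemma centralizer_ne_top {x : K} {n : ℕ} (hx : orderOf x = n) (h1 : n ≠ 1) (h2 : n ≠ Nat.card K) :
    Subgroup.centralizer ({x} : Set K) ≠ ⊤ := by
  intro h
  have h3 := centralizer_le_normalizer_zp x
  rw [h, top_le_iff] at h3
  refine normalizer_ne_top ?_ ?_ h3
  · intro hb
    rw [Subgroup.zpowers_eq_bot] at hb
    rw [hb, orderOf_one] at hx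
    exact h1 hx.symm
  · intro ht
    have := card_zp hx
    rw [ht, Subgroup.card_top] at this
    exact h2 this.symm

lemma centralizer_13 (hK : Nat.card K = 1092) {x : K} (hx : orderOf x = 13) {y : K}
    (hy : y * x = x * y) : y ∈ Subgroup.zpowers x := by
  haveI f3 : Fact (Nat.Prime 3) := ⟨by norm_num⟩
  haveI f2 : Fact (Nat.Prime 2) := ⟨by norm_num⟩
  obtain ⟨C, hCdef⟩ : ∃ C, C = Subgroup.centralizer ({x} : Set K) := ⟨_, rfl⟩
  have hxC : x ∈ C := by
    rw [hCdef, Subgroup.mem_centralizer_singleton_iff]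
  have hPC : Subgroup.zpowers x ≤ C := zp_le hxC
  have hCne : C ≠ ⊤ := by
    rw [hCdef]
    exact centralizer_ne_top hx (by norm_num) (by omega)
  have h13 : 13 ∣ Nat.card C := card_zp hx ▸ Subgroup.card_dvd_of_le hPC
  have hd := (card_cases hK hCne).1 h13
  have h2 : ¬ 2 ∣ Nat.card C := by
    intro h
    obtain ⟨t, htC, ht⟩ := exists_order_mem C h
    rw [hCdef, Subgroup.mem_centralizer_singleton_iff] at htC
    obtain ⟨S, hSc, htS, hab⟩ := exists_four hK ht
    obtain ⟨D, hDdef⟩ : ∃ D, D = Subgroup.centralizer ({t} : Set K) := ⟨_, rfl⟩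
    have hDne : D ≠ ⊤ := by
      rw [hDdef]
      exact centralizer_ne_top ht (by norm_num) (by omega)
    have hSD : S ≤ D := by
      intro a ha
      rw [hDdef, Subgroup.mem_centralizer_singleton_iff]
      exact hab a ha t htS
    have hxD : x ∈ D := by
      rw [hDdef, Subgroup.mem_centralizer_singleton_iff]
      exact htC.symm
    have h4 : 4 ∣ Nat.card D := hSc ▸ Subgroup.card_dvd_of_le hSD
    have h13' : 13 ∣ Nat.card D := card_zp hx ▸ Subgroup.card_dvd_of_le (zp_le hxD)
    have := h4.trans ((card_cases hK hDne).1 h13')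
    revert this
    decide
  have h3 : ¬ 3 ∣ Nat.card C := by
    intro h
    obtain ⟨w, hwC, hw⟩ := exists_order_mem C h
    rw [hCdef, Subgroup.mem_centralizer_singleton_iff] at hwC
    have hN := card_normalizer_3 hK (card_zp hw)
    have hxN : x ∈ Subgroup.normalizer ((Subgroup.zpowers w : Subgroup K) : Set K) :=
      centralizer_le_normalizer_zp w (Subgroup.mem_centralizer_singleton_iff.2 hwC.symm)
    have h1 : orderOf (⟨x, hxN⟩ : Subgroup.normalizer ((Subgroup.zpowers w : Subgroup K) : Set K))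
        ∣ Nat.card (Subgroup.normalizer ((Subgroup.zpowers w : Subgroup K) : Set K)) :=
      orderOf_dvd_natCard _
    rw [Subgroup.orderOf_mk, hx, hN] at h1
    revert h1
    decide
  have hc13 : Nat.card C = 13 := by
    obtain ⟨k, hk⟩ := h13
    have hk6 : k ∣ 6 := by
      rw [hk] at hd
      exact Nat.dvd_of_mul_dvd_mul_left (by norm_num : 0 < 13) (by simpa using hd)
    have hkle := Nat.le_of_dvd (by norm_num) hk6
    have hk1 : k = 1 := by
      rw [hk] at h2 h3
      interval_cases k <;> first | rfl | omega | (revert hk6; decide)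
    rw [hk, hk1]
  have heq : Subgroup.zpowers x = C :=
    Subgroup.eq_of_le_of_card_ge hPC (by rw [card_zp hx, hc13])
  rw [heq, hCdef, Subgroup.mem_centralizer_singleton_iff]
  exact hy

lemma coatom_normalizer {P : Subgroup K} (h1 : P ≠ ⊥) (h2 : P ≠ ⊤)
    (h : ∀ L : Subgroup K, L ≠ ⊤ → P ≤ L → L ≤ Subgroup.normalizer (P : Set K)) :
    IsCoatom (Subgroup.normalizer (P : Set K)) := by
  refine ⟨normalizer_ne_top h1 h2, fun L hL => ?_⟩
  by_contra hne
  exact hL.not_ge (h L hne (Subgroup.le_normalizer.trans hL.le))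

lemma zp_ne_bot {x : K} {n : ℕ} (hx : orderOf x = n) (h1 : n ≠ 1) : Subgroup.zpowers x ≠ ⊥ := by
  intro hb
  rw [Subgroup.zpowers_eq_bot] at hb
  rw [hb, orderOf_one] at hx
  exact h1 hx.symm

lemma zp_ne_top {x : K} {n : ℕ} (hx : orderOf x = n) (h2 : n ≠ Nat.card K) :
    Subgroup.zpowers x ≠ ⊤ := by
  intro ht
  have := card_zp hx
  rw [ht, Subgroup.card_top] at this
  exact h2 this.symm

theorem coatom_of_dvd_13 (hK : Nat.card K = 1092) {H : Subgroup K} (hH : H ≠ ⊤)
    (h13 : 13 ∣ Nat.card H) : IsCoatom (Subgroup.normalizer (H : Set K)) := by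
  haveI : Fact (Nat.Prime 13) := ⟨by norm_num⟩
  obtain ⟨x, hxH, hx⟩ := exists_order_mem H h13
  have hP := card_zp hx
  have hPH := zp_le hxH
  have hHB := le_normalizer_13 hK hP hPH hH
  have hd := (card_cases hK hH).1 h13
  have hcop : ((Subgroup.zpowers x).relIndex H).Coprime 13 := by
    have e1 : Nat.card ((Subgroup.zpowers x).subgroupOf H) = 13 := by
      rw [Nat.card_congr (Subgroup.subgroupOfEquivOfLe hPH).toEquiv, hP]
    have e3 := ((Subgroup.zpowers x).subgroupOf H).index_mul_card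
    rw [e1] at e3
    show ((Subgroup.zpowers x).subgroupOf H).index.Coprime 13
    rw [← e3] at hd
    have h6 : ((Subgroup.zpowers x).subgroupOf H).index ∣ 6 :=
      Nat.dvd_of_mul_dvd_mul_right (by norm_num : 0 < 13) (by simpa using hd)
    exact Nat.Coprime.coprime_dvd_left h6 (by norm_num)
  have hpw : ∀ y ∈ Subgroup.zpowers x, y ^ 13 = 1 := by
    rintro _ ⟨k, rfl⟩
    show (x ^ k) ^ 13 = 1
    rw [← zpow_natCast (x ^ k) 13, ← zpow_mul, mul_comm, zpow_mul, zpow_natCast, ← hx,
      pow_orderOf_eq_one, one_zpow]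
  have hle1 := normalizer_le_of_char hPH hHB hcop hpw
  have hle2 : Subgroup.normalizer ((Subgroup.zpowers x : Subgroup K) : Set K) ≤
      Subgroup.normalizer (H : Set K) := by
    rw [Subgroup.le_normalizer_iff]
    intro b hb h hh
    have hhb := hHB hh
    obtain ⟨i, hi⟩ := (Subgroup.mem_normalizer_iff.1 hb x).1 (Subgroup.mem_zpowers x)
    obtain ⟨j, hj⟩ := (Subgroup.mem_normalizer_iff.1 hhb x).1 (Subgroup.mem_zpowers x)
    simp only at hi hj
    have e1 : (b * h) * x * (b * h)⁻¹ = (x ^ i) ^ j := by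
      calc (b * h) * x * (b * h)⁻¹ = b * (h * x * h⁻¹) * b⁻¹ := by group
        _ = b * x ^ j * b⁻¹ := by rw [hj]
        _ = (b * x * b⁻¹) ^ j := by rw [conj_zpow]
        _ = _ := by rw [hi]
    have e2 : (h * b) * x * (h * b)⁻¹ = (x ^ j) ^ i := by
      calc (h * b) * x * (h * b)⁻¹ = h * (b * x * b⁻¹) * h⁻¹ := by group
        _ = h * x ^ i * h⁻¹ := by rw [hi]
        _ = (h * x * h⁻¹) ^ i := by rw [conj_zpow]
        _ = _ := by rw [hj]
    have e3 : (x ^ i) ^ j = (x ^ j) ^ i := zpow_comm x i j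
    have hd1 : ((h * b)⁻¹ * (b * h)) * x = x * ((h * b)⁻¹ * (b * h)) := by
      have e4 : (b * h) * x * (b * h)⁻¹ = (h * b) * x * (h * b)⁻¹ := by rw [e1, e2, e3]
      calc ((h * b)⁻¹ * (b * h)) * x = (h * b)⁻¹ * ((b * h) * x * (b * h)⁻¹) * (b * h) := by group
        _ = (h * b)⁻¹ * ((h * b) * x * (h * b)⁻¹) * (b * h) := by rw [e4]
        _ = _ := by group
    have hdP := centralizer_13 hK hx hd1
    have hbd : b * ((h * b)⁻¹ * (b * h)) * b⁻¹ ∈ Subgroup.zpowers x :=
      (Subgroup.mem_normalizer_iff.1 hb _).1 hdP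
    have e5 : b * h * b⁻¹ = h * (b * ((h * b)⁻¹ * (b * h)) * b⁻¹) := by group
    rw [e5]
    exact H.mul_mem hh (hPH hbd)
  rw [le_antisymm hle1 hle2]
  exact coatom_normalizer (zp_ne_bot hx (by norm_num)) (zp_ne_top hx (by omega))
    (fun L hL hPL => le_normalizer_13 hK hP hPL hL)

theorem coatom_of_dvd_7 (hK : Nat.card K = 1092) {H : Subgroup K} (hH : H ≠ ⊤)
    (h7 : 7 ∣ Nat.card H) : IsCoatom (Subgroup.normalizer (H : Set K)) := by
  haveI : Fact (Nat.Prime 7) := ⟨by norm_num⟩
  obtain ⟨x, hxH, hx⟩ := exists_order_mem H h7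
  have hP := card_zp hx
  have hPH := zp_le hxH
  have hHB := le_normalizer_7 hK hP hPH hH
  have hd := (card_cases hK hH).2.1 h7
  have hBc := card_normalizer_7 hK hP
  have hpw : ∀ y ∈ Subgroup.zpowers x, y ^ 7 = 1 := by
    rintro _ ⟨k, rfl⟩
    show (x ^ k) ^ 7 = 1
    rw [← zpow_natCast (x ^ k) 7, ← zpow_mul, mul_comm, zpow_mul, zpow_natCast, ← hx,
      pow_orderOf_eq_one, one_zpow]
  have hcase : Nat.card H = 7 ∨ Nat.card H = 14 := by
    obtain ⟨k, hk⟩ := h7
    rw [hk] at hd ⊢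
    have hk2 : k ∣ 2 := Nat.dvd_of_mul_dvd_mul_left (by norm_num : 0 < 7) (by simpa using hd)
    have hle := Nat.le_of_dvd (by norm_num) hk2
    interval_cases k <;> simp_all
  have heq : Subgroup.normalizer (H : Set K) =
      Subgroup.normalizer ((Subgroup.zpowers x : Subgroup K) : Set K) := by
    rcases hcase with h | h
    · have : Subgroup.zpowers x = H := Subgroup.eq_of_le_of_card_ge hPH (by rw [h, hP])
      rw [this]
    · have hH2 : H = Subgroup.normalizer ((Subgroup.zpowers x : Subgroup K) : Set K) :=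
        Subgroup.eq_of_le_of_card_ge hHB (by rw [h, hBc])
      apply le_antisymm
      · refine normalizer_le_of_char hPH hHB ?_ hpw
        have e1 : Nat.card ((Subgroup.zpowers x).subgroupOf H) = 7 := by
          rw [Nat.card_congr (Subgroup.subgroupOfEquivOfLe hPH).toEquiv, hP]
        have e3 := ((Subgroup.zpowers x).subgroupOf H).index_mul_card
        rw [e1, h] at e3
        have e4 : ((Subgroup.zpowers x).subgroupOf H).index = 2 := by omega
        show ((Subgroup.zpowers x).subgroupOf H).index.Coprime 7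
        rw [e4]
        norm_num
      · nth_rw 1 [← hH2]
        exact Subgroup.le_normalizer
  rw [heq]
  exact coatom_normalizer (zp_ne_bot hx (by norm_num)) (zp_ne_top hx (by omega))
    (fun L hL hPL => le_normalizer_7 hK hP hPL hL)

lemma coatom_of_12 (hK : Nat.card K = 1092) {X : Subgroup K} (hX : X ≠ ⊤)
    (h12 : 12 ∣ Nat.card X) : IsCoatom X := by
  refine ⟨hX, fun L hXL => ?_⟩
  by_contra hL
  have hd : 12 ∣ Nat.card L := h12.trans (Subgroup.card_dvd_of_le hXL.le)
  obtain ⟨c13, c7, c12⟩ := card_cases hK hL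
  have h13 : ¬ 13 ∣ Nat.card L := fun h => by
    have := hd.trans (c13 h)
    revert this
    decide
  have h7 : ¬ 7 ∣ Nat.card L := fun h => by
    have := hd.trans (c7 h)
    revert this
    decide
  have h12' := c12 h13 h7
  have hL12 : Nat.card L = 12 := Nat.dvd_antisymm h12' hd
  have hX12 : Nat.card X = 12 :=
    Nat.dvd_antisymm ((Subgroup.card_dvd_of_le hXL.le).trans h12') h12
  have := Subgroup.eq_of_le_of_card_ge hXL.le (by rw [hL12, hX12])
  exact hXL.ne this

lemma twelve_dvd_normalizer (hK : Nat.card K = 1092) {H : Subgroup K} (h1 : H ≠ ⊥)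
    (hd : Nat.card H ∣ 12) : 12 ∣ Nat.card (Subgroup.normalizer (H : Set K)) := by
  haveI f3 : Fact (Nat.Prime 3) := ⟨by norm_num⟩
  haveI f2 : Fact (Nat.Prime 2) := ⟨by norm_num⟩
  have hcase : Nat.card H = 2 ∨ Nat.card H = 3 ∨ Nat.card H = 4 ∨ Nat.card H = 6 ∨
      Nat.card H = 12 := by
    have hle := Nat.le_of_dvd (by norm_num) hd
    have hne : Nat.card H ≠ 1 := by
      intro h
      exact h1 (Subgroup.card_eq_one.1 h)
    have hpos : 0 < Nat.card H := Nat.card_pos
    generalize Nat.card H = n at *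
    interval_cases n <;> first | omega | (revert hd; decide)
  rcases hcase with h | h | h | h | h
  · -- an involution
    obtain ⟨t, htH, ht⟩ := exists_order_mem H (p := 2) (by rw [h])
    have hHt : Subgroup.zpowers t = H :=
      Subgroup.eq_of_le_of_card_ge (zp_le htH) (by rw [h, card_zp ht])
    rw [← hHt]
    obtain ⟨S, hSc, htS, hab⟩ := exists_four hK ht
    obtain ⟨y, hy, hyt⟩ := exists_commuting_three hK ht
    obtain ⟨D, hDdef⟩ : ∃ D, D = Subgroup.centralizer ({t} : Set K) := ⟨_, rfl⟩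
    have hSD : S ≤ D := by
      intro a ha
      rw [hDdef, Subgroup.mem_centralizer_singleton_iff]
      exact hab a ha t htS
    have hyD : y ∈ D := by
      rw [hDdef, Subgroup.mem_centralizer_singleton_iff]
      exact hyt
    have h4 : 4 ∣ Nat.card D := hSc ▸ Subgroup.card_dvd_of_le hSD
    have h3 : 3 ∣ Nat.card D := card_zp hy ▸ Subgroup.card_dvd_of_le (zp_le hyD)
    have h12 : 12 ∣ Nat.card D :=
      (show 12 = 4 * 3 by norm_num) ▸ Nat.Coprime.mul_dvd_of_dvd_of_dvd (by norm_num) h4 h3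
    refine h12.trans (Subgroup.card_dvd_of_le ?_)
    rw [hDdef]
    exact centralizer_le_normalizer_zp t
  · rw [card_normalizer_3 hK h]
  · rw [card_normalizer_4 hK h]
  · obtain ⟨x, hxH, hx⟩ := exists_order_mem H (p := 3) (by rw [h]; norm_num)
    have hQ := card_zp hx
    have hQH := zp_le hxH
    have e1 : Nat.card ((Subgroup.zpowers x).subgroupOf H) = 3 := by
      rw [Nat.card_congr (Subgroup.subgroupOfEquivOfLe hQH).toEquiv, hQ]
    have e3 := ((Subgroup.zpowers x).subgroupOf H).index_mul_card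
    rw [e1, h] at e3
    have e4 : ((Subgroup.zpowers x).subgroupOf H).index = 2 := by omega
    have hn := Subgroup.normal_of_index_eq_two e4
    have hHN := (Subgroup.normal_subgroupOf_iff_le_normalizer hQH).1 hn
    have hNc := card_normalizer_3 hK hQ
    have e5 : Nat.card (H.subgroupOf (Subgroup.normalizer ((Subgroup.zpowers x : Subgroup K) : Set K))) = 6 := by
      rw [Nat.card_congr (Subgroup.subgroupOfEquivOfLe hHN).toEquiv, h]
    have e6 := (H.subgroupOf (Subgroup.normalizer ((Subgroup.zpowers x : Subgroup K) : Set K))).index_mul_card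
    rw [e5, hNc] at e6
    have e7 : (H.subgroupOf (Subgroup.normalizer ((Subgroup.zpowers x : Subgroup K) : Set K))).index = 2 := by
      omega
    have hn2 := Subgroup.normal_of_index_eq_two e7
    have hle := (Subgroup.normal_subgroupOf_iff_le_normalizer hHN).1 hn2
    rw [← hNc]
    exact Subgroup.card_dvd_of_le hle
  · rw [← h]
    exact Subgroup.card_dvd_of_le Subgroup.le_normalizer

/-- In a simple group of order 1092 the normalizer of a non-trivial proper subgroup is maximal. -/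
theorem coatom_normalizer_of_ne (hK : Nat.card K = 1092) {H : Subgroup K} (h1 : H ≠ ⊥)
    (h2 : H ≠ ⊤) : IsCoatom (Subgroup.normalizer (H : Set K)) := by
  by_cases h13 : 13 ∣ Nat.card H
  · exact coatom_of_dvd_13 hK h2 h13
  by_cases h7 : 7 ∣ Nat.card H
  · exact coatom_of_dvd_7 hK h2 h7
  obtain ⟨_, _, c12⟩ := card_cases hK h2
  exact coatom_of_12 hK (normalizer_ne_top h1 h2) (twelve_dvd_normalizer hK h1 (c12 h13 h7))

end Cfsg.Agent.Lib.ClassSizes.Nm1092
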