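import Mathlib
import Cfsg.Agent.Lib.ClassSizes.Nm1092B
import Cfsg.Agent.Lib.Known3.PSL213

/-!
# Maximal normalizers in central extensions and direct products
-/

namespace Cfsg.Agent.Lib.ClassSizes.Nm1092

open Matrix
open scoped MatrixGroups

lemma coatom_comap {A B : Type*} [Group A] [Group B] (π : A →* B) (hπ : Function.Surjective π)
    {X : Subgroup B} (hX : IsCoatom X) : IsCoatom (X.comap π) := by
  refine ⟨fun h => hX.1 ?_, fun L hL => ?_⟩
  · rw [eq_top_iff]
    intro b _
    obtain ⟨a, rfl⟩ := hπ b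
    have : a ∈ X.comap π := by rw [h]; trivial
    exact this
  · have hker : π.ker ≤ L := (Subgroup.ker_le_comap π X).trans hL.le
    have hXL : X < L.map π := by
      refine lt_of_le_of_ne ?_ ?_
      · intro b hb
        obtain ⟨a, rfl⟩ := hπ b
        exact ⟨a, hL.le hb, rfl⟩
      · intro he
        apply hL.ne
        rw [he, Subgroup.comap_map_eq_self hker]
    have h1 := hX.2 _ hXL
    have h2 := Subgroup.comap_map_eq_self hker
    rw [h1, Subgroup.comap_top] at h2
    exact h2.symm

theorem propN_of_cover {K₁ K : Type*} [Group K₁] [Finite K₁] [Group K] [Finite K] [IsSimpleGroup K]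
    (hK : Nat.card K = 1092) (π : K₁ →* K) (hπ : Function.Surjective π) {z : K₁}
    (hker : ∀ g, π g = 1 ↔ g = 1 ∨ g = z) (hz : z ≠ 1) (hz2 : z ^ 2 = 1)
    (hinv : ∀ y : K₁, y ^ 2 = 1 → y = 1 ∨ y = z) (H : Subgroup K₁) (hH : ¬ H.Normal) :
    IsCoatom (Subgroup.normalizer (H : Set K₁)) := by
  have hcent : ∀ g, g * z = z * g := by
    intro g
    have h1 : π (g * z * g⁻¹) = 1 := by simp [(hker z).2 (Or.inr rfl)]
    rcases (hker _).1 h1 with h | h
    · exfalso
      apply hz
      have e : z = g⁻¹ * (g * z * g⁻¹) * g := by group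
      rw [e, h]
      group
    · calc g * z = (g * z * g⁻¹) * g := by group
        _ = z * g := by rw [h]
  have hb : H.map π ≠ ⊥ := by
    intro hb
    apply hH
    refine ⟨fun h hh g => ?_⟩
    have h1 : π h = 1 := by
      have : π h ∈ H.map π := ⟨h, hh, rfl⟩
      rw [hb] at this
      exact Subgroup.mem_bot.1 this
    rcases (hker h).1 h1 with rfl | rfl
    · simpa using H.one_mem
    · have e : g * h * g⁻¹ = h := by rw [hcent g]; group
      rw [e]
      exact hh
  have ht : H.map π ≠ ⊤ := by
    intro ht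
    apply hH
    have hdec : ∀ g, ∃ h ∈ H, g = h ∨ g = h * z := by
      intro g
      have : π g ∈ H.map π := by rw [ht]; trivial
      obtain ⟨h, hh, e⟩ := this
      have h1 : π (h⁻¹ * g) = 1 := by simp [map_mul, map_inv, e]
      rcases (hker _).1 h1 with h2 | h2
      · exact ⟨h, hh, Or.inl (by
          calc g = h * (h⁻¹ * g) := by group
            _ = h := by rw [h2, mul_one])⟩
      · refine ⟨h, hh, Or.inr ?_⟩
        rw [← h2]
        group
    refine ⟨fun a ha g => ?_⟩
    obtain ⟨h, hh, rfl | rfl⟩ := hdec g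
    · exact H.mul_mem (H.mul_mem hh ha) (H.inv_mem hh)
    · have e : h * z * a * (h * z)⁻¹ = h * a * h⁻¹ := by
        calc h * z * a * (h * z)⁻¹ = h * (z * a) * z⁻¹ * h⁻¹ := by group
          _ = h * (a * z) * z⁻¹ * h⁻¹ := by rw [hcent a]
          _ = _ := by group
      rw [e]
      exact H.mul_mem (H.mul_mem hh ha) (H.inv_mem hh)
  have hco := coatom_normalizer_of_ne hK hb ht
  have heq : Subgroup.normalizer (H : Set K₁) =
      (Subgroup.normalizer ((H.map π : Subgroup K) : Set K)).comap π := by
    apply le_antisymm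
    · intro g hg
      exact Subgroup.le_normalizer_map π ⟨g, hg, rfl⟩
    · rw [Subgroup.le_normalizer_iff]
      intro g hg h hh
      have hg' : π g ∈ Subgroup.normalizer ((H.map π : Subgroup K) : Set K) := hg
      have h1 : π g * π h * (π g)⁻¹ ∈ H.map π :=
        (Subgroup.mem_normalizer_iff.1 hg' _).1 ⟨h, hh, rfl⟩
      obtain ⟨h', hh', e⟩ := h1
      have h2 : π (h'⁻¹ * (g * h * g⁻¹)) = 1 := by
        rw [map_mul, map_inv, e, map_mul, map_mul, map_inv]
        group
      rcases (hker _).1 h2 with h3 | h3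
      · have e3 : g * h * g⁻¹ = h' := by
          calc g * h * g⁻¹ = h' * (h'⁻¹ * (g * h * g⁻¹)) := by group
            _ = h' := by rw [h3, mul_one]
        rw [e3]
        exact hh'
      · have e3 : g * h * g⁻¹ = h' * z := by
          calc g * h * g⁻¹ = h' * (h'⁻¹ * (g * h * g⁻¹)) := by group
            _ = h' * z := by rw [h3]
        by_cases hzH : z ∈ H
        · rw [e3]
          exact H.mul_mem hh' hzH
        · exfalso
          have hodd : ¬ 2 ∣ Nat.card H := by
            intro h2
            haveI : Fact (Nat.Prime 2) := ⟨Nat.prime_two⟩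
            obtain ⟨y, hyH, hy⟩ := exists_order_mem H (p := 2) h2
            have hy2 : y ^ 2 = 1 := hy ▸ pow_orderOf_eq_one y
            rcases hinv y hy2 with rfl | rfl
            · simp at hy
            · exact hzH hyH
          have hm1 : h ^ Nat.card H = 1 := by
            have : (⟨h, hh⟩ : H) ^ Nat.card H = 1 := pow_card_eq_one'
            exact congrArg Subtype.val this
          have hm2 : h' ^ Nat.card H = 1 := by
            have : (⟨h', hh'⟩ : H) ^ Nat.card H = 1 := pow_card_eq_one'
            exact congrArg Subtype.val this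
          have e4 : (g * h * g⁻¹) ^ Nat.card H = 1 := by
            rw [conj_pow, hm1]
            group
          have hcomm : Commute h' z := hcent h'
          rw [e3, hcomm.mul_pow, hm2, one_mul] at e4
          obtain ⟨k, hk⟩ : ∃ k, Nat.card H = 2 * k + 1 := by
            have : Odd (Nat.card H) := Nat.not_even_iff_odd.1 (fun h => hodd h.two_dvd)
            exact this
          rw [hk, pow_succ, pow_mul, hz2, one_pow, one_mul] at e4
          exact hz e4
  rw [heq]
  exact coatom_comap π hπ hco

theorem propN_prod {K S : Type*} [Group K] [CommGroup S] [Finite K] [Finite S]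
    (hKS : (Nat.card K).Coprime (Nat.card S))
    (hP : ∀ H : Subgroup K, ¬ H.Normal → IsCoatom (Subgroup.normalizer (H : Set K)))
    (H : Subgroup (K × S)) (hH : ¬ H.Normal) :
    IsCoatom (Subgroup.normalizer (H : Set (K × S))) := by
  obtain ⟨H₁, hH₁⟩ : ∃ H₁ : Subgroup K, H₁ = H.comap (MonoidHom.inl K S) := ⟨_, rfl⟩
  have hmem : ∀ k, k ∈ H₁ ↔ (k, (1 : S)) ∈ H := by
    intro k
    rw [hH₁]
    rfl
  have hdec : ∀ k s, (k, s) ∈ H → (k, (1 : S)) ∈ H ∧ ((1 : K), s) ∈ H := by
    intro k s hks
    have hg := Nat.gcd_eq_gcd_ab (Nat.card K) (Nat.card S)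
    rw [hKS, Nat.cast_one] at hg
    obtain ⟨a, ha⟩ : ∃ a, a = Nat.gcdA (Nat.card K) (Nat.card S) := ⟨_, rfl⟩
    obtain ⟨b, hb⟩ : ∃ b, b = Nat.gcdB (Nat.card K) (Nat.card S) := ⟨_, rfl⟩
    rw [← ha, ← hb] at hg
    have hkn : k ^ (Nat.card K : ℤ) = 1 := by rw [zpow_natCast]; exact pow_card_eq_one'
    have hsm : s ^ (Nat.card S : ℤ) = 1 := by rw [zpow_natCast]; exact pow_card_eq_one'
    have e1 : (k, s) ^ ((Nat.card S : ℤ) * b) = (k, (1 : S)) := by
      apply Prod.ext
      · have := map_zpow (MonoidHom.fst K S) (k, s) ((Nat.card S : ℤ) * b)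
        simp only [MonoidHom.coe_fst] at this
        rw [this]
        have e : (Nat.card S : ℤ) * b = 1 - (Nat.card K : ℤ) * a := by linarith
        rw [e, _root_.zpow_sub, _root_.zpow_mul, hkn, _root_.one_zpow, zpow_one, inv_one, mul_one]
      · have := map_zpow (MonoidHom.snd K S) (k, s) ((Nat.card S : ℤ) * b)
        simp only [MonoidHom.coe_snd] at this
        rw [this, _root_.zpow_mul, hsm, _root_.one_zpow]
    have e2 : (k, s) ^ ((Nat.card K : ℤ) * a) = ((1 : K), s) := by
      apply Prod.ext
      · have := map_zpow (MonoidHom.fst K S) (k, s) ((Nat.card K : ℤ) * a)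
        simp only [MonoidHom.coe_fst] at this
        rw [this, _root_.zpow_mul, hkn, _root_.one_zpow]
      · have := map_zpow (MonoidHom.snd K S) (k, s) ((Nat.card K : ℤ) * a)
        simp only [MonoidHom.coe_snd] at this
        rw [this]
        have e : (Nat.card K : ℤ) * a = 1 - (Nat.card S : ℤ) * b := by linarith
        rw [e, _root_.zpow_sub, _root_.zpow_mul, hsm, _root_.one_zpow, zpow_one, inv_one, mul_one]
    exact ⟨e1 ▸ Subgroup.zpow_mem _ hks _, e2 ▸ Subgroup.zpow_mem _ hks _⟩
  have hconj : ∀ (g k : K) (c s : S), ((g, c) : K × S) * (k, s) * ((g, c) : K × S)⁻¹ =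
      (g * k * g⁻¹, s) := by
    intro g k c s
    apply Prod.ext
    · rfl
    · show c * s * c⁻¹ = s
      rw [mul_comm c s]
      simp
  have hN : Subgroup.normalizer (H : Set (K × S)) =
      (Subgroup.normalizer (H₁ : Set K)).comap (MonoidHom.fst K S) := by
    ext ⟨g, c⟩
    rw [Subgroup.mem_comap, Subgroup.mem_normalizer_iff, Subgroup.mem_normalizer_iff]
    simp only [MonoidHom.coe_fst]
    constructor
    · intro h k
      have := h (k, 1)
      rw [hconj] at this
      rw [hmem, hmem]
      exact this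
    · intro h ⟨k, s⟩
      rw [hconj]
      constructor
      · intro hks
        obtain ⟨h1, h2⟩ := hdec k s hks
        have h3 := (h k).1 ((hmem k).2 h1)
        have h4 := (hmem _).1 h3
        have : (g * k * g⁻¹, s) = (g * k * g⁻¹, (1 : S)) * ((1 : K), s) := by
          simp
        rw [this]
        exact H.mul_mem h4 h2
      · intro hks
        obtain ⟨h1, h2⟩ := hdec _ _ hks
        have h3 := (h k).2 ((hmem _).2 h1)
        have h4 := (hmem _).1 h3
        have : (k, s) = (k, (1 : S)) * ((1 : K), s) := by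
          simp
        rw [this]
        exact H.mul_mem h4 h2
  have h1 : ¬ H₁.Normal := by
    intro hn
    apply hH
    rw [← Subgroup.normalizer_eq_top_iff, hN, Subgroup.normalizer_eq_top_iff.2 hn,
      Subgroup.comap_top]
  rw [hN]
  exact coatom_comap (MonoidHom.fst K S) Prod.fst_surjective (hP H₁ h1)

section SL

/-- The scalar `-1` in `SL(2, 13)`. -/
def minusOne : SL(2, ZMod 13) := ⟨!![-1, 0; 0, -1], by simp [Matrix.det_fin_two]⟩

lemma minusOne_ne_one : minusOne ≠ 1 := by
  intro h
  have := congrArg (fun A : SL(2, ZMod 13) => (A : Matrix (Fin 2) (Fin 2) (ZMod 13)) 0 0) h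
  simp [minusOne] at this
  revert this
  decide

lemma minusOne_sq : minusOne ^ 2 = 1 := by
  rw [pow_two]
  apply Subtype.ext
  show (!![-1, 0; 0, -1] : Matrix (Fin 2) (Fin 2) (ZMod 13)) * !![-1, 0; 0, -1] = 1
  ext i j
  fin_cases i <;> fin_cases j <;> simp [Matrix.mul_apply, Fin.sum_univ_two]

lemma two_ne_13 : (2 : ZMod 13) ≠ 0 := by decide

lemma sq_eq_one_cases (y : SL(2, ZMod 13)) (hy : y ^ 2 = 1) : y = 1 ∨ y = minusOne := by
  haveI : Fact (Nat.Prime 13) := ⟨by norm_num⟩
  have hM : (y : Matrix (Fin 2) (Fin 2) (ZMod 13)) * y = 1 := by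
    have := congrArg (fun A : SL(2, ZMod 13) => (A : Matrix (Fin 2) (Fin 2) (ZMod 13))) hy
    simpa [pow_two] using this
  obtain ⟨a, ha⟩ : ∃ a, a = (y : Matrix (Fin 2) (Fin 2) (ZMod 13)) 0 0 := ⟨_, rfl⟩
  obtain ⟨b, hb⟩ : ∃ b, b = (y : Matrix (Fin 2) (Fin 2) (ZMod 13)) 0 1 := ⟨_, rfl⟩
  obtain ⟨c, hc⟩ : ∃ c, c = (y : Matrix (Fin 2) (Fin 2) (ZMod 13)) 1 0 := ⟨_, rfl⟩
  obtain ⟨d, hd⟩ : ∃ d, d = (y : Matrix (Fin 2) (Fin 2) (ZMod 13)) 1 1 := ⟨_, rfl⟩
  have e00 : a * a + b * c = 1 := by
    have := congrFun (congrFun hM 0) 0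
    simpa [Matrix.mul_apply, Fin.sum_univ_two, ← ha, ← hb, ← hc, ← hd] using this
  have e01 : a * b + b * d = 0 := by
    have := congrFun (congrFun hM 0) 1
    simpa [Matrix.mul_apply, Fin.sum_univ_two, ← ha, ← hb, ← hc, ← hd] using this
  have e10 : c * a + d * c = 0 := by
    have := congrFun (congrFun hM 1) 0
    simpa [Matrix.mul_apply, Fin.sum_univ_two, ← ha, ← hb, ← hc, ← hd] using this
  have hdet : a * d - b * c = 1 := by
    have := y.2
    rw [Matrix.det_fin_two] at this
    rw [ha, hb, hc, hd]
    exact this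
  have h2 : (2 : ZMod 13) ≠ 0 := two_ne_13
  have hfin : ∀ A B : SL(2, ZMod 13), (A : Matrix (Fin 2) (Fin 2) (ZMod 13)) 0 0 = B.1 0 0 →
      A.1 0 1 = B.1 0 1 → A.1 1 0 = B.1 1 0 → A.1 1 1 = B.1 1 1 → A = B := by
    intro A B h00 h01 h10 h11
    apply Subtype.ext
    ext i j
    fin_cases i <;> fin_cases j <;> assumption
  by_cases hs : a + d = 0
  · exfalso
    have hd' : d = -a := by linear_combination hs
    rw [hd'] at hdet
    apply h2
    linear_combination (-1 : ZMod 13) * e00 - hdet + 0 * hd'
  · have hb0 : b = 0 := by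
      have : b * (a + d) = 0 := by linear_combination e01
      exact (mul_eq_zero.1 this).resolve_right hs
    have hc0 : c = 0 := by
      have : c * (a + d) = 0 := by linear_combination e10
      exact (mul_eq_zero.1 this).resolve_right hs
    have haa : a * a = 1 := by rw [hb0] at e00; simpa using e00
    have had : a * d = 1 := by rw [hb0] at hdet; simpa using hdet
    rcases mul_self_eq_one_iff.1 haa with h | h
    · left
      have hd1 : d = 1 := by rw [h] at had; simpa using had
      apply hfin
      · simp [← ha, h]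
      · simp [← hb, hb0]
      · simp [← hc, hc0]
      · simp [← hd, hd1]
    · right
      have hd1 : d = -1 := by
        rw [h] at had
        linear_combination (-1 : ZMod 13) * had
      apply hfin
      · simp [minusOne, ← ha, h]
      · simp [minusOne, ← hb, hb0]
      · simp [minusOne, ← hc, hc0]
      · simp [minusOne, ← hd, hd1]

lemma mem_center_cases (g : SL(2, ZMod 13)) :
    g ∈ Subgroup.center SL(2, ZMod 13) ↔ g = 1 ∨ g = minusOne := by
  haveI : Fact (Nat.Prime 13) := ⟨by norm_num⟩
  constructor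
  · intro hg
    rw [Matrix.SpecialLinearGroup.mem_center_iff] at hg
    obtain ⟨r, hr, e⟩ := hg
    have hr2 : r * r = 1 := by
      rw [← pow_two]
      simpa using hr
    rcases mul_self_eq_one_iff.1 hr2 with h | h
    · left
      apply Subtype.ext
      rw [← e, h]
      simp
    · right
      apply Subtype.ext
      rw [← e, h]
      ext i j
      fin_cases i <;> fin_cases j <;> simp [minusOne]
  · rintro (rfl | rfl)
    · exact Subgroup.one_mem _
    · rw [Matrix.SpecialLinearGroup.mem_center_iff]
      refine ⟨-1, by simp, ?_⟩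
      ext i j
      fin_cases i <;> fin_cases j <;> simp [minusOne]

end SL

/-- The main theorem: maximal normalizers in `PSL(2,13) × S` and `SL(2,13) × S`. -/
theorem main_theorem {K S : Type*} [Group K] [CommGroup S] [Finite K] [Finite S]
    (hK : Nonempty (K ≃* Matrix.ProjectiveSpecialLinearGroup (Fin 2) (ZMod 13)) ∨
      Nonempty (K ≃* Matrix.SpecialLinearGroup (Fin 2) (ZMod 13)))
    (hKS : (Nat.card K).Coprime (Nat.card S)) (H : Subgroup (K × S)) (hH : ¬ H.Normal) :
    IsCoatom (Subgroup.normalizer (H : Set (K × S))) := by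
  haveI f13 : Fact (Nat.Prime 13) := ⟨by norm_num⟩
  haveI hsimple : IsSimpleGroup (Matrix.ProjectiveSpecialLinearGroup (Fin 2) (ZMod 13)) :=
    Matrix.ProjectiveSpecialLinearGroup.rank_two_simple (by
      rw [Nat.card_eq_fintype_card, ZMod.card]; norm_num)
  have hcP : Nat.card (Matrix.ProjectiveSpecialLinearGroup (Fin 2) (ZMod 13)) = 1092 :=
    Cfsg.Agent.Lib.Known3.PSL213.card_eq (ZMod.card 13)
  refine propN_prod hKS ?_ H hH
  rcases hK with ⟨⟨e⟩⟩ | ⟨⟨e⟩⟩
  · haveI : IsSimpleGroup K := e.isSimpleGroup
    have hc : Nat.card K = 1092 := by rw [Nat.card_congr e.toEquiv, hcP]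
    intro A hA
    apply coatom_normalizer_of_ne hc
    · rintro rfl
      exact hA inferInstance
    · rintro rfl
      exact hA inferInstance
  · intro A hA
    refine propN_of_cover hcP
      ((QuotientGroup.mk' (Subgroup.center SL(2, ZMod 13))).comp e.toMonoidHom) ?_
      (z := e.symm minusOne) ?_ ?_ ?_ ?_ A hA
    · exact (QuotientGroup.mk'_surjective _).comp e.surjective
    · intro g
      have h1 : ((QuotientGroup.mk' (Subgroup.center SL(2, ZMod 13))).comp e.toMonoidHom) g = 1 ↔
          e g ∈ Subgroup.center SL(2, ZMod 13) := QuotientGroup.eq_one_iff (e g)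
      rw [h1, mem_center_cases]
      constructor
      · rintro (h | h)
        · left
          exact e.injective (by rw [h, map_one])
        · right
          exact e.injective (by rw [h, MulEquiv.apply_symm_apply])
      · rintro (rfl | rfl)
        · left
          exact map_one e
        · right
          exact MulEquiv.apply_symm_apply _ _
    · intro h
      apply minusOne_ne_one
      have := congrArg e h
      rwa [MulEquiv.apply_symm_apply, map_one] at this
    · rw [← map_pow, minusOne_sq, map_one]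
    · intro y hy
      have h1 : (e y) ^ 2 = 1 := by rw [← map_pow, hy, map_one]
      rcases sq_eq_one_cases _ h1 with h | h
      · left
        exact e.injective (by rw [h, map_one])
      · right
        exact e.injective (by rw [h, MulEquiv.apply_symm_apply])

end Cfsg.Agent.Lib.ClassSizes.Nm1092
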