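import Mathlib

/-!
# Order type: counting elements of a given order versus solutions of `g ^ n = 1`
-/

set_option autoImplicit false

namespace Cfsg.Agent.Lib.ClassSizes

theorem card_pow_eq_one_eq_sum {G : Type*} [Group G] [Finite G] {n : ℕ} (hn : n ≠ 0) :
    Nat.card {g : G // g ^ n = 1} = ∑ d ∈ n.divisors, Nat.card {g : G // orderOf g = d} := by
  classical
  have : Fintype G := Fintype.ofFinite G
  simp only [Nat.card_eq_fintype_card, Fintype.card_subtype]
  rw [Finset.card_eq_sum_card_fiberwise (f := orderOf) (t := n.divisors)]
  · refine Finset.sum_congr rfl fun d hd => ?_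
    apply congrArg Finset.card
    ext g
    simp only [Finset.mem_filter, Finset.mem_univ, true_and]
    constructor
    · exact fun h => h.2
    · intro h
      refine ⟨?_, h⟩
      exact orderOf_dvd_iff_pow_eq_one.mp (h ▸ Nat.dvd_of_mem_divisors hd)
  · intro g hg
    have h1 : g ^ n = 1 := by
      have := Finset.mem_filter.mp hg
      exact this.2
    exact Nat.mem_divisors.mpr ⟨orderOf_dvd_of_pow_eq_one h1, hn⟩

/-- Order type equality is equivalent to equal power-equation counts. -/
theorem orderType_iff {G H : Type*} [Group G] [Finite G] [Group H] [Finite H] :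
    (∀ n : ℕ, Nat.card {g : G // orderOf g = n} = Nat.card {h : H // orderOf h = n}) ↔
      ∀ n : ℕ, Nat.card {g : G // g ^ n = 1} = Nat.card {h : H // h ^ n = 1} := by
  constructor
  · intro h n
    have key : ∀ m : ℕ, m ≠ 0 → Nat.card {g : G // g ^ m = 1} = Nat.card {x : H // x ^ m = 1} := by
      intro m hm
      rw [card_pow_eq_one_eq_sum hm, card_pow_eq_one_eq_sum hm]
      exact Finset.sum_congr rfl fun d _ => h d
    by_cases hn : n = 0
    · subst hn
      have hG : Nat.card {g : G // g ^ 0 = 1} = Nat.card G :=
        Nat.card_congr (Equiv.subtypeUnivEquiv (fun g => pow_zero g))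
      have hH : Nat.card {g : H // g ^ 0 = 1} = Nat.card H :=
        Nat.card_congr (Equiv.subtypeUnivEquiv (fun g => pow_zero g))
      rw [hG, hH]
      have hN : Nat.card G * Nat.card H ≠ 0 := mul_ne_zero Nat.card_pos.ne' Nat.card_pos.ne'
      have h1 := key _ hN
      have hG2 : Nat.card {g : G // g ^ (Nat.card G * Nat.card H) = 1} = Nat.card G := by
        apply Nat.card_congr
        apply Equiv.subtypeUnivEquiv
        intro g
        rw [pow_mul, pow_card_eq_one', one_pow]
      have hH2 : Nat.card {g : H // g ^ (Nat.card G * Nat.card H) = 1} = Nat.card H := by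
        apply Nat.card_congr
        apply Equiv.subtypeUnivEquiv
        intro g
        rw [mul_comm, pow_mul, pow_card_eq_one', one_pow]
      rw [hG2, hH2] at h1
      exact h1
    · exact key n hn
  · intro h n
    induction n using Nat.strong_induction_on with
    | _ n ih =>
    by_cases hn : n = 0
    · subst hn
      have h1 : IsEmpty {g : G // orderOf g = 0} :=
        ⟨fun g => (orderOf_pos g.1).ne' g.2⟩
      have h2 : IsEmpty {g : H // orderOf g = 0} :=
        ⟨fun g => (orderOf_pos g.1).ne' g.2⟩
      rw [Nat.card_of_isEmpty, Nat.card_of_isEmpty]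
    · have h1 := h n
      rw [card_pow_eq_one_eq_sum hn, card_pow_eq_one_eq_sum hn, ← Nat.insert_self_properDivisors hn,
        Finset.sum_insert (by simp), Finset.sum_insert (by simp)] at h1
      have h2 : ∑ d ∈ n.properDivisors, Nat.card {g : G // orderOf g = d} =
          ∑ d ∈ n.properDivisors, Nat.card {g : H // orderOf g = d} :=
        Finset.sum_congr rfl fun d hd => ih d (Nat.mem_properDivisors.mp hd).2
      rw [h2] at h1
      exact Nat.add_right_cancel h1

end Cfsg.Agent.Lib.ClassSizes
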