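import Mathlib
import Cfsg.Agent.Lib.PSolv.Basic
import Cfsg.Agent.Lib.Core.Basic
import Cfsg.Agent.Lib.Core.MinNormal
import Cfsg.Agent.Lib.Core.MinNormal2
import Cfsg.Agent.Lib.Core.Frattini
import Cfsg.Agent.Lib.Hall.Gaschutz2
import Cfsg.Agent.Lib.Techniques.SylowIn
import Cfsg.Agent.Lib.CharExtra.Ito

/-! Groups all of whose maximal subgroups are `p`-nilpotent or of prime index have `p`-length at most 2. -/

set_option autoImplicit false
set_option linter.style.haveILetI false

namespace Cfsg.Agent.Lib.ClassSizes.PLenMax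

open Cfsg Cfsg.Agent.Lib.Core Cfsg.Agent.Lib.PSolv Cfsg.Agent.Lib.Techniques
open scoped Pointwise

universe u

section Chain

variable {G : Type u} [Group G]

/-- A `p`-length two chain above `N`. -/
def PL2 (p : ℕ) (N : Subgroup G) : Prop :=
  ∃ A B C D : Subgroup G, A.Normal ∧ B.Normal ∧ C.Normal ∧ D.Normal ∧ N ≤ A ∧ A ≤ B ∧ B ≤ C ∧ C ≤ D ∧
    ¬ p ∣ N.relIndex A ∧ (∃ k : ℕ, A.relIndex B = p ^ k) ∧ ¬ p ∣ B.relIndex C ∧
    (∃ k : ℕ, C.relIndex D = p ^ k) ∧ ∀ r : ℕ, r.Prime → r ∣ D.index → r < p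

theorem relIndex_dvd_of_normal {H K L : Subgroup G} [H.Normal] (h : K ≤ L) :
    H.relIndex K ∣ H.relIndex L := by
  rw [← Subgroup.relIndex_subgroupOf (H := H) h]
  exact Subgroup.relIndex_dvd_index_of_normal _ _

theorem relIndex_inf_dvd {X₁ X₂ Y₁ Y₂ : Subgroup G} [X₁.Normal] [X₂.Normal] :
    (X₁ ⊓ X₂).relIndex (Y₁ ⊓ Y₂) ∣ X₁.relIndex Y₁ * X₂.relIndex Y₂ := by
  rw [← Subgroup.relIndex_inf_mul_relIndex]
  exact mul_dvd_mul (relIndex_dvd_of_normal (le_trans inf_le_right inf_le_left))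
    (relIndex_dvd_of_normal inf_le_right)

theorem not_dvd_inf {p : ℕ} (hp : p.Prime) {X₁ X₂ Y₁ Y₂ : Subgroup G} [X₁.Normal] [X₂.Normal]
    (h1 : ¬ p ∣ X₁.relIndex Y₁) (h2 : ¬ p ∣ X₂.relIndex Y₂) : ¬ p ∣ (X₁ ⊓ X₂).relIndex (Y₁ ⊓ Y₂) := by
  intro h
  rcases hp.dvd_mul.mp (h.trans relIndex_inf_dvd) with h3 | h3
  · exact h1 h3
  · exact h2 h3

theorem pow_inf {p : ℕ} (hp : p.Prime) {X₁ X₂ Y₁ Y₂ : Subgroup G} [X₁.Normal] [X₂.Normal]
    (h1 : ∃ k : ℕ, X₁.relIndex Y₁ = p ^ k) (h2 : ∃ k : ℕ, X₂.relIndex Y₂ = p ^ k) :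
    ∃ k : ℕ, (X₁ ⊓ X₂).relIndex (Y₁ ⊓ Y₂) = p ^ k := by
  obtain ⟨a, ha⟩ := h1
  obtain ⟨b, hb⟩ := h2
  have h3 : (X₁ ⊓ X₂).relIndex (Y₁ ⊓ Y₂) ∣ p ^ (a + b) := by
    rw [pow_add, ← ha, ← hb]
    exact relIndex_inf_dvd
  obtain ⟨k, -, hk⟩ := (Nat.dvd_prime_pow hp).mp h3
  exact ⟨k, hk⟩

/-- Intersecting chains. -/
theorem PL2.inf {p : ℕ} (hp : p.Prime) {N₁ N₂ : Subgroup G} [N₁.Normal] [N₂.Normal]
    (h1 : PL2 p N₁) (h2 : PL2 p N₂) : PL2 p (N₁ ⊓ N₂) := by
  obtain ⟨A₁, B₁, C₁, D₁, hA₁, hB₁, hC₁, hD₁, h1N, h1A, h1B, h1C, h11, h12, h13, h14, h15⟩ := h1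
  obtain ⟨A₂, B₂, C₂, D₂, hA₂, hB₂, hC₂, hD₂, h2N, h2A, h2B, h2C, h21, h22, h23, h24, h25⟩ := h2
  refine ⟨A₁ ⊓ A₂, B₁ ⊓ B₂, C₁ ⊓ C₂, D₁ ⊓ D₂, inferInstance, inferInstance, inferInstance,
    inferInstance, inf_le_inf h1N h2N, inf_le_inf h1A h2A, inf_le_inf h1B h2B, inf_le_inf h1C h2C,
    not_dvd_inf hp h11 h21, pow_inf hp h12 h22, not_dvd_inf hp h13 h23, pow_inf hp h14 h24, ?_⟩
  intro r hr hrd
  have h3 : (D₁ ⊓ D₂).relIndex ((⊤ : Subgroup G) ⊓ ⊤) ∣ D₁.relIndex ⊤ * D₂.relIndex ⊤ :=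
    relIndex_inf_dvd
  rw [inf_top_eq, Subgroup.relIndex_top_right, Subgroup.relIndex_top_right,
    Subgroup.relIndex_top_right] at h3
  rcases hr.dvd_mul.mp (hrd.trans h3) with h4 | h4
  · exact h15 r hr h4
  · exact h25 r hr h4

/-- Pulling back chains from a quotient. -/
theorem PL2.of_quot {p : ℕ} {N : Subgroup G} [N.Normal] (h : PL2 p (⊥ : Subgroup (G ⧸ N))) : PL2 p N := by
  obtain ⟨A, B, C, D, hA, hB, hC, hD, -, hAB, hBC, hCD, h1, h2, h3, h4, h5⟩ := h
  let π := QuotientGroup.mk' N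
  have hπ : Function.Surjective π := QuotientGroup.mk'_surjective N
  have key : ∀ X Y : Subgroup (G ⧸ N), (X.comap π).relIndex (Y.comap π) = X.relIndex Y := by
    intro X Y
    rw [Subgroup.relIndex_comap, Subgroup.map_comap_eq_self_of_surjective hπ]
  have hN : N.relIndex (A.comap π) = (⊥ : Subgroup (G ⧸ N)).relIndex A := by
    have h0 : (⊥ : Subgroup (G ⧸ N)).comap π = N := by
      ext x
      show π x ∈ (⊥ : Subgroup (G ⧸ N)) ↔ x ∈ N
      rw [Subgroup.mem_bot]
      exact QuotientGroup.eq_one_iff x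
    have h1 := key ⊥ A
    rwa [h0] at h1
  refine ⟨A.comap π, B.comap π, C.comap π, D.comap π, hA.comap π, hB.comap π, hC.comap π, hD.comap π,
    ?_, Subgroup.comap_mono hAB, Subgroup.comap_mono hBC, Subgroup.comap_mono hCD, ?_, ?_, ?_, ?_, ?_⟩
  · intro x hx
    show π x ∈ A
    have : π x = 1 := (QuotientGroup.eq_one_iff x).mpr hx
    rw [this]
    exact one_mem _
  · rw [hN]
    exact h1
  · rwa [key]
  · rwa [key]
  · rwa [key]
  · rwa [Subgroup.index_comap_of_surjective _ hπ]

variable [Finite G]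

/-- A `p'`-kernel can be removed from a chain. -/
theorem PL2.of_coprime {p : ℕ} (hp : p.Prime) {N : Subgroup G} (h : PL2 p N) (hN : ¬ p ∣ Nat.card N) :
    PL2 p (⊥ : Subgroup G) := by
  obtain ⟨A, B, C, D, hA, hB, hC, hD, hNA, hAB, hBC, hCD, h1, h2, h3, h4, h5⟩ := h
  refine ⟨A, B, C, D, hA, hB, hC, hD, bot_le, hAB, hBC, hCD, ?_, h2, h3, h4, h5⟩
  rw [Subgroup.relIndex_bot_left]
  intro hd
  have e : Nat.card N * N.relIndex A = Nat.card A := by
    have := Subgroup.relIndex_mul_relIndex (⊥ : Subgroup G) N A bot_le hNA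
    rwa [Subgroup.relIndex_bot_left, Subgroup.relIndex_bot_left] at this
  rw [← e] at hd
  rcases hp.dvd_mul.mp hd with h6 | h6
  · exact hN h6
  · exact h1 h6

end Chain

section Frattini

variable {G : Type u} [Group G] [Finite G]

/-- If an abelian normal `p`-subgroup `V` lies in the Frattini subgroup and `O_{p'}(G) = 1`, then
`O_{p'}(G / V) = 1`. -/
theorem eq_of_frattini {p : ℕ} [hp : Fact p.Prime] {V A : Subgroup G} [hV : V.Normal] [hA : A.Normal]
    (hab : IsMulCommutative V) (hVp : IsPGroup p V) (hVA : V ≤ A) (hq : ¬ p ∣ V.relIndex A)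
    (hVΦ : V ≤ frattini G) (hO : pPrimeCore p G = ⊥) : A = V := by
  classical
  let V' : Subgroup A := V.subgroupOf A
  haveI hV'n : V'.Normal := Subgroup.Normal.subgroupOf hV A
  have hVc : Nat.card V' = Nat.card V :=
    Nat.card_congr (Subgroup.subgroupOfEquivOfLe hVA).toEquiv
  haveI hV'c : IsMulCommutative V' :=
    IsMulCommutative.of_comm fun a b => by
      have h0 := hab.is_comm.comm ⟨a.1.1, a.2⟩ ⟨b.1.1, b.2⟩
      have h3 : a.1.1 * b.1.1 = b.1.1 * a.1.1 := congrArg (Subtype.val : V → G) h0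
      exact Subtype.ext (Subtype.ext h3)
  have hcop : (Nat.card V').Coprime V'.index := by
    rw [hVc]
    obtain ⟨k, hk⟩ := IsPGroup.iff_card.mp hVp
    rw [hk]
    exact Nat.Coprime.pow_left k ((Nat.Prime.coprime_iff_not_dvd hp.out).mpr hq)
  obtain ⟨H', hH'⟩ := Subgroup.exists_right_complement'_of_coprime hcop
  let H : Subgroup G := H'.map A.subtype
  have hHcard : Nat.card H = Nat.card H' := Subgroup.card_map_of_injective A.subtype_injective
  have hHV : Nat.card V' * Nat.card H' = Nat.card A := hH'.card_mul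
  have hHi : H'.index = Nat.card V' := hH'.index_eq_card
  have hcop2 : (Nat.card V').Coprime (Nat.card H') := by
    rw [← hH'.symm.index_eq_card]
    exact hcop
  -- Frattini argument
  have hsup : V ⊔ Subgroup.normalizer (H : Set G) = ⊤ := by
    rw [eq_top_iff]
    intro g _
    -- the conjugate complement
    let φ : A ≃* A := MulAut.conjNormal g
    let H'g : Subgroup A := H'.map φ.toMonoidHom
    have hH'gcard : Nat.card H'g = Nat.card H' := Subgroup.card_map_of_injective φ.injective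
    have hc' : Subgroup.IsComplement' V' H'g := by
      apply Subgroup.isComplement'_of_coprime
      · rw [hH'gcard]; exact hHV
      · rw [hH'gcard]; exact hcop2
    have hdis1 : H' ⊓ V' = ⊥ := by
      rw [inf_comm]; exact disjoint_iff.mp hH'.disjoint
    have hdis2 : H'g ⊓ V' = ⊥ := by
      rw [inf_comm]; exact disjoint_iff.mp hc'.disjoint
    obtain ⟨a, ha⟩ := Cfsg.Agent.Lib.Hall.gaschutz_conj (G := A) (K := V') (U := V') le_rfl hcop H' H'g
      hH' hc' (by rw [hdis1, hdis2])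
    have e1 : conjS g H = H'g.map A.subtype := by
      ext x
      constructor
      · rintro ⟨_, ⟨h, hh, rfl⟩, rfl⟩
        exact ⟨φ h, ⟨h, hh, rfl⟩, rfl⟩
      · rintro ⟨_, ⟨h, hh, rfl⟩, rfl⟩
        exact ⟨_, ⟨h, hh, rfl⟩, rfl⟩
    have e2 : (MulAut.conj a • H').map A.subtype = conjS (a : G) H := by
      ext x
      constructor
      · rintro ⟨_, ⟨h, hh, rfl⟩, rfl⟩
        exact ⟨_, ⟨h, hh, rfl⟩, rfl⟩
      · rintro ⟨_, ⟨h, hh, rfl⟩, rfl⟩
        exact ⟨_, ⟨h, hh, rfl⟩, rfl⟩
    have e3 : conjS g H = conjS (a : G) H := by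
      rw [e1, ← ha, e2]
    have hn : (a : G)⁻¹ * g ∈ Subgroup.normalizer (H : Set G) := by
      rw [mem_normalizer_iff_conjS, conjS_mul, e3, conjS_inv_conjS]
    have ha' : a ∈ V' ⊔ H' := by
      rw [hH'.sup_eq_top]; trivial
    obtain ⟨v, hv, h, hh, hvh⟩ := Subgroup.mem_sup_of_normal_left.mp ha'
    have hg : g = (v : G) * ((h : G) * ((a : G)⁻¹ * g)) := by
      have : (a : G) = (v : G) * (h : G) := by
        rw [← hvh]; rfl
      rw [this]; group
    rw [hg]
    refine Subgroup.mul_mem_sup hv (mul_mem ?_ hn)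
    exact Subgroup.le_normalizer ⟨h, hh, rfl⟩
  have hNtop := eq_top_of_sup_eq_top_of_le_frattini hVΦ (by rw [sup_comm]; exact hsup)
  have hHn : H.Normal := Subgroup.normalizer_eq_top_iff.mp hNtop
  have hHq : ¬ p ∣ Nat.card H' := by
    rw [← hH'.symm.index_eq_card]
    exact hq
  have hHb : H = ⊥ := by
    apply le_bot_iff.mp
    rw [← hO]
    apply le_pPrimeCore hHn
    rw [hHcard]
    exact ((Nat.Prime.coprime_iff_not_dvd hp.out).mpr hHq).symm
  have hcard1 : Nat.card H' = 1 := by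
    rw [← hHcard, hHb, Subgroup.card_bot]
  have hidx : V.relIndex A = 1 := by
    have h1 : V'.index = Nat.card H' := hH'.symm.index_eq_card
    rw [hcard1] at h1
    exact h1
  exact le_antisymm (Subgroup.relIndex_eq_one.mp hidx) hVA

end Frattini

section Main

variable {p : ℕ}

/-- The hypothesis on maximal subgroups. -/
def HMax (p : ℕ) (G : Type u) [Group G] : Prop :=
  ∀ M : Subgroup G, IsCoatom M →
    (∃ K : Subgroup ↥M, K.Normal ∧ ¬ p ∣ Nat.card K ∧ ∃ k : ℕ, K.index = p ^ k) ∨ (M.index).Prime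

theorem HMax.quotient {G : Type u} [Group G] [Finite G] (hp : p.Prime) (h : HMax p G) (N : Subgroup G)
    [N.Normal] : HMax p (G ⧸ N) := by
  intro M hM
  let π := QuotientGroup.mk' N
  have hπ : Function.Surjective π := QuotientGroup.mk'_surjective N
  rcases h (M.comap π) (Subgroup.isCoatom_comap_of_surjective hπ hM) with ⟨K, hK, h1, k, h2⟩ | h1
  · left
    let f : (M.comap π) →* M := π.subgroupComap M
    have hf : Function.Surjective f := π.subgroupComap_surjective_of_surjective M hπ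
    refine ⟨K.map f, hK.map f hf, ?_, ?_⟩
    · exact fun hd => h1 (hd.trans (Subgroup.card_map_dvd K f))
    · obtain ⟨j, -, hj⟩ := (Nat.dvd_prime_pow hp).mp (h2 ▸ Subgroup.index_map_dvd K hf)
      exact ⟨j, hj⟩
  · right
    rwa [Subgroup.index_comap_of_surjective _ hπ] at h1

/-- The case of a complement with a normal `p`-complement. -/
theorem case_nilp {G : Type u} [Group G] [Finite G] [hp : Fact p.Prime] {V M : Subgroup G}
    [hV : V.Normal] (hVp : IsPGroup p V) (hc : V.IsComplement' M)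
    {K : Subgroup ↥M} (hK : K.Normal) (h1 : ¬ p ∣ Nat.card K) {k : ℕ} (h2 : K.index = p ^ k) :
    PL2 p (⊥ : Subgroup G) := by
  set K' : Subgroup G := K.map M.subtype with hK'
  have hK'le : K' ≤ M := Subgroup.map_subtype_le _
  have hK'c : Nat.card K' = Nat.card K := Subgroup.card_map_of_injective M.subtype_injective
  have hnorm : (V ⊔ K').Normal := by
    rw [← Subgroup.normalizer_eq_top_iff, eq_top_iff, ← hc.sup_eq_top, sup_le_iff]
    constructor
    · exact le_sup_left.trans Subgroup.le_normalizer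
    · intro m hm
      rw [mem_normalizer_iff_conjS]
      have e1 : conjS m (V ⊔ K') = conjS m V ⊔ conjS m K' := Subgroup.map_sup _ _ _
      have e2 : conjS m V = V := by
        rw [← mem_normalizer_iff_conjS, Subgroup.normalizer_eq_top_iff.mpr hV]
        trivial
      have e3 : conjS m K' = K' := by
        ext x
        rw [mem_conjS]
        constructor
        · rintro ⟨u, hu, hue⟩
          have := hK.conj_mem u hu ⟨m, hm⟩
          refine ⟨_, this, ?_⟩
          have h3 : (u : G) = m⁻¹ * x * m := hue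
          simp [h3, mul_assoc]
        · rintro ⟨u, hu, rfl⟩
          have := hK.conj_mem u hu (⟨m, hm⟩⁻¹)
          refine ⟨_, this, ?_⟩
          simp
      rw [e1, e2, e3]
  obtain ⟨a, ha⟩ := IsPGroup.iff_card.mp hVp
  have hMi : M.index = Nat.card V := hc.index_eq_card
  refine ⟨⊥, V, V ⊔ K', ⊤, inferInstance, hV, hnorm, inferInstance, le_rfl, bot_le, le_sup_left, le_top,
    ?_, ⟨a, ?_⟩, ?_, ?_, ?_⟩
  · rw [Subgroup.relIndex_self]
    exact hp.out.one_lt.ne' ∘ Nat.dvd_one.mp
  · rw [Subgroup.relIndex_bot_left, ha]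
  · rw [Subgroup.relIndex_sup_left]
    intro hd
    apply h1
    rw [← hK'c]
    exact hd.trans (Subgroup.relIndex_dvd_card _ _)
  · rw [Subgroup.relIndex_top_right]
    have h3 : (V ⊔ K').index ∣ K'.index := Subgroup.index_dvd_of_le le_sup_right
    rw [hK', Subgroup.index_map_subtype, h2, hMi, ha, ← pow_add] at h3
    obtain ⟨j, -, hj⟩ := (Nat.dvd_prime_pow hp.out).mp h3
    exact ⟨j, hj⟩
  · intro r hr hrd
    rw [Subgroup.index_top] at hrd
    exact absurd (Nat.dvd_one.mp hrd) hr.one_lt.ne'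

theorem isMulCommutative_of_minimal {G : Type u} [Group G] [Finite G] [hp : Fact p.Prime] {V : Subgroup G}
    [hV : V.Normal] (hVp : IsPGroup p V) (hb : V ≠ ⊥)
    (hmin : ∀ M : Subgroup G, M.Normal → M ≤ V → M = ⊥ ∨ M = V) : IsMulCommutative V := by
  haveI : Nontrivial V := by
    exact (Subgroup.nontrivial_iff_ne_bot V).mpr hb
  haveI : Nontrivial (Subgroup.center V) := hVp.center_nontrivial
  have hn : ((Subgroup.center V).map V.subtype).Normal := normal_map_of_characteristic V _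
  rcases hmin _ hn (Subgroup.map_subtype_le _) with h | h
  · exfalso
    have h2 : Subgroup.center V = ⊥ := by
      rwa [Subgroup.map_eq_bot_iff_of_injective _ V.subtype_injective] at h
    exact (Subgroup.nontrivial_iff_ne_bot _).mp inferInstance h2
  · refine IsMulCommutative.of_comm fun a b => ?_
    have ha : (a : G) ∈ (Subgroup.center V).map V.subtype := by
      rw [h]; exact a.2
    obtain ⟨c, hc, hce⟩ := ha
    have : c = a := Subtype.ext hce
    rw [← this]
    exact (Subgroup.mem_center_iff.mp hc b).symm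

/-- The main induction. -/
theorem main_aux [hp : Fact p.Prime] : ∀ (n : ℕ) (G : Type u) [Group G] [Finite G], Nat.card G = n →
    PStep p G → HMax p G → PL2 p (⊥ : Subgroup G) := by
  intro n
  induction n using Nat.strong_induction_on with
  | _ n ih =>
    intro G _ _ hcard hS hM
    -- the quotient step
    have hq : ∀ N : Subgroup G, N.Normal → N ≠ ⊥ → PL2 p N := by
      intro N hN hNb
      apply PL2.of_quot
      refine ih (Nat.card (G ⧸ N)) ?_ (G ⧸ N) rfl (hS.quotient N) (hM.quotient hp.out N)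
      rw [← hcard, Subgroup.card_eq_card_quotient_mul_card_subgroup N]
      have h1 : 1 < Nat.card N := by
        have h2 := Nat.card_pos (α := N)
        have h3 : Nat.card N ≠ 1 := fun h => hNb (Subgroup.eq_bot_of_card_eq N h)
        omega
      have h4 := Nat.card_pos (α := G ⧸ N)
      nlinarith
    -- `O_{p'}(G) = 1`
    by_cases hO : pPrimeCore p G = ⊥
    swap
    · have h1 := hq _ inferInstance hO
      apply h1.of_coprime hp.out
      intro hd
      have h2 := pPrimeCore_coprime p G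
      exact hp.out.one_lt.ne' (Nat.eq_one_of_dvd_coprimes h2 hd (dvd_refl p))
    by_cases htriv : (⊥ : Subgroup G) = ⊤
    · refine ⟨⊥, ⊥, ⊥, ⊥, inferInstance, inferInstance, inferInstance, inferInstance, le_rfl, le_rfl,
        le_rfl, le_rfl, ?_, ⟨0, ?_⟩, ?_, ⟨0, ?_⟩, ?_⟩
      · rw [Subgroup.relIndex_self]
        exact hp.out.one_lt.ne' ∘ Nat.dvd_one.mp
      · rw [Subgroup.relIndex_self, pow_zero]
      · rw [Subgroup.relIndex_self]
        exact hp.out.one_lt.ne' ∘ Nat.dvd_one.mp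
      · rw [Subgroup.relIndex_self, pow_zero]
      · intro r hr hrd
        rw [htriv, Subgroup.index_top] at hrd
        exact absurd (Nat.dvd_one.mp hrd) hr.one_lt.ne'
    -- a minimal normal `p`-subgroup
    obtain ⟨D, hDn, hDb, -, hD⟩ := hS ⊥ ⊤ inferInstance inferInstance (bot_lt_iff_ne_bot.mpr (Ne.symm htriv))
    have hDb' : D ≠ ⊥ := hDb.ne'
    have hDp : IsPGroup p D := by
      rcases hD with ⟨m, hm⟩ | hc
      · rw [Subgroup.relIndex_bot_left] at hm
        exact IsPGroup.of_card hm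
      · rw [Subgroup.relIndex_bot_left] at hc
        exact absurd (le_bot_iff.mp (hO ▸ le_pPrimeCore hDn hc)) hDb'
    obtain ⟨V, hVn, hVb, hVD, hmin⟩ := exists_minimal_normal_le hDn hDb'
    haveI := hVn
    have hVp : IsPGroup p V := hDp.to_le hVD
    have hab := isMulCommutative_of_minimal hVp hVb hmin
    have hPL := hq V hVn hVb
    by_cases hVΦ : V ≤ frattini G
    · -- `V` in the Frattini subgroup
      obtain ⟨A, B, C, D', hA, hB, hC, hD', hNA, hAB, hBC, hCD, h1, h2, h3, h4, h5⟩ := hPL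
      have hAV : A = V := eq_of_frattini hab hVp hNA h1 hVΦ hO
      subst hAV
      refine ⟨⊥, B, C, D', inferInstance, hB, hC, hD', le_rfl, bot_le, hBC, hCD, ?_, ?_, h3, h4, h5⟩
      · rw [Subgroup.relIndex_self]
        exact hp.out.one_lt.ne' ∘ Nat.dvd_one.mp
      · obtain ⟨k, hk⟩ := h2
        obtain ⟨a, ha⟩ := IsPGroup.iff_card.mp hVp
        refine ⟨a + k, ?_⟩
        have := Subgroup.relIndex_mul_relIndex (⊥ : Subgroup G) A B bot_le hAB
        rw [Subgroup.relIndex_bot_left, Subgroup.relIndex_bot_left, ha, hk, ← pow_add] at this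
        rw [Subgroup.relIndex_bot_left, ← this]
    · -- a complement
      obtain ⟨M, hMc, hnot⟩ := exists_coatom_of_not_le_frattini hVΦ
      have hs : V ⊔ M = ⊤ := by
        rw [sup_comm]
        apply hMc.2
        exact lt_of_le_of_ne le_sup_left (fun heq => hnot (heq ▸ le_sup_right))
      have hinfn := inf_normal_of_abelian hab hs
      have hinf : V ⊓ M = ⊥ := by
        rcases hmin _ hinfn inf_le_left with h0 | h0
        · exact h0
        · exact absurd (inf_eq_left.mp h0) hnot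
      have hc : V.IsComplement' M := isComplement'_of_inf_sup hinf hs
      rcases hM M hMc with ⟨K, hK, h1, k, h2⟩ | hpr
      · exact case_nilp hVp hc hK h1 h2
      · -- prime index
        have hMi : M.index = Nat.card V := hc.index_eq_card
        have hVc : Nat.card V = p := by
          rw [hMi] at hpr
          obtain ⟨a, ha⟩ := IsPGroup.iff_card.mp hVp
          rw [ha] at hpr ⊢
          rw [((Nat.Prime.pow_eq_iff hpr).mp rfl).2, pow_one]
        let X : Subgroup G := M ⊓ Subgroup.centralizer (V : Set G)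
        have hCn : (Subgroup.centralizer (V : Set G)).Normal := inferInstance
        have hXn : X.Normal := by
          constructor
          intro x hx g
          have hg : g ∈ V ⊔ M := hs ▸ Subgroup.mem_top g
          obtain ⟨v, hv, m, hm, rfl⟩ := Subgroup.mem_sup_of_normal_left.mp hg
          have h1 : m * x * m⁻¹ ∈ M := mul_mem (mul_mem hm hx.1) (inv_mem hm)
          have h2 : m * x * m⁻¹ ∈ Subgroup.centralizer (V : Set G) := hCn.conj_mem x hx.2 m
          have h3 := Subgroup.mem_centralizer_iff.mp h2 v hv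
          have e : v * m * x * (v * m)⁻¹ = m * x * m⁻¹ := by
            calc v * m * x * (v * m)⁻¹ = v * (m * x * m⁻¹) * v⁻¹ := by group
              _ = (m * x * m⁻¹) * v * v⁻¹ := by rw [h3]
              _ = _ := by group
          rw [e]
          exact ⟨h1, h2⟩
        by_cases hX : X = ⊥
        · -- faithful action
          let f : M →* MulAut V := (MulAut.conjNormal : G →* MulAut V).comp M.subtype
          have hinj : Function.Injective f := by
            rw [injective_iff_map_eq_one]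
            intro m hm
            have h1 : (m : G) ∈ X := by
              refine ⟨m.2, Subgroup.mem_centralizer_iff.mpr ?_⟩
              intro v hv
              have h2 : f m ⟨v, hv⟩ = ⟨v, hv⟩ := by rw [hm]; rfl
              have h3 : (m : G) * v * (m : G)⁻¹ = v := congrArg Subtype.val h2
              exact (mul_inv_eq_iff_eq_mul.mp h3).symm
            rw [hX] at h1
            exact Subtype.ext h1
          have hdvd : Nat.card M ∣ Nat.card (MulAut V) := Subgroup.card_dvd_of_injective f hinj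
          haveI : IsCyclic V := isCyclic_of_prime_card hVc
          rw [IsCyclic.card_mulAut, hVc, Nat.totient_prime hp.out] at hdvd
          have hVi : V.index = Nat.card M := hc.symm.index_eq_card
          refine ⟨⊥, V, V, V, inferInstance, hVn, hVn, hVn, le_rfl, bot_le, le_rfl, le_rfl, ?_,
            ⟨1, ?_⟩, ?_, ⟨0, ?_⟩, ?_⟩
          · rw [Subgroup.relIndex_self]
            exact hp.out.one_lt.ne' ∘ Nat.dvd_one.mp
          · rw [Subgroup.relIndex_bot_left, hVc, pow_one]
          · rw [Subgroup.relIndex_self]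
            exact hp.out.one_lt.ne' ∘ Nat.dvd_one.mp
          · rw [Subgroup.relIndex_self, pow_zero]
          · intro r hr hrd
            rw [hVi] at hrd
            have h1 := Nat.le_of_dvd (Nat.sub_pos_of_lt hp.out.one_lt) (hrd.trans hdvd)
            have h2 := hp.out.one_lt
            omega
        · haveI := hXn
          have h1 := PL2.inf hp.out hPL (hq X hXn hX)
          have h2 : V ⊓ X = ⊥ := by
            rw [eq_bot_iff, ← hinf]
            exact inf_le_inf_left _ inf_le_left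
          rwa [h2] at h1

theorem chain_of_psolvable [hp : Fact p.Prime] {G : Type u} [Group G] [Finite G] (hS : IsPSolvable p G)
    (hM : HMax p G) : ∃ A B C D : Subgroup G, A.Normal ∧ B.Normal ∧ C.Normal ∧ D.Normal ∧ A ≤ B ∧ B ≤ C ∧ C ≤ D ∧
      ¬ p ∣ Nat.card A ∧ (∃ k : ℕ, A.relIndex B = p ^ k) ∧ ¬ p ∣ B.relIndex C ∧
      (∃ k : ℕ, C.relIndex D = p ^ k) ∧ ¬ p ∣ D.index := by
  obtain ⟨A, B, C, D, hA, hB, hC, hD, -, hAB, hBC, hCD, h1, h2, h3, h4, h5⟩ :=
    main_aux (p := p) _ G rfl (pStep_of_isPSolvable hp.out hS) hM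
  refine ⟨A, B, C, D, hA, hB, hC, hD, hAB, hBC, hCD, ?_, h2, h3, h4, ?_⟩
  · rwa [Subgroup.relIndex_bot_left] at h1
  · intro hd
    exact (h5 p hp.out hd).ne rfl

theorem chain_of_solvable {G : Type u} [Group G] [Finite G] (hS : Group.IsSolvable G) (hM : HMax 2 G) :
    ∃ A B C : Subgroup G, A.Normal ∧ B.Normal ∧ C.Normal ∧ A ≤ B ∧ B ≤ C ∧ Odd (Nat.card A) ∧
      (∃ k : ℕ, A.relIndex B = 2 ^ k) ∧ Odd (B.relIndex C) ∧ ∃ k : ℕ, C.index = 2 ^ k := by
  haveI : Fact (Nat.Prime 2) := ⟨Nat.prime_two⟩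
  haveI := hS
  obtain ⟨A, B, C, D, hA, hB, hC, hD, -, hAB, hBC, hCD, h1, h2, h3, h4, h5⟩ :=
    main_aux (p := 2) _ G rfl (Cfsg.Agent.Lib.CharExtra.pStep_of_isSolvable Nat.prime_two) hM
  have hDt : D = ⊤ := by
    rw [← Subgroup.index_eq_one]
    by_contra hne
    obtain ⟨r, hr, hrd⟩ := Nat.exists_prime_and_dvd hne
    have := h5 r hr hrd
    have h6 := hr.two_le
    omega
  subst hDt
  rw [Subgroup.relIndex_top_right] at h4
  rw [Subgroup.relIndex_bot_left] at h1
  exact ⟨A, B, C, hA, hB, hC, hAB, hBC, Nat.not_even_iff_odd.mp (fun h => h1 h.two_dvd), h2,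
    Nat.not_even_iff_odd.mp (fun h => h3 h.two_dvd), h4⟩

end Main

end Cfsg.Agent.Lib.ClassSizes.PLenMax
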