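import Mathlib
import Cfsg.Agent.Lib.Techniques.SylowIn
import Cfsg.Prelude.Def_HallClasses

/-! Pronormality of overgroups of Sylow subgroups in extensions. -/

set_option autoImplicit false
set_option linter.style.haveILetI false

namespace Cfsg.Agent.Lib.ClassSizes.Pronormal

open Cfsg Cfsg.Agent.Lib.Techniques Subgroup

universe u v w

variable {G : Type u} [Group G]

/-- `J` is a conjugate of `H` by an element of the join. -/
def CJ (H J : Subgroup G) : Prop := ∃ x ∈ H ⊔ J, J = conjS x H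

theorem pronormal_iff {H : Subgroup G} : IsPronormal H ↔ ∀ g, CJ H (conjS g H) := Iff.rfl

theorem CJ.of_conj {H J : Subgroup G} {l : G} (hl : l ∈ H ⊔ J) (h : CJ H (conjS l⁻¹ J)) : CJ H J := by
  obtain ⟨x', hx', e⟩ := h
  have hle : conjS l⁻¹ J ≤ H ⊔ J := by
    rintro _ ⟨y, hy, rfl⟩
    have : (MulAut.conj l⁻¹).toMonoidHom y = l⁻¹ * y * l⁻¹⁻¹ := rfl
    rw [this]
    exact mul_mem (mul_mem (inv_mem hl) (mem_sup_right hy)) (inv_mem (inv_mem hl))
  refine ⟨l * x', mul_mem hl ((sup_le le_sup_left hle) hx'), ?_⟩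
  rw [conjS_mul, ← e, conjS_conjS_inv]

theorem map_conjS {G' : Type v} [Group G'] (f : G →* G') (g : G) (T : Subgroup G) :
    (conjS g T).map f = conjS (f g) (T.map f) := by
  ext x
  simp only [mem_map, MulEquiv.coe_toMonoidHom, MulAut.conj_apply, exists_exists_and_eq_and, map_mul, map_inv]

theorem conjS_sup (g : G) (A B : Subgroup G) : conjS g (A ⊔ B) = conjS g A ⊔ conjS g B :=
  Subgroup.map_sup _ _ _

theorem map_injective_conj_of_ker_le {G' : Type v} [Group G'] (f : G →* G') {n x : G} {L : Subgroup G}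
    (hker : f.ker ≤ L) (h : (conjS n L).map f = (conjS x L).map f) : conjS n L = conjS x L := by
  have hk : ∀ y : G, f.ker ≤ conjS y L := by
    intro y k hk
    rw [mem_conjS]
    apply hker
    rw [MonoidHom.mem_ker] at hk ⊢
    simp [hk]
  exact map_injective_of_ker_le f (hk n) (hk x) h

/-- Lifting pronormality along a surjection. -/
theorem pronormal_lift {M : Type v} {Q : Type w} [Group M] [Group Q] (φ : M →* Q)
    {L : Subgroup M} (hker : φ.ker ≤ L) (hL : IsPronormal (L.map φ)) : IsPronormal L := by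
  intro n
  obtain ⟨xq, hxq, e⟩ := hL (φ n)
  have e1 : L.map φ ⊔ (L.map φ).map (MulAut.conj (φ n)).toMonoidHom = (L ⊔ conjS n L).map φ := by
    rw [Subgroup.map_sup, map_conjS]
  rw [e1] at hxq
  obtain ⟨x, hx, rfl⟩ := hxq
  refine ⟨x, hx, map_injective_conj_of_ker_le φ hker ?_⟩
  rw [map_conjS, map_conjS]
  exact e

/-- Descending pronormality to a section. -/
theorem pronormal_desc {M : Type v} {Q : Type w} [Group M] [Group Q] (φ : M →* Q) (hφ : Function.Surjective φ)
    (ι : M →* G) (hι : Function.Injective ι) {K : Subgroup Q}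
    (h : IsPronormal ((K.comap φ).map ι)) : IsPronormal K := by
  intro gq
  obtain ⟨n, rfl⟩ := hφ gq
  obtain ⟨x, hx, e⟩ := h (ι n)
  have e1 : (K.comap φ).map ι ⊔ ((K.comap φ).map ι).map (MulAut.conj (ι n)).toMonoidHom =
      (K.comap φ ⊔ conjS n (K.comap φ)).map ι := by
    rw [Subgroup.map_sup, map_conjS]
  rw [e1] at hx
  obtain ⟨x', hx', rfl⟩ := hx
  have e2 : conjS n (K.comap φ) = conjS x' (K.comap φ) := by
    apply map_injective hι
    rw [map_conjS, map_conjS]
    exact e
  have e3 : (K.comap φ).map φ = K := map_comap_eq_self_of_surjective hφ K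
  refine ⟨φ x', ?_, ?_⟩
  · have := mem_map_of_mem φ hx'
    rwa [Subgroup.map_sup, map_conjS, e3] at this
  · have := congrArg (map φ) e2
    rwa [map_conjS, map_conjS, e3] at this

/-- Conjugation invariance of pronormality. -/
theorem pronormal_conj {H : Subgroup G} (e : G) (h : IsPronormal (conjS e H)) : IsPronormal H := by
  intro g
  obtain ⟨x, hx, hxe⟩ := h (e * g * e⁻¹)
  have e1 : conjS e⁻¹ (conjS e H ⊔ conjS (e * g * e⁻¹) (conjS e H)) = H ⊔ conjS g H := by
    have : conjS (e * g * e⁻¹) (conjS e H) = conjS e (conjS g H) := by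
      rw [← conjS_mul, ← conjS_mul]
      congr 1
      group
    rw [this, conjS_sup, conjS_inv_conjS, conjS_inv_conjS]
  have hmem : e⁻¹ * x * e ∈ H ⊔ conjS g H := by
    rw [← e1]
    have := conj_mem_conjS (g := e⁻¹) hx
    rwa [inv_inv] at this
  refine ⟨e⁻¹ * x * e, hmem, ?_⟩
  have e2 : conjS e⁻¹ (conjS (e * g * e⁻¹) (conjS e H)) = conjS e⁻¹ (conjS x (conjS e H)) :=
    congrArg (conjS e⁻¹) hxe
  have e3 : conjS e⁻¹ (conjS (e * g * e⁻¹) (conjS e H)) = conjS g H := by
    rw [← conjS_mul, ← conjS_mul]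
    have : e⁻¹ * (e * g * e⁻¹) * e = g := by group
    rw [this]
  have e4 : conjS e⁻¹ (conjS x (conjS e H)) = conjS (e⁻¹ * x * e) H := by
    rw [← conjS_mul, ← conjS_mul]
  rw [e3, e4] at e2
  exact e2

section Main

variable [Finite G] {p : ℕ} [Fact p.Prime]

/-- Pronormality of `H`, from the three reductions. -/
theorem main_pronormal {A T H : Subgroup G} [A.Normal] (hT : SylowIn p T A) (hTH : T ≤ H)
    (hA : ∀ a ∈ A, ∃ b ∈ (H ⊓ A) ⊔ conjS a (H ⊓ A), conjS a (H ⊓ A) = conjS b (H ⊓ A))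
    (hQ : ∀ g : G, ∃ l ∈ H ⊔ conjS g H, ∃ n ∈ normalizer (H : Set G), ∃ a ∈ A, g = l * a * n)
    (hN : ∀ d ∈ normalizer (T : Set G), ∃ w ∈ (H ⊓ normalizer (T : Set G)) ⊔ conjS d (H ⊓ normalizer (T : Set G)),
      conjS d (H ⊓ normalizer (T : Set G)) = conjS w (H ⊓ normalizer (T : Set G))) :
    IsPronormal H := by
  set U := H ⊓ A with hU
  have hconjA : ∀ x : G, conjS x A = A := by
    intro x
    apply mem_normalizer_iff_conjS.mp
    rw [normalizer_eq_top]
    exact mem_top x
  have hTU : T ≤ U := le_inf hTH hT.1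
  have hTUs : SylowIn p T U := hT.of_le hTU inf_le_right
  have hHU : ∀ h ∈ H, conjS h U = U := by
    intro h hh
    rw [hU, conjS_inf, conjS_eq_of_mem hh, hconjA]
  have reduce_d : ∀ d, conjS d T = T → conjS d U = U → CJ H (conjS d H) := by
    intro d hdT hdU
    obtain ⟨w, hw, e⟩ := hN d (mem_normalizer_iff_conjS.mpr hdT)
    set K := H ⊓ normalizer (T : Set G) with hK
    have hKH : K ≤ H := inf_le_left
    have hsup : H = U ⊔ K := by
      apply le_antisymm
      · intro h hh
        have h1 : conjS h T ≤ U := by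
          rw [← hHU h hh]
          exact conjS_mono h hTU
        have h2 : SylowIn p (conjS h T) U := by
          have := hTUs.conj h
          rwa [hHU h hh] at this
        obtain ⟨u, hu, hut⟩ := hTUs.exists_conj_eq h2
        have hk : u⁻¹ * h ∈ K := by
          refine mem_inf.mpr ⟨mul_mem (inv_mem hu.1) hh, mem_normalizer_iff_conjS.mpr ?_⟩
          rw [conjS_mul, ← hut, ← conjS_mul, inv_mul_cancel, conjS_one]
        have e5 : h = u * (u⁻¹ * h) := by group
        rw [e5]
        exact mul_mem_sup hu hk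
      · exact sup_le inf_le_left hKH
    have hwU : conjS w U = U := by
      have hle : K ⊔ conjS d K ≤ normalizer (U : Set G) := by
        refine sup_le (fun k hk => mem_normalizer_iff_conjS.mpr (hHU k (hKH hk))) ?_
        rintro _ ⟨k, hk, rfl⟩
        apply mem_normalizer_iff_conjS.mpr
        have e6 : (MulAut.conj d).toMonoidHom k = d * k * d⁻¹ := rfl
        rw [e6, conjS_mul, conjS_mul]
        have h7 : conjS d⁻¹ U = U := by
          conv_lhs => rw [← hdU]
          exact conjS_inv_conjS d U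
        rw [h7, hHU k (hKH hk), hdU]
      exact mem_normalizer_iff_conjS.mp (hle hw)
    refine ⟨w, (sup_le_sup hKH (conjS_mono d hKH)) hw, ?_⟩
    conv_lhs => rw [hsup]
    conv_rhs => rw [hsup]
    rw [conjS_sup, conjS_sup, hdU, hwU, e]
  have reduce_c : ∀ c ∈ A, conjS c U = U → CJ H (conjS c H) := by
    intro c _ hcU
    have h2 : SylowIn p (conjS c T) U := by
      have := hTUs.conj c
      rwa [hcU] at this
    obtain ⟨h, hh, hht⟩ := hTUs.exists_conj_eq h2
    refine CJ.of_conj (mem_sup_left hh.1) ?_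
    rw [← conjS_mul]
    apply reduce_d
    · rw [conjS_mul, ← hht, ← conjS_mul, inv_mul_cancel, conjS_one]
    · rw [conjS_mul, hcU]
      exact conjS_eq_of_mem (inv_mem hh)
  have reduce_a : ∀ a ∈ A, CJ H (conjS a H) := by
    intro a ha
    obtain ⟨b, hb, e⟩ := hA a ha
    have hbA : b ∈ A := by
      have hle : (H ⊓ A) ⊔ conjS a (H ⊓ A) ≤ A := by
        refine sup_le inf_le_right ?_
        conv_rhs => rw [← hconjA a]
        exact conjS_mono a inf_le_right
      exact hle hb
    have hbH : b ∈ H ⊔ conjS a H := (sup_le_sup inf_le_left (conjS_mono a inf_le_left)) hb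
    refine CJ.of_conj hbH ?_
    rw [← conjS_mul]
    apply reduce_c _ (mul_mem (inv_mem hbA) ha)
    rw [conjS_mul, e, ← conjS_mul, inv_mul_cancel, conjS_one]
  intro g
  obtain ⟨l, hl, n, hn, a, ha, e⟩ := hQ g
  refine CJ.of_conj hl ?_
  rw [← conjS_mul]
  have e1 : l⁻¹ * g = a * n := by
    rw [e]
    group
  rw [e1, conjS_mul, mem_normalizer_iff_conjS.mp hn]
  exact reduce_a a ha

end Main

section Ext

variable [Finite G] {p : ℕ} [Fact p.Prime]

open scoped Pointwise in
theorem sylow_conj_le' {X : Type*} [Group X] [Finite X] (S R : Sylow p X) :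
    ∃ c : X, ∀ x ∈ (R : Subgroup X), c * x * c⁻¹ ∈ (S : Subgroup X) := by
  obtain ⟨c, hc⟩ := MulAction.exists_smul_eq X R S
  refine ⟨c, fun x hx => ?_⟩
  have h1 : (MulAut.conj c) • x ∈ (MulAut.conj c) • (R : Subgroup X) :=
    Subgroup.smul_mem_pointwise_smul _ _ _ hx
  rw [← Sylow.coe_subgroup_smul, hc] at h1
  exact h1

/-- Sylow subgroups of `G` containing `T`, meeting `A` exactly in `T`. -/
theorem exists_sylow_inf {A T : Subgroup G} [A.Normal] (hT : SylowIn p T A) :
    ∃ P : Sylow p G, (P : Subgroup G) ⊓ A = T := by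
  obtain ⟨P, hP⟩ := hT.2.1.exists_le_sylow
  refine ⟨P, ?_⟩
  have h1 : T ≤ (P : Subgroup G) ⊓ A := le_inf hP hT.1
  have h2 : IsPGroup p ((P : Subgroup G) ⊓ A : Subgroup G) := P.isPGroup'.to_le inf_le_left
  exact hT.eq_of_le h1 inf_le_right h2

theorem sylowIn_inf {A : Subgroup G} [A.Normal] (P : Sylow p G) : SylowIn p ((P : Subgroup G) ⊓ A) A := by
  have h1 : SylowIn p (P : Subgroup G) ⊤ := sylowIn_top_of_sylow P
  refine h1.inf_of_normal le_top ?_
  rw [normalizer_eq_top]

theorem sylow_le_normalizer {A : Subgroup G} [A.Normal] (P : Sylow p G) :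
    (P : Subgroup G) ≤ normalizer (((P : Subgroup G) ⊓ A : Subgroup G) : Set G) := by
  intro x hx
  rw [mem_normalizer_iff_conjS, conjS_inf, conjS_eq_of_mem hx]
  congr 1
  apply mem_normalizer_iff_conjS.mp
  rw [normalizer_eq_top]
  exact mem_top x

/-- The image of `H` in `G/A` carries the Sylow subgroup. -/
theorem mk_hQ {A H : Subgroup G} [A.Normal] (P : Sylow p G) (hPH : (P : Subgroup G) ≤ H)
    (hQ : ∀ K : Subgroup (G ⧸ A), (∃ P : Sylow p (G ⧸ A), (P : Subgroup (G ⧸ A)) ≤ K) → Cfsg.IsPronormal K)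
    (hii : (normalizer (H : Set G)).map (QuotientGroup.mk' A) =
      normalizer ((H.map (QuotientGroup.mk' A) : Subgroup (G ⧸ A)) : Set (G ⧸ A))) (g : G) :
    ∃ l ∈ H ⊔ conjS g H, ∃ n ∈ normalizer (H : Set G), ∃ a ∈ A, g = l * a * n := by
  let φ := QuotientGroup.mk' A
  have hφ : Function.Surjective φ := QuotientGroup.mk'_surjective A
  obtain ⟨xq, hxq, e⟩ := hQ (H.map φ) ⟨P.mapSurjective hφ, map_mono hPH⟩ (φ g)
  have e1 : H.map φ ⊔ (H.map φ).map (MulAut.conj (φ g)).toMonoidHom = (H ⊔ conjS g H).map φ := by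
    rw [Subgroup.map_sup, map_conjS]
  rw [e1] at hxq
  obtain ⟨l, hl, rfl⟩ := hxq
  have hn : φ (l⁻¹ * g) ∈ normalizer ((H.map φ : Subgroup (G ⧸ A)) : Set (G ⧸ A)) := by
    rw [mem_normalizer_iff_conjS, map_mul, map_inv, conjS_mul]
    have e2 : conjS (φ g) (H.map φ) = conjS (φ l) (H.map φ) := e
    rw [e2, conjS_inv_conjS]
  rw [← hii] at hn
  obtain ⟨n, hn, e3⟩ := hn
  refine ⟨l, hl, n, hn, (l⁻¹ * g) * n⁻¹, ?_, by group⟩
  have e4 : φ ((l⁻¹ * g) * n⁻¹) = 1 := by
    rw [map_mul, map_inv, ← e3, mul_inv_cancel]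
  exact (QuotientGroup.eq_one_iff _).mp e4

/-- Forward direction: the normalizer condition. -/
theorem forward_ii {A K : Subgroup G} [A.Normal] (hK : IsPronormal K) :
    (normalizer (K : Set G)).map (QuotientGroup.mk' A) =
      normalizer ((K.map (QuotientGroup.mk' A) : Subgroup (G ⧸ A)) : Set (G ⧸ A)) := by
  let φ := QuotientGroup.mk' A
  have hφ : Function.Surjective φ := QuotientGroup.mk'_surjective A
  apply le_antisymm (le_normalizer_map φ)
  intro yq hy
  obtain ⟨y, rfl⟩ := hφ yq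
  obtain ⟨x, hx, e⟩ := hK y
  have h1 : conjS (φ y) (K.map φ) = K.map φ := mem_normalizer_iff_conjS.mp hy
  have h2 : φ x ∈ K.map φ := by
    have := mem_map_of_mem φ hx
    rwa [Subgroup.map_sup, map_conjS, h1, sup_idem] at this
  obtain ⟨k, hk, e2⟩ := h2
  refine ⟨k * (x⁻¹ * y), ?_, ?_⟩
  · refine mul_mem (le_normalizer hk) ?_
    rw [mem_normalizer_iff_conjS, conjS_mul]
    have e3 : conjS y K = conjS x K := e
    rw [e3, conjS_inv_conjS]
  · rw [map_mul, map_mul, map_inv, e2]
    group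

variable {A T : Subgroup G} [A.Normal]

/-- Forward direction: the normalizer quotient. -/
theorem forward_i (hT : SylowIn p T A) [hTn : (T.subgroupOf (normalizer (T : Set G))).Normal]
    (hall : ∀ K : Subgroup G, (∃ P : Sylow p G, (P : Subgroup G) ≤ K) → Cfsg.IsPronormal K)
    (K : Subgroup (↥(normalizer (T : Set G)) ⧸ T.subgroupOf (normalizer (T : Set G))))
    (hK : ∃ P : Sylow p (↥(normalizer (T : Set G)) ⧸ T.subgroupOf (normalizer (T : Set G))),
      (P : Subgroup (↥(normalizer (T : Set G)) ⧸ T.subgroupOf (normalizer (T : Set G)))) ≤ K) :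
    Cfsg.IsPronormal K := by
  let N := normalizer (T : Set G)
  let φ := QuotientGroup.mk' (T.subgroupOf N)
  have hφ : Function.Surjective φ := QuotientGroup.mk'_surjective _
  obtain ⟨Y, hY⟩ := hK
  obtain ⟨P, hP⟩ := exists_sylow_inf (p := p) hT
  have hPN : (P : Subgroup G) ≤ N := by
    have := sylow_le_normalizer (A := A) P
    rwa [hP] at this
  let P' : Sylow p N := P.subtype hPN
  let Pq : Sylow p (N ⧸ T.subgroupOf N) := P'.mapSurjective hφ
  obtain ⟨c, hc⟩ := sylow_conj_le' Y Pq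
  obtain ⟨n, rfl⟩ := hφ c
  apply pronormal_desc φ hφ N.subtype N.subtype_injective
  apply hall
  have h1 := (sylowIn_top_of_sylow P).conj (n : G)
  rw [conjS_top] at h1
  obtain ⟨S, hS⟩ := h1.of_top
  refine ⟨S, ?_⟩
  rw [hS]
  rintro _ ⟨y, hy, rfl⟩
  have hyN : y ∈ N := hPN hy
  refine ⟨n * ⟨y, hyN⟩ * n⁻¹, ?_, rfl⟩
  have h3 : φ ⟨y, hyN⟩ ∈ (Pq : Subgroup (N ⧸ T.subgroupOf N)) := by
    refine ⟨⟨y, hyN⟩, ?_, rfl⟩
    exact hy
  have h4 := hc _ h3
  change φ (n * ⟨y, hyN⟩ * n⁻¹) ∈ K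
  rw [map_mul, map_mul, map_inv]
  exact hY h4

/-- Backward direction for subgroups containing the right `T`. -/
theorem backward_aux (hT : SylowIn p T A) [hTn : (T.subgroupOf (normalizer (T : Set G))).Normal]
    (hA : ∀ K : Subgroup ↥A, (∃ P : Sylow p ↥A, (P : Subgroup ↥A) ≤ K) → Cfsg.IsPronormal K)
    (hQ : ∀ K : Subgroup (G ⧸ A), (∃ P : Sylow p (G ⧸ A), (P : Subgroup (G ⧸ A)) ≤ K) → Cfsg.IsPronormal K)
    (hi : ∀ K : Subgroup (↥(normalizer (T : Set G)) ⧸ T.subgroupOf (normalizer (T : Set G))),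
      (∃ P : Sylow p (↥(normalizer (T : Set G)) ⧸ T.subgroupOf (normalizer (T : Set G))),
        (P : Subgroup (↥(normalizer (T : Set G)) ⧸ T.subgroupOf (normalizer (T : Set G)))) ≤ K) → Cfsg.IsPronormal K)
    (hii : ∀ K : Subgroup G, (∃ P : Sylow p G, (P : Subgroup G) ≤ K) →
      (normalizer (K : Set G)).map (QuotientGroup.mk' A) =
        normalizer ((K.map (QuotientGroup.mk' A) : Subgroup (G ⧸ A)) : Set (G ⧸ A)))
    {H : Subgroup G} (P : Sylow p G) (hPH : (P : Subgroup G) ≤ H) (hP : (P : Subgroup G) ⊓ A = T) :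
    IsPronormal H := by
  have hTH : T ≤ H := by
    rw [← hP]
    exact inf_le_left.trans hPH
  refine main_pronormal (p := p) hT hTH ?_ (mk_hQ P hPH hQ (hii H ⟨P, hPH⟩)) ?_
  · intro a ha
    -- pronormality inside `A`
    have hU : ∃ R : Sylow p ↥A, (R : Subgroup ↥A) ≤ (H ⊓ A).subgroupOf A := by
      have hs : SylowIn p T A := hT
      refine ⟨hs.toSylow, ?_⟩
      rw [SylowIn.coe_toSylow]
      exact fun x hx => (le_inf hTH hT.1 : T ≤ H ⊓ A) hx
    obtain ⟨b, hb, e⟩ := hA _ hU ⟨a, ha⟩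
    have e1 : ((H ⊓ A).subgroupOf A).map A.subtype = H ⊓ A := by
      rw [subgroupOf_map_subtype, inf_assoc, inf_idem]
    have e2 : (((H ⊓ A).subgroupOf A) ⊔
        ((H ⊓ A).subgroupOf A).map (MulAut.conj (⟨a, ha⟩ : A)).toMonoidHom).map A.subtype =
        (H ⊓ A) ⊔ conjS a (H ⊓ A) := by
      rw [Subgroup.map_sup, e1]
      congr 1
      have := map_conjS A.subtype (⟨a, ha⟩ : A) ((H ⊓ A).subgroupOf A)
      rw [e1] at this
      exact this
    refine ⟨b, ?_, ?_⟩
    · rw [← e2]
      exact mem_map_of_mem _ hb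
    · have e3 := congrArg (map A.subtype) e
      have e4 := map_conjS A.subtype (⟨a, ha⟩ : A) ((H ⊓ A).subgroupOf A)
      have e5 := map_conjS A.subtype b ((H ⊓ A).subgroupOf A)
      rw [e1] at e4 e5
      rw [e4, e5] at e3
      exact e3
  · intro d hd
    let N := normalizer (T : Set G)
    let φ := QuotientGroup.mk' (T.subgroupOf N)
    have hφ : Function.Surjective φ := QuotientGroup.mk'_surjective _
    set K := H ⊓ N with hKdef
    have hPN : (P : Subgroup G) ≤ N := by
      have := sylow_le_normalizer (A := A) P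
      rwa [hP] at this
    have hTN : T ≤ N := le_normalizer
    have hker : φ.ker ≤ K.subgroupOf N := by
      rw [QuotientGroup.ker_mk']
      exact fun x hx => (le_inf hTH hTN : T ≤ H ⊓ N) hx
    have hpro : IsPronormal (K.subgroupOf N) := by
      apply pronormal_lift φ hker
      apply hi
      refine ⟨(P.subtype hPN).mapSurjective hφ, ?_⟩
      rw [Sylow.coe_mapSurjective]
      refine map_mono ?_
      rw [Sylow.coe_subtype]
      exact fun x hx => (le_inf hPH hPN : (P : Subgroup G) ≤ H ⊓ N) hx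
    obtain ⟨w, hw, e⟩ := hpro ⟨d, hd⟩
    have e1 : (K.subgroupOf N).map N.subtype = K := by
      rw [subgroupOf_map_subtype, hKdef, inf_assoc, inf_idem]
    have e4 := map_conjS N.subtype (⟨d, hd⟩ : N) (K.subgroupOf N)
    have e5 := map_conjS N.subtype w (K.subgroupOf N)
    rw [e1] at e4 e5
    refine ⟨w, ?_, ?_⟩
    · have := mem_map_of_mem N.subtype hw
      rw [Subgroup.map_sup, e1, e4] at this
      exact this
    · have e3 := congrArg (map N.subtype) e
      rw [e4, e5] at e3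
      exact e3

/-- Pronormal overgroups: the backward direction. -/
theorem backward (hT : SylowIn p T A) [hTn : (T.subgroupOf (normalizer (T : Set G))).Normal]
    (hA : ∀ K : Subgroup ↥A, (∃ P : Sylow p ↥A, (P : Subgroup ↥A) ≤ K) → Cfsg.IsPronormal K)
    (hQ : ∀ K : Subgroup (G ⧸ A), (∃ P : Sylow p (G ⧸ A), (P : Subgroup (G ⧸ A)) ≤ K) → Cfsg.IsPronormal K)
    (hi : ∀ K : Subgroup (↥(normalizer (T : Set G)) ⧸ T.subgroupOf (normalizer (T : Set G))),
      (∃ P : Sylow p (↥(normalizer (T : Set G)) ⧸ T.subgroupOf (normalizer (T : Set G))),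
        (P : Subgroup (↥(normalizer (T : Set G)) ⧸ T.subgroupOf (normalizer (T : Set G)))) ≤ K) → Cfsg.IsPronormal K)
    (hii : ∀ K : Subgroup G, (∃ P : Sylow p G, (P : Subgroup G) ≤ K) →
      (normalizer (K : Set G)).map (QuotientGroup.mk' A) =
        normalizer ((K.map (QuotientGroup.mk' A) : Subgroup (G ⧸ A)) : Set (G ⧸ A)))
    (H : Subgroup G) (hH : ∃ P : Sylow p G, (P : Subgroup G) ≤ H) : IsPronormal H := by
  obtain ⟨P, hPH⟩ := hH
  -- conjugate so that `P` meets `A` in `T`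
  have h1 : SylowIn p ((P : Subgroup G) ⊓ A) A := sylowIn_inf P
  obtain ⟨e, he, he2⟩ := h1.exists_conj_eq hT
  apply pronormal_conj e
  have hs := (sylowIn_top_of_sylow P).conj e
  rw [conjS_top] at hs
  obtain ⟨S, hS⟩ := hs.of_top
  refine backward_aux hT hA hQ hi hii S (by rw [hS]; exact conjS_mono e hPH) ?_
  rw [hS]
  rw [← he2, conjS_inf]
  congr 1
  exact ((mem_normalizer_iff_conjS.mp (by rw [normalizer_eq_top]; exact mem_top e))).symm

/-- The criterion. -/
theorem criterion (hT : SylowIn p T A) [hTn : (T.subgroupOf (normalizer (T : Set G))).Normal]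
    (hA : ∀ K : Subgroup ↥A, (∃ P : Sylow p ↥A, (P : Subgroup ↥A) ≤ K) → Cfsg.IsPronormal K)
    (hQ : ∀ K : Subgroup (G ⧸ A), (∃ P : Sylow p (G ⧸ A), (P : Subgroup (G ⧸ A)) ≤ K) → Cfsg.IsPronormal K) :
    (∀ K : Subgroup G, (∃ P : Sylow p G, (P : Subgroup G) ≤ K) → Cfsg.IsPronormal K) ↔
      ((∀ K : Subgroup (↥(normalizer (T : Set G)) ⧸ T.subgroupOf (normalizer (T : Set G))),
        (∃ P : Sylow p (↥(normalizer (T : Set G)) ⧸ T.subgroupOf (normalizer (T : Set G))),
          (P : Subgroup (↥(normalizer (T : Set G)) ⧸ T.subgroupOf (normalizer (T : Set G)))) ≤ K) → Cfsg.IsPronormal K) ∧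
        ∀ K : Subgroup G, (∃ P : Sylow p G, (P : Subgroup G) ≤ K) →
          (normalizer (K : Set G)).map (QuotientGroup.mk' A) =
            normalizer ((K.map (QuotientGroup.mk' A) : Subgroup (G ⧸ A)) : Set (G ⧸ A))) := by
  constructor
  · intro hall
    exact ⟨fun K hK => forward_i hT hall K hK, fun K hK => forward_ii (hall K hK)⟩
  · rintro ⟨hi, hii⟩
    exact backward hT hA hQ hi hii

/-- Overgroups of self-normalizing Sylow subgroups are pronormal and self-normalizing. -/
theorem overgroup_self_normalizing {X : Type*} [Group X] [Finite X]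
    (hS : ∀ P : Sylow p X, normalizer ((P : Subgroup X) : Set X) = P) (K : Subgroup X)
    (hK : ∃ P : Sylow p X, (P : Subgroup X) ≤ K) :
    IsPronormal K ∧ normalizer (K : Set X) = K := by
  obtain ⟨P, hPK⟩ := hK
  have key : ∀ g : X, ∀ L : Subgroup X, K ≤ L → conjS g K ≤ L → ∃ l ∈ L, l⁻¹ * g ∈ K := by
    intro g L hKL hgL
    have h1 : SylowIn p (P : Subgroup X) L := (sylowIn_top_of_sylow P).of_le (hPK.trans hKL) le_top
    have h2 : SylowIn p (conjS g (P : Subgroup X)) L := by
      have h3 := (sylowIn_top_of_sylow P).conj g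
      rw [conjS_top] at h3
      exact h3.of_le ((conjS_mono g hPK).trans hgL) le_top
    obtain ⟨l, hl, e⟩ := h1.exists_conj_eq h2
    refine ⟨l, hl, ?_⟩
    have h4 : l⁻¹ * g ∈ normalizer ((P : Subgroup X) : Set X) := by
      rw [mem_normalizer_iff_conjS, conjS_mul, ← e, conjS_inv_conjS]
    rw [hS] at h4
    exact hPK h4
  refine ⟨?_, ?_⟩
  · intro g
    obtain ⟨l, hl, e⟩ := key g (K ⊔ conjS g K) le_sup_left le_sup_right
    refine ⟨l, hl, ?_⟩
    have e2 : g = l * (l⁻¹ * g) := by group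
    have e3 : conjS g K = conjS l K := by
      conv_lhs => rw [e2, conjS_mul, conjS_eq_of_mem e]
    exact e3
  · apply le_antisymm _ le_normalizer
    intro g hg
    have h1 : conjS g K = K := mem_normalizer_iff_conjS.mp hg
    obtain ⟨l, hl, e⟩ := key g K le_rfl h1.le
    have e2 : g = l * (l⁻¹ * g) := by group
    rw [e2]
    exact mul_mem hl e

/-- The criterion for self-normalizing Sylow subgroups of the quotient. -/
theorem criterion_self_normalizing (hT : SylowIn p T A) [hTn : (T.subgroupOf (normalizer (T : Set G))).Normal]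
    (hA : ∀ K : Subgroup ↥A, (∃ P : Sylow p ↥A, (P : Subgroup ↥A) ≤ K) → Cfsg.IsPronormal K)
    (hQ : ∀ P : Sylow p (G ⧸ A), normalizer ((P : Subgroup (G ⧸ A)) : Set (G ⧸ A)) = P) :
    (∀ K : Subgroup G, (∃ P : Sylow p G, (P : Subgroup G) ≤ K) → Cfsg.IsPronormal K) ↔
      (∀ K : Subgroup (↥(normalizer (T : Set G)) ⧸ T.subgroupOf (normalizer (T : Set G))),
        (∃ P : Sylow p (↥(normalizer (T : Set G)) ⧸ T.subgroupOf (normalizer (T : Set G))),
          (P : Subgroup (↥(normalizer (T : Set G)) ⧸ T.subgroupOf (normalizer (T : Set G)))) ≤ K) → Cfsg.IsPronormal K) := by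
  constructor
  · intro hall K hK
    exact forward_i hT hall K hK
  · intro hi
    refine backward hT hA (fun K hK => (overgroup_self_normalizing hQ K hK).1) hi ?_
    rintro K ⟨P, hPK⟩
    have hK' : ∃ R : Sylow p (G ⧸ A), (R : Subgroup (G ⧸ A)) ≤ K.map (QuotientGroup.mk' A) :=
      ⟨P.mapSurjective (QuotientGroup.mk'_surjective A), map_mono hPK⟩
    rw [(overgroup_self_normalizing hQ _ hK').2]
    apply le_antisymm (le_normalizer_map _ |>.trans ?_)
    · exact map_mono le_normalizer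
    · rw [(overgroup_self_normalizing hQ _ hK').2]

end Ext


end Cfsg.Agent.Lib.ClassSizes.Pronormal
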