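import Cfsg.Agent.Lib.OddLocal.CN4
import Cfsg.Agent.Lib.Cl.SectBridge
import Mathlib

/-! Nilpotent groups all of whose centralizers of non-central elements are cyclic. -/

set_option autoImplicit false

namespace Cfsg.Agent.Lib.ClassSizes.QuatCentralizer

open QuaternionGroup

theorem eq_zero_or_of_add_self {N : ℕ} [NeZero N] {x : ZMod (2 * N)} (h : x + x = 0) :
    x = 0 ∨ x = (N : ZMod (2 * N)) := by
  have hpos : 0 < N := Nat.pos_of_ne_zero (NeZero.ne N)
  haveI : NeZero (2 * N) := ⟨by omega⟩
  have hv : x = ((x.val : ℕ) : ZMod (2 * N)) := (ZMod.natCast_zmod_val x).symm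
  have hlt : x.val < 2 * N := ZMod.val_lt x
  have h1 : ((x.val + x.val : ℕ) : ZMod (2 * N)) = 0 := by
    rw [Nat.cast_add, ← hv]
    exact h
  have h2 : 2 * N ∣ x.val + x.val := (ZMod.natCast_eq_zero_iff _ _).mp h1
  obtain ⟨c, hc⟩ := h2
  have hc2 : c = 0 ∨ c = 1 := by
    have : c < 2 := by
      by_contra h'
      push_neg at h'
      nlinarith
    omega
  rcases hc2 with rfl | rfl
  · left
    have : x.val = 0 := by omega
    rw [hv, this]
    simp
  · right
    have : x.val = N := by omega
    rw [hv, this]

theorem quat_centralizer_cyclic {N : ℕ} [NeZero N] (q : QuaternionGroup N)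
    (hq : q ∉ Subgroup.center (QuaternionGroup N)) :
    IsCyclic (Subgroup.centralizer ({q} : Set (QuaternionGroup N))) := by
  have hpos : 0 < N := Nat.pos_of_ne_zero (NeZero.ne N)
  haveI : NeZero (2 * N) := ⟨by omega⟩
  have key : ∃ g, Subgroup.centralizer ({q} : Set (QuaternionGroup N)) = Subgroup.zpowers g := by
    cases q with
    | a i =>
      have hi : i + i ≠ 0 := by
        intro h
        apply hq
        rw [Subgroup.mem_center_iff]
        intro y
        cases y with
        | a j => simp [add_comm]
        | xa j =>
          rw [xa_mul_a, a_mul_xa]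
          congr 1
          have : i = -i := eq_neg_of_add_eq_zero_left h
          rw [sub_eq_add_neg, ← this]
      refine ⟨a 1, le_antisymm ?_ ?_⟩
      · intro y hy
        have hy' : a i * y = y * a i := Subgroup.mem_centralizer_iff.mp hy _ rfl
        cases y with
        | a j =>
          refine ⟨(j.val : ℤ), ?_⟩
          show (a 1 : QuaternionGroup N) ^ (j.val : ℤ) = a j
          rw [zpow_natCast, a_one_pow, ZMod.natCast_zmod_val]
        | xa j =>
          exfalso
          rw [a_mul_xa, xa_mul_a] at hy'
          have h1 := xa.inj hy'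
          apply hi
          have h2 : j + -i = j + i := by rw [← sub_eq_add_neg]; exact h1
          have h3 : -i = i := add_left_cancel h2
          exact neg_eq_iff_add_eq_zero.mp h3
      · rw [Subgroup.zpowers_le, Subgroup.mem_centralizer_iff]
        intro h hh
        rw [Set.mem_singleton_iff.mp hh, a_mul_a, a_mul_a, add_comm]
    | xa i =>
      refine ⟨xa i, le_antisymm ?_ ?_⟩
      · intro y hy
        have hy' : xa i * y = y * xa i := Subgroup.mem_centralizer_iff.mp hy _ rfl
        have hsq : (xa i : QuaternionGroup N) ^ 2 = a (N : ZMod (2 * N)) := xa_sq i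
        cases y with
        | a j =>
          rw [xa_mul_a, a_mul_xa] at hy'
          have h1 := xa.inj hy'
          have h2 : j + j = 0 := by
            have h3 : i + j = i + -j := by rw [← sub_eq_add_neg]; exact h1
            have h4 : j = -j := add_left_cancel h3
            nth_rewrite 1 [h4]
            simp
          rcases eq_zero_or_of_add_self h2 with rfl | rfl
          · exact one_mem _
          · rw [← hsq]
            exact pow_mem (Subgroup.mem_zpowers _) 2
        | xa j =>
          rw [xa_mul_xa, xa_mul_xa] at hy'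
          have h1 := a.inj hy'
          have h2 : (j - i) + (j - i) = 0 := by
            have h3 : (N : ZMod (2 * N)) + j - i = N + i - j := h1
            linear_combination h3
          rcases eq_zero_or_of_add_self h2 with h3 | h3
          · have : j = i := sub_eq_zero.mp h3
            rw [this]
            exact Subgroup.mem_zpowers _
          · have h4 : j = i + (N : ZMod (2 * N)) := by rw [← h3]; ring
            have h5 : xa j = (xa i : QuaternionGroup N) ^ 3 := by
              rw [pow_succ, hsq, a_mul_xa, h4]
              congr 1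
              have h6 : (N : ZMod (2 * N)) + N = 0 := by
                have h7 : ((2 * N : ℕ) : ZMod (2 * N)) = 0 := ZMod.natCast_self _
                push_cast at h7
                linear_combination h7
              linear_combination h6
            rw [h5]
            exact pow_mem (Subgroup.mem_zpowers _) 3
      · rw [Subgroup.zpowers_le, Subgroup.mem_centralizer_iff]
        intro h hh
        rw [Set.mem_singleton_iff.mp hh]
  obtain ⟨g, hg⟩ := key
  rw [hg]
  infer_instance

/-- The direction from the structure. -/
theorem cyclic_of_structure {G : Type*} [Group G] {k m : ℕ} (hm : Odd m)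
    (e : G ≃* QuaternionGroup (2 ^ k) × Multiplicative (ZMod m)) (x : G) (hx : x ∉ Subgroup.center G) :
    IsCyclic (Subgroup.centralizer ({x} : Set G)) := by
  haveI : NeZero (2 ^ k) := ⟨by positivity⟩
  haveI : NeZero m := ⟨fun h => by simp [h] at hm⟩
  set q := (e x).1 with hq
  have hqc : q ∉ Subgroup.center (QuaternionGroup (2 ^ k)) := by
    intro h
    apply hx
    rw [Subgroup.mem_center_iff] at h ⊢
    intro y
    apply e.injective
    rw [map_mul, map_mul]
    refine Prod.ext ?_ (mul_comm _ _)
    exact h (e y).1
  haveI hZ := quat_centralizer_cyclic q hqc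
  let Z := Subgroup.centralizer ({q} : Set (QuaternionGroup (2 ^ k)))
  have hmem : ∀ y : Subgroup.centralizer ({x} : Set G), (e y).1 ∈ Z := by
    intro y
    rw [Subgroup.mem_centralizer_iff]
    intro h hh
    rw [Set.mem_singleton_iff.mp hh, hq, ← Prod.fst_mul, ← Prod.fst_mul, ← map_mul, ← map_mul]
    have := Subgroup.mem_centralizer_iff.mp y.2 x rfl
    rw [this]
  let f : Subgroup.centralizer ({x} : Set G) →* Z × Multiplicative (ZMod m) :=
    { toFun := fun y => (⟨(e y).1, hmem y⟩, (e y).2)
      map_one' := by
        apply Prod.ext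
        · apply Subtype.ext
          simp
        · simp
      map_mul' := fun a b => by
        apply Prod.ext
        · apply Subtype.ext
          simp
        · simp }
  have hf : Function.Injective f := by
    intro a b hab
    apply Subtype.ext
    apply e.injective
    apply Prod.ext
    · have h2 := congrArg Subtype.val (congrArg Prod.fst hab)
      exact h2
    · have h2 := congrArg Prod.snd hab
      exact h2
  have hcop : (Nat.card Z).Coprime (Nat.card (Multiplicative (ZMod m))) := by
    have h1 : Nat.card Z ∣ 2 ^ (k + 2) := by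
      have h2 := Subgroup.card_subgroup_dvd_card Z
      have h3 : Nat.card (QuaternionGroup (2 ^ k)) = 2 ^ (k + 2) := by
        rw [Nat.card_eq_fintype_card, QuaternionGroup.card]
        ring
      rwa [h3] at h2
    have h4 : Nat.card (Multiplicative (ZMod m)) = m :=
      (Nat.card_congr Multiplicative.toAdd).trans (Nat.card_zmod m)
    rw [h4]
    have h5 : Nat.Coprime (2 ^ (k + 2)) m := Nat.Coprime.pow_left _ (Nat.coprime_two_left.mpr hm)
    exact Nat.Coprime.coprime_dvd_left h1 h5
  haveI : IsCyclic (Z × Multiplicative (ZMod m)) := Group.isCyclic_prod_iff.mpr ⟨hZ, inferInstance, hcop⟩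
  exact isCyclic_of_injective f hf

/-- The direction to the structure. -/
theorem structure_of_cyclic {G : Type*} [Group G] [Finite G] (hG : Group.IsNilpotent G)
    (hna : ¬ IsMulCommutative G)
    (h : ∀ x : G, x ∉ Subgroup.center G → IsCyclic (Subgroup.centralizer ({x} : Set G))) :
    ∃ (k m : ℕ), 1 ≤ k ∧ Odd m ∧ Nonempty (G ≃* QuaternionGroup (2 ^ k) × Multiplicative (ZMod m)) := by
  classical
  obtain ⟨x0, hx0⟩ : ∃ x : G, x ∉ Subgroup.center G := by
    by_contra hcon
    push_neg at hcon
    apply hna
    exact IsMulCommutative.of_comm fun a b => (Subgroup.mem_center_iff.mp (hcon b) a)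
  have hab : ∀ E : Subgroup G, IsMulCommutative E → IsCyclic E := by
    intro E hE
    by_cases hc : ∃ y ∈ E, y ∉ Subgroup.center G
    · obtain ⟨y, hy, hyc⟩ := hc
      haveI := h y hyc
      have hle : E ≤ Subgroup.centralizer ({y} : Set G) := by
        intro w hw
        rw [Subgroup.mem_centralizer_iff]
        intro u hu
        rw [Set.mem_singleton_iff.mp hu]
        have := congrArg Subtype.val (hE.is_comm.comm (⟨y, hy⟩ : E) ⟨w, hw⟩)
        exact this
      exact isCyclic_of_injective (Subgroup.inclusion hle) (Subgroup.inclusion_injective hle)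
    · push_neg at hc
      haveI := h x0 hx0
      have hle : E ≤ Subgroup.centralizer ({x0} : Set G) := by
        intro w hw
        rw [Subgroup.mem_centralizer_iff]
        intro u hu
        rw [Set.mem_singleton_iff.mp hu]
        exact (Subgroup.mem_center_iff.mp (hc w hw) x0)
      exact isCyclic_of_injective (Subgroup.inclusion hle) (Subgroup.inclusion_injective hle)
  have hsyl : ∀ (p : ℕ) [Fact p.Prime] (P : Sylow p G),
      IsCyclic P ∨ (p = 2 ∧ ∃ n : ℕ, Nonempty (P ≃* QuaternionGroup (2 ^ n))) := by
    intro p _ P
    apply Cfsg.Agent.S0016.result p P.isPGroup'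
    apply Cfsg.Agent.Lib.Hall.unique_subgroup_of_abelian_cyclic P.isPGroup'
    intro E hE
    have hinj : Function.Injective (P : Subgroup G).subtype := (P : Subgroup G).subtype_injective
    have h1 := hab (E.map (P : Subgroup G).subtype) (Subgroup.map_isMulCommutative _ _)
    exact isCyclic_of_injective (E.equivMapOfInjective (P : Subgroup G).subtype hinj).toMonoidHom
      (E.equivMapOfInjective (P : Subgroup G).subtype hinj).injective
  rcases Cfsg.Agent.Lib.OddLocal.frob_form hsyl with hcyc | ⟨C, Q, hsup, hcomm, hCc, hodd, n, ⟨eQ⟩⟩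
  · exfalso
    apply hna
    exact IsMulCommutative.of_comm fun a b => (IsCyclic.commutative (α := G)).is_comm.comm a b
  have hfcomm : ∀ (a : Q) (b : C), Commute (Q.subtype a) (C.subtype b) := fun a b =>
    (hcomm b b.2 a a.2).symm
  let f : Q × C →* G := MonoidHom.noncommCoprod Q.subtype C.subtype hfcomm
  have hfa : ∀ (a : Q) (b : C), f (a, b) = (a : G) * b := fun _ _ => rfl
  haveI : NeZero (2 ^ n) := ⟨by positivity⟩
  have hQcard : Nat.card Q = 2 ^ (n + 2) := by
    rw [Nat.card_congr eQ.toEquiv, Nat.card_eq_fintype_card, QuaternionGroup.card]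
    ring
  have hinter : Q ⊓ C = ⊥ := by
    apply Subgroup.inf_eq_bot_of_coprime
    rw [hQcard]
    exact Nat.Coprime.pow_left _ (Nat.coprime_two_left.mpr hodd)
  have hfb : Function.Bijective f := by
    constructor
    · rw [injective_iff_map_eq_one]
      rintro ⟨a, b⟩ hab
      rw [hfa] at hab
      have h1 : (a : G) = (b : G)⁻¹ := eq_inv_of_mul_eq_one_left hab
      have h2 : (a : G) ∈ Q ⊓ C := Subgroup.mem_inf.mpr ⟨a.2, by rw [h1]; exact inv_mem b.2⟩
      rw [hinter, Subgroup.mem_bot] at h2
      have h3 : a = 1 := Subtype.ext h2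
      have h4 : (b : G) = 1 := by
        rw [h2, one_mul] at hab
        exact hab
      have h5 : b = 1 := Subtype.ext h4
      rw [h3, h5]
      rfl
    · intro x
      have hx : x ∈ C ⊔ Q := by rw [hsup]; trivial
      obtain ⟨c, hc, q, hq, rfl⟩ := Cfsg.Agent.Lib.Cl.exists_mul_of_mem_sup hcomm hx
      exact ⟨(⟨q, hq⟩, ⟨c, hc⟩), by
        rw [hfa]
        exact (hcomm c hc q hq).symm⟩
  let E : Q × C ≃* G := MulEquiv.ofBijective f hfb
  have hn : 1 ≤ n := by
    by_contra hn0
    have hn0' : n = 0 := by omega
    subst hn0'
    have h1 : IsCyclic (QuaternionGroup (2 ^ 0)) := by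
      simpa using QuaternionGroup.quaternionGroup_one_isCyclic
    haveI : IsCyclic Q := isCyclic_of_injective eQ.toMonoidHom eQ.injective
    apply hna
    refine IsMulCommutative.of_comm fun a b => ?_
    obtain ⟨a', rfl⟩ := E.surjective a
    obtain ⟨b', rfl⟩ := E.surjective b
    rw [← map_mul, ← map_mul]
    congr 1
    apply Prod.ext
    · exact (IsCyclic.commutative (α := Q)).is_comm.comm _ _
    · exact (IsCyclic.commutative (α := C)).is_comm.comm _ _
  refine ⟨n, Nat.card C, hn, hodd, ⟨?_⟩⟩
  exact E.symm.trans (eQ.prodCongr (zmodCyclicMulEquiv hCc).symm)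

end Cfsg.Agent.Lib.ClassSizes.QuatCentralizer
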