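import Mathlib
import Cfsg.Agent.Lib.ClassSizes.SecRank4

/-! `2`-groups of sectional rank at most four: the centralizer of the centre of a normal subgroup. -/

set_option autoImplicit false
set_option linter.style.haveILetI false

namespace Cfsg.Agent.Lib.ClassSizes.SecRank4

open Cfsg Cfsg.Agent.Lib.Core Cfsg.Agent.Lib.Techniques Subgroup
open scoped commutatorElement

universe u

variable {S : Type u} [Group S]

/-- Going up by index two. -/
theorem exists_over [Finite S] (h2 : IsPGroup 2 S) {H : Subgroup S} (hH : H ≠ ⊤) :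
    ∃ K : Subgroup S, H ≤ K ∧ H ≠ K ∧ H.relIndex K = 2 := by
  haveI : Fact (Nat.Prime 2) := ⟨Nat.prime_two⟩
  obtain ⟨n, hn⟩ := IsPGroup.iff_card.mp (h2.to_subgroup H)
  obtain ⟨m, hm⟩ := IsPGroup.iff_card.mp h2
  have hlt : Nat.card H < Nat.card S := by
    have h1 : Nat.card H ≤ Nat.card S := Nat.card_le_card_of_injective _ H.subtype_injective
    refine lt_of_le_of_ne h1 fun h3 => hH ?_
    exact eq_top_of_card_eq H h3
  have hnm : n < m := by
    rw [hn, hm] at hlt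
    exact (Nat.pow_lt_pow_iff_right (by norm_num)).mp hlt
  have hdvd : 2 ^ (n + 1) ∣ Nat.card S := by
    rw [hm]
    exact pow_dvd_pow 2 hnm
  obtain ⟨K, hK, hHK⟩ := Sylow.exists_subgroup_card_pow_succ hdvd hn
  refine ⟨K, hHK, ?_, ?_⟩
  · rintro rfl
    rw [hn] at hK
    have : 2 ^ n < 2 ^ (n + 1) := Nat.pow_lt_pow_right (by norm_num) (by omega)
    omega
  · have h1 := relIndex_mul_relIndex (⊥ : Subgroup S) H K bot_le hHK
    rw [relIndex_bot_left, relIndex_bot_left, hn, hK, pow_succ] at h1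
    have h3 : 0 < 2 ^ n := by positivity
    exact Nat.eq_of_mul_eq_mul_left h3 h1

/-- Normality of an index two subgroup in elementwise form. -/
theorem normalizer_of_relIndex_two {H K : Subgroup S} (hHK : H ≤ K) (h : H.relIndex K = 2) {x : S} (hx : x ∈ K) :
    x ∈ normalizer (H : Set S) := by
  haveI hn : (H.subgroupOf K).Normal := normal_of_index_eq_two h
  rw [mem_normalizer_iff]
  intro a
  constructor
  · intro ha
    have h1 : (⟨a, hHK ha⟩ : K) ∈ H.subgroupOf K := ha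
    exact hn.conj_mem _ h1 ⟨x, hx⟩
  · intro ha
    have hax : a ∈ K := by
      have e : a = x⁻¹ * (x * a * x⁻¹) * x := by group
      rw [e]
      exact K.mul_mem (K.mul_mem (K.inv_mem hx) (hHK ha)) hx
    have h1 : (⟨x * a * x⁻¹, hHK ha⟩ : K) ∈ H.subgroupOf K := ha
    have h3 := hn.conj_mem _ h1 ⟨x, hx⟩⁻¹
    have e : ((⟨x, hx⟩⁻¹ * ⟨x * a * x⁻¹, hHK ha⟩ * (⟨x, hx⟩⁻¹)⁻¹ : K) : S) = a := by
      simp [mul_assoc]
    have h4 : ((⟨x, hx⟩⁻¹ * ⟨x * a * x⁻¹, hHK ha⟩ * (⟨x, hx⟩⁻¹)⁻¹ : K) : S) ∈ H := h3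
    rwa [e] at h4

theorem inv_mul_mem_of_relIndex_two {H K : Subgroup S} (h : H.relIndex K = 2) {a b : S} (ha : a ∈ K) (hb : b ∈ K)
    (ha' : a ∉ H) (hb' : b ∉ H) : a⁻¹ * b ∈ H := by
  have h1 : (H.subgroupOf K).index = 2 := h
  have h3 := (mul_mem_iff_of_index_two h1 (a := (⟨a, ha⟩ : K)⁻¹) (b := ⟨b, hb⟩)).mpr
  have h4 : (⟨a, ha⟩ : K)⁻¹ ∉ H.subgroupOf K := by
    intro h5
    have := (H.subgroupOf K).inv_mem h5
    rw [inv_inv] at this
    exact ha' this
  have h5 : (⟨b, hb⟩ : K) ∉ H.subgroupOf K := hb'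
  exact h3 ⟨fun h6 => absurd h6 h4, fun h6 => absurd h6 h5⟩

/-- A non-abelian subgroup stays non-abelian when conjugated. -/
theorem conj_na {P : Subgroup S} (hna : ¬ IsMulCommutative P) (t : S) : ¬ IsMulCommutative (conjS t P) := by
  intro h
  apply hna
  refine IsMulCommutative.of_comm fun a b => Subtype.ext ?_
  have h1 := h.is_comm.comm ⟨t * a * t⁻¹, conj_mem_conjS a.2⟩ ⟨t * b * t⁻¹, conj_mem_conjS b.2⟩
  have h3 : t * a * t⁻¹ * (t * b * t⁻¹) = t * b * t⁻¹ * (t * a * t⁻¹) := congrArg Subtype.val h1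
  have e1 : t * a * t⁻¹ * (t * b * t⁻¹) = t * ((a : S) * b) * t⁻¹ := by group
  have e2 : t * b * t⁻¹ * (t * a * t⁻¹) = t * ((b : S) * a) * t⁻¹ := by group
  rw [e1, e2] at h3
  exact mul_left_cancel (mul_right_cancel h3)

theorem exists_ne_comm {P : Subgroup S} (hna : ¬ IsMulCommutative P) : ∃ a ∈ P, ∃ b ∈ P, a * b ≠ b * a := by
  by_contra h
  push Not at h
  exact hna (IsMulCommutative.of_comm fun a b => Subtype.ext (h a a.2 b b.2))

section Pair

variable {P S₀ : Subgroup S} {z : S}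

theorem le_of_hyp (hz : ZD P z) (hS₀ : ∀ s, s ∈ S₀ ↔ s * z = z * s) : P ≤ S₀ := fun a ha =>
  (hS₀ a).mpr (hz.comm ha).symm

theorem conj_le [Finite S] (hz : ZD P z) (hS₀ : ∀ s, s ∈ S₀ ↔ s * z = z * s) {t : S}
    (ht : t ∈ normalizer (S₀ : Set S)) : conjS t P ≤ S₀ := by
  have h1 : conjS t S₀ = S₀ := mem_normalizer_iff_conjS.mp ht
  rw [← h1]
  exact conjS_mono t (le_of_hyp hz hS₀)

theorem le_normalizer_conj [Finite S] (hPn : S₀ ≤ normalizer (P : Set S)) {t : S}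
    (ht : t ∈ normalizer (S₀ : Set S)) : S₀ ≤ normalizer (conjS t P : Set S) := by
  intro s hs
  rw [mem_normalizer_iff_conjS]
  have h1 : t⁻¹ * s * t ∈ S₀ := by
    have h3 := (mem_normalizer_iff.mp ((normalizer (S₀ : Set S)).inv_mem ht) s).mp hs
    simpa using h3
  have h3 : conjS (t⁻¹ * s * t) P = P := mem_normalizer_iff_conjS.mp (hPn h1)
  have e : s * t = t * (t⁻¹ * s * t) := by group
  rw [← conjS_mul, e, conjS_mul, h3]

/-- The configuration for two conjugates. -/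
theorem conj_pair [Finite S] (h2 : IsPGroup 2 S) (hr : SectionalPRankLE 2 4 S) (hz : ZD P z)
    (hPna : ¬ IsMulCommutative P) (hS₀ : ∀ s, s ∈ S₀ ↔ s * z = z * s) (hPn : S₀ ≤ normalizer (P : Set S))
    {t₁ t₂ : S} (h₁ : t₁ ∈ normalizer (S₀ : Set S)) (h₂ : t₂ ∈ normalizer (S₀ : Set S))
    (hne : t₁⁻¹ * t₂ ∉ S₀) :
    (∀ a ∈ conjS t₁ P, ∀ b ∈ conjS t₂ P, a * b = b * a) ∧ conjS t₁ P ⊓ conjS t₂ P = ⊥ ∧
      ∀ x ∈ S₀, (∀ a ∈ conjS t₁ P, x * a = a * x) → (∀ b ∈ conjS t₂ P, x * b = b * x) →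
        x ∈ conjS t₁ P ⊔ conjS t₂ P := by
  refine core h2 hr (conj_le hz hS₀ h₁) (conj_le hz hS₀ h₂) (le_normalizer_conj hPn h₁)
    (le_normalizer_conj hPn h₂) (hz.conj t₁) (hz.conj t₂) ?_ (conj_na hPna t₁) (conj_na hPna t₂)
  intro h
  apply hne
  rw [hS₀]
  have e : t₁⁻¹ * t₂ * z = t₁⁻¹ * (t₂ * z * t₂⁻¹) * t₂ := by group
  have e' : z * (t₁⁻¹ * t₂) = t₁⁻¹ * (t₁ * z * t₁⁻¹) * t₂ := by group
  rw [e, e', h]

end Pair

/-- An involution normalizing `P` whose centralizer has index at most two in `P`. -/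
theorem comm_of_index_two {P : Subgroup S} {z y : S} (hz : ZD P z) (hyn : ∀ a ∈ P, y * a * y⁻¹ ∈ P)
    (hy2 : y * y = 1)
    (hidx : ∀ a ∈ P, ∀ b ∈ P, a * y ≠ y * a → b * y ≠ y * b → (a⁻¹ * b) * y = y * (a⁻¹ * b)) :
    ∀ a ∈ P, ⁅y, a⁆ = 1 ∨ ⁅y, a⁆ = z := by
  intro a ha
  have hyi : y⁻¹ = y := inv_eq_of_mul_eq_one_left hy2
  have hyi2 : y⁻¹ * y⁻¹ = 1 := by rw [hyi, hy2]
  by_cases hac : a * y = y * a
  · exact Or.inl (commutatorElement_eq_one_iff_mul_comm.mpr hac.symm)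
  right
  have hMc : ∀ x, x * y = y * x → y * x * y⁻¹ = x := fun x h => by rw [← h, mul_inv_cancel_right]
  have hMc' : ∀ x, x * y = y * x → y⁻¹ * x * y = x := fun x h => by
    rw [mul_assoc, h]
    group
  have hair : a⁻¹ * y ≠ y * a⁻¹ := by
    intro h
    apply hac
    have h1 : a * (a⁻¹ * y) * a = a * (y * a⁻¹) * a := by rw [h]
    have e1 : a * (a⁻¹ * y) * a = y * a := by group
    have e2 : a * (y * a⁻¹) * a = a * y := by group
    rw [e1, e2] at h1
    exact h1.symm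
  have hαa : (y * a * y⁻¹) * y ≠ y * (y * a * y⁻¹) := by
    intro h
    apply hac
    have e1 : y * a * y⁻¹ * y = y * a := by group
    have e2 : y * (y * a * y⁻¹) = (y * y) * a * y⁻¹ := by group
    rw [e1, e2, hy2, one_mul, hyi] at h
    exact h.symm
  set v := a⁻¹ * (y * a * y⁻¹) with hv
  have hav : a * v = y * a * y⁻¹ := by rw [hv, mul_inv_cancel_left]
  have hvP : v ∈ P := P.mul_mem (P.inv_mem ha) (hyn a ha)
  have hvM : v * y = y * v := hidx a ha _ (hyn a ha) hac hαa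
  have hvm : ∀ m ∈ P, m * y = y * m → v * m = m * v := by
    intro m hm hmy
    have h1 : (m * a⁻¹) * y ≠ y * (m * a⁻¹) := by
      intro h
      apply hair
      have e1 : m * a⁻¹ * y = m * (a⁻¹ * y) := by group
      have e2 : y * (m * a⁻¹) = (y * m) * a⁻¹ := by group
      rw [e1, e2, ← hmy, mul_assoc] at h
      exact mul_left_cancel h
    have h3 := hidx a⁻¹ (P.inv_mem ha) (m * a⁻¹) (P.mul_mem hm (P.inv_mem ha)) hair h1
    rw [inv_inv] at h3
    have h4 := hMc _ h3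
    have h5 : (a * v) * m * (a * v)⁻¹ = a * (m * a⁻¹) := by
      rw [hav]
      have e : y * a * y⁻¹ * m * (y * a * y⁻¹)⁻¹ = y * a * (y⁻¹ * m * y) * a⁻¹ * y⁻¹ := by group
      rw [e, hMc' m hmy, ← h4]
      group
    have h6 : v * m * v⁻¹ = m := by
      have e : (a * v) * m * (a * v)⁻¹ = a * (v * m * v⁻¹) * a⁻¹ := by group
      rw [e] at h5
      have e2 : a * (m * a⁻¹) = a * m * a⁻¹ := by group
      rw [e2] at h5
      exact mul_left_cancel (mul_right_cancel h5)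
    rw [mul_inv_eq_iff_eq_mul] at h6
    exact h6
  have haa : (a * a) * y = y * (a * a) := by
    have h3 := hidx a⁻¹ (P.inv_mem ha) a ha hair hac
    rwa [inv_inv] at h3
  have hvav : v * a * v = a := by
    have h1 := hMc _ haa
    have h3 : (a * v) * (a * v) = a * a := by
      rw [hav]
      have e : y * a * y⁻¹ * (y * a * y⁻¹) = y * (a * a) * y⁻¹ := by group
      rw [e, h1]
    have e : (a * v) * (a * v) = a * (v * a * v) := by group
    rw [e] at h3
    exact mul_left_cancel h3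
  have hvv : v * v = 1 := by
    have h1 := hMc v hvM
    have h3 : y * v * y⁻¹ = (y * a * y⁻¹)⁻¹ * a := by
      have e : y * v * y⁻¹ = y * a⁻¹ * y * a * (y⁻¹ * y⁻¹) := by
        rw [hv]
        group
      rw [e, hyi2, mul_one]
      have e2 : (y * a * y⁻¹)⁻¹ * a = y * a⁻¹ * y⁻¹ * a := by group
      rw [e2, hyi]
    rw [← hav] at h3
    have h4 : v = v⁻¹ := by
      calc v = y * v * y⁻¹ := h1.symm
        _ = (a * v)⁻¹ * a := h3
        _ = v⁻¹ := by group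
    rw [mul_eq_one_iff_eq_inv]
    exact h4
  have hvi : v⁻¹ = v := inv_eq_of_mul_eq_one_left hvv
  have hva : v * a = a * v := by
    have h1 : v * a = a * v⁻¹ := by
      rw [eq_mul_inv_iff_mul_eq]
      exact hvav
    rw [h1, hvi]
  have hvc : ∀ b ∈ P, v * b = b * v := by
    intro b hb
    by_cases hbM : b * y = y * b
    · exact hvm b hb hbM
    · have h1 := hidx a ha b hb hac hbM
      have h3 := hvm _ (P.mul_mem (P.inv_mem ha) hb) h1
      have e : b = a * (a⁻¹ * b) := by group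
      calc v * b = v * (a * (a⁻¹ * b)) := by rw [← e]
        _ = (v * a) * (a⁻¹ * b) := by group
        _ = a * (v * (a⁻¹ * b)) := by rw [hva, mul_assoc]
        _ = a * ((a⁻¹ * b) * v) := by rw [h3]
        _ = b * v := by group
  have hvz : v = z := by
    rcases (hz.center v hvP).mp hvc with h1 | h1
    · exfalso
      apply hac
      rw [h1, mul_one] at hav
      exact eq_mul_inv_iff_mul_eq.mp hav
    · exact h1
  rw [← hvz, commutatorElement_def, ← hav, ← hva]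
  group

/-- Uniqueness of decompositions. -/
theorem unique_decomp {P Q : Subgroup S} (hinf : P ⊓ Q = ⊥) {a₁ a₂ b₁ b₂ : S} (ha₁ : a₁ ∈ P) (ha₂ : a₂ ∈ P)
    (hb₁ : b₁ ∈ Q) (hb₂ : b₂ ∈ Q) (h : a₁ * b₁ = a₂ * b₂) : a₁ = a₂ ∧ b₁ = b₂ := by
  have h1 : a₂⁻¹ * a₁ = b₂ * b₁⁻¹ := by
    rw [inv_mul_eq_iff_eq_mul, ← mul_assoc, ← h]
    group
  have h3 : a₂⁻¹ * a₁ ∈ P ⊓ Q := mem_inf.mpr ⟨P.mul_mem (P.inv_mem ha₂) ha₁, by
    rw [h1]
    exact Q.mul_mem hb₂ (Q.inv_mem hb₁)⟩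
  rw [hinf, mem_bot] at h3
  have h4 : a₁ = a₂ := by
    rw [inv_mul_eq_one] at h3
    exact h3.symm
  exact ⟨h4, by rw [h4] at h; exact mul_left_cancel h⟩

section Step

variable {P S₀ S₁ : Subgroup S} {z t u : S}

/-- A third conjugate under the normalizer of `S₀` is impossible. -/
theorem step_a [Finite S] (h2 : IsPGroup 2 S) (hr : SectionalPRankLE 2 4 S) (hz : ZD P z)
    (hPna : ¬ IsMulCommutative P) (hS₀ : ∀ s, s ∈ S₀ ↔ s * z = z * s) (hPn : S₀ ≤ normalizer (P : Set S))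
    (ht : t ∈ normalizer (S₀ : Set S)) (hu : u ∈ normalizer (S₀ : Set S)) (ht0 : t ∉ S₀) (hu0 : u ∉ S₀)
    (htu : t⁻¹ * u ∉ S₀) : False := by
  have p1 := conj_pair h2 hr hz hPna hS₀ hPn (one_mem _) ht (by simpa using ht0)
  have p2 := conj_pair h2 hr hz hPna hS₀ hPn (one_mem _) hu (by simpa using hu0)
  have p3 := conj_pair h2 hr hz hPna hS₀ hPn ht hu htu
  rw [conjS_one] at p1 p2
  apply conj_na hPna u
  refine IsMulCommutative.of_comm fun r₁ r₂ => Subtype.ext ?_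
  have hmem : ((r₂ : conjS u P) : S) ∈ P ⊔ conjS t P := by
    refine p1.2.2 _ (conj_le hz hS₀ hu r₂.2) (fun a ha => ?_) (fun b hb => ?_)
    · exact (p2.1 a ha _ r₂.2).symm
    · exact (p3.1 b hb _ r₂.2).symm
  have hle : P ⊔ conjS t P ≤ centralizer {((r₁ : conjS u P) : S)} := by
    refine sup_le (fun a ha => ?_) (fun b hb => ?_)
    · rw [mem_centralizer_singleton_iff]
      exact p2.1 a ha _ r₁.2
    · rw [mem_centralizer_singleton_iff]
      exact p3.1 b hb _ r₁.2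
  have h1 := hle hmem
  rw [mem_centralizer_singleton_iff] at h1
  exact h1.symm

theorem comm_conj_iff (a u z : S) : (u⁻¹ * a * u) * z = z * (u⁻¹ * a * u) ↔
    a * (u * z * u⁻¹) = (u * z * u⁻¹) * a := by
  constructor
  · intro h
    have e1 : a * (u * z * u⁻¹) = u * ((u⁻¹ * a * u) * z) * u⁻¹ := by group
    have e2 : (u * z * u⁻¹) * a = u * (z * (u⁻¹ * a * u)) * u⁻¹ := by group
    rw [e1, e2, h]
  · intro h
    have e1 : (u⁻¹ * a * u) * z = u⁻¹ * (a * (u * z * u⁻¹)) * u := by group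
    have e2 : z * (u⁻¹ * a * u) = u⁻¹ * ((u * z * u⁻¹) * a) * u := by group
    rw [e1, e2, h]

/-- Nothing lies above an index two overgroup of `S₀`. -/
theorem no_second_step [Finite S] (h2 : IsPGroup 2 S) (hr : SectionalPRankLE 2 4 S) (hz : ZD P z)
    (hPna : ¬ IsMulCommutative P) (hS₀ : ∀ s, s ∈ S₀ ↔ s * z = z * s) (hPn : S₀ ≤ normalizer (P : Set S))
    (h01 : S₀ ≤ S₁) (hidx : S₀.relIndex S₁ = 2) (ht : t ∈ S₁) (ht0 : t ∉ S₀)
    (hu : u ∈ normalizer (S₁ : Set S)) (hu1 : u ∉ S₁) : False := by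
  have hN : ∀ x ∈ S₁, x ∈ normalizer (S₀ : Set S) := fun x hx => normalizer_of_relIndex_two h01 hidx hx
  have hu0 : u ∉ S₀ := fun h => hu1 (h01 h)
  have htu : t⁻¹ * u ∉ S₀ := fun h => hu1 (by
    have e : u = t * (t⁻¹ * u) := by group
    rw [e]
    exact S₁.mul_mem ht (h01 h))
  by_cases hun : u ∈ normalizer (S₀ : Set S)
  · exact step_a h2 hr hz hPna hS₀ hPn (hN t ht) hun ht0 hu0 htu
  have hPS₀ : P ≤ S₀ := le_of_hyp hz hS₀
  have hzS₀ : z ∈ S₀ := hPS₀ hz.mem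
  have hz'z : ZD (conjS u P) (u * z * u⁻¹) := hz.conj u
  have hS₁u : conjS u S₁ = S₁ := mem_normalizer_iff_conjS.mp hu
  have hz'S₁ : u * z * u⁻¹ ∈ S₁ := by
    rw [← hS₁u]
    exact conj_mem_conjS (h01 hzS₀)
  have hz'2 := hz'z.sq
  generalize hz' : u * z * u⁻¹ = z' at hz'z hz'S₁ hz'2
  have hconjS₁ : ∀ a ∈ S₁, u⁻¹ * a * u ∈ S₁ := by
    intro a ha
    rw [← hS₁u] at ha
    exact mem_conjS.mp ha
  have hcc : ∀ a, (u⁻¹ * a * u) * z = z * (u⁻¹ * a * u) ↔ a * z' = z' * a := by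
    intro a
    rw [comm_conj_iff, hz']
  have hidx' : ∀ a ∈ S₁, ∀ b ∈ S₁, a * z' ≠ z' * a → b * z' ≠ z' * b →
      (a⁻¹ * b) * z' = z' * (a⁻¹ * b) := by
    intro a ha b hb ha' hb'
    have ha0 : u⁻¹ * a * u ∉ S₀ := fun h => ha' ((hcc a).mp ((hS₀ _).mp h))
    have hb0 : u⁻¹ * b * u ∉ S₀ := fun h => hb' ((hcc b).mp ((hS₀ _).mp h))
    have h1 := inv_mul_mem_of_relIndex_two hidx (hconjS₁ a ha) (hconjS₁ b hb) ha0 hb0
    have e : (u⁻¹ * a * u)⁻¹ * (u⁻¹ * b * u) = u⁻¹ * (a⁻¹ * b) * u := by group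
    rw [e, hS₀] at h1
    exact (hcc _).mp h1
  by_cases hb1 : z' ∈ S₀
  swap
  · -- `z'` itself moves `P`
    have hp := conj_pair h2 hr hz hPna hS₀ hPn (one_mem _) (hN z' hz'S₁) (by simpa using hb1)
    rw [conjS_one] at hp
    have hone : ∀ p ∈ P, p * z' = z' * p → p = 1 := by
      intro p hp' hc
      have h1 : p ∈ P ⊓ conjS z' P := by
        refine mem_inf.mpr ⟨hp', ?_⟩
        have e : p = z' * p * z'⁻¹ := by rw [← hc, mul_inv_cancel_right]
        rw [e]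
        exact conj_mem_conjS hp'
      rw [hp.2.1, mem_bot] at h1
      exact h1
    obtain ⟨a, ha, b, hb, hab⟩ := exists_ne_comm hPna
    have ha1 : a * z' ≠ z' * a := by
      intro h
      rw [hone a ha h] at hab
      simp at hab
    have hb1' : b * z' ≠ z' * b := by
      intro h
      rw [hone b hb h] at hab
      simp at hab
    have h1 := hidx' a (h01 (hPS₀ ha)) b (h01 (hPS₀ hb)) ha1 hb1'
    have h3 := hone _ (P.mul_mem (P.inv_mem ha) hb) h1
    rw [inv_mul_eq_one] at h3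
    rw [h3] at hab
    exact hab rfl
  -- main case
  have hNt := hN t ht
  have hp := conj_pair h2 hr hz hPna hS₀ hPn (one_mem _) hNt (by simpa using ht0)
  rw [conjS_one] at hp
  obtain ⟨hcomm, hinf, hcen⟩ := hp
  have hzw := hz.conj t
  have hQS₀ : conjS t P ≤ S₀ := conj_le hz hS₀ hNt
  have hQn : S₀ ≤ normalizer (conjS t P : Set S) := le_normalizer_conj hPn hNt
  have hQna := conj_na hPna t
  generalize hw : t * z * t⁻¹ = w at hzw
  generalize hQ : conjS t P = Q at hcomm hinf hcen hzw hQS₀ hQn hQna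
  -- commutators with `z'`
  have hxP : ∀ a ∈ P, ⁅z', a⁆ ∈ Phi P := by
    intro a ha
    have hnn : z' ∈ normalizer (P : Set S) := hPn hb1
    rcases comm_of_index_two hz (fun c hc => (mem_normalizer_iff.mp hnn c).mp hc) hz'2
      (fun c hc d hd h1 h3 => hidx' c (h01 (hPS₀ hc)) d (h01 (hPS₀ hd)) h1 h3) a ha with h1 | h1
    · rw [h1]
      exact one_mem _
    · rw [h1]
      exact hz.mem_Phi h2 hPna
  have hxQ : ∀ a ∈ Q, ⁅z', a⁆ ∈ Phi Q := by
    intro a ha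
    have hnn : z' ∈ normalizer (Q : Set S) := hQn hb1
    rcases comm_of_index_two hzw (fun c hc => (mem_normalizer_iff.mp hnn c).mp hc) hz'2
      (fun c hc d hd h1 h3 => hidx' c (h01 (hQS₀ hc)) d (h01 (hQS₀ hd)) h1 h3) a ha with h1 | h1
    · rw [h1]
      exact one_mem _
    · rw [h1]
      exact hzw.mem_Phi h2 hQna
  have hz'R : z' ∈ P ⊔ Q := by
    by_contra hcon
    refine rank_five h2 hr hcomm hinf hPna hQna hxP hxQ ?_ hcon
    rw [pow_two, hz'2]
    exact one_mem _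
  obtain ⟨p₁, hp₁, q₁, hq₁, e₁⟩ := Cfsg.Agent.Lib.Cl.exists_mul_of_mem_sup hcomm hz'R
  -- an element of `S₀` moving `z'`
  have hs : ∃ s ∈ S₀, s * z' ≠ z' * s := by
    by_contra hcon
    push Not at hcon
    apply hun
    rw [mem_normalizer_iff_conjS]
    symm
    apply eq_of_le_of_card_ge
    · intro s hs
      rw [mem_conjS, hS₀]
      exact (hcc s).mpr (hcon s hs)
    · rw [card_conjS]
  obtain ⟨s, hsS₀, hsz'⟩ := hs
  have hg : ∃ g ∈ S₀, t * z' * t⁻¹ = g * z' * g⁻¹ := by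
    by_cases htc : t * z' = z' * t
    · refine ⟨1, one_mem _, ?_⟩
      rw [htc]
      group
    · have h1 := hidx' s (h01 hsS₀) t ht hsz' htc
      refine ⟨s, hsS₀, ?_⟩
      have e1 : t * z' * t⁻¹ = s * ((s⁻¹ * t) * z') * t⁻¹ := by group
      rw [e1, h1]
      group
  obtain ⟨g, hgS₀, hgz⟩ := hg
  -- conjugation by `t` interchanges the factors
  have htt : t * t ∈ S₀ := by
    have h1 := inv_mul_mem_of_relIndex_two hidx (S₁.inv_mem ht) ht (fun h => ht0 (by simpa using S₀.inv_mem h)) ht0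
    rwa [inv_inv] at h1
  have htQP : ∀ b ∈ Q, t * b * t⁻¹ ∈ P := by
    intro b hb
    rw [← hQ] at hb
    have h1 := mem_conjS.mp hb
    have h3 := (mem_normalizer_iff.mp (hPn htt) _).mp h1
    have e : t * t * (t⁻¹ * b * t) * (t * t)⁻¹ = t * b * t⁻¹ := by group
    rwa [e] at h3
  have htPQ : ∀ a ∈ P, t * a * t⁻¹ ∈ Q := by
    intro a ha
    rw [← hQ]
    exact conj_mem_conjS ha
  have hgP : ∀ a ∈ P, g * a * g⁻¹ ∈ P := fun a ha => (mem_normalizer_iff.mp (hPn hgS₀) a).mp ha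
  have hgQ : ∀ a ∈ Q, g * a * g⁻¹ ∈ Q := fun a ha => (mem_normalizer_iff.mp (hQn hgS₀) a).mp ha
  have hswap : t * q₁ * t⁻¹ = g * p₁ * g⁻¹ ∧ t * p₁ * t⁻¹ = g * q₁ * g⁻¹ := by
    refine unique_decomp hinf (htQP q₁ hq₁) (hgP p₁ hp₁) (htPQ p₁ hp₁) (hgQ q₁ hq₁) ?_
    have e1 : t * q₁ * t⁻¹ * (t * p₁ * t⁻¹) = t * (q₁ * p₁) * t⁻¹ := by group
    have e2 : g * p₁ * g⁻¹ * (g * q₁ * g⁻¹) = g * (p₁ * q₁) * g⁻¹ := by group
    rw [e1, e2, ← e₁, ← hcomm p₁ hp₁ q₁ hq₁, ← e₁]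
    exact hgz
  -- fixed points of `S₀`
  have hfixz : ∀ s ∈ S₀, s * z * s⁻¹ = z := fun s hs => hz.conj_eq (hPn hs)
  have hfixw : ∀ s ∈ S₀, s * w * s⁻¹ = w := fun s hs => hzw.conj_eq (hQn hs)
  have hC1 : p₁ = 1 ∨ p₁ = z → q₁ = 1 ∨ q₁ = w := by
    intro h
    have h1 := hswap.2
    rcases h with rfl | rfl
    · left
      rw [mul_one, mul_inv_cancel] at h1
      have h3 : q₁ = g⁻¹ * (g * q₁ * g⁻¹) * g := by group
      rw [h3, ← h1]
      group
    · right
      rw [hw] at h1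
      have h3 : q₁ = g⁻¹ * (g * q₁ * g⁻¹) * g⁻¹⁻¹ := by group
      rw [h3, ← h1]
      exact hfixw _ (S₀.inv_mem hgS₀)
  have hC2 : q₁ = 1 ∨ q₁ = w → p₁ = 1 ∨ p₁ = z := by
    intro h
    have h1 := hswap.2
    rcases h with rfl | rfl
    · left
      rw [mul_one, mul_inv_cancel] at h1
      have h3 : p₁ = t⁻¹ * (t * p₁ * t⁻¹) * t := by group
      rw [h3, h1]
      group
    · right
      rw [hfixw g hgS₀, ← hw] at h1
      have h3 : p₁ = t⁻¹ * (t * p₁ * t⁻¹) * t := by group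
      rw [h3, h1]
      group
  have hboth : ¬ ((p₁ = 1 ∨ p₁ = z) ∧ (q₁ = 1 ∨ q₁ = w)) := by
    rintro ⟨h1, h3⟩
    apply hsz'
    have h4 : s * p₁ * s⁻¹ = p₁ := by
      rcases h1 with rfl | rfl
      · group
      · exact hfixz s hsS₀
    have h5 : s * q₁ * s⁻¹ = q₁ := by
      rcases h3 with rfl | rfl
      · group
      · exact hfixw s hsS₀
    have h6 : s * z' * s⁻¹ = z' := by
      have e : s * z' * s⁻¹ = (s * p₁ * s⁻¹) * (s * q₁ * s⁻¹) := by
        rw [e₁]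
        group
      rw [e, h4, h5, e₁]
    rw [mul_inv_eq_iff_eq_mul] at h6
    exact h6
  -- neither factor is central
  have hp₁nc : ¬ (p₁ = 1 ∨ p₁ = z) := fun h => hboth ⟨h, hC1 h⟩
  have hq₁nc : ¬ (q₁ = 1 ∨ q₁ = w) := fun h => hboth ⟨hC2 h, h⟩
  have hanc : ∃ a ∈ P, p₁ * a ≠ a * p₁ := by
    by_contra hcon
    push Not at hcon
    exact hp₁nc ((hz.center p₁ hp₁).mp hcon)
  have hbnc : ∃ b ∈ Q, q₁ * b ≠ b * q₁ := by
    by_contra hcon
    push Not at hcon
    exact hq₁nc ((hzw.center q₁ hq₁).mp hcon)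
  obtain ⟨a, ha, ha1⟩ := hanc
  obtain ⟨b, hb, hb1'⟩ := hbnc
  have ha' : a⁻¹ * z' ≠ z' * a⁻¹ := by
    intro h
    apply ha1
    have h1 : a * (a⁻¹ * z') * a = a * (z' * a⁻¹) * a := by rw [h]
    have e1 : a * (a⁻¹ * z') * a = z' * a := by group
    have e2 : a * (z' * a⁻¹) * a = a * z' := by group
    rw [e1, e2, e₁, mul_assoc, ← hcomm a ha q₁ hq₁, ← mul_assoc, ← mul_assoc] at h1
    exact mul_right_cancel h1
  have hb' : b * z' ≠ z' * b := by
    intro h
    apply hb1'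
    rw [e₁, ← mul_assoc, ← hcomm p₁ hp₁ b hb, mul_assoc, mul_assoc] at h
    exact (mul_left_cancel h).symm
  have h1 := hidx' a⁻¹ (S₁.inv_mem (h01 (hPS₀ ha))) b (h01 (hQS₀ hb)) ha' hb'
  rw [inv_inv, e₁] at h1
  have h3 : (a * p₁) * (b * q₁) = (p₁ * a) * (q₁ * b) := by
    calc (a * p₁) * (b * q₁) = a * (p₁ * b) * q₁ := by group
      _ = a * (b * p₁) * q₁ := by rw [hcomm p₁ hp₁ b hb]
      _ = a * b * (p₁ * q₁) := by group
      _ = p₁ * q₁ * (a * b) := h1
      _ = p₁ * (q₁ * a) * b := by group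
      _ = p₁ * (a * q₁) * b := by rw [hcomm a ha q₁ hq₁]
      _ = (p₁ * a) * (q₁ * b) := by group
  have h4 := unique_decomp hinf (P.mul_mem ha hp₁) (P.mul_mem hp₁ ha) (Q.mul_mem hb hq₁) (Q.mul_mem hq₁ hb) h3
  exact ha1 h4.1.symm

end Step


/-- A bound from commuting generators. -/
theorem relIndex_le_of_gens (hr : SectionalPRankLE 2 4 S) {U : Set S} {N₀ : Subgroup S}
    (hHN : closure U ≤ normalizer (N₀ : Set S)) (hcg : ∀ u ∈ U, ∀ v ∈ U, ⁅u, v⁆ ∈ N₀)
    (hsg : ∀ u ∈ U, u ^ 2 ∈ N₀) : N₀.relIndex (closure U) ≤ 16 := by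
  haveI hNn : (N₀.subgroupOf (closure U)).Normal := normal_subgroupOf_of_le_normalizer hHN
  let φ := QuotientGroup.mk' (N₀.subgroupOf (closure U))
  have hφ : ∀ y : closure U, φ y = 1 ↔ (y : S) ∈ N₀ := by
    intro y
    exact QuotientGroup.eq_one_iff y
  have hT : closure (φ '' (((↑) : closure U → S) ⁻¹' U)) = ⊤ := by
    rw [← MonoidHom.map_closure, closure_closure_coe_preimage, ← MonoidHom.range_eq_map,
      MonoidHom.range_eq_top]
    exact QuotientGroup.mk'_surjective _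
  obtain ⟨hcY, hsY⟩ := elem_of_gens (T := φ '' (((↑) : closure U → S) ⁻¹' U))
    (by
      rintro _ ⟨u, hu, rfl⟩ _ ⟨v, hv, rfl⟩
      rw [← commutatorElement_eq_one_iff_mul_comm, ← map_commutatorElement, hφ]
      exact hcg u hu v hv)
    (by
      rintro _ ⟨u, hu, rfl⟩
      rw [← map_pow, hφ]
      exact hsg u hu)
    hT
  have hcard := hr (closure U) (N₀.subgroupOf (closure U)) ⊤
    (IsMulCommutative.of_comm fun a b => Subtype.ext (hcY a.1 b.1)) (fun a _ => hsY a)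
  rw [card_top] at hcard
  have e : N₀.relIndex (closure U) = Nat.card (closure U ⧸ N₀.subgroupOf (closure U)) := rfl
  rw [e]
  simpa using hcard

theorem rank_two_aux [Finite S] (hr : SectionalPRankLE 2 4 S) {X₁ N₁ : Subgroup S} {t : S}
    (hN₁ : N₁ ≤ X₁) (hn : X₁ ≤ normalizer (N₁ : Set S)) (hc : ∀ a ∈ X₁, ∀ b ∈ X₁, ⁅a, b⁆ ∈ N₁)
    (hs : ∀ a ∈ X₁, a ^ 2 ∈ N₁) (hcomm : ∀ a ∈ X₁, ∀ b ∈ conjS t X₁, a * b = b * a)
    (hinf : X₁ ⊓ conjS t X₁ = ⊥) : N₁.relIndex X₁ ≤ 4 := by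
  have hN₂ : conjS t N₁ ≤ conjS t X₁ := conjS_mono t hN₁
  have hn₂ : conjS t X₁ ≤ normalizer (conjS t N₁ : Set S) := by
    intro a ha
    rw [mem_normalizer_iff_conjS]
    have h1 := mem_conjS.mp ha
    have h3 : conjS (t⁻¹ * a * t) N₁ = N₁ := mem_normalizer_iff_conjS.mp (hn h1)
    have e : a * t = t * (t⁻¹ * a * t) := by group
    rw [← conjS_mul, e, conjS_mul, h3]
  have hc₂ : ∀ a ∈ conjS t X₁, ∀ b ∈ conjS t X₁, ⁅a, b⁆ ∈ conjS t N₁ := by
    intro a ha b hb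
    rw [mem_conjS]
    have h1 := hc _ (mem_conjS.mp ha) _ (mem_conjS.mp hb)
    have e : t⁻¹ * ⁅a, b⁆ * t = ⁅t⁻¹ * a * t, t⁻¹ * b * t⁆ := by
      simp only [commutatorElement_def]
      group
    rwa [e]
  have hs₂ : ∀ a ∈ conjS t X₁, a ^ 2 ∈ conjS t N₁ := by
    intro a ha
    rw [mem_conjS]
    have h1 := hs _ (mem_conjS.mp ha)
    have e : t⁻¹ * a ^ 2 * t = (t⁻¹ * a * t) ^ 2 := by
      simp only [pow_two]
      group
    rwa [e]
  have hcl : closure ((X₁ : Set S) ∪ (conjS t X₁ : Set S)) = X₁ ⊔ conjS t X₁ := by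
    rw [Subgroup.closure_union, closure_eq, closure_eq]
  have hqn : ∀ a ∈ X₁, a ∈ normalizer (conjS t N₁ : Set S) := by
    intro a ha
    apply mem_normalizer_of_conj_mem
    intro b hb
    rw [hcomm a ha b (hN₂ hb), mul_inv_cancel_right]
    exact hb
  have hqn' : ∀ a ∈ conjS t X₁, a ∈ normalizer (N₁ : Set S) := by
    intro a ha
    apply mem_normalizer_of_conj_mem
    intro b hb
    rw [← hcomm b (hN₁ hb) a ha, mul_inv_cancel_right]
    exact hb
  have key := relIndex_le_of_gens hr (U := (X₁ : Set S) ∪ (conjS t X₁ : Set S))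
    (N₀ := N₁ ⊔ conjS t N₁)
    (by
      rw [closure_le]
      rintro a (ha | ha)
      · exact normalizer_sup (hn ha) (hqn a ha)
      · exact normalizer_sup (hqn' a ha) (hn₂ ha))
    (by
      rintro a (ha | ha) b (hb | hb)
      · exact mem_sup_left (hc a ha b hb)
      · rw [commutatorElement_eq_one_iff_mul_comm.mpr (hcomm a ha b hb)]
        exact one_mem _
      · rw [commutatorElement_eq_one_iff_mul_comm.mpr (hcomm b hb a ha).symm]
        exact one_mem _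
      · exact mem_sup_right (hc₂ a ha b hb))
    (by
      rintro a (ha | ha)
      · exact mem_sup_left (hs a ha)
      · exact mem_sup_right (hs₂ a ha))
  rw [hcl] at key
  have hX : Nat.card (X₁ ⊔ conjS t X₁ : Subgroup S) = Nat.card X₁ * Nat.card X₁ := by
    rw [card_sup_eq hcomm hinf, card_conjS]
  have hNN : Nat.card (N₁ ⊔ conjS t N₁ : Subgroup S) = Nat.card N₁ * Nat.card N₁ := by
    rw [card_sup_eq (fun a ha b hb => hcomm a (hN₁ ha) b (hN₂ hb)) ?_, card_conjS]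
    rw [eq_bot_iff, ← hinf]
    exact inf_le_inf hN₁ hN₂
  have h1 := relIndex_mul_relIndex (⊥ : Subgroup S) (N₁ ⊔ conjS t N₁) (X₁ ⊔ conjS t X₁) bot_le
    (sup_le_sup hN₁ hN₂)
  rw [relIndex_bot_left, relIndex_bot_left, hX, hNN] at h1
  have h3 := relIndex_mul_relIndex (⊥ : Subgroup S) N₁ X₁ bot_le hN₁
  rw [relIndex_bot_left, relIndex_bot_left] at h3
  have hpos : 0 < Nat.card N₁ * Nat.card N₁ := Nat.mul_pos Nat.card_pos Nat.card_pos
  have h4 : N₁.relIndex X₁ * N₁.relIndex X₁ = (N₁ ⊔ conjS t N₁).relIndex (X₁ ⊔ conjS t X₁) := by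
    refine Nat.eq_of_mul_eq_mul_left hpos ?_
    rw [h1, ← h3]
    ring
  rw [← h4] at key
  by_contra hcon
  have h5 : 5 ≤ N₁.relIndex X₁ := by omega
  have h6 : 5 * 5 ≤ N₁.relIndex X₁ * N₁.relIndex X₁ := Nat.mul_le_mul h5 h5
  omega

/-- The sectional rank bound. -/
theorem rank_two_of_conj [Finite S] (hr : SectionalPRankLE 2 4 S) {P : Subgroup S} {t : S}
    (hcomm : ∀ a ∈ P, ∀ b ∈ conjS t P, a * b = b * a) (hinf : P ⊓ conjS t P = ⊥) :
    SectionalPRankLE 2 2 P := by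
  intro H N hNn E hEc hEs
  let π := QuotientGroup.mk' N
  let X : Subgroup H := E.comap π
  let ι : H →* S := P.subtype.comp H.subtype
  have hι : Function.Injective ι := P.subtype_injective.comp H.subtype_injective
  have hNX : N ≤ X := by
    intro n hn
    have h1 : π n = 1 := (QuotientGroup.eq_one_iff n).mpr hn
    change π n ∈ E
    rw [h1]
    exact one_mem _
  have hιP : ∀ x : H, ι x ∈ P := fun x => (x : P).2
  have hXP : X.map ι ≤ P := by
    rintro _ ⟨x, -, rfl⟩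
    exact hιP x
  have hmemN : ∀ x : H, π x = 1 → x ∈ N := fun x h => (QuotientGroup.eq_one_iff x).mp h
  have key := rank_two_aux (t := t) hr (X₁ := X.map ι) (N₁ := N.map ι) (map_mono hNX)
    (by
      rintro _ ⟨x, -, rfl⟩
      apply mem_normalizer_of_conj_mem
      rintro _ ⟨n, hn, rfl⟩
      refine ⟨x * n * x⁻¹, hNn.conj_mem n hn x, ?_⟩
      simp only [map_mul, map_inv])
    (by
      rintro _ ⟨a, ha, rfl⟩ _ ⟨b, hb, rfl⟩
      refine ⟨⁅a, b⁆, hmemN _ ?_, map_commutatorElement ι a b⟩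
      rw [map_commutatorElement, commutatorElement_eq_one_iff_mul_comm]
      exact congrArg Subtype.val (hEc.is_comm.comm ⟨π a, ha⟩ ⟨π b, hb⟩))
    (by
      rintro _ ⟨a, ha, rfl⟩
      refine ⟨a ^ 2, hmemN _ ?_, map_pow ι a 2⟩
      rw [map_pow]
      exact hEs _ ha)
    (fun a ha b hb => hcomm a (hXP ha) b (conjS_mono t hXP hb))
    (by
      rw [eq_bot_iff, ← hinf]
      exact inf_le_inf hXP (conjS_mono t hXP))
  -- the cardinalities
  have hcX : Nat.card (X.map ι) = Nat.card X := card_map_of_injective hι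
  have hcN : Nat.card (N.map ι) = Nat.card N := card_map_of_injective hι
  have h1 := relIndex_mul_relIndex (⊥ : Subgroup S) (N.map ι) (X.map ι) bot_le (map_mono hNX)
  rw [relIndex_bot_left, relIndex_bot_left, hcX, hcN] at h1
  have h3 : X.index = E.index := index_comap_of_surjective E (QuotientGroup.mk'_surjective N)
  have h4 : Nat.card X * X.index = Nat.card H := card_mul_index X
  have h5 : Nat.card E * E.index = Nat.card (H ⧸ N) := card_mul_index E
  have h6 : Nat.card N * N.index = Nat.card H := card_mul_index N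
  have h7 : N.index = Nat.card (H ⧸ N) := rfl
  have h8 : Nat.card X = Nat.card N * Nat.card E := by
    have hE : 0 < E.index := Nat.pos_of_ne_zero (index_ne_zero_of_finite)
    refine Nat.eq_of_mul_eq_mul_right hE ?_
    rw [← h3, h4, h3, mul_assoc, h5, ← h7, h6]
  have h9 : (N.map ι).relIndex (X.map ι) = Nat.card E := by
    have hpos : 0 < Nat.card N := Nat.card_pos
    refine Nat.eq_of_mul_eq_mul_left hpos ?_
    rw [h1, h8]
  rw [h9] at key
  simpa using key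

/-- The main theorem on `C_S(Z(P))`. -/
theorem centralizer_center_main [Finite S] (h2 : IsPGroup 2 S) (hr : SectionalPRankLE 2 4 S)
    (P : Subgroup S) (hP : ¬ IsMulCommutative ↥P) (hZP : Nat.card ↥(Subgroup.center ↥P) = 2)
    (S₀ : Subgroup S) (hS₀ : S₀ = Subgroup.centralizer (((Subgroup.center ↥P).map P.subtype : Subgroup S) : Set S))
    (hPn : ∀ s ∈ S₀, ∀ x ∈ P, s * x * s⁻¹ ∈ P) :
    S₀ = ⊤ ∨ (Cfsg.SectionalPRankLE 2 2 ↥P ∧ S₀.index = 2) := by
  obtain ⟨z, hz, hzc⟩ := ZD.of_card_eq_two hZP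
  have hS₀' : ∀ s, s ∈ S₀ ↔ s * z = z * s := by
    intro s
    rw [hS₀, mem_centralizer_iff]
    constructor
    · intro h
      exact (h z ((hzc z).mpr (Or.inr rfl))).symm
    · intro h x hx
      rcases (hzc x).mp hx with rfl | rfl
      · simp
      · exact h.symm
  have hPn' : S₀ ≤ normalizer (P : Set S) := fun s hs => mem_normalizer_of_conj_mem (hPn s hs)
  by_cases htop : S₀ = ⊤
  · exact Or.inl htop
  right
  obtain ⟨S₁, h01, hne, hidx⟩ := exists_over h2 htop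
  have hex : ∃ t ∈ S₁, t ∉ S₀ := by
    by_contra hcon
    push Not at hcon
    exact hne (le_antisymm h01 hcon)
  obtain ⟨t, ht, ht0⟩ := hex
  have hS₁ : S₁ = ⊤ := by
    by_contra hne1
    obtain ⟨S₂, h12, hne2, hidx2⟩ := exists_over h2 hne1
    have hex2 : ∃ u ∈ S₂, u ∉ S₁ := by
      by_contra hcon
      push Not at hcon
      exact hne2 (le_antisymm h12 hcon)
    obtain ⟨u, hu, hu1⟩ := hex2
    exact no_second_step h2 hr hz hP hS₀' hPn' h01 hidx ht ht0 (normalizer_of_relIndex_two h12 hidx2 hu) hu1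
  subst hS₁
  have hp := conj_pair h2 hr hz hP hS₀' hPn' (one_mem _)
    (normalizer_of_relIndex_two h01 hidx ht) (by simpa using ht0)
  rw [conjS_one] at hp
  refine ⟨rank_two_of_conj hr hp.1 hp.2.1, ?_⟩
  rw [← relIndex_top_right]
  exact hidx


end Cfsg.Agent.Lib.ClassSizes.SecRank4
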