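import Mathlib
import Cfsg.Prelude.Def_Transfer
import Cfsg.Agent.Lib.ClassSizes.Metacyclic
import Cfsg.Agent.Lib.FrobThm.PNil
import Cfsg.Agent.Lib.Hall.CoprimeAction

/-!
# Normal `p`-complements and elements of order the exponent
-/

set_option autoImplicit false

namespace Cfsg.Agent.Lib.ClassSizes.SectionExp

open Subgroup Cfsg
open Cfsg.Agent.Lib.FrobThm
open scoped commutatorElement

universe u

section Abstract

variable {K : Type*} [Group K] [Finite K] {p r : ℕ} [hp : Fact p.Prime] [hr : Fact r.Prime]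

/-- In a `p`-group there is an element whose order is the exponent. -/
theorem exists_orderOf_eq_exponent_of_isPGroup (h : IsPGroup p K) :
    ∃ k : K, orderOf k = Monoid.exponent K := by
  classical
  obtain ⟨x, hx⟩ := Finite.exists_max (fun k : K => orderOf k)
  refine ⟨x, le_antisymm ?_ ?_ |> fun e => e⟩
  · exact Nat.le_of_dvd (Nat.pos_of_ne_zero Monoid.exponent_ne_zero_of_finite) (Monoid.order_dvd_exponent x)
  · refine Nat.le_of_dvd (orderOf_pos x) (Monoid.exponent_dvd_of_forall_pow_eq_one ?_)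
    intro y
    obtain ⟨a, ha⟩ := IsPGroup.iff_orderOf.mp h x
    obtain ⟨b, hb⟩ := IsPGroup.iff_orderOf.mp h y
    have h1 := hx y
    rw [ha, hb] at h1
    have h2 : b ≤ a := (Nat.pow_le_pow_iff_right hp.out.one_lt).mp h1
    have h3 : orderOf y ∣ orderOf x := by
      rw [ha, hb]
      exact pow_dvd_pow p h2
    exact orderOf_dvd_iff_pow_eq_one.mp h3

/-- The group `V ⋊ ⟨y⟩`, with `y` acting fixed point freely and `y` of prime order, has no element whose
order is the exponent and has trivial `O_{p'}`. -/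
theorem section_facts (hrp : r ≠ p) (V : Subgroup K) [hVn : V.Normal] (hVp : IsPGroup p V)
    (hVc : ∀ a ∈ V, ∀ b ∈ V, a * b = b * a) (hV1 : V ≠ ⊥) (y : K) (hy : y ^ r = 1)
    (hgen : ∀ k : K, ∃ v ∈ V, ∃ i : ℕ, k = v * y ^ i) (hfpf : ∀ a ∈ V, y * a * y⁻¹ = a → a = 1) :
    pPrimeCore p K = ⊥ ∧ ¬ ∃ k : K, orderOf k = Monoid.exponent K := by
  classical
  have hpp : p.Prime := hp.out
  have hrr : r.Prime := hr.out
  obtain ⟨a₀, ha₀, ha₀1⟩ := V.bot_or_exists_ne_one.resolve_left hV1
  -- commuting with `y ^ i`, `r ∤ i`, implies commuting with `y`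
  have hpow : ∀ (a : K) (i : ℕ), ¬ r ∣ i → Commute a (y ^ i) → Commute a y := by
    intro a i hi hc
    have hcop : Nat.Coprime i r := ((hrr.coprime_iff_not_dvd).mpr hi).symm
    have h1 : y ∈ Subgroup.zpowers (y ^ i) := by
      have h2 := Nat.gcd_eq_gcd_ab i r
      rw [hcop] at h2
      have h3 : y ^ ((1 : ℕ) : ℤ) = y ^ (((i : ℤ) * Nat.gcdA i r + (r : ℤ) * Nat.gcdB i r)) := by
        rw [← h2]
      have hyz : y ^ (r : ℤ) = 1 := by rw [zpow_natCast]; exact hy
      rw [zpow_add, zpow_mul, zpow_mul y (r : ℤ), hyz, one_zpow, mul_one, zpow_natCast] at h3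
      rw [pow_one] at h3
      replace h3 : y = (y ^ (i : ℤ)) ^ Nat.gcdA i r := h3
      rw [zpow_natCast] at h3
      exact ⟨Nat.gcdA i r, h3.symm⟩
    obtain ⟨n, hn⟩ := h1
    have : Commute a ((y ^ i) ^ n) := hc.zpow_right n
    have hn' : (y ^ i) ^ n = y := hn
    rwa [hn'] at this
  -- no element of `V` is fixed by a `y ^ i`, `r ∤ i`
  have hfix : ∀ a ∈ V, Commute a y → a = 1 := by
    intro a ha hc
    apply hfpf a ha
    have : y * a = a * y := hc.symm.eq
    rw [this, mul_inv_cancel_right]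
  constructor
  · -- `O_{p'}` is trivial
    rw [eq_bot_iff]
    intro w hw
    rw [Subgroup.mem_bot]
    have hWc : (Nat.card (pPrimeCore p K)).Coprime p := Cfsg.Agent.Lib.Core.pPrimeCore_coprime p K
    have hWn : (pPrimeCore p K).Normal := pPrimeCore_normal p K
    have hinter : ∀ z, z ∈ V → z ∈ pPrimeCore p K → z = 1 :=
      fun z h1 h2 => Cfsg.Agent.Lib.Techniques.eq_one_of_mem_isPGroup_of_mem_coprime hVp hWc h1 h2
    have hwc : ∀ a ∈ V, Commute w a := by
      intro a ha
      have h1 : w * a * w⁻¹ * a⁻¹ ∈ V := V.mul_mem (hVn.conj_mem a ha w) (V.inv_mem ha)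
      have h2 : w * a * w⁻¹ * a⁻¹ ∈ pPrimeCore p K := by
        have : w * a * w⁻¹ * a⁻¹ = w * (a * w⁻¹ * a⁻¹) := by group
        rw [this]
        exact mul_mem hw (hWn.conj_mem _ (inv_mem hw) a)
      have h3 := hinter _ h1 h2
      show w * a = a * w
      have h4 : w * a = (w * a * w⁻¹ * a⁻¹) * (a * w) := by group
      rw [h4, h3, one_mul]
    obtain ⟨v, hv, i, rfl⟩ := hgen w
    by_cases hi : r ∣ i
    · obtain ⟨c, rfl⟩ := hi
      have h5 : y ^ (r * c) = 1 := by rw [pow_mul, hy, one_pow]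
      rw [h5, mul_one] at hw ⊢
      exact hinter v hv hw
    · exfalso
      apply ha₀1
      apply hfix a₀ ha₀
      apply hpow a₀ i hi
      have h6 : Commute (v * y ^ i) a₀ := hwc a₀ ha₀
      have h7 : Commute v a₀ := hVc v hv a₀ ha₀
      have h8 : v * (y ^ i * a₀) = v * (a₀ * y ^ i) := by
        have h9 : (v * y ^ i) * a₀ = a₀ * (v * y ^ i) := h6
        calc v * (y ^ i * a₀) = (v * y ^ i) * a₀ := by group
          _ = a₀ * (v * y ^ i) := h9
          _ = (a₀ * v) * y ^ i := by group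
          _ = (v * a₀) * y ^ i := by rw [h7.eq.symm]
          _ = v * (a₀ * y ^ i) := by group
      exact (mul_left_cancel h8).symm
  · -- no element of exponent order
    rintro ⟨k, hk⟩
    set e := Monoid.exponent K with he
    have hepos : 0 < e := Nat.pos_of_ne_zero Monoid.exponent_ne_zero_of_finite
    have hpe : p ∣ e := by
      have h1 := Monoid.order_dvd_exponent a₀
      obtain ⟨m, hm⟩ := IsPGroup.iff_orderOf.mp hVp ⟨a₀, ha₀⟩
      have hm' : orderOf a₀ = p ^ m := by simpa using hm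
      have hm0 : m ≠ 0 := by
        rintro rfl
        rw [pow_zero] at hm'
        exact ha₀1 (orderOf_eq_one_iff.mp hm')
      rw [hm'] at h1
      exact (dvd_pow_self p hm0).trans h1
    have hy1 : y ≠ 1 := by
      rintro rfl
      apply ha₀1
      apply hfpf a₀ ha₀
      simp
    have hyo : orderOf y = r := orderOf_eq_prime hy hy1
    have hre : r ∣ e := by
      have h1 := Monoid.order_dvd_exponent y
      rwa [hyo] at h1
    have hke : k ^ e = 1 := by rw [← hk]; exact pow_orderOf_eq_one k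
    obtain ⟨c, hc⟩ := hpe
    obtain ⟨d, hd⟩ := hre
    set a := k ^ c with ha
    set b := k ^ d with hb
    have hcpos : 0 < c := by
      rcases Nat.eq_zero_or_pos c with h | h
      · subst h; omega
      · exact h
    have hdpos : 0 < d := by
      rcases Nat.eq_zero_or_pos d with h | h
      · subst h; omega
      · exact h
    have hap : a ^ p = 1 := by rw [ha, ← pow_mul, mul_comm, ← hc, hke]
    have hbr : b ^ r = 1 := by rw [hb, ← pow_mul, mul_comm, ← hd, hke]
    have ha1 : a ≠ 1 := by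
      intro h
      have : e ∣ c := by
        rw [← hk]
        exact orderOf_dvd_of_pow_eq_one h
      have := Nat.le_of_dvd hcpos this
      have h2 := hpp.one_lt
      nlinarith
    have hb1 : b ≠ 1 := by
      intro h
      have : e ∣ d := by
        rw [← hk]
        exact orderOf_dvd_of_pow_eq_one h
      have := Nat.le_of_dvd hdpos this
      have h2 := hrr.one_lt
      nlinarith
    have hab : Commute a b := (Commute.refl k).pow_pow c d
    -- `a` lies in `V`
    have haV : a ∈ V := by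
      obtain ⟨v, hv, i, hvi⟩ := hgen a
      rw [← QuotientGroup.eq_one_iff]
      have h1 : (a : K ⧸ V) = ((y : K) : K ⧸ V) ^ i := by
        rw [hvi, QuotientGroup.mk_mul, (QuotientGroup.eq_one_iff v).mpr hv, one_mul,
          QuotientGroup.mk_pow]
      have h2 : (a : K ⧸ V) ^ r = 1 := by
        rw [h1, ← pow_mul, mul_comm, pow_mul, ← QuotientGroup.mk_pow, hy]
        simp
      have h3 : (a : K ⧸ V) ^ p = 1 := by
        rw [← QuotientGroup.mk_pow, hap]
        rfl
      have h4 : orderOf (a : K ⧸ V) ∣ Nat.gcd r p :=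
        Nat.dvd_gcd (orderOf_dvd_of_pow_eq_one h2) (orderOf_dvd_of_pow_eq_one h3)
      rw [(Nat.coprime_primes hrr hpp).mpr hrp, Nat.dvd_one] at h4
      exact orderOf_eq_one_iff.mp h4
    obtain ⟨v, hv, i, hvi⟩ := hgen b
    have hi : ¬ r ∣ i := by
      rintro ⟨c', rfl⟩
      have h5 : y ^ (r * c') = 1 := by rw [pow_mul, hy, one_pow]
      rw [h5, mul_one] at hvi
      apply hb1
      obtain ⟨m, hm⟩ := IsPGroup.iff_orderOf.mp hVp ⟨v, hv⟩
      have hm' : orderOf v = p ^ m := by simpa using hm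
      have h6 : orderOf v ∣ r := by
        apply orderOf_dvd_of_pow_eq_one
        rw [← hvi]
        exact hbr
      have h7 : Nat.Coprime r (p ^ m) := Nat.Coprime.pow_right m ((Nat.coprime_primes hrr hpp).mpr hrp)
      rw [hm'] at h6
      have h8 := Nat.Coprime.eq_one_of_dvd h7.symm h6
      rw [hvi]
      rw [← hm', ] at h8
      exact orderOf_eq_one_iff.mp h8
    apply ha1
    apply hfix a haV
    apply hpow a i hi
    have h7 : Commute v a := hVc v hv a haV
    have h8 : a * (v * y ^ i) = (v * y ^ i) * a := by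
      rw [← hvi]
      exact hab.eq
    have h9 : v * (a * y ^ i) = v * (y ^ i * a) := by
      calc v * (a * y ^ i) = (v * a) * y ^ i := by group
        _ = (a * v) * y ^ i := by rw [h7.eq]
        _ = a * (v * y ^ i) := by group
        _ = (v * y ^ i) * a := h8
        _ = v * (y ^ i * a) := by group
    exact mul_left_cancel h9

end Abstract

section Comm

variable {V : Type*} [Group V] [Finite V] {p r : ℕ} [hp : Fact p.Prime] [hr : Fact r.Prime]

/-- If `F` is trivial on `[V, F]`, it is trivial. -/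
theorem trivial_of_comm (hcomm : ∀ a b : V, a * b = b * a) (hexp : ∀ v : V, v ^ p = 1) (hrp : r ≠ p)
    (F : MulAut V) (hF : F ^ r = 1) (htriv : ∀ v, F (F v * v⁻¹) = F v * v⁻¹) (v : V) : F v = v := by
  set c := F v * v⁻¹ with hc
  have h1 : ∀ n : ℕ, (F ^ n : MulAut V) v = c ^ n * v := by
    intro n
    induction n with
    | zero => simp
    | succ n ih =>
      rw [pow_succ']
      show F ((F ^ n : MulAut V) v) = _
      rw [ih, map_mul, map_pow, htriv v, ← hc]
      have : F v = c * v := by rw [hc]; group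
      rw [this, pow_succ]
      group
  have h2 := h1 r
  rw [hF] at h2
  have h3 : c ^ r = 1 := by
    have h4 : (1 : MulAut V) v = v := rfl
    rw [h4] at h2
    exact (mul_eq_right.mp h2.symm)
  have h5 : orderOf c ∣ Nat.gcd r p :=
    Nat.dvd_gcd (orderOf_dvd_of_pow_eq_one h3) (orderOf_dvd_of_pow_eq_one (hexp c))
  rw [(Nat.coprime_primes hr.out hp.out).mpr hrp, Nat.dvd_one] at h5
  have h6 : c = 1 := orderOf_eq_one_iff.mp h5
  rw [hc, mul_inv_eq_one] at h6
  exact h6

/-- If `[V, F] = V`, the automorphism `F` has no nontrivial fixed point. -/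
theorem fpf_of_comm (hcomm : ∀ a b : V, a * b = b * a) (hexp : ∀ v : V, v ^ p = 1) (hrp : r ≠ p)
    (F : MulAut V) (hF : F ^ r = 1) (htop : Subgroup.closure (Set.range fun v : V => F v * v⁻¹) = ⊤)
    (v : V) (hv : F v = v) : v = 1 := by
  classical
  letI : CommGroup V := { (inferInstance : Group V) with mul_comm := hcomm }
  let N : V → V := fun v => ∏ i ∈ Finset.range r, (F ^ i : MulAut V) v
  have hNmul : ∀ a b, N (a * b) = N a * N b := by
    intro a b
    simp only [N, map_mul, Finset.prod_mul_distrib]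
  have hNone : N 1 = 1 := by simp [N]
  have hNinv : ∀ a, N a⁻¹ = (N a)⁻¹ := by
    intro a
    simp only [N, map_inv, Finset.prod_inv_distrib]
  have hNF : ∀ a, N (F a) = N a := by
    intro a
    have h1 : ∀ i, (F ^ i : MulAut V) (F a) = (F ^ (i + 1) : MulAut V) a := by
      intro i
      rw [pow_succ]
      rfl
    simp only [N, h1]
    have h2 := Finset.prod_range_succ (fun i => (F ^ i : MulAut V) a) r
    have h3 := Finset.prod_range_succ' (fun i => (F ^ i : MulAut V) a) r
    rw [h3] at h2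
    rw [hF] at h2
    simp only [pow_zero] at h2
    exact mul_right_cancel h2
  have hall : ∀ d, N d = 1 := by
    intro d
    have hd : d ∈ Subgroup.closure (Set.range fun v : V => F v * v⁻¹) := by
      rw [htop]; trivial
    induction hd using Subgroup.closure_induction with
    | mem x hx =>
      obtain ⟨u, rfl⟩ := hx
      show N (F u * u⁻¹) = 1
      rw [hNmul, hNF, hNinv, mul_inv_cancel]
    | one => exact hNone
    | mul x y _ _ hx hy => rw [hNmul, hx, hy, one_mul]
    | inv x _ hx => rw [hNinv, hx, inv_one]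
  have h1 : N v = v ^ r := by
    have : ∀ i, (F ^ i : MulAut V) v = v := by
      intro i
      induction i with
      | zero => rfl
      | succ i ih =>
        rw [pow_succ]
        show (F ^ i : MulAut V) (F v) = v
        rw [hv, ih]
    simp [N, this]
  have h3 := hall v
  rw [h1] at h3
  have h5 : orderOf v ∣ Nat.gcd r p :=
    Nat.dvd_gcd (orderOf_dvd_of_pow_eq_one h3) (orderOf_dvd_of_pow_eq_one (hexp v))
  rw [(Nat.coprime_primes hr.out hp.out).mpr hrp, Nat.dvd_one] at h5
  exact orderOf_eq_one_iff.mp h5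

end Comm

section Main

variable {G : Type u} [Group G] [Finite G] {p : ℕ} [hp : Fact p.Prime]

/-- The automorphism of the Frattini quotient induced by an element normalizing `Q`. -/
noncomputable def indAut (Q : Subgroup G) {y : G} (hy : y ∈ Subgroup.normalizer (Q : Set G)) :
    MulAut (Q ⧸ frattini Q) :=
  QuotientGroup.congr (frattini Q) (frattini Q) (Cfsg.Agent.Lib.Hall.normalizerAut Q hy)
    (Subgroup.characteristic_iff_map_eq.mp inferInstance (Cfsg.Agent.Lib.Hall.normalizerAut Q hy))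

theorem indAut_mk (Q : Subgroup G) {y : G} (hy : y ∈ Subgroup.normalizer (Q : Set G)) (x : Q) :
    indAut Q hy (QuotientGroup.mk' _ x) =
      QuotientGroup.mk' _ (Cfsg.Agent.Lib.Hall.normalizerAut Q hy x) := rfl

theorem indAut_pow_mk (Q : Subgroup G) {y : G} (hy : y ∈ Subgroup.normalizer (Q : Set G)) (n : ℕ)
    (x : Q) : (indAut Q hy ^ n : MulAut (Q ⧸ frattini Q)) (QuotientGroup.mk' _ x) =
      QuotientGroup.mk' _ (Cfsg.Agent.Lib.Hall.normalizerAut Q (Subgroup.pow_mem _ hy n) x) := by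
  induction n generalizing x with
  | zero =>
    have : Cfsg.Agent.Lib.Hall.normalizerAut Q (Subgroup.pow_mem _ hy 0) x = x := by
      apply Subtype.ext
      simp [Cfsg.Agent.Lib.Hall.normalizerAut_coe]
    rw [this]
    rfl
  | succ n ih =>
    rw [pow_succ]
    show (indAut Q hy ^ n : MulAut (Q ⧸ frattini Q)) (indAut Q hy (QuotientGroup.mk' _ x)) = _
    rw [indAut_mk, ih]
    congr 1
    apply Subtype.ext
    simp only [Cfsg.Agent.Lib.Hall.normalizerAut_coe]
    rw [pow_succ]
    group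

/-- Sections with trivial `O_{p'}` containing an element of exponent order force a normal
`p`-complement. -/
theorem hasNormalPComplement_of_sections
    (hsec : ∀ (H : Subgroup G) (N : Subgroup H) [N.Normal], pPrimeCore p (H ⧸ N) = ⊥ →
      ∃ k : H ⧸ N, orderOf k = Monoid.exponent (H ⧸ N)) : HasNormalPComplement p G := by
  classical
  have hpp : p.Prime := hp.out
  let S : Sylow p G := default
  suffices hf : Cfsg.Agent.Lib.Transfer.FrobeniusHyp p (S : Subgroup G) by
    obtain ⟨N, hN, hc⟩ := Cfsg.Agent.Lib.Transfer.frobenius S hf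
    exact ⟨S, N, hN, hc⟩
  by_contra hnot
  let Bad : ℕ → Prop := fun m => ∃ (Q : Subgroup G) (y : G) (r : ℕ), IsPGroup p Q ∧
    y ∈ Subgroup.normalizer (Q : Set G) ∧ r.Prime ∧ r ≠ p ∧ (∃ k, orderOf y = r ^ k) ∧
    y ∉ Subgroup.centralizer (Q : Set G) ∧ Nat.card Q * orderOf y = m
  have hex : ∃ m, Bad m := by
    unfold Cfsg.Agent.Lib.Transfer.FrobeniusHyp at hnot
    push Not at hnot
    obtain ⟨Q, hQ, g, hg, hgc, hgn⟩ := hnot
    by_contra hno
    apply hgn
    apply Cfsg.Agent.Lib.ClassSizes.Metacyclic.mem_of_forall_primePow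
    rintro r hr y hy ⟨k, hk⟩
    by_contra hyn
    have hyN : y ∈ Subgroup.normalizer (Q : Set G) := (Subgroup.zpowers_le.mpr hg) hy
    have hyo : (orderOf y).Coprime p :=
      Nat.Coprime.coprime_dvd_left (orderOf_dvd_of_mem_zpowers hy) hgc
    have hk0 : k ≠ 0 := by
      rintro rfl
      rw [pow_zero] at hk
      rw [orderOf_eq_one_iff.mp hk] at hyn
      exact hyn (one_mem _)
    have hrp : r ≠ p := by
      rintro rfl
      rw [hk] at hyo
      have h2 := Nat.Coprime.eq_one_of_dvd hyo.symm (dvd_pow_self r hk0)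
      exact hr.one_lt.ne' h2
    exact hno ⟨_, Q, y, r, S.isPGroup'.to_le hQ, hyN, hr, hrp, ⟨k, hk⟩, hyn, rfl⟩
  obtain ⟨Q, y, r, hQp, hyN, hr, hrp, ⟨k, hk⟩, hyC, hm⟩ := Nat.find_spec hex
  haveI : Fact r.Prime := ⟨hr⟩
  have hmin : ∀ (Q' : Subgroup G) (y' : G) (r' : ℕ), IsPGroup p Q' →
      y' ∈ Subgroup.normalizer (Q' : Set G) → r'.Prime → r' ≠ p → (∃ k', orderOf y' = r' ^ k') →
      Nat.card Q' * orderOf y' < Nat.card Q * orderOf y → y' ∈ Subgroup.centralizer (Q' : Set G) := by
    intro Q' y' r' h1 h2 h3 h4 h5 h6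
    by_contra h7
    rw [hm] at h6
    exact Nat.find_min hex h6 ⟨Q', y', r', h1, h2, h3, h4, h5, h7, rfl⟩
  have hk0 : k ≠ 0 := by
    rintro rfl
    rw [pow_zero] at hk
    rw [orderOf_eq_one_iff.mp hk] at hyC
    exact hyC (one_mem _)
  have hQpos : 0 < Nat.card Q := Nat.card_pos
  have hypos : 0 < orderOf y := orderOf_pos y
  -- powers of `y` normalizing
  have hyr : y ^ r ∈ Subgroup.centralizer (Q : Set G) := by
    have h1 : orderOf (y ^ r) = r ^ (k - 1) := by
      rw [orderOf_pow, hk]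
      have h2 : Nat.gcd (r ^ k) r = r := Nat.gcd_eq_right (dvd_pow_self r hk0)
      rw [h2]
      obtain ⟨k', rfl⟩ := Nat.exists_eq_succ_of_ne_zero hk0
      rw [Nat.succ_sub_one, pow_succ, Nat.mul_div_cancel _ hr.pos]
    apply hmin Q (y ^ r) r hQp (Subgroup.pow_mem _ hyN r) hr hrp ⟨k - 1, h1⟩
    rw [h1, hk]
    apply Nat.mul_lt_mul_of_pos_left _ hQpos
    exact Nat.pow_lt_pow_right hr.one_lt (by omega)
  -- the Frattini quotient
  let Φ : Subgroup G := (frattini Q).map Q.subtype
  let mk := QuotientGroup.mk' (frattini Q)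
  let F : MulAut (Q ⧸ frattini Q) := indAut Q hyN
  have hcomm : ∀ a b : Q ⧸ frattini Q, a * b = b * a := by
    intro a b
    obtain ⟨a, rfl⟩ := QuotientGroup.mk_surjective a
    obtain ⟨b, rfl⟩ := QuotientGroup.mk_surjective b
    show ((a * b : Q) : Q ⧸ frattini Q) = ((b * a : Q) : Q ⧸ frattini Q)
    rw [QuotientGroup.eq]
    have h1 : ⁅b⁻¹, a⁻¹⁆ ∈ frattini Q :=
      Cfsg.Agent.Lib.Transfer.commutator_le_frattini hQp
        (Subgroup.commutator_mem_commutator (Subgroup.mem_top b⁻¹) (Subgroup.mem_top a⁻¹))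
    rw [commutatorElement_def] at h1
    convert h1 using 1
    group
  have hexp : ∀ v : Q ⧸ frattini Q, v ^ p = 1 := by
    intro v
    obtain ⟨x, rfl⟩ := QuotientGroup.mk_surjective v
    rw [← QuotientGroup.mk_pow]
    exact (QuotientGroup.eq_one_iff _).mpr (Cfsg.Agent.Lib.Transfer.pow_mem_frattini hQp x)
  have hF : F ^ r = 1 := by
    ext v
    obtain ⟨x, rfl⟩ := QuotientGroup.mk'_surjective (frattini Q) v
    rw [indAut_pow_mk]
    have h1 : Cfsg.Agent.Lib.Hall.normalizerAut Q (Subgroup.pow_mem _ hyN r) x = x := by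
      apply Subtype.ext
      rw [Cfsg.Agent.Lib.Hall.normalizerAut_coe]
      have := Subgroup.mem_centralizer_iff.mp hyr (x : G) x.2
      rw [← this]
      simp
    rw [h1]
    rfl
  have hcopZ : (Nat.card (Subgroup.zpowers y)).Coprime (Nat.card (frattini Q)) := by
    rw [Nat.card_zpowers, hk]
    obtain ⟨n, hn⟩ := IsPGroup.iff_card.mp (hQp.to_subgroup (frattini Q))
    rw [hn]
    exact Nat.Coprime.pow k n ((Nat.coprime_primes hr hpp).mpr hrp)
  have hyQ : Subgroup.zpowers y ≤ Subgroup.normalizer (Q : Set G) := Subgroup.zpowers_le.mpr hyN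
  -- `F` trivial implies `y` centralizes `Q`
  have hFtriv : (∀ v, F v = v) → False := by
    intro hFid
    have hF1 : F = 1 := by
      ext v
      exact hFid v
    apply hyC
    have hz : Subgroup.zpowers y ≤ Subgroup.centralizer (Q : Set G) := by
      apply Cfsg.Agent.Lib.Hall.le_centralizer_of_frattini (Subgroup.zpowers y) Q hyQ hcopZ
      intro a ha q hq
      obtain ⟨n, rfl⟩ := (mem_powers_iff_mem_zpowers).mpr ha
      have h1 := indAut_pow_mk Q hyN n ⟨q, hq⟩
      have h2 : (indAut Q hyN ^ n : MulAut (Q ⧸ frattini Q)) = 1 := by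
        show (F ^ n : MulAut (Q ⧸ frattini Q)) = 1
        rw [hF1, one_pow]
      rw [h2] at h1
      have h3 : (QuotientGroup.mk' (frattini Q) (Cfsg.Agent.Lib.Hall.normalizerAut Q
          (Subgroup.pow_mem _ hyN n) ⟨q, hq⟩ * (⟨q, hq⟩ : Q)⁻¹)) = 1 := by
        rw [map_mul, map_inv, ← h1]
        simp
      have h4 := (QuotientGroup.eq_one_iff _).mp h3
      exact ⟨_, h4, rfl⟩
    exact hz (Subgroup.mem_zpowers y)
  -- fixed point freeness
  let D : Subgroup (Q ⧸ frattini Q) := Subgroup.closure (Set.range fun v => F v * v⁻¹)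
  have hFD : ∀ d ∈ D, F d ∈ D := by
    intro d hd
    induction hd using Subgroup.closure_induction with
    | mem x hx =>
      obtain ⟨u, rfl⟩ := hx
      apply Subgroup.subset_closure
      refine ⟨F u, ?_⟩
      simp
    | one => simp
    | mul x y _ _ hx hy => rw [map_mul]; exact mul_mem hx hy
    | inv x _ hx => rw [map_inv]; exact inv_mem hx
  have hfpf : ∀ v, F v = v → v = 1 := by
    by_cases hD : D = ⊤
    · exact fun v hv => fpf_of_comm hcomm hexp hrp F hF hD v hv
    · exfalso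
      let Q₀ : Subgroup G := (D.comap mk).map Q.subtype
      have hQ₀le : Q₀ ≤ Q := Subgroup.map_subtype_le _
      have hQ₀lt : Nat.card Q₀ < Nat.card Q := by
        refine lt_of_le_of_ne (Subgroup.card_le_of_le hQ₀le) (fun h => hD ?_)
        have h1 : Q₀ = Q := Subgroup.eq_of_le_of_card_ge hQ₀le h.ge
        rw [eq_top_iff]
        intro v _
        obtain ⟨x, rfl⟩ := QuotientGroup.mk'_surjective (frattini Q) v
        have h2 : (x : G) ∈ Q₀ := by rw [h1]; exact x.2
        obtain ⟨x', hx', hx'v⟩ := h2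
        have h3 : x' = x := Subtype.ext hx'v
        rw [← h3]
        exact hx'
      have hyQ₀ : y ∈ Subgroup.normalizer (Q₀ : Set G) := by
        apply Cfsg.Agent.Lib.Hall.mem_normalizer_of_conj_le
        rintro _ ⟨q, hq, rfl⟩
        refine ⟨Cfsg.Agent.Lib.Hall.normalizerAut Q hyN q, ?_, rfl⟩
        exact hFD _ hq
      have hyC₀ := hmin Q₀ y r (hQp.to_le hQ₀le) hyQ₀ hr hrp ⟨k, hk⟩
        (Nat.mul_lt_mul_of_pos_right hQ₀lt hypos)
      have htriv : ∀ v, F (F v * v⁻¹) = F v * v⁻¹ := by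
        intro v
        have hd : F v * v⁻¹ ∈ D := Subgroup.subset_closure ⟨v, rfl⟩
        obtain ⟨q, hq⟩ := QuotientGroup.mk'_surjective (frattini Q) (F v * v⁻¹)
        rw [← hq] at hd ⊢
        have h1 : (q : G) ∈ Q₀ := ⟨q, hd, rfl⟩
        have h2 : (Cfsg.Agent.Lib.Hall.normalizerAut Q hyN q) = q := by
          apply Subtype.ext
          rw [Cfsg.Agent.Lib.Hall.normalizerAut_coe]
          have := Subgroup.mem_centralizer_iff.mp hyC₀ (q : G) h1
          rw [← this]
          simp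
        show indAut Q hyN (QuotientGroup.mk' _ q) = _
        rw [indAut_mk, h2]
      exact hFtriv (trivial_of_comm hcomm hexp hrp F hF htriv)
  -- the section
  let Φ' := Φ
  have hΦQ : Φ ≤ Q := Subgroup.map_subtype_le _
  have hNΦ : Subgroup.normalizer (Q : Set G) ≤ Subgroup.normalizer (Φ : Set G) :=
    Cfsg.Agent.Lib.Hall.normalizer_le_normalizer_map_of_characteristic Q (frattini Q)
  let Z : Subgroup G := Subgroup.zpowers (y ^ r)
  let H : Subgroup G := Q ⊔ Subgroup.zpowers y
  have hHNQ : H ≤ Subgroup.normalizer (Q : Set G) := sup_le Subgroup.le_normalizer hyQ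
  have hHNΦ : H ≤ Subgroup.normalizer (Φ : Set G) := hHNQ.trans hNΦ
  have hHc : H ≤ Subgroup.centralizer ({y ^ r} : Set G) := by
    refine sup_le ?_ ?_
    · intro q hq
      rw [Subgroup.mem_centralizer_singleton_iff]
      exact (Subgroup.mem_centralizer_iff.mp hyr q hq)
    · rw [Subgroup.zpowers_le, Subgroup.mem_centralizer_singleton_iff]
      exact (Commute.refl y).pow_right r |>.eq
  let N₁ : Subgroup G := Φ ⊔ Z
  have hyH : y ∈ H := (le_sup_right : Subgroup.zpowers y ≤ H) (Subgroup.mem_zpowers y)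
  have hZH : Z ≤ H := Subgroup.zpowers_le.mpr (H.pow_mem hyH r)
  have hN₁H : N₁ ≤ H := sup_le (hΦQ.trans le_sup_left) hZH
  have hZΦ : Z ≤ Subgroup.normalizer (Φ : Set G) := hZH.trans hHNΦ
  have hN₁form : ∀ x ∈ N₁, ∃ φ ∈ Φ, ∃ c ∈ Z, x = φ * c := fun x hx =>
    Cfsg.Agent.Lib.Hall.exists_mul_of_mem_sup_normalizes hZΦ hx
  have hN₁conj : ∀ h ∈ H, ∀ x ∈ N₁, h * x * h⁻¹ ∈ N₁ := by
    intro h hh x hx
    obtain ⟨φ, hφ, c, hc, rfl⟩ := hN₁form x hx
    have h1 : h * φ * h⁻¹ ∈ Φ := (Subgroup.mem_normalizer_iff.mp (hHNΦ hh) φ).mp hφ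
    have h2 : h * c * h⁻¹ = c := by
      obtain ⟨n, rfl⟩ := hc
      have h3 : h * y ^ r = y ^ r * h := (Subgroup.mem_centralizer_singleton_iff.mp (hHc hh))
      have h4 : Commute h (y ^ r) := h3
      have h5 : h * (y ^ r) ^ n = (y ^ r) ^ n * h := (h4.zpow_right n).eq
      show h * (y ^ r) ^ n * h⁻¹ = (y ^ r) ^ n
      rw [h5]
      group
    have h3 : h * (φ * c) * h⁻¹ = (h * φ * h⁻¹) * (h * c * h⁻¹) := by group
    rw [h3, h2]
    exact Subgroup.mul_mem_sup h1 hc
  have hzc : (Nat.card (Subgroup.zpowers y)).Coprime p := by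
    rw [Nat.card_zpowers, hk]
    exact Nat.Coprime.pow_left k ((Nat.coprime_primes hr hpp).mpr hrp)
  have hQN₁ : ∀ x ∈ Q, x ∈ N₁ → x ∈ Φ := by
    intro x hx hxN
    obtain ⟨φ, hφ, c, hc, rfl⟩ := hN₁form x hxN
    have hcQ : c ∈ Q := by
      have : c = φ⁻¹ * (φ * c) := by group
      rw [this]
      exact Q.mul_mem (Q.inv_mem (hΦQ hφ)) hx
    have hcy : c ∈ Subgroup.zpowers y :=
      (Subgroup.zpowers_le.mpr (Subgroup.pow_mem _ (Subgroup.mem_zpowers y) r)) hc
    have h1 := Cfsg.Agent.Lib.Techniques.eq_one_of_mem_isPGroup_of_mem_coprime hQp hzc hcQ hcy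
    rw [h1, mul_one]
    exact hφ
  let N : Subgroup H := N₁.subgroupOf H
  haveI hNn : N.Normal := by
    rw [Subgroup.normal_subgroupOf_iff hN₁H]
    intro x h hx hh
    exact hN₁conj h hh x hx
  let π := QuotientGroup.mk' N
  have hπ : Function.Surjective π := QuotientGroup.mk'_surjective N
  have hπ1 : ∀ h : H, π h = 1 ↔ (h : G) ∈ N₁ := fun h => QuotientGroup.eq_one_iff h
  have hQH : Q ≤ H := le_sup_left
  haveI hQn : (Q.subgroupOf H).Normal := by
    rw [Subgroup.normal_subgroupOf_iff hQH]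
    intro x h hx hh
    exact (Subgroup.mem_normalizer_iff.mp (hHNQ hh) x).mp hx
  let Vb : Subgroup (H ⧸ N) := (Q.subgroupOf H).map π
  haveI hVbn : Vb.Normal := Subgroup.Normal.map hQn π hπ
  have hVbp : IsPGroup p Vb := (hQp.comap_of_injective H.subtype H.subtype_injective).map π
  have hVbc : ∀ a ∈ Vb, ∀ b ∈ Vb, a * b = b * a := by
    rintro _ ⟨q, hq, rfl⟩ _ ⟨q', hq', rfl⟩
    rw [← map_mul, ← map_mul]
    show ((q * q' : H) : H ⧸ N) = ((q' * q : H) : H ⧸ N)
    rw [QuotientGroup.eq]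
    show (((q * q')⁻¹ * (q' * q) : H) : G) ∈ N₁
    have h1 := hcomm (((⟨q, hq⟩ : Q) : Q ⧸ frattini Q)) (((⟨q', hq'⟩ : Q) : Q ⧸ frattini Q))
    have h2 : (((⟨q, hq⟩ * ⟨q', hq'⟩ : Q)) : Q ⧸ frattini Q) = (((⟨q', hq'⟩ * ⟨q, hq⟩ : Q)) : Q ⧸ frattini Q) := h1
    rw [QuotientGroup.eq] at h2
    exact (le_sup_left : Φ ≤ N₁) ⟨_, h2, rfl⟩
  let y' : H := ⟨y, hyH⟩
  have hy' : (π y') ^ r = 1 := by
    rw [← map_pow, hπ1]
    exact (le_sup_right : Z ≤ N₁) (Subgroup.mem_zpowers _)
  have hgen : ∀ k : H ⧸ N, ∃ v ∈ Vb, ∃ i : ℕ, k = v * (π y') ^ i := by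
    intro k
    obtain ⟨h, rfl⟩ := hπ k
    obtain ⟨n, hn, a, ha, hna⟩ := Cfsg.Agent.Lib.Hall.exists_mul_of_mem_sup_normalizes hyQ h.2
    obtain ⟨i, rfl⟩ := (mem_powers_iff_mem_zpowers).mpr ha
    refine ⟨π ⟨n, hQH hn⟩, Subgroup.mem_map_of_mem π hn, i, ?_⟩
    have h1 : h = ⟨n, hQH hn⟩ * y' ^ i := Subtype.ext hna
    rw [h1, map_mul, map_pow]
  have hfpf' : ∀ a ∈ Vb, (π y') * a * (π y')⁻¹ = a → a = 1 := by
    rintro _ ⟨q, hq, rfl⟩ hfix
    rw [← map_inv, ← map_mul, ← map_mul] at hfix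
    have h1 : π (y' * q * y'⁻¹ * q⁻¹) = 1 := by
      rw [map_mul, hfix, map_inv, mul_inv_cancel]
    rw [hπ1] at h1
    have h1' : y * (q : G) * y⁻¹ * (q : G)⁻¹ ∈ N₁ := h1
    have hq' : (q : G) ∈ Q := hq
    have h2 : y * (q : G) * y⁻¹ * (q : G)⁻¹ ∈ Q :=
      Q.mul_mem ((Subgroup.mem_normalizer_iff.mp hyN _).mp hq') (Q.inv_mem hq')
    obtain ⟨z, hz, hzv⟩ := hQN₁ _ h2 h1'
    let q₀ : Q := ⟨q, hq⟩
    have h3 : z = Cfsg.Agent.Lib.Hall.normalizerAut Q hyN q₀ * q₀⁻¹ := Subtype.ext hzv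
    have h4 : F (QuotientGroup.mk' _ q₀) = QuotientGroup.mk' _ q₀ := by
      show indAut Q hyN _ = _
      rw [indAut_mk]
      have h5 := (QuotientGroup.eq_one_iff z).mpr hz
      rw [h3, QuotientGroup.mk_mul, QuotientGroup.mk_inv, mul_inv_eq_one] at h5
      exact h5
    have h6 := hfpf _ h4
    have h7 : q₀ ∈ frattini Q := (QuotientGroup.eq_one_iff _).mp h6
    rw [hπ1]
    exact (le_sup_left : Φ ≤ N₁) ⟨q₀, h7, rfl⟩
  have hVb1 : Vb ≠ ⊥ := by
    intro hb
    apply hyC
    have hall : ∀ q ∈ Q, q ∈ Φ := by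
      intro q hq
      have h1 : π ⟨q, hQH hq⟩ ∈ Vb := Subgroup.mem_map_of_mem π hq
      rw [hb, Subgroup.mem_bot, hπ1] at h1
      exact hQN₁ q hq h1
    have hz : Subgroup.zpowers y ≤ Subgroup.centralizer (Q : Set G) := by
      apply Cfsg.Agent.Lib.Hall.le_centralizer_of_frattini (Subgroup.zpowers y) Q hyQ hcopZ
      intro a ha q hq
      exact hall _ (Q.mul_mem ((Subgroup.mem_normalizer_iff.mp (hyQ ha) _).mp hq) (Q.inv_mem hq))
    exact hz (Subgroup.mem_zpowers y)
  obtain ⟨hO, hno⟩ := section_facts (r := r) (p := p) hrp Vb hVbp hVbc hVb1 (π y') hy' hgen hfpf'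
  exact hno (hsec H N hO)

/-- The statement: normal `p`-complements and sections. -/
theorem hasNormalPComplement_iff_sections :
    HasNormalPComplement p G ↔
      ∀ (H : Subgroup G) (N : Subgroup H) [N.Normal], pPrimeCore p (H ⧸ N) = ⊥ →
        ∃ k : H ⧸ N, orderOf k = Monoid.exponent (H ⧸ N) := by
  constructor
  · intro h H N _ hO
    have h1 : HasNormalPComplement p H := Cfsg.Agent.Lib.Transfer.hasNormalPComplement_subgroup h H
    have h2 : PNil p (⊤ : Subgroup H) := hasNormalPComplement_iff_pNil_top.mp h1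
    have h3 := h2.map hp.out (QuotientGroup.mk' N)
    rw [Subgroup.map_top_of_surjective _ (QuotientGroup.mk'_surjective N)] at h3
    have h4 : h3.ker ≤ pPrimeCore p (H ⧸ N) := by
      apply Cfsg.Agent.Lib.Core.le_pPrimeCore h3.ker_normal
      rw [Nat.coprime_comm, hp.out.coprime_iff_not_dvd]
      exact h3.ker_not_dvd
    rw [hO] at h4
    have h5 : IsPGroup p (⊤ : Subgroup (H ⧸ N)) := by
      apply isPGroup_of_pprime_trivial
      intro x hx hc
      have : x ∈ h3.ker := ⟨hx, hc⟩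
      simpa using h4 this
    exact exists_orderOf_eq_exponent_of_isPGroup (h5.of_equiv Subgroup.topEquiv)
  · exact hasNormalPComplement_of_sections

end Main

end Cfsg.Agent.Lib.ClassSizes.SectionExp
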