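import Mathlib

/-!
# Subgroups generated by small conjugacy classes (Isaacs)

If `A` is a self-centralizing normal abelian subgroup and `m` is the smallest non-trivial class
size, the subgroup generated by the classes of size `1` or `m` has nilpotency class at most `3`.
-/

namespace Cfsg.Agent.Lib.ClassSizes.SmallClass

open scoped commutatorElement

variable {G : Type*} [Group G] [Finite G]

/-- Key lemma: a class of minimal size acts on `A` with central commutators. -/
lemma comm_central_of_min (A : Subgroup G) [hAn : A.Normal] (hA : ∀ a ∈ A, ∀ b ∈ A, a * b = b * a)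
    {m : ℕ} (hmin : ∀ x : G, 1 < (Subgroup.centralizer ({x} : Set G)).index →
      m ≤ (Subgroup.centralizer ({x} : Set G)).index) {x : G}
    (hx : (Subgroup.centralizer ({x} : Set G)).index = m) {a : G} (ha : a ∈ A) :
    x * a * x⁻¹ * a⁻¹ ∈ Subgroup.center G := by
  classical
  have hAconj : ∀ (g b : G), b ∈ A → g * b * g⁻¹ ∈ A := fun g b hb => hAn.conj_mem b hb g
  have hφmem : ∀ b ∈ A, x * b * x⁻¹ * b⁻¹ ∈ A := fun b hb =>
    A.mul_mem (hAconj x b hb) (A.inv_mem hb)
  let φ : ↥A →* G := MonoidHom.mk' (fun b => x * (b : G) * x⁻¹ * (b : G)⁻¹) (by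
    intro b c
    have h1 := hA _ (A.inv_mem b.2) _ (hφmem c c.2)
    simp only [Subgroup.coe_mul]
    calc x * ((b : G) * c) * x⁻¹ * ((b : G) * c)⁻¹
        = x * b * x⁻¹ * ((x * c * x⁻¹ * (c : G)⁻¹) * (b : G)⁻¹) := by group
      _ = x * b * x⁻¹ * ((b : G)⁻¹ * (x * c * x⁻¹ * (c : G)⁻¹)) := by rw [h1]
      _ = _ := by group)
  have hφdef : ∀ b : ↥A, φ b = x * (b : G) * x⁻¹ * (b : G)⁻¹ := fun _ => rfl
  obtain ⟨U, hUdef⟩ : ∃ U, U = φ.range := ⟨_, rfl⟩
  have hUA : U ≤ A := by
    rw [hUdef]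
    rintro _ ⟨b, rfl⟩
    exact hφmem b b.2
  obtain ⟨C, hCdef⟩ : ∃ C, C = Subgroup.centralizer ({x} : Set G) := ⟨_, rfl⟩
  obtain ⟨H, hHdef⟩ : ∃ H, H = C ⊔ A := ⟨_, rfl⟩
  have hCH : C ≤ H := by rw [hHdef]; exact le_sup_left
  have hAH : A ≤ H := by rw [hHdef]; exact le_sup_right
  -- `H` normalizes `U`
  have hHnorm : H ≤ Subgroup.normalizer (U : Set G) := by
    rw [hHdef]
    apply sup_le
    · rw [Subgroup.le_normalizer_iff]
      intro g hg w hw
      rw [hUdef] at hw ⊢
      obtain ⟨b, rfl⟩ := hw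
      have hgx : g * x = x * g := by
        rw [hCdef] at hg
        exact Subgroup.mem_centralizer_singleton_iff.1 hg
      refine ⟨⟨g * b * g⁻¹, hAconj g b b.2⟩, ?_⟩
      rw [hφdef, hφdef]
      simp only
      calc x * (g * b * g⁻¹) * x⁻¹ * (g * b * g⁻¹)⁻¹
          = (x * g) * b * (x * g)⁻¹ * (g * (b : G)⁻¹ * g⁻¹) := by group
        _ = (g * x) * b * (g * x)⁻¹ * (g * (b : G)⁻¹ * g⁻¹) := by rw [← hgx]
        _ = _ := by group
    · rw [Subgroup.le_normalizer_iff]
      intro b hb w hw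
      have hwA := hUA hw
      have e : b * w * b⁻¹ = w := by
        rw [hA b hb w hwA]
        group
      rw [e]
      exact hw
  have hi : C.relIndex H * H.index = C.index := Subgroup.relIndex_mul_index hCH
  -- `|U| ≤ [H : C]`
  have hU : Nat.card U ≤ C.relIndex H := by
    have hs : ∀ w : U, ∃ b : ↥A, φ b = w := by
      rintro ⟨w, hw⟩
      rw [hUdef] at hw
      exact hw
    choose s hs using hs
    let f : U → ↥H ⧸ C.subgroupOf H := fun w => QuotientGroup.mk ⟨(s w : G), hAH (s w).2⟩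
    refine Nat.card_le_card_of_injective f ?_
    intro w w' hff
    have h1 := QuotientGroup.eq.1 hff
    have hc : (s w : G)⁻¹ * (s w' : G) ∈ C := Subgroup.mem_subgroupOf.1 h1
    rw [hCdef] at hc
    have hcx := Subgroup.mem_centralizer_singleton_iff.1 hc
    have e0 : φ ((s w)⁻¹ * s w') = 1 := by
      rw [hφdef]
      simp only [Subgroup.coe_mul, Subgroup.coe_inv]
      calc x * ((s w : G)⁻¹ * (s w' : G)) * x⁻¹ * ((s w : G)⁻¹ * (s w' : G))⁻¹
          = (x * ((s w : G)⁻¹ * (s w' : G))) * x⁻¹ * ((s w : G)⁻¹ * (s w' : G))⁻¹ := rfl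
        _ = (((s w : G)⁻¹ * (s w' : G)) * x) * x⁻¹ * ((s w : G)⁻¹ * (s w' : G))⁻¹ := by rw [hcx]
        _ = 1 := by group
    rw [map_mul, map_inv, inv_mul_eq_one] at e0
    apply Subtype.ext
    rw [← hs w, ← hs w']
    exact e0
  -- commutators in `U` are central
  have hcentral : ∀ u ∈ U, u ∈ Subgroup.center G := by
    intro u hu
    by_cases hu1 : u = 1
    · rw [hu1]; exact Subgroup.one_mem _
    obtain ⟨D, hDdef⟩ : ∃ D, D = Subgroup.centralizer ({u} : Set G) := ⟨_, rfl⟩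
    have hDmem : ∀ g, g ∈ D ↔ g * u = u * g := by
      intro g
      rw [hDdef]
      exact Subgroup.mem_centralizer_singleton_iff
    have hJ : (D ⊓ H).relIndex H < Nat.card U := by
      let F : ↥H ⧸ (D ⊓ H).subgroupOf H → U := fun q =>
        ⟨(q.out : G) * u * (q.out : G)⁻¹,
          (Subgroup.le_normalizer_iff.1 hHnorm) _ q.out.2 u hu⟩
      have hinj : Function.Injective F := by
        intro q q' hqq
        have e1 : (q.out : G) * u * (q.out : G)⁻¹ = (q'.out : G) * u * (q'.out : G)⁻¹ :=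
          congrArg Subtype.val hqq
        have e2 : ((q.out : G)⁻¹ * (q'.out : G)) * u = u * ((q.out : G)⁻¹ * (q'.out : G)) := by
          calc ((q.out : G)⁻¹ * (q'.out : G)) * u
              = (q.out : G)⁻¹ * ((q'.out : G) * u * (q'.out : G)⁻¹) * (q'.out : G) := by group
            _ = (q.out : G)⁻¹ * ((q.out : G) * u * (q.out : G)⁻¹) * (q'.out : G) := by rw [e1]
            _ = _ := by group
        have e3 : (q.out)⁻¹ * q'.out ∈ (D ⊓ H).subgroupOf H := by
          rw [Subgroup.mem_subgroupOf]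
          exact Subgroup.mem_inf.2 ⟨(hDmem _).2 e2, ((q.out)⁻¹ * q'.out).2⟩
        have e4 : ((q.out : H) : ↥H ⧸ (D ⊓ H).subgroupOf H) = (q'.out : H) :=
          QuotientGroup.eq.2 e3
        simpa using e4
      show Nat.card (↥H ⧸ (D ⊓ H).subgroupOf H) < Nat.card U
      by_contra hcon
      push Not at hcon
      have hs := (hinj.bijective_of_nat_card_le hcon).2
      · obtain ⟨q, hq⟩ := hs 1
        have e1 : (q.out : G) * u * (q.out : G)⁻¹ = 1 := congrArg Subtype.val hq
        apply hu1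
        calc u = (q.out : G)⁻¹ * ((q.out : G) * u * (q.out : G)⁻¹) * (q.out : G) := by group
          _ = 1 := by rw [e1]; group
    have hDA : (D ⊓ H) ≤ H := inf_le_right
    have hDD : (D ⊓ H) ≤ D := inf_le_left
    have e5 := Subgroup.relIndex_mul_index hDA
    have hle : D.index ≤ (D ⊓ H).index :=
      Nat.le_of_dvd (Nat.pos_of_ne_zero Subgroup.index_ne_zero_of_finite)
        (Subgroup.index_dvd_of_le hDD)
    have hipos : 0 < H.index := Nat.pos_of_ne_zero Subgroup.index_ne_zero_of_finite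
    have hlt : D.index < m := by
      rw [← hx, ← hCdef, ← hi]
      calc D.index ≤ (D ⊓ H).index := hle
        _ = (D ⊓ H).relIndex H * H.index := e5.symm
        _ < Nat.card U * H.index := Nat.mul_lt_mul_of_pos_right hJ hipos
        _ ≤ C.relIndex H * H.index := Nat.mul_le_mul_right _ hU
    have hDidx : ¬ 1 < D.index := by
      intro h1
      have := hmin u (by rw [← hDdef]; exact h1)
      rw [← hDdef] at this
      omega
    have hD1 : D.index = 1 := by
      have : D.index ≠ 0 := Subgroup.index_ne_zero_of_finite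
      omega
    rw [Subgroup.index_eq_one, hDdef] at hD1
    rw [Subgroup.mem_center_iff]
    intro g
    have : g ∈ Subgroup.centralizer ({u} : Set G) := by rw [hD1]; trivial
    exact Subgroup.mem_centralizer_singleton_iff.1 this
  apply hcentral
  rw [hUdef]
  exact ⟨⟨a, ha⟩, rfl⟩

/-- The subgroup of elements acting on `A` with central commutators. -/
def TT (A : Subgroup G) [A.Normal] : Subgroup G where
  carrier := {y | ∀ a ∈ A, y * a * y⁻¹ * a⁻¹ ∈ Subgroup.center G}
  one_mem' := by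
    intro a _
    simp
  mul_mem' := by
    intro y z hy hz a ha
    have h1 := hz a ha
    have h2 := hy a ha
    have hc := Subgroup.mem_center_iff.1 h1
    have e : (y * z) * a * (y * z)⁻¹ * a⁻¹ = (z * a * z⁻¹ * a⁻¹) * (y * a * y⁻¹ * a⁻¹) := by
      calc (y * z) * a * (y * z)⁻¹ * a⁻¹
          = y * ((z * a * z⁻¹ * a⁻¹) * a) * y⁻¹ * a⁻¹ := by group
        _ = (y * (z * a * z⁻¹ * a⁻¹)) * a * y⁻¹ * a⁻¹ := by simp only [mul_assoc]
        _ = ((z * a * z⁻¹ * a⁻¹) * y) * a * y⁻¹ * a⁻¹ := by rw [hc y]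
        _ = _ := by simp only [mul_assoc]
    rw [e]
    exact Subgroup.mul_mem _ h1 h2
  inv_mem' := by
    intro y hy a ha
    have hb : y⁻¹ * a * y ∈ A := by
      have := ‹A.Normal›.conj_mem a ha y⁻¹
      simpa using this
    have h1 := hy _ hb
    have e1 : y * (y⁻¹ * a * y) * y⁻¹ * (y⁻¹ * a * y)⁻¹ = a * (y⁻¹ * a * y)⁻¹ := by group
    rw [e1] at h1
    have h2 := Subgroup.inv_mem _ h1
    have hc := Subgroup.mem_center_iff.1 h1
    have e2 : y⁻¹ * a * y⁻¹⁻¹ * a⁻¹ = (a * (y⁻¹ * a * y)⁻¹)⁻¹ := by group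
    rw [e2]
    exact h2

lemma comm_mem_of_TT (A : Subgroup G) [A.Normal]
    (hCA : Subgroup.centralizer (A : Set G) = A) {y z : G} (hy : y ∈ TT A) (hz : z ∈ TT A) :
    y * z * y⁻¹ * z⁻¹ ∈ A := by
  rw [← hCA, Subgroup.mem_centralizer_iff]
  intro a ha
  have ha' : a ∈ A := ha
  have act : ∀ w ∈ TT A, ∀ b ∈ A, w * b * w⁻¹ = (w * b * w⁻¹ * b⁻¹) * b := by
    intro w _ b _
    group
  have key : ∀ b ∈ A, (y * z) * b * (y * z)⁻¹ = (z * y) * b * (z * y)⁻¹ := by
    intro b hb
    have h1 := hz b hb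
    have h2 := hy b hb
    have hc1 := Subgroup.mem_center_iff.1 h1
    have hc2 := Subgroup.mem_center_iff.1 h2
    have e1 : (y * z) * b * (y * z)⁻¹ = (z * b * z⁻¹ * b⁻¹) * ((y * b * y⁻¹ * b⁻¹) * b) := by
      calc (y * z) * b * (y * z)⁻¹ = y * ((z * b * z⁻¹ * b⁻¹) * b) * y⁻¹ := by group
        _ = (y * (z * b * z⁻¹ * b⁻¹)) * b * y⁻¹ := by simp only [mul_assoc]
        _ = ((z * b * z⁻¹ * b⁻¹) * y) * b * y⁻¹ := by rw [hc1 y]
        _ = _ := by group
    have e2 : (z * y) * b * (z * y)⁻¹ = (y * b * y⁻¹ * b⁻¹) * ((z * b * z⁻¹ * b⁻¹) * b) := by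
      calc (z * y) * b * (z * y)⁻¹ = z * ((y * b * y⁻¹ * b⁻¹) * b) * z⁻¹ := by group
        _ = (z * (y * b * y⁻¹ * b⁻¹)) * b * z⁻¹ := by simp only [mul_assoc]
        _ = ((y * b * y⁻¹ * b⁻¹) * z) * b * z⁻¹ := by rw [hc2 z]
        _ = _ := by group
    rw [e1, e2]
    calc (z * b * z⁻¹ * b⁻¹) * ((y * b * y⁻¹ * b⁻¹) * b)
        = ((z * b * z⁻¹ * b⁻¹) * (y * b * y⁻¹ * b⁻¹)) * b := (mul_assoc _ _ _).symm
      _ = ((y * b * y⁻¹ * b⁻¹) * (z * b * z⁻¹ * b⁻¹)) * b := by rw [hc1 (y * b * y⁻¹ * b⁻¹)]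
      _ = _ := mul_assoc _ _ _
  have hb : (z * y)⁻¹ * a * (z * y) ∈ A := by
    have := ‹A.Normal›.conj_mem a ha' (z * y)⁻¹
    simpa using this
  have h3 := key _ hb
  have e3 : (z * y) * ((z * y)⁻¹ * a * (z * y)) * (z * y)⁻¹ = a := by group
  rw [e3] at h3
  calc a * (y * z * y⁻¹ * z⁻¹) = ((y * z) * ((z * y)⁻¹ * a * (z * y)) * (y * z)⁻¹) *
        (y * z * y⁻¹ * z⁻¹) := by rw [h3]
    _ = _ := by group

/-- Main theorem. -/
theorem main_theorem (A : Subgroup G) [A.Normal] (hA : IsMulCommutative A)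
    (hCA : Subgroup.centralizer (A : Set G) = A) (m : ℕ)
    (hmin : ∀ x : G, 1 < (Subgroup.centralizer ({x} : Set G)).index →
      m ≤ (Subgroup.centralizer ({x} : Set G)).index) :
    Subgroup.upperCentralSeries ↥(Subgroup.closure {x : G | (Subgroup.centralizer ({x} : Set G)).index = 1 ∨
      (Subgroup.centralizer ({x} : Set G)).index = m}) 3 = ⊤ := by
  have hA' : ∀ a ∈ A, ∀ b ∈ A, a * b = b * a := by
    intro a ha b hb
    have := hA.is_comm.comm ⟨a, ha⟩ ⟨b, hb⟩
    exact congrArg Subtype.val this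
  obtain ⟨M, hM⟩ : ∃ M, M = Subgroup.closure {x : G | (Subgroup.centralizer ({x} : Set G)).index = 1 ∨
      (Subgroup.centralizer ({x} : Set G)).index = m} := ⟨_, rfl⟩
  rw [← hM]
  have hMT : M ≤ TT A := by
    rw [hM, Subgroup.closure_le]
    rintro x (hx | hx) a ha
    · rw [Subgroup.index_eq_one] at hx
      have hc : ∀ g, g * x = x * g := by
        intro g
        have : g ∈ Subgroup.centralizer ({x} : Set G) := by rw [hx]; trivial
        exact Subgroup.mem_centralizer_singleton_iff.1 this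
      have e : x * a * x⁻¹ * a⁻¹ = 1 := by
        rw [← hc a]
        group
      rw [e]
      exact Subgroup.one_mem _
    · exact comm_central_of_min A hA' hmin hx ha
  have h1 : ∀ w : M, (w : G) ∈ Subgroup.center G → w ∈ Subgroup.upperCentralSeries M 1 := by
    intro w hw
    rw [Subgroup.mem_upperCentralSeries_succ_iff]
    intro y
    have e : ⁅w, y⁆ = 1 := by
      rw [commutatorElement_eq_one_iff_mul_comm]
      apply Subtype.ext
      exact (Subgroup.mem_center_iff.1 hw y).symm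
    rw [e]
    exact Subgroup.one_mem _
  have h2 : ∀ w : M, (w : G) ∈ A → w ∈ Subgroup.upperCentralSeries M 2 := by
    intro w hw
    rw [Subgroup.mem_upperCentralSeries_succ_iff]
    intro y
    apply h1
    have hy := hMT y.2 w hw
    have e : ((⁅w, y⁆ : M) : G) = ((y : G) * w * (y : G)⁻¹ * (w : G)⁻¹)⁻¹ := by
      rw [commutatorElement_def]
      simp only [Subgroup.coe_mul, Subgroup.coe_inv]
      group
    rw [e]
    exact Subgroup.inv_mem _ hy
  rw [eq_top_iff]
  intro w _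
  rw [Subgroup.mem_upperCentralSeries_succ_iff]
  intro y
  apply h2
  have e : ((⁅w, y⁆ : M) : G) = (w : G) * y * (w : G)⁻¹ * (y : G)⁻¹ := by
    rw [commutatorElement_def]
    simp only [Subgroup.coe_mul, Subgroup.coe_inv]
  rw [e]
  exact comm_mem_of_TT A hCA (hMT w.2) (hMT y.2)

end Cfsg.Agent.Lib.ClassSizes.SmallClass
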