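import Cfsg.Agent.Lib.Subnormal.Join
import Mathlib

/-! A refinement of Wielandt's subnormality criterion. -/

set_option autoImplicit false

universe u

namespace Cfsg.Agent.Lib.ClassSizes.SubnormalRefined

open Subgroup
open Cfsg.Agent.Lib.Subnormal
open Cfsg.Agent.Lib.FF (mem_conj_iff conj_mul_conj conj_one' conj_mono conj_eq_of_mem
  mem_normalizer_iff_conj normal_conj_eq card_conj)

/-- **Refined criterion**: only conjugates by conjugates of elements of `A` are needed. -/
theorem sn_top_of_sn_join_conj {G : Type u} [Group G] [Finite G] (A : Subgroup G)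
    (h : ∀ a ∈ A, ∀ g : G, SN (A ⊔ A.map (MulAut.conj (g * a * g⁻¹)).toMonoidHom) A) : SN ⊤ A := by
  classical
  induction hc : Nat.card G using Nat.strong_induction_on generalizing G with
  | _ c ih =>
  by_contra hA
  have W : JoinBelow G := fun Z _ A B hA hB => sn_sup hA hB
  have hAtop : A ≠ ⊤ := by
    intro h
    rw [h] at hA
    exact hA SN.refl
  have hCand : Cand A := by
    refine ⟨hA, fun X hX hXtop => ?_⟩
    have hlt : Nat.card X < c := by
      rw [← hc]
      have := Set.ncard_lt_ncard (s := (X : Set G)) (t := Set.univ)
        (by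
          rw [Set.ssubset_univ_iff]
          intro h
          exact hXtop (by ext x; exact Set.ext_iff.mp h x))
        (Set.toFinite _)
      rw [Set.ncard_univ] at this
      rwa [← Nat.card_coe_set_eq] at this
    have h1 := ih _ hlt (A.subgroupOf X) (fun a' ha' g' => ?_) rfl
    · exact sn_of_subgroupOf hX (isSubnormal_of_sn_top h1)
    · set y : X := g' * a' * g'⁻¹ with hy
      have h2 := (h (a' : G) ha' (g' : G)).comap X.subtype
      have hy' : ((g' : G) * (a' : G) * (g' : G)⁻¹) = (y : G) := by simp [hy]
      rw [hy'] at h2
      have h3 : (A ⊔ A.map (MulAut.conj (y : G)).toMonoidHom).comap X.subtype =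
          A.subgroupOf X ⊔ (A.subgroupOf X).map (MulAut.conj y).toMonoidHom := by
        apply Subgroup.map_injective X.subtype_injective
        rw [Subgroup.map_comap_eq_self (by
            rw [Subgroup.range_subtype]
            refine sup_le hX ?_
            have := conj_mono (y : G) hX
            rwa [conj_eq_of_mem y.2] at this),
          Subgroup.map_sup]
        congr 1
        · exact (Subgroup.map_subgroupOf_eq_of_le hX).symm
        · ext x
          rw [mem_conj_iff]
          constructor
          · intro hx
            have hxX : x ∈ X := by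
              have h5 := X.mul_mem (X.mul_mem y.2 (hX hx)) (X.inv_mem y.2)
              simpa [mul_assoc] using h5
            refine ⟨⟨x, hxX⟩, ?_, rfl⟩
            show (⟨x, hxX⟩ : X) ∈ (A.subgroupOf X).map (MulAut.conj y).toMonoidHom
            rw [mem_conj_iff]
            exact hx
          · rintro ⟨w, hw, rfl⟩
            have hw' : w ∈ (A.subgroupOf X).map (MulAut.conj y).toMonoidHom := hw
            rw [mem_conj_iff] at hw'
            exact hw'
      rwa [h3] at h2
  obtain h0 | ⟨M, hM, hAM⟩ := eq_top_or_exists_le_coatom A
  · exact hAtop h0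
  -- the conjugates by conjugates of elements of `A` lie in `M`
  have hconj : ∀ a ∈ A, ∀ g : G, A.map (MulAut.conj (g * a * g⁻¹)).toMonoidHom ≤ M := by
    intro a ha g
    by_cases hJ : A ⊔ A.map (MulAut.conj (g * a * g⁻¹)).toMonoidHom = ⊤
    · exfalso
      have := h a ha g
      rw [hJ] at this
      exact hA this
    · obtain h0 | ⟨Q, hQ, hJQ⟩ := eq_top_or_exists_le_coatom (A ⊔ A.map (MulAut.conj (g * a * g⁻¹)).toMonoidHom)
      · exact absurd h0 hJ
      have : Q = M := zipper W _ hCand hQ hM (le_sup_left.trans hJQ) hAM
      rw [← this]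
      exact le_sup_right.trans hJQ
  -- these conjugating elements normalize `M`
  have hnorm : ∀ a ∈ A, ∀ g : G, g * a * g⁻¹ ∈ normalizer (M : Set G) := by
    intro a ha g
    set y := g * a * g⁻¹ with hy
    rw [mem_normalizer_iff_conj]
    have hco : IsCoatom (M.map (MulAut.conj y).toMonoidHom) := by
      refine ⟨?_, ?_⟩
      · intro h0
        apply hM.1
        have := congrArg (Subgroup.map (MulAut.conj y⁻¹).toMonoidHom) h0
        rwa [conj_conj_inv, conj_top'] at this
      · intro L hL
        have h1 : M < L.map (MulAut.conj y⁻¹).toMonoidHom := by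
          refine lt_of_le_of_ne ?_ ?_
          · have := conj_mono y⁻¹ hL.le
            rwa [conj_conj_inv] at this
          · intro h2
            apply hL.ne
            rw [h2, conj_inv_conj]
        have h3 := hM.2 _ h1
        have := congrArg (Subgroup.map (MulAut.conj y).toMonoidHom) h3
        rwa [conj_inv_conj, conj_top'] at this
    exact zipper W _ (hCand.conj y) hco hM (conj_mono y hAM) (hconj a ha g)
  have hNtop : normalClosure (A : Set G) ≠ ⊤ := by
    intro h0
    -- `M` would be normal
    have hle : normalClosure (A : Set G) ≤ normalizer (M : Set G) := by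
      apply Subgroup.closure_le _ |>.mpr
      intro x hx
      rw [Group.mem_conjugatesOfSet_iff] at hx
      obtain ⟨a, ha, hax⟩ := hx
      obtain ⟨c, rfl⟩ := isConj_iff.mp hax
      exact hnorm a ha c
    rw [h0] at hle
    have hMn : M.Normal := normalizer_eq_top_iff.mp (top_le_iff.mp hle)
    have hNM : normalClosure (A : Set G) ≤ M := normalClosure_le_normal hAM
    rw [h0] at hNM
    exact hM.1 (top_le_iff.mp hNM)
  have hN1 : SN (normalClosure (A : Set G)) A :=
    hCand.sn _ subset_normalClosure hNtop
  have hNn : (normalClosure (A : Set G)).Normal := normalClosure_normal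
  have hN2 : SN ⊤ (normalClosure (A : Set G)) :=
    SN.of_normal le_top (top_le_iff.mpr (normalizer_eq_top_iff.mpr hNn))
  exact hA (hN2.trans hN1)

end Cfsg.Agent.Lib.ClassSizes.SubnormalRefined
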