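import Mathlib
import Cfsg.Agent.Lib.Char.Burnside

/-!
# Three transpositions generate a solvable group
-/

namespace Cfsg.Agent.Lib.ClassSizes.SwapSolv

open Equiv

/-- Permutations supported on a finite set. -/
abbrev P {α : Type*} [DecidableEq α] (T : Finset α) : Subgroup (Perm α) :=
  (Perm.ofSubtype : Perm {z // z ∈ T} →* Perm α).range

theorem swap_mem_P {α : Type*} [DecidableEq α] {T : Finset α} {x y : α} (hx : x ∈ T) (hy : y ∈ T) :
    swap x y ∈ P T := by
  have h1 : ∀ z, swap x y z ∈ T ↔ z ∈ T := by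
    intro z
    by_cases h1 : z = x
    · subst h1; simp [hx, hy]
    · by_cases h2 : z = y
      · subst h2; simp [hx, hy]
      · rw [swap_apply_of_ne_of_ne h1 h2]
  have h2 : ∀ z, swap x y z ≠ z → z ∈ T := by
    intro z hz
    by_contra hzT
    apply hz
    apply swap_apply_of_ne_of_ne
    · rintro rfl; exact hzT hx
    · rintro rfl; exact hzT hy
  exact ⟨Perm.subtypePerm (swap x y) h1, Perm.ofSubtype_subtypePerm h1 h2⟩

theorem P_apply_of_not_mem {α : Type*} [DecidableEq α] {T : Finset α} {σ : Perm α} (hσ : σ ∈ P T)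
    {x : α} (hx : x ∉ T) : σ x = x := by
  obtain ⟨s, rfl⟩ := hσ
  exact Perm.ofSubtype_apply_of_not_mem s hx

theorem isSolvable_perm_of_card_le_four {X : Type*} [Finite X] (h : Nat.card X ≤ 4) :
    Group.IsSolvable (Perm X) := by
  classical
  haveI := Fintype.ofFinite X
  have hc : Nat.card (Perm X) = (Nat.card X).factorial := by
    rw [Nat.card_eq_fintype_card, Fintype.card_perm, Nat.card_eq_fintype_card]
  have : ∃ a b : ℕ, (Nat.card X).factorial = 2 ^ a * 3 ^ b := by
    generalize Nat.card X = k at h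
    interval_cases k
    · exact ⟨0, 0, rfl⟩
    · exact ⟨0, 0, rfl⟩
    · exact ⟨1, 0, rfl⟩
    · exact ⟨1, 1, rfl⟩
    · exact ⟨3, 1, rfl⟩
  obtain ⟨a, b, hab⟩ := this
  exact Lib.Char.isSolvable_of_card (G := Perm X) 2 3 a b Nat.prime_two Nat.prime_three
    (hc.trans hab)

theorem isSolvable_P {α : Type*} [DecidableEq α] {T : Finset α} (hT : T.card ≤ 4) :
    Group.IsSolvable (P T) := by
  haveI : Group.IsSolvable (Perm {z // z ∈ T}) :=
    isSolvable_perm_of_card_le_four (by simpa using hT)
  exact solvable_of_surjective (f := (Perm.ofSubtype : Perm {z // z ∈ T} →* Perm α).rangeRestrict)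
    (MonoidHom.rangeRestrict_surjective _)

theorem commute_P {α : Type*} [DecidableEq α] {T T' : Finset α} (h : Disjoint T T')
    {σ τ : Perm α} (hσ : σ ∈ P T) (hτ : τ ∈ P T') : Commute σ τ := by
  apply Perm.Disjoint.commute
  intro x
  by_cases hx : x ∈ T
  · right
    exact P_apply_of_not_mem hτ (Finset.disjoint_left.mp h hx)
  · left
    exact P_apply_of_not_mem hσ hx

/-- The join of commuting solvable subgroups is solvable. -/
theorem isSolvable_sup_of_commute {G : Type*} [Group G] {A B : Subgroup G} [Group.IsSolvable A]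
    [Group.IsSolvable B] (h : ∀ x ∈ A, ∀ y ∈ B, Commute x y) : Group.IsSolvable (A ⊔ B : Subgroup G) := by
  have hc : ∀ (m : A) (n : B), Commute (A.subtype m) (B.subtype n) := fun m n => h m m.2 n n.2
  have hr : (MonoidHom.noncommCoprod A.subtype B.subtype hc).range = A ⊔ B := by
    rw [MonoidHom.noncommCoprod_range, Subgroup.range_subtype, Subgroup.range_subtype]
  rw [← hr]
  exact solvable_of_surjective
    (f := (MonoidHom.noncommCoprod A.subtype B.subtype hc).rangeRestrict)
    (MonoidHom.rangeRestrict_surjective _)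

theorem isSolvable_of_le {G : Type*} [Group G] {A B : Subgroup G} (h : A ≤ B) [Group.IsSolvable B] :
    Group.IsSolvable A :=
  solvable_of_solvable_injective (Subgroup.inclusion_injective h)

/-- Three swaps generate a solvable subgroup, first version. -/
theorem three_swaps {α : Type*} [DecidableEq α] (a1 a2 b1 b2 c1 c2 : α) :
    Group.IsSolvable (Subgroup.closure ({swap a1 a2, swap b1 b2, swap c1 c2} : Set (Perm α))) := by
  let Ta : Finset α := {a1, a2}
  let Tb : Finset α := {b1, b2}
  let Tc : Finset α := {c1, c2}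
  have ha : Ta.card ≤ 2 := Finset.card_le_two
  have hb : Tb.card ≤ 2 := Finset.card_le_two
  have hc : Tc.card ≤ 2 := Finset.card_le_two
  have mema : swap a1 a2 ∈ P Ta := swap_mem_P (by simp [Ta]) (by simp [Ta])
  have memb : swap b1 b2 ∈ P Tb := swap_mem_P (by simp [Tb]) (by simp [Tb])
  have memc : swap c1 c2 ∈ P Tc := swap_mem_P (by simp [Tc]) (by simp [Tc])
  have mono : ∀ {S T : Finset α}, S ⊆ T → P S ≤ P T := by
    intro S T hST σ hσ
    obtain ⟨s, rfl⟩ := hσ
    have h1 : ∀ z, (Perm.ofSubtype s) z ∈ T ↔ z ∈ T := by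
      intro z
      by_cases hz : z ∈ S
      · rw [Perm.ofSubtype_apply_of_mem s hz]
        simp only [hST hz, iff_true]
        exact hST (s ⟨z, hz⟩).2
      · rw [Perm.ofSubtype_apply_of_not_mem s hz]
    have h2 : ∀ z, (Perm.ofSubtype s) z ≠ z → z ∈ T := by
      intro z hz
      by_contra hzT
      exact hz (Perm.ofSubtype_apply_of_not_mem s (fun h => hzT (hST h)))
    exact ⟨Perm.subtypePerm _ h1, Perm.ofSubtype_subtypePerm h1 h2⟩
  -- one swap disjoint from the two others
  have key : ∀ (S S' : Finset α) (x y z : Perm α), x ∈ P S → y ∈ P S → z ∈ P S' →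
      S.card ≤ 4 → S'.card ≤ 4 → Disjoint S S' → ∀ s : Set (Perm α), s ⊆ {x, y, z} →
      Group.IsSolvable (Subgroup.closure s) := by
    intro S S' x y z hx hy hz hS hS' hd s hs
    haveI := isSolvable_P hS
    haveI := isSolvable_P hS'
    haveI := isSolvable_sup_of_commute (A := P S) (B := P S')
      (fun _ h1 _ h2 => commute_P hd h1 h2)
    refine isSolvable_of_le (B := (P S ⊔ P S' : Subgroup (Perm α))) ?_
    rw [Subgroup.closure_le]
    refine hs.trans ?_
    rintro w (rfl | rfl | rfl)
    · exact (le_sup_left : P S ≤ P S ⊔ P S') hx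
    · exact (le_sup_left : P S ≤ P S ⊔ P S') hy
    · exact (le_sup_right : P S' ≤ P S ⊔ P S') hz
  by_cases h1 : Disjoint (Ta ∪ Tb) Tc
  · exact key (Ta ∪ Tb) Tc _ _ _ (mono Finset.subset_union_left mema)
      (mono Finset.subset_union_right memb) memc
      ((Finset.card_union_le _ _).trans (by omega)) (by omega) h1 _ subset_rfl
  by_cases h2 : Disjoint (Ta ∪ Tc) Tb
  · exact key (Ta ∪ Tc) Tb (swap a1 a2) (swap c1 c2) (swap b1 b2)
      (mono Finset.subset_union_left mema)
      (mono Finset.subset_union_right memc) memb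
      ((Finset.card_union_le _ _).trans (by omega)) (by omega) h2 _ (by
        rintro w (rfl | rfl | rfl) <;> simp)
  by_cases h3 : Disjoint (Tb ∪ Tc) Ta
  · exact key (Tb ∪ Tc) Ta (swap b1 b2) (swap c1 c2) (swap a1 a2)
      (mono Finset.subset_union_left memb)
      (mono Finset.subset_union_right memc) mema
      ((Finset.card_union_le _ _).trans (by omega)) (by omega) h3 _ (by
        rintro w (rfl | rfl | rfl) <;> simp)
  -- all three swaps live on at most four points
  have hcard : (Ta ∪ Tb ∪ Tc).card ≤ 4 := by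
    rw [Finset.not_disjoint_iff] at h1 h2 h3
    obtain ⟨x1, hx1, hx1'⟩ := h1
    obtain ⟨x2, hx2, hx2'⟩ := h2
    obtain ⟨x3, hx3, hx3'⟩ := h3
    have e1 := Finset.card_union_add_card_inter (Ta ∪ Tb) Tc
    have e2 : 0 < ((Ta ∪ Tb) ∩ Tc).card :=
      Finset.card_pos.mpr ⟨x1, Finset.mem_inter.mpr ⟨hx1, hx1'⟩⟩
    -- one of the pairs among the first two meet
    rcases Finset.mem_union.mp hx1 with h | h
    · -- `Ta` meets `Tc`
      rcases Finset.mem_union.mp hx2 with h' | h'
      · -- `Ta` meets `Tb`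
        have e3 := Finset.card_union_add_card_inter Ta Tb
        have e4 : 0 < (Ta ∩ Tb).card := Finset.card_pos.mpr ⟨x2, Finset.mem_inter.mpr ⟨h', hx2'⟩⟩
        omega
      · -- `Tc` meets `Tb`; then `Ta ∪ Tc` has at most three points
        rcases Finset.mem_union.mp hx3 with h'' | h''
        · have e3 := Finset.card_union_add_card_inter Ta Tb
          have e4 : 0 < (Ta ∩ Tb).card :=
            Finset.card_pos.mpr ⟨x3, Finset.mem_inter.mpr ⟨hx3', h''⟩⟩
          omega
        · have e3 := Finset.card_union_add_card_inter Ta Tc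
          have e4 : 0 < (Ta ∩ Tc).card := Finset.card_pos.mpr ⟨x1, Finset.mem_inter.mpr ⟨h, hx1'⟩⟩
          have e5 : Ta ∪ Tb ∪ Tc = (Ta ∪ Tc) ∪ Tb := by
            ext w; simp only [Finset.mem_union]; tauto
          have e6 := Finset.card_union_add_card_inter (Ta ∪ Tc) Tb
          have e7 : 0 < ((Ta ∪ Tc) ∩ Tb).card :=
            Finset.card_pos.mpr ⟨x2, Finset.mem_inter.mpr ⟨hx2, hx2'⟩⟩
          rw [e5]
          omega
    · -- `Tb` meets `Tc`
      rcases Finset.mem_union.mp hx3 with h'' | h''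
      · -- `Tb` meets `Ta`
        have e3 := Finset.card_union_add_card_inter Ta Tb
        have e4 : 0 < (Ta ∩ Tb).card :=
          Finset.card_pos.mpr ⟨x3, Finset.mem_inter.mpr ⟨hx3', h''⟩⟩
        omega
      · -- `Tc` meets `Ta`
        have e3 := Finset.card_union_add_card_inter Tb Tc
        have e4 : 0 < (Tb ∩ Tc).card := Finset.card_pos.mpr ⟨x1, Finset.mem_inter.mpr ⟨h, hx1'⟩⟩
        have e5 : Ta ∪ Tb ∪ Tc = (Tb ∪ Tc) ∪ Ta := by
          ext w; simp only [Finset.mem_union]; tauto
        have e6 := Finset.card_union_add_card_inter (Tb ∪ Tc) Ta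
        have e7 : 0 < ((Tb ∪ Tc) ∩ Ta).card :=
          Finset.card_pos.mpr ⟨x3, Finset.mem_inter.mpr ⟨hx3, hx3'⟩⟩
        rw [e5]
        omega
  haveI := isSolvable_P hcard
  refine isSolvable_of_le (B := P (Ta ∪ Tb ∪ Tc)) ?_
  rw [Subgroup.closure_le]
  rintro w (rfl | rfl | rfl)
  · exact mono (Finset.subset_union_left.trans Finset.subset_union_left) mema
  · exact mono (Finset.subset_union_right.trans Finset.subset_union_left) memb
  · exact mono Finset.subset_union_right memc

end Cfsg.Agent.Lib.ClassSizes.SwapSolv
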