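import Mathlib
import Cfsg.Agent.Lib.ClassSizes.Basic
import Cfsg.Agent.Lib.Hall.CoprimeLemmas
import Cfsg.Agent.Lib.Hall.CoprimeSylow
import Cfsg.Agent.Lib.Perm.Basic

/-!
# Sylow numbers and normal subgroups
-/

namespace Cfsg.Agent.Lib.ClassSizes.SylowFactor

open Subgroup
open scoped Pointwise

universe u

section General

variable {G : Type*} [Group G] [Finite G] {p : ℕ} [hp : Fact p.Prime]

/-- `P ∩ K` is a Sylow subgroup of the normal subgroup `K`. -/
noncomputable def sylowInf (P : Sylow p G) (K : Subgroup G) [K.Normal] : Sylow p K :=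
  IsPGroup.toSylow (P := ((P : Subgroup G) ⊓ K).subgroupOf K)
    ((P.isPGroup'.to_le inf_le_left).comap_of_injective K.subtype K.subtype_injective)
    (by
      intro h
      have h1 : ((P : Subgroup G) ⊓ K).relIndex K ∣ (P : Subgroup G).index := by
        rw [Subgroup.inf_relIndex_right]
        exact relIndex_dvd_index_of_normal_right _ _
      exact P.not_dvd_index (h.trans h1))

@[simp] theorem coe_sylowInf (P : Sylow p G) (K : Subgroup G) [K.Normal] :
    (sylowInf P K : Subgroup K) = ((P : Subgroup G) ⊓ K).subgroupOf K :=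
  IsPGroup.toSylow_coe _ _

/-- Membership in the normalizer inside a subgroup. -/
theorem mem_normalizer_map_iff (H : Subgroup G) (R : Subgroup H) (x : H) :
    (x : G) ∈ normalizer ((R.map H.subtype : Subgroup G) : Set G) ↔
      x ∈ normalizer ((R : Subgroup H) : Set H) := by
  constructor
  · intro hx
    rw [Subgroup.mem_normalizer_iff]
    intro h
    have h1 := (Subgroup.mem_normalizer_iff.mp hx) (h : G)
    have e1 : (h : G) ∈ R.map H.subtype ↔ h ∈ R :=
      Subgroup.mem_map_iff_mem H.subtype_injective
    have e2 : (x : G) * (h : G) * (x : G)⁻¹ ∈ R.map H.subtype ↔ x * h * x⁻¹ ∈ R :=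
      Subgroup.mem_map_iff_mem (f := H.subtype) (x := x * h * x⁻¹) H.subtype_injective
    rw [e1, e2] at h1
    exact h1
  · intro hx
    apply Lib.Hall.mem_normalizer_of_conj_le
    rintro a ⟨b, hb, rfl⟩
    have h1 := (Subgroup.mem_normalizer_iff.mp hx b).mp hb
    exact ⟨x * b * x⁻¹, h1, rfl⟩

/-- The Sylow number of a subgroup as a relative index. -/
theorem card_sylow_subtype (H : Subgroup G) (R : Sylow p H) :
    Nat.card (Sylow p H) = (normalizer (((R : Subgroup H).map H.subtype : Subgroup G) : Set G)).relIndex H := by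
  rw [Sylow.card_eq_index_normalizer R]
  congr 1
  ext x
  exact (mem_normalizer_map_iff H R x).symm

/-- `n_p(G) = n_p(G/K) · |K : N_K(P)|`. -/
theorem card_sylow_eq_quotient_mul (K : Subgroup G) [K.Normal] (P : Sylow p G) :
    Nat.card (Sylow p G) =
      Nat.card (Sylow p (G ⧸ K)) * (normalizer ((P : Subgroup G) : Set G)).relIndex K := by
  classical
  let π := QuotientGroup.mk' K
  have hπ : Function.Surjective π := QuotientGroup.mk'_surjective K
  let Pb : Sylow p (G ⧸ K) := P.mapSurjective hπ
  have hPb : (Pb : Subgroup (G ⧸ K)) = (P : Subgroup G).map π := rfl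
  let L : Subgroup G := (normalizer ((Pb : Subgroup (G ⧸ K)) : Set (G ⧸ K))).comap π
  have hLidx : L.index = Nat.card (Sylow p (G ⧸ K)) := by
    rw [Sylow.card_eq_index_normalizer Pb]
    exact Subgroup.index_comap_of_surjective _ hπ
  have hNL : normalizer ((P : Subgroup G) : Set G) ≤ L := by
    intro g hg
    show π g ∈ normalizer ((Pb : Subgroup (G ⧸ K)) : Set (G ⧸ K))
    rw [hPb]
    exact Subgroup.le_normalizer_map π (Subgroup.mem_map_of_mem π hg)
  have hKL : K ≤ L := by
    intro k hk
    show π k ∈ normalizer ((Pb : Subgroup (G ⧸ K)) : Set (G ⧸ K))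
    have : π k = 1 := (QuotientGroup.eq_one_iff k).mpr hk
    rw [this]
    exact one_mem _
  have hL : L ≤ normalizer ((P : Subgroup G) : Set G) ⊔ K := by
    intro g hg
    have hg' : π g ∈ normalizer (((P : Subgroup G).map π : Subgroup (G ⧸ K)) : Set (G ⧸ K)) := hg
    -- `g • P` lies in `P ⊔ K`
    have hQ : ((g • P : Sylow p G) : Subgroup G) ≤ (P : Subgroup G) ⊔ K := by
      intro y hy'
      have hy : g⁻¹ * y * g ∈ P := (mem_sylow_smul_iff (P := P)).mp hy'
      have h1 : π (g⁻¹ * y * g) ∈ (P : Subgroup G).map π := Subgroup.mem_map_of_mem π hy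
      have h2 : π g * π (g⁻¹ * y * g) * (π g)⁻¹ ∈ (P : Subgroup G).map π :=
        (Subgroup.mem_normalizer_iff.mp hg' _).mp h1
      have h3 : π y ∈ (P : Subgroup G).map π := by
        have : π g * π (g⁻¹ * y * g) * (π g)⁻¹ = π y := by
          simp only [map_mul, map_inv]; group
        rwa [this] at h2
      obtain ⟨a, ha, hay⟩ := h3
      have h4 : a⁻¹ * y ∈ K := by
        rw [← QuotientGroup.eq_one_iff]
        change π (a⁻¹ * y) = 1
        rw [map_mul, map_inv, hay, inv_mul_cancel]
      have : y = a * (a⁻¹ * y) := by group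
      rw [this]
      exact Subgroup.mul_mem_sup ha h4
    let T : Subgroup G := (P : Subgroup G) ⊔ K
    have hPT : (P : Subgroup G) ≤ T := le_sup_left
    obtain ⟨t, ht⟩ := MulAction.exists_smul_eq T ((g • P : Sylow p G).subtype hQ) (P.subtype hPT)
    have ht' : (t : G) ∈ (P : Subgroup G) ⊔ K := t.2
    have ht2 : ((t : G)) ∈ ((P : Subgroup G) : Set G) * (K : Set G) := by
      rw [← Subgroup.mul_normal]
      exact ht'
    obtain ⟨a, ha, k, hk, hak⟩ := Set.mem_mul.mp ht2
    -- `k * g` normalizes `P`
    have hkg : k * g ∈ normalizer ((P : Subgroup G) : Set G) := by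
      apply Lib.Hall.mem_normalizer_of_conj_le
      intro x hx
      have h1 : g * x * g⁻¹ ∈ (g • P : Sylow p G) := by
        rw [mem_sylow_smul_iff]
        have : g⁻¹ * (g * x * g⁻¹) * g = x := by group
        rwa [this]
      have h2 : (⟨g * x * g⁻¹, hQ h1⟩ : T) ∈ (g • P : Sylow p G).subtype hQ := h1
      have h3 : t * ⟨g * x * g⁻¹, hQ h1⟩ * t⁻¹ ∈ P.subtype hPT := by
        rw [← ht]
        rw [mem_sylow_smul_iff]
        have : t⁻¹ * (t * ⟨g * x * g⁻¹, hQ h1⟩ * t⁻¹) * t = ⟨g * x * g⁻¹, hQ h1⟩ := by group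
        rwa [this]
      have h4 : (t : G) * (g * x * g⁻¹) * (t : G)⁻¹ ∈ (P : Subgroup G) := h3
      rw [← hak] at h4
      have h5 : a⁻¹ * (a * k * (g * x * g⁻¹) * (a * k)⁻¹) * a ∈ (P : Subgroup G) :=
        mul_mem (mul_mem (inv_mem ha) h4) ha
      have h6 : a⁻¹ * (a * k * (g * x * g⁻¹) * (a * k)⁻¹) * a = k * g * x * (k * g)⁻¹ := by group
      rwa [h6] at h5
    have : g = k⁻¹ * (k * g) := by group
    rw [this, sup_comm]
    exact Subgroup.mul_mem_sup (inv_mem hk) hkg
  have hLeq : L = normalizer ((P : Subgroup G) : Set G) ⊔ K := le_antisymm hL (sup_le hNL hKL)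
  have h1 : Nat.card (Sylow p G) = (normalizer ((P : Subgroup G) : Set G)).index :=
    Sylow.card_eq_index_normalizer P
  rw [h1, ← hLidx, ← Subgroup.relIndex_mul_index hNL, mul_comm,
    relIndex_eq_relIndex_sup (normalizer ((P : Subgroup G) : Set G)) K, hLeq]

/-- The product formula for Sylow numbers. -/
theorem card_sylow_factor (K : Subgroup G) [K.Normal] (P : Sylow p G) (N : Subgroup G)
    (hN : N = ((P : Subgroup G) ⊔ K) ⊓ Subgroup.normalizer (((P : Subgroup G) ⊓ K : Subgroup G) : Set G))
    [hn : (((P : Subgroup G) ⊓ K).subgroupOf N).Normal] :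
    Nat.card (Sylow p G) =
      Nat.card (Sylow p (G ⧸ K)) * Nat.card (Sylow p K) *
        Nat.card (Sylow p (N ⧸ ((P : Subgroup G) ⊓ K).subgroupOf N)) := by
  classical
  set D : Subgroup G := (P : Subgroup G) ⊓ K with hD
  have hPnD : (P : Subgroup G) ≤ normalizer (D : Set G) := by
    intro a ha
    apply Lib.Hall.mem_normalizer_of_conj_le
    intro x hx
    exact ⟨(P : Subgroup G).mul_mem ((P : Subgroup G).mul_mem ha hx.1) ((P : Subgroup G).inv_mem ha), (inferInstance : K.Normal).conj_mem x hx.2 a⟩
  have hPN : (P : Subgroup G) ≤ N := by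
    rw [hN]
    exact le_inf le_sup_left hPnD
  have hDN : D ≤ N := inf_le_left.trans hPN
  set NP : Subgroup G := normalizer ((P : Subgroup G) : Set G) with hNP
  set ND : Subgroup G := normalizer (D : Set G) with hND
  set M : Subgroup G := K ⊓ ND with hM
  have hNPK : NP ⊓ K ≤ ND := by
    intro a ha
    apply Lib.Hall.mem_normalizer_of_conj_le
    intro x hx
    exact ⟨(Subgroup.mem_normalizer_iff.mp ha.1 x).mp hx.1,
      (inferInstance : K.Normal).conj_mem x hx.2 a⟩
  -- reduction of the first factor
  have h1 := card_sylow_eq_quotient_mul K P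
  -- the Sylow number of `K`
  have h2 : Nat.card (Sylow p K) = ND.relIndex K := by
    rw [card_sylow_subtype K (sylowInf P K), coe_sylowInf, Subgroup.subgroupOf_map_subtype,
      inf_of_le_left inf_le_right]
  -- chain of indices in `K`
  have h3 : NP.relIndex K = NP.relIndex M * ND.relIndex K := by
    have e1 : NP.relIndex K = (NP ⊓ K).relIndex K := (Subgroup.inf_relIndex_right _ _).symm
    have e2 : ND.relIndex K = M.relIndex K := by
      rw [hM, inf_comm, Subgroup.inf_relIndex_right]
    have e3 : NP.relIndex M = (NP ⊓ K).relIndex M := by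
      rw [← Subgroup.inf_relIndex_right NP M, ← Subgroup.inf_relIndex_right (NP ⊓ K) M]
      congr 1
      rw [inf_assoc, inf_eq_right.mpr (inf_le_left : M ≤ K)]
    rw [e1, e2, e3]
    exact (Subgroup.relIndex_mul_relIndex _ _ _ (le_inf inf_le_right hNPK) inf_le_left).symm
  -- the third factor
  let P' : Sylow p N := P.subtype hPN
  have hP' : ((P' : Subgroup N).map N.subtype : Subgroup G) = P := by
    show ((P : Subgroup G).subgroupOf N).map N.subtype = P
    rw [Subgroup.subgroupOf_map_subtype, inf_of_le_left hPN]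
  have h4 := card_sylow_eq_quotient_mul (G := N) (D.subgroupOf N) P'
  have h5 : (normalizer ((P' : Subgroup N) : Set N)).relIndex (D.subgroupOf N) = 1 := by
    rw [Subgroup.relIndex_eq_one]
    intro x hx
    apply Subgroup.le_normalizer
    exact (hx : (x : G) ∈ D).1
  rw [h5, mul_one] at h4
  have h6 : Nat.card (Sylow p N) = NP.relIndex N := by
    rw [card_sylow_subtype N P', hP']
  -- comparing indices in `N`
  have hMN : M ≤ N := by
    intro x hx
    rw [hN]
    exact ⟨(le_sup_right : K ≤ (P : Subgroup G) ⊔ K) hx.1, hx.2⟩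
  have hMn : (M.subgroupOf N).Normal := by
    rw [Subgroup.normal_subgroupOf_iff hMN]
    intro x y hx hy
    have hyD : y ∈ ND := by
      rw [hN] at hy
      exact hy.2
    refine ⟨(inferInstance : K.Normal).conj_mem x hx.1 y, ?_⟩
    exact ND.mul_mem (ND.mul_mem hyD hx.2) (ND.inv_mem hyD)
  have h7 : NP.relIndex N = NP.relIndex M := by
    have e1 : (NP.subgroupOf N).relIndex (M.subgroupOf N) = NP.relIndex M := by
      have : (NP.subgroupOf N).relIndex (M.subgroupOf N) =
          NP.relIndex ((M.subgroupOf N).map N.subtype) := Subgroup.relIndex_comap _ _ _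
      rw [this, Subgroup.subgroupOf_map_subtype, inf_of_le_left hMN]
    have e2 : NP.subgroupOf N ⊔ M.subgroupOf N = ⊤ := by
      rw [eq_top_iff]
      rintro ⟨x, hx⟩ -
      have hx' := hx
      rw [hN] at hx'
      have h8 : x ∈ ((P : Subgroup G) : Set G) * (K : Set G) := by
        rw [← Subgroup.mul_normal]
        exact hx'.1
      obtain ⟨a, ha, k, hk, hak⟩ := Set.mem_mul.mp h8
      have hkD : k ∈ ND := by
        have : k = a⁻¹ * x := by rw [← hak]; group
        rw [this]
        exact mul_mem (inv_mem (hPnD ha)) hx'.2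
      have e3 : (⟨x, hx⟩ : N) = ⟨a, hPN ha⟩ * ⟨k, hMN ⟨hk, hkD⟩⟩ := Subtype.ext hak.symm
      rw [e3]
      exact Subgroup.mul_mem_sup (show (a : G) ∈ NP from Subgroup.le_normalizer ha) ⟨hk, hkD⟩
    haveI := hMn
    have e4 := relIndex_eq_relIndex_sup (NP.subgroupOf N) (M.subgroupOf N)
    rw [e2, Subgroup.relIndex_top_right] at e4
    rw [← e1, e4]
    rfl
  rw [h1, h3, ← h4, h6, h7, h2]
  ring

/-- Fixed points of a `p`-subgroup acting on a subgroup by conjugation. -/
theorem card_modEq_card_inf_centralizer {A R : Subgroup G} (hA : IsPGroup p A)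
    (hR : A ≤ normalizer (R : Set G)) :
    Nat.card R ≡ Nat.card (R ⊓ centralizer (A : Set G) : Subgroup G) [MOD p] := by
  let A' : Subgroup (ConjAct G) := A.map (ConjAct.toConjAct : G ≃* ConjAct G).toMonoidHom
  have hA' : IsPGroup p A' := hA.map _
  have hact : ∀ (a x : G), (ConjAct.toConjAct a) • x = a * x * a⁻¹ := fun a x =>
    ConjAct.toConjAct_smul a x
  have h := Lib.Perm.ncard_modEq_ncard_inter_fixedPoints (Γ := ConjAct G) (α := G) A' hA' (R : Set G)
    (fun g hg x hx => by
      obtain ⟨a, ha, rfl⟩ := hg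
      change ConjAct.toConjAct a • x ∈ R
      rw [hact]
      exact (Subgroup.mem_normalizer_iff.mp (hR ha) x).mp hx)
  have e : (R : Set G) ∩ MulAction.fixedPoints A' G = ((R ⊓ centralizer (A : Set G) : Subgroup G) : Set G) := by
    ext x
    simp only [Set.mem_inter_iff, SetLike.mem_coe, MulAction.mem_fixedPoints, Subgroup.coe_inf,
      Subgroup.mem_centralizer_iff]
    constructor
    · rintro ⟨h1, h2⟩
      refine ⟨h1, fun a ha => ?_⟩
      have h3 := h2 ⟨ConjAct.toConjAct a, Subgroup.mem_map_of_mem _ ha⟩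
      have h4 : (⟨ConjAct.toConjAct a, Subgroup.mem_map_of_mem _ ha⟩ : A') • x = a * x * a⁻¹ :=
        hact a x
      rw [h4] at h3
      have h5 : a * x = (a * x * a⁻¹) * a := by group
      rw [h5, h3]
    · rintro ⟨h1, h2⟩
      refine ⟨h1, ?_⟩
      rintro ⟨g, a, ha, rfl⟩
      have h4 : (⟨_, Subgroup.mem_map_of_mem _ ha⟩ : A') • x = a * x * a⁻¹ := hact a x
      refine Eq.trans h4 ?_
      rw [h2 a ha]
      group
  rw [e] at h
  rw [← Nat.card_coe_set_eq, ← Nat.card_coe_set_eq] at h
  exact h

/-- When `P ∩ K = 1`, the prime power parts of `|K : N_K(P)|` are congruent to `1` modulo `p`. -/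
theorem prime_part_modEq (P : Sylow p G) (K : Subgroup G) [K.Normal]
    (hD : (P : Subgroup G) ⊓ K = ⊥) (r : ℕ) [hr : Fact r.Prime] :
    r ^ ((normalizer ((P : Subgroup G) : Set G)).relIndex K).factorization r ≡ 1 [MOD p] := by
  classical
  set NP : Subgroup G := normalizer ((P : Subgroup G) : Set G) with hNP
  have hpK : ¬ p ∣ Nat.card K := by
    have h1 := (sylowInf P K).not_dvd_index
    rw [coe_sylowInf, hD] at h1
    have h2 : ((⊥ : Subgroup G).subgroupOf K) = ⊥ := Subgroup.bot_subgroupOf K
    rwa [h2, Subgroup.index_bot] at h1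
  have hpp : p.Prime := hp.out
  have hcop : (Nat.card P).Coprime (Nat.card K) := by
    obtain ⟨n, hn⟩ := IsPGroup.iff_card.mp P.isPGroup'
    rw [hn]
    exact (hpp.coprime_iff_not_dvd.mpr hpK).pow_left n
  -- the centralizer of `P` in `K`
  let C : Subgroup G := K ⊓ NP
  have hCK : C ≤ K := inf_le_left
  have hcomm : ∀ c ∈ C, ∀ a ∈ (P : Subgroup G), c * a = a * c := by
    rintro c ⟨hcK, hcN⟩ a ha
    have h1 : c * a * c⁻¹ ∈ (P : Subgroup G) := (Subgroup.mem_normalizer_iff.mp hcN a).mp ha
    have h2 : c * a * c⁻¹ * a⁻¹ ∈ (P : Subgroup G) := mul_mem h1 (inv_mem ha)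
    have h3 : c * a * c⁻¹ * a⁻¹ ∈ K := by
      have : c * a * c⁻¹ * a⁻¹ = c * (a * c⁻¹ * a⁻¹) := by group
      rw [this]
      exact mul_mem hcK ((inferInstance : K.Normal).conj_mem _ (inv_mem hcK) a)
    have h4 : c * a * c⁻¹ * a⁻¹ ∈ (P : Subgroup G) ⊓ K := ⟨h2, h3⟩
    rw [hD, Subgroup.mem_bot] at h4
    have h5 : c * a = (c * a * c⁻¹ * a⁻¹) * (a * c) := by group
    rw [h5, h4, one_mul]
  have hrK : r ≠ p ∨ r = p := (em (r = p)).symm
  have hmne : NP.relIndex K ≠ 0 := Subgroup.index_ne_zero_of_finite
  rcases eq_or_ne r p with rfl | hrp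
  · have : (NP.relIndex K).factorization r = 0 := by
      apply Nat.factorization_eq_zero_of_not_dvd
      intro h
      exact hpK (h.trans (Subgroup.index_dvd_card _))
    rw [this, pow_zero]
  -- a Sylow `r`-subgroup of the centralizer
  let S₀ : Sylow r C := default
  let S : Subgroup G := (S₀ : Subgroup C).map C.subtype
  have hSp : IsPGroup r S := S₀.isPGroup'.map C.subtype
  have hSK : S ≤ K := (Subgroup.map_subtype_le _).trans hCK
  have hPS : (P : Subgroup G) ≤ normalizer (S : Set G) := by
    intro a ha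
    apply Lib.Hall.mem_normalizer_of_conj_le
    intro x hx
    have hxC : x ∈ C := (Subgroup.map_subtype_le _) hx
    have : a * x * a⁻¹ = x := by
      rw [← hcomm x hxC a ha]
      group
    rwa [this]
  have hsol : Group.IsSolvable (P : Subgroup G) := by
    haveI := P.isPGroup'.isNilpotent
    infer_instance
  have hPK : (P : Subgroup G) ≤ normalizer (K : Set G) := by
    rw [Subgroup.normalizer_eq_top]
    exact le_top
  obtain ⟨R₀, hSR, hPR⟩ := Lib.Hall.exists_invariant_sylow_le (P : Subgroup G) K hPK hcop (Or.inl hsol)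
    r S hSK hSp hPS
  set R : Subgroup G := (R₀ : Subgroup K).map K.subtype with hR
  have h1 := card_modEq_card_inf_centralizer (p := p) P.isPGroup' hPR
  -- the fixed points of `P` in `R` are exactly `S`
  have hRp : IsPGroup r R := R₀.isPGroup'.map K.subtype
  have hRK : R ≤ K := Subgroup.map_subtype_le _
  have hfix : R ⊓ centralizer (((P : Subgroup G)) : Set G) = S := by
    have hle : R ⊓ centralizer (((P : Subgroup G)) : Set G) ≤ C := by
      intro x hx
      refine ⟨hRK hx.1, ?_⟩
      apply Lib.Hall.mem_normalizer_of_conj_le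
      intro a ha
      have := (Subgroup.mem_centralizer_iff.mp hx.2) a ha
      rw [← this]
      simpa using ha
    have hp1 : IsPGroup r ((R ⊓ centralizer (((P : Subgroup G)) : Set G)).subgroupOf C) :=
      (hRp.to_le inf_le_left).comap_of_injective C.subtype C.subtype_injective
    have hle2 : (S₀ : Subgroup C) ≤ (R ⊓ centralizer (((P : Subgroup G)) : Set G)).subgroupOf C := by
      intro x hx
      have hxS : (x : G) ∈ S := Subgroup.mem_map_of_mem _ hx
      refine ⟨hSR hxS, Subgroup.mem_centralizer_iff.mpr ?_⟩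
      intro a ha
      exact (hcomm x x.2 a ha).symm
    have h2 := S₀.is_maximal' hp1 hle2
    show _ = Subgroup.map C.subtype (S₀ : Subgroup C)
    rw [← h2, Subgroup.subgroupOf_map_subtype, inf_of_le_left hle]
  rw [hfix] at h1
  -- orders
  have hcR : Nat.card R = r ^ (Nat.card K).factorization r := by
    rw [hR, Subgroup.card_map_of_injective K.subtype_injective]
    exact R₀.card_eq_multiplicity
  have hcS : Nat.card S = r ^ (Nat.card C).factorization r := by
    rw [Subgroup.card_map_of_injective C.subtype_injective]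
    exact S₀.card_eq_multiplicity
  have hcK : Nat.card K = NP.relIndex K * Nat.card C := by
    have e1 : NP.relIndex K = (C.subgroupOf K).index := by
      have : C.subgroupOf K = NP.subgroupOf K := by
        rw [show C = K ⊓ NP from rfl, Subgroup.inf_subgroupOf_left]
      rw [this]
      rfl
    have e2 : Nat.card (C.subgroupOf K) = Nat.card C :=
      Nat.card_congr (Subgroup.subgroupOfEquivOfLe hCK).toEquiv
    rw [e1, ← e2]
    exact (Subgroup.index_mul_card _).symm
  have hfac : (Nat.card K).factorization r = (NP.relIndex K).factorization r + (Nat.card C).factorization r := by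
    rw [hcK, Nat.factorization_mul hmne (Nat.card_pos.ne')]
    rfl
  have h3 : Nat.card R = Nat.card S * r ^ (NP.relIndex K).factorization r := by
    rw [hcR, hcS, hfac, pow_add, mul_comm]
  have h4 : Nat.card S * r ^ (NP.relIndex K).factorization r ≡ Nat.card S * 1 [MOD p] := by
    rw [← h3, mul_one]
    exact h1
  have hgcd : Nat.gcd p (Nat.card S) = 1 := by
    apply (hpp.coprime_iff_not_dvd.mpr ?_)
    intro h
    apply hpK
    exact h.trans (Subgroup.card_dvd_of_le hSK)
  exact Nat.ModEq.cancel_left_of_coprime hgcd h4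

end General

section Lists

/-- A natural number all of whose prime power parts are `1` modulo `p` is a product of such. -/
theorem exists_list_of_modEq {p m : ℕ} (hp : 1 < p) (hm : m ≠ 0)
    (h : ∀ r : ℕ, r.Prime → r ^ m.factorization r ≡ 1 [MOD p]) :
    ∃ l : List ℕ, l.prod = m ∧ ∀ x ∈ l, IsPrimePow x ∧ x % p = 1 := by
  classical
  refine ⟨m.primeFactors.toList.map (fun r => r ^ m.factorization r), ?_, ?_⟩
  · rw [Finset.prod_map_toList]
    exact Nat.prod_factorization_pow_eq_self hm
  · intro x hx
    obtain ⟨r, hr, rfl⟩ := List.mem_map.mp hx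
    have hr' : r ∈ m.primeFactors := Finset.mem_toList.mp hr
    have hrp : r.Prime := Nat.prime_of_mem_primeFactors hr'
    constructor
    · refine ⟨r, m.factorization r, hrp.prime, ?_, rfl⟩
      exact (hrp.factorization_pos_of_dvd hm (Nat.dvd_of_mem_primeFactors hr'))
    · have := h r hrp
      rw [Nat.ModEq, Nat.mod_eq_of_lt hp] at this
      exact this

/-- The general factorization of Sylow numbers: a Sylow number of `G` is a product of prime powers
congruent to one modulo `p` and Sylow numbers of simple sections in any class `Q` of groups closed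
under subgroups and quotients. -/
theorem exists_list (p : ℕ) [hp : Fact p.Prime] (Q : (X : Type u) → [Group X] → Prop)
    (hsub : ∀ (X : Type u) [Group X] (H : Subgroup X), Q X → Q H)
    (hquo : ∀ (X : Type u) [Group X] (H : Subgroup X) [H.Normal], Q X → Q (X ⧸ H)) :
    ∀ (n : ℕ) (G : Type u) [Group G] [Finite G], Nat.card G = n → Q G →
      ∃ l : List ℕ, l.prod = Nat.card (Sylow p G) ∧ ∀ m ∈ l, (IsPrimePow m ∧ m % p = 1) ∨
        ∃ (S : Type u) (_ : Group S) (_ : Finite S), IsSimpleGroup S ∧ Q S ∧
          m = Nat.card (Sylow p S) := by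
  intro n
  induction n using Nat.strong_induction_on with
  | _ n ih =>
    intro G _ _ hn hQ
    classical
    by_cases hs : IsSimpleGroup G
    · exact ⟨[Nat.card (Sylow p G)], by simp, fun m hm => Or.inr ⟨G, inferInstance, inferInstance, hs, hQ, by simpa using hm⟩⟩
    rcases subsingleton_or_nontrivial G with hG | hG
    · refine ⟨[], ?_, by simp⟩
      let P : Sylow p G := default
      rw [List.prod_nil, Sylow.card_eq_index_normalizer P]
      symm
      rw [Subgroup.index_eq_one]
      exact Subsingleton.elim _ _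
    -- a proper nontrivial normal subgroup
    obtain ⟨K, hKn, hKb, hKt⟩ : ∃ K : Subgroup G, K.Normal ∧ K ≠ ⊥ ∧ K ≠ ⊤ := by
      by_contra hcon
      push Not at hcon
      apply hs
      refine ⟨fun K hK => ?_⟩
      by_cases h : K = ⊥
      · exact Or.inl h
      · exact Or.inr (hcon K hK h)
    haveI := hKn
    let P : Sylow p G := default
    let D : Subgroup G := (P : Subgroup G) ⊓ K
    let N : Subgroup G := ((P : Subgroup G) ⊔ K) ⊓ normalizer (D : Set G)
    have hDN : D ≤ N := by
      refine le_inf (inf_le_left.trans le_sup_left) ?_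
      exact Subgroup.le_normalizer
    haveI hn' : (D.subgroupOf N).Normal := by
      rw [Subgroup.normal_subgroupOf_iff hDN]
      intro h k hh hk
      exact (Subgroup.mem_normalizer_iff.mp hk.2 h).mp hh
    have hfac := card_sylow_factor K P N rfl
    have hcardG : 0 < Nat.card G := Nat.card_pos
    -- the two smaller factors
    have hc1 : Nat.card (G ⧸ K) < n := by
      have h1 := K.card_eq_card_quotient_mul_card_subgroup
      have h2 : 1 < Nat.card K := by
        by_contra h3
        apply hKb
        have h4 : Nat.card K = 1 := le_antisymm (not_lt.mp h3) Nat.card_pos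
        exact (Subgroup.eq_bot_iff_card K).mpr h4
      rw [← hn, h1]
      exact lt_mul_of_one_lt_right Nat.card_pos h2
    have hc2 : Nat.card K < n := by
      rw [← hn]
      exact lt_of_le_of_ne (Subgroup.card_le_card_group K) (fun h => hKt (Subgroup.eq_top_of_card_eq K h))
    obtain ⟨l₁, hl₁, hl₁'⟩ := ih _ hc1 (G ⧸ K) rfl (hquo G K hQ)
    obtain ⟨l₂, hl₂, hl₂'⟩ := ih _ hc2 K rfl (hsub G K hQ)
    by_cases hlast : N = ⊤ ∧ D = ⊥
    · -- the irreducible case
      obtain ⟨hNt, hDb⟩ := hlast
      have hsup : (P : Subgroup G) ⊔ K = ⊤ := by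
        rw [eq_top_iff, ← hNt]
        exact inf_le_left
      -- the quotient is a `p`-group
      have hq : Nat.card (Sylow p (G ⧸ K)) = 1 := by
        let π := QuotientGroup.mk' K
        have hπ : Function.Surjective π := QuotientGroup.mk'_surjective K
        let Pb : Sylow p (G ⧸ K) := P.mapSurjective hπ
        have hPb : (Pb : Subgroup (G ⧸ K)) = ⊤ := by
          show (P : Subgroup G).map π = ⊤
          rw [eq_top_iff]
          intro y _
          obtain ⟨g, rfl⟩ := hπ y
          have hg : g ∈ ((P : Subgroup G) : Set G) * (K : Set G) := by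
            rw [← Subgroup.mul_normal, hsup]
            trivial
          obtain ⟨a, ha, k, hk, rfl⟩ := Set.mem_mul.mp hg
          have : π k = 1 := (QuotientGroup.eq_one_iff k).mpr hk
          rw [map_mul, this, mul_one]
          exact Subgroup.mem_map_of_mem π ha
        rw [Sylow.card_eq_index_normalizer Pb]
        rw [Subgroup.index_eq_one, eq_top_iff]
        intro y _
        apply Subgroup.le_normalizer
        show y ∈ (Pb : Subgroup (G ⧸ K))
        rw [hPb]
        trivial
      have hc := card_sylow_eq_quotient_mul K P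
      rw [hq, one_mul] at hc
      have hmne : (normalizer ((P : Subgroup G) : Set G)).relIndex K ≠ 0 :=
        Subgroup.index_ne_zero_of_finite
      obtain ⟨l, hl, hl'⟩ := exists_list_of_modEq (p := p) hp.out.one_lt hmne (fun r hr => by
        haveI : Fact r.Prime := ⟨hr⟩
        exact prime_part_modEq P K hDb r)
      exact ⟨l, by rw [hl, hc], fun m hm => Or.inl (hl' m hm)⟩
    · have hc3 : Nat.card (N ⧸ D.subgroupOf N) < n := by
        have h1 := (D.subgroupOf N).card_eq_card_quotient_mul_card_subgroup
        by_cases hNt : N = ⊤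
        · have hDb : D ≠ ⊥ := fun h => hlast ⟨hNt, h⟩
          have h2 : 1 < Nat.card (D.subgroupOf N) := by
            by_contra h3
            apply hDb
            have h4 : Nat.card (D.subgroupOf N) = 1 := le_antisymm (not_lt.mp h3) Nat.card_pos
            have h5 : D.subgroupOf N = ⊥ := (Subgroup.eq_bot_iff_card _).mpr h4
            rw [eq_bot_iff]
            intro x hx
            have : (⟨x, hDN hx⟩ : N) ∈ D.subgroupOf N := hx
            rw [h5, Subgroup.mem_bot] at this
            simpa using congrArg Subtype.val this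
          have h6 : Nat.card N ≤ n := by
            rw [← hn]
            exact Subgroup.card_le_card_group N
          refine lt_of_lt_of_le ?_ h6
          rw [h1]
          exact lt_mul_of_one_lt_right Nat.card_pos h2
        · have h2 : Nat.card N < n := by
            rw [← hn]
            exact lt_of_le_of_ne (Subgroup.card_le_card_group N) (fun h => hNt (Subgroup.eq_top_of_card_eq N h))
          refine lt_of_le_of_lt ?_ h2
          rw [h1]
          exact Nat.le_mul_of_pos_right _ Nat.card_pos
      obtain ⟨l₃, hl₃, hl₃'⟩ := ih _ hc3 (N ⧸ D.subgroupOf N) rfl (hquo N _ (hsub G N hQ))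
      refine ⟨l₁ ++ l₂ ++ l₃, ?_, ?_⟩
      · rw [List.prod_append, List.prod_append, hl₁, hl₂, hl₃]
        exact hfac.symm
      · intro m hm
        rw [List.mem_append, List.mem_append] at hm
        rcases hm with (hm | hm) | hm
        · exact hl₁' m hm
        · exact hl₂' m hm
        · exact hl₃' m hm

/-- The number of Sylow subgroups of a finite group is a product of prime powers congruent to one
modulo `p` and Sylow numbers of finite simple groups. -/
theorem exists_list_simple {G : Type u} [Group G] [Finite G] (p : ℕ) [Fact p.Prime] :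
    ∃ l : List ℕ, l.prod = Nat.card (Sylow p G) ∧
      ∀ m ∈ l, (IsPrimePow m ∧ m % p = 1) ∨
        ∃ (S : Type u) (_ : Group S) (_ : Finite S), IsSimpleGroup S ∧ m = Nat.card (Sylow p S) := by
  obtain ⟨l, h1, h2⟩ := exists_list p (fun _ _ => True) (fun _ _ _ _ => trivial)
    (fun _ _ _ _ _ => trivial) _ G rfl trivial
  refine ⟨l, h1, fun m hm => ?_⟩
  rcases h2 m hm with h | ⟨S, i, j, h3, -, h4⟩
  · exact Or.inl h
  · exact Or.inr ⟨S, i, j, h3, h4⟩

theorem part_prod {p ℓ : ℕ} (l : List ℕ) (h : ∀ m ∈ l, m ≠ 0 ∧ ℓ ^ m.factorization ℓ ≡ 1 [MOD p]) :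
    l.prod ≠ 0 ∧ ℓ ^ l.prod.factorization ℓ ≡ 1 [MOD p] := by
  induction l with
  | nil => simp [Nat.ModEq]
  | cons a t iht =>
    have h5 := h a (by simp)
    have h6 := iht (fun m hm => h m (by simp [hm]))
    rw [List.prod_cons]
    refine ⟨mul_ne_zero h5.1 h6.1, ?_⟩
    rw [Nat.factorization_mul h5.1 h6.1, Finsupp.add_apply, pow_add]
    simpa using h5.2.mul h6.2

/-- In a solvable group, all prime power parts of a Sylow number are congruent to one. -/
theorem prime_part_of_solvable {G : Type u} [Group G] [Finite G] (hG : Group.IsSolvable G)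
    (p ℓ : ℕ) [hp : Fact p.Prime] (hℓ : ℓ.Prime) :
    ℓ ^ (Nat.card (Sylow p G)).factorization ℓ ≡ 1 [MOD p] := by
  obtain ⟨l, h1, h2⟩ := exists_list p (fun X _ => Group.IsSolvable X)
    (fun X _ H h => by
      haveI : Group.IsSolvable X := h
      infer_instance)
    (fun X _ H _ h => by
      haveI : Group.IsSolvable X := h
      infer_instance) _ G rfl hG
  rw [← h1]
  have hall : ∀ m ∈ l, m ≠ 0 ∧ ℓ ^ m.factorization ℓ ≡ 1 [MOD p] := by
    intro m hm
    rcases h2 m hm with ⟨⟨q, k, hq, hk, rfl⟩, hmod⟩ | ⟨S, i, j, h3, h4, rfl⟩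
    · have hq' : q.Prime := hq.nat_prime
      refine ⟨pow_ne_zero _ hq'.ne_zero, ?_⟩
      have hone : q ^ k ≡ 1 [MOD p] := by
        rw [Nat.ModEq, hmod, Nat.mod_eq_of_lt hp.out.one_lt]
      by_cases hqℓ : q = ℓ
      · subst hqℓ
        rw [hq'.factorization_pow]
        simpa using hone
      · rw [hq'.factorization_pow, Finsupp.single_apply, if_neg hqℓ, pow_zero]
    · haveI : Group.IsSolvable S := h4
      have hc : ∀ a b : S, a * b = b * a := IsSimpleGroup.comm_iff_isSolvable.mpr h4
      have hcard : Nat.card (Sylow p S) = 1 := by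
        let P : Sylow p S := default
        rw [Sylow.card_eq_index_normalizer P, Subgroup.index_eq_one, eq_top_iff]
        intro y _
        refine Subgroup.mem_normalizer_iff.mpr (fun h => ?_)
        rw [hc y h, mul_inv_cancel_right]
      rw [hcard]
      simp [Nat.ModEq]
  exact (part_prod l hall).2

end Lists

end Cfsg.Agent.Lib.ClassSizes.SylowFactor
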