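import Mathlib
import Cfsg.Agent.Lib.ClassSizes.SylowNumber

/-!
# Fewer than `p²` Sylow `p`-subgroups in a simple group
-/

set_option autoImplicit false

namespace Cfsg.Agent.Lib.ClassSizes.SylowSmall

open scoped Pointwise
open Subgroup MulAction SylowNumber

variable {G : Type*} [Group G] [Finite G] {p : ℕ} [hp : Fact p.Prime]

variable (hX : Nat.card (Sylow p G) < p ^ 2)

include hX in
theorem ncard_orb' {R a : Sylow p G} (h : a ≠ R) : (orb R a).ncard = p := by
  classical
  have hpp : p.Prime := hp.out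
  have h1 : (orb R a).ncard = (stabilizer (R : Subgroup G) a).index :=
    (index_stabilizer (R : Subgroup G) a).symm
  obtain ⟨n, hn⟩ := IsPGroup.iff_card.1 R.isPGroup'
  have h2 : (orb R a).ncard ∣ p ^ n := by
    rw [h1, ← hn]
    exact index_dvd_card _
  obtain ⟨i, _, hi⟩ := (Nat.dvd_prime_pow hpp).1 h2
  have h3 : (orb R a).ncard < p ^ 2 :=
    (Set.ncard_le_card _).trans_lt hX
  have h7 : i ≠ 0 := by
    rintro rfl
    rw [pow_zero] at hi
    rw [Set.ncard_eq_one] at hi
    obtain ⟨b, hb⟩ := hi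
    have hb1 : a = b := by
      have := self_mem_orb R a
      rw [hb] at this
      exact this
    have h8 : ∀ r ∈ R, r • a = a := by
      intro r hr
      have : r • a ∈ orb R a := mem_orb.2 ⟨r, hr, rfl⟩
      rw [hb, Set.mem_singleton_iff, ← hb1] at this
      exact this
    have h9 : a ∈ fixedPoints (R : Subgroup G) (Sylow p G) := by
      rintro ⟨r, hr⟩
      exact h8 r hr
    have h10 := (R.isPGroup'.sylow_mem_fixedPoints_iff (Q := a)).1 h9
    apply h
    exact (Sylow.ext (R.is_maximal' a.isPGroup' h10))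
  have h8 : i = 1 := by
    by_contra hne
    have h9 : 2 ≤ i := by omega
    have h10 : p ^ 2 ≤ p ^ i := Nat.pow_le_pow_right hpp.pos h9
    rw [hi] at h3
    omega
  rw [hi, h8, pow_one]

include hX in
theorem card_inf_mul {R a : Sylow p G} (h : a ≠ R) :
    Nat.card ((R : Subgroup G) ⊓ a : Subgroup G) * p = Nat.card R := by
  have h1 := ncard_orb' hX h
  have h2 : (orb R a).ncard = (stabilizer (R : Subgroup G) a).index :=
    (index_stabilizer (R : Subgroup G) a).symm
  have hst : stabilizer (R : Subgroup G) a = ((R : Subgroup G) ⊓ a).subgroupOf R := by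
    ext x
    rw [Subgroup.mem_subgroupOf, mem_stabilizer_iff]
    constructor
    · intro hx
      exact ⟨x.2, mem_of_smul_eq (isPElement_of_mem x.2) hx⟩
    · intro hx
      exact smul_eq_of_mem hx.2
  have h3 := (((R : Subgroup G) ⊓ a).subgroupOf R).index_mul_card
  rw [← hst, ← h2, h1] at h3
  rw [hst] at h3
  have h4 : Nat.card (((R : Subgroup G) ⊓ a).subgroupOf R) = Nat.card ((R : Subgroup G) ⊓ a : Subgroup G) :=
    Nat.card_congr (Subgroup.subgroupOfEquivOfLe inf_le_left).toEquiv
  rw [h4] at h3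
  rw [mul_comm]
  exact h3

/-- The intersection with `a` is contained in each element of the orbit. -/
theorem inf_le_of_mem_orb (hX : Nat.card (Sylow p G) < p ^ 2) {R a e : Sylow p G} (h : a ≠ R)
    (he : e ∈ orb R a) :
    (R : Subgroup G) ⊓ a ≤ e := by
  rintro x ⟨hxR, hxa⟩
  have h1 : x • a = a := smul_eq_of_mem hxa
  have h2 := fix_orb h (ncard_orb' hX h) hxR h1 he
  exact mem_of_smul_eq (isPElement_of_mem hxR) h2

/-- Any two intersections which are comparable are equal. -/
theorem eq_inf_of_le (hX : Nat.card (Sylow p G) < p ^ 2) {R a : Sylow p G} (h : a ≠ R)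
    {D : Subgroup G} (hD : D ≤ (R : Subgroup G) ⊓ a) {R' a' : Sylow p G} (h' : a' ≠ R')
    (hc : Nat.card D * p = Nat.card R') : D = (R : Subgroup G) ⊓ a := by
  have hpp : p.Prime := hp.out
  apply Subgroup.eq_of_le_of_card_ge hD
  have h1 := card_inf_mul hX h
  have h2 : Nat.card R = Nat.card R' := by
    rw [R.card_eq_multiplicity, R'.card_eq_multiplicity]
  have h3 : Nat.card ((R : Subgroup G) ⊓ a : Subgroup G) * p = Nat.card D * p := by
    rw [h1, hc, h2]
  exact (Nat.eq_of_mul_eq_mul_right hpp.pos h3).le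

/-- The intersection of two distinct Sylow subgroups is contained in all Sylow subgroups. -/
theorem inf_le_all (hX : Nat.card (Sylow p G) < p ^ 2) {P₁ Q₁ : Sylow p G} (h : Q₁ ≠ P₁)
    (P : Sylow p G) : (P₁ : Subgroup G) ⊓ Q₁ ≤ P := by
  classical
  by_contra hnot
  set D : Subgroup G := (P₁ : Subgroup G) ⊓ Q₁ with hD
  have hDe : ∀ e ∈ orb P₁ Q₁, D ≤ e := fun e he => inf_le_of_mem_orb hX h he
  have hDc : Nat.card D * p = Nat.card P₁ := card_inf_mul hX h
  have hne : ∀ e ∈ orb P₁ Q₁, e ≠ P := by
    rintro e he rfl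
    exact hnot (hDe e he)
  -- disjoint orbits
  have hdisj : ∀ e ∈ orb P₁ Q₁, ∀ e' ∈ orb P₁ Q₁, e ≠ e' → ∀ z, z ∈ orb P e → z ∉ orb P e' := by
    intro e he e' he' hee' z hz hz'
    have hP1 : ∀ f, f ≠ P → z ∈ orb P f → (P : Subgroup G) ⊓ f = (P : Subgroup G) ⊓ z := by
      intro f hf hzf
      have hzP : z ≠ P := fun hzP => not_mem_orb hf (hzP ▸ hzf)
      apply le_antisymm
      · exact le_inf inf_le_left (inf_le_of_mem_orb hX hf hzf)
      · refine le_inf inf_le_left (inf_le_of_mem_orb hX hzP ?_)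
        rw [orb_eq_of_mem hzf]
        exact self_mem_orb P f
    have h1 := hP1 e (hne e he) hz
    have h2 := hP1 e' (hne e' he') hz'
    have hE : (P : Subgroup G) ⊓ e ≤ (e : Subgroup G) ⊓ e' :=
      le_inf inf_le_right (by rw [h1, ← h2]; exact inf_le_right)
    have hD2 : D ≤ (e : Subgroup G) ⊓ e' := le_inf (hDe e he) (hDe e' he')
    have hen : e' ≠ e := fun hh => hee' hh.symm
    have h3 := eq_inf_of_le hX hen hD2 h hDc
    have h4 := eq_inf_of_le hX hen hE (hne e he) (card_inf_mul hX (hne e he))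
    apply hnot
    rw [h3, ← h4]
    exact inf_le_left
  -- counting
  have hcount : p * p ≤ (Set.univ \ {P} : Set (Sylow p G)).ncard := by
    let s : Finset (Sylow p G) := (Set.toFinite (orb P₁ Q₁)).toFinset
    let t : Sylow p G → Finset (Sylow p G) := fun e => (Set.toFinite (orb P e)).toFinset
    have hcard : (s.biUnion t).card = p * p := by
      rw [Finset.card_biUnion]
      · have : ∀ e ∈ s, (t e).card = p := by
          intro e he
          have he' : e ∈ orb P₁ Q₁ := (Set.Finite.mem_toFinset _).mp he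
          have := ncard_orb' hX (hne e he')
          rw [Set.ncard_eq_toFinset_card _ (Set.toFinite _)] at this
          exact this
        rw [Finset.sum_congr rfl this, Finset.sum_const, smul_eq_mul]
        congr 1
        have := ncard_orb' hX h
        rw [Set.ncard_eq_toFinset_card _ (Set.toFinite _)] at this
        exact this
      · intro e he e' he' hee'
        change Disjoint (t e) (t e')
        rw [Finset.disjoint_left]
        intro z hz hz'
        exact hdisj e ((Set.Finite.mem_toFinset _).mp he) e' ((Set.Finite.mem_toFinset _).mp he') hee' z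
          ((Set.Finite.mem_toFinset _).mp hz) ((Set.Finite.mem_toFinset _).mp hz')
    rw [← hcard, ← Set.ncard_coe_finset]
    apply Set.ncard_le_ncard _ (Set.toFinite _)
    intro z hz
    rw [Finset.mem_coe, Finset.mem_biUnion] at hz
    obtain ⟨e, he, hz⟩ := hz
    refine ⟨trivial, ?_⟩
    rintro rfl
    have he' : e ∈ orb P₁ Q₁ := (Set.Finite.mem_toFinset _).mp he
    exact not_mem_orb (hne e he') ((Set.Finite.mem_toFinset _).mp hz)
  have h5 : (Set.univ \ {P} : Set (Sylow p G)).ncard + 1 = Nat.card (Sylow p G) := by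
    have := Set.ncard_diff_singleton_add_one (Set.mem_univ P) (Set.toFinite _)
    rwa [Set.ncard_univ] at this
  have hpp : p.Prime := hp.out
  nlinarith

/-- A simple nonabelian group with fewer than `p²` Sylow `p`-subgroups has Sylow `p`-subgroups of
order `p`. -/
theorem card_sylow_of_simple {S : Type*} [Group S] [Finite S] [IsSimpleGroup S]
    (hS : ¬ IsMulCommutative S) (p : ℕ) [hp : Fact p.Prime] (hpd : p ∣ Nat.card S)
    (hn : Nat.card (Sylow p S) < p ^ 2) (P : Sylow p S) : Nat.card P = p := by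
  classical
  have hnotp : ∀ R : Sylow p S, (R : Subgroup S) ≠ ⊤ := by
    intro R hR
    have h1 : IsPGroup p S := by
      have h2 := R.isPGroup'
      rw [hR] at h2
      exact (h2.of_equiv Subgroup.topEquiv)
    haveI := h1.isNilpotent
    have h3 : ∀ a b : S, a * b = b * a := IsSimpleGroup.comm_iff_isSolvable.mpr inferInstance
    exact hS ⟨⟨h3⟩⟩
  obtain ⟨P₁, Q₁, hne⟩ : ∃ P₁ Q₁ : Sylow p S, Q₁ ≠ P₁ := by
    by_contra hcon
    push Not at hcon
    haveI : Subsingleton (Sylow p S) := ⟨fun a b => hcon b a⟩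
    have h1 := Sylow.normal_of_subsingleton P
    rcases h1.eq_bot_or_eq_top with h2 | h2
    · exact P.ne_bot_of_dvd_card hpd h2
    · exact hnotp P h2
  let O : Subgroup S := ⨅ R : Sylow p S, (R : Subgroup S)
  have hON : O.Normal := by
    refine ⟨fun x hx g => ?_⟩
    rw [Subgroup.mem_iInf] at hx ⊢
    intro R
    have h1 := hx (g⁻¹ • R)
    have h2 := Cfsg.Agent.Lib.ClassSizes.mem_sylow_smul_iff.mp h1
    have h3 : g⁻¹⁻¹ * x * g⁻¹ = g * x * g⁻¹ := by group
    rwa [h3] at h2
  have hDO : (P₁ : Subgroup S) ⊓ Q₁ ≤ O := by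
    refine le_iInf (fun R => ?_)
    exact inf_le_all hn hne R
  have hOb : O = ⊥ := by
    rcases hON.eq_bot_or_eq_top with h | h
    · exact h
    · exfalso
      apply hnotp P
      rw [eq_top_iff, ← h]
      exact iInf_le _ P
  have hDb : (P₁ : Subgroup S) ⊓ Q₁ = ⊥ := by
    rw [eq_bot_iff, ← hOb]
    exact hDO
  have h4 := card_inf_mul hn hne
  rw [hDb, Subgroup.card_bot, one_mul] at h4
  rw [P.card_eq_multiplicity, ← P₁.card_eq_multiplicity]
  exact h4.symm

end Cfsg.Agent.Lib.ClassSizes.SylowSmall
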