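import Mathlib
import Cfsg.Agent.Lib.ClassSizes.CharDecomp

/-! Fixed points of a Sylow `2`-subgroup on irreducible modules over the field with two elements. -/

set_option autoImplicit false

namespace Cfsg.Agent.Lib.ClassSizes.SylowSystemMod

open scoped Classical
open TensorProduct
open Cfsg.Agent.Lib.ClassSizes.CharDecomp

variable {S : Type*} [Group S] {E : Type*} [AddCommGroup E] [Module (ZMod 2) E]
  {K : Type*} [Field K] [Algebra (ZMod 2) K]

/-- extension of scalars of the representation -/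
noncomputable def rhoK (K : Type*) [Field K] [Algebra (ZMod 2) K] (ρ : S →* (E →ₗ[ZMod 2] E)) :
    S →* ((K ⊗[ZMod 2] E) →ₗ[K] (K ⊗[ZMod 2] E)) :=
  ((Module.End.baseChangeHom (ZMod 2) K E : Module.End (ZMod 2) E →ₐ[ZMod 2] Module.End K (K ⊗[ZMod 2] E)) :
    Module.End (ZMod 2) E →* Module.End K (K ⊗[ZMod 2] E)).comp ρ

variable (ρ : S →* (E →ₗ[ZMod 2] E))

theorem rhoK_tmul (g : S) (a : K) (v : E) : rhoK K ρ g (a ⊗ₜ[ZMod 2] v) = a ⊗ₜ[ZMod 2] ρ g v := by
  change LinearMap.baseChange K (ρ g) (a ⊗ₜ[ZMod 2] v) = _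
  rw [LinearMap.baseChange_tmul]

/-- a fixed basis of the field over the prime field -/
noncomputable def bK (K : Type*) [Field K] [Algebra (ZMod 2) K] :=
  Module.Basis.ofVectorSpace (ZMod 2) K

/-- coordinates -/
noncomputable def co (i : Module.Basis.ofVectorSpaceIndex (ZMod 2) K) (w : K ⊗[ZMod 2] E) : E :=
  TensorProduct.equivFinsuppOfBasisLeft (bK K) w i

theorem co_rho (i : Module.Basis.ofVectorSpaceIndex (ZMod 2) K) (g : S) (w : K ⊗[ZMod 2] E) :
    co i (rhoK K ρ g w) = ρ g (co i w) := by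
  induction w using TensorProduct.induction_on with
  | zero => simp [co]
  | tmul a v =>
    rw [rhoK_tmul]
    simp only [co, TensorProduct.equivFinsuppOfBasisLeft_apply_tmul_apply, map_smul]
  | add x y hx hy =>
    rw [map_add]
    simp only [co, map_add, Finsupp.add_apply] at hx hy ⊢
    rw [hx, hy]

theorem sum_co (w : K ⊗[ZMod 2] E) :
    w = (TensorProduct.equivFinsuppOfBasisLeft (bK K) w).sum
      (fun i n => (bK K i : K) • ((1 : K) ⊗ₜ[ZMod 2] n)) := by
  have h1 := (TensorProduct.equivFinsuppOfBasisLeft (bK K)).symm_apply_apply w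
  rw [TensorProduct.equivFinsuppOfBasisLeft_symm_apply] at h1
  conv_lhs => rw [← h1]
  apply Finsupp.sum_congr
  intro i _
  rw [TensorProduct.smul_tmul', smul_eq_mul, mul_one]

/-- The fixed vectors over the extension are spanned by the fixed vectors over the base. -/
theorem fix_induction {Y : Subgroup S} (N : Submodule K (K ⊗[ZMod 2] E))
    (hN : ∀ v ∈ fixS ρ Y, (1 : K) ⊗ₜ[ZMod 2] v ∈ N) {w : K ⊗[ZMod 2] E} (hw : w ∈ fixS (rhoK K ρ) Y) :
    w ∈ N := by
  rw [sum_co w]
  apply Submodule.sum_mem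
  intro i _
  apply N.smul_mem
  apply hN
  intro s hs
  have h1 := co_rho ρ i s w
  rw [hw s hs] at h1
  exact h1.symm

theorem tmul_mem_fix {Y : Subgroup S} {v : E} (hv : v ∈ fixS ρ Y) :
    (1 : K) ⊗ₜ[ZMod 2] v ∈ fixS (rhoK K ρ) Y := by
  intro s hs
  rw [rhoK_tmul, hv s hs]

theorem fix_zero {Y : Subgroup S} (h : ∀ v ∈ fixS ρ Y, v = 0) {w : K ⊗[ZMod 2] E}
    (hw : w ∈ fixS (rhoK K ρ) Y) : w = 0 := by
  have h1 : w ∈ (⊥ : Submodule K (K ⊗[ZMod 2] E)) := by
    apply fix_induction ρ _ _ hw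
    intro v hv
    rw [h v hv, TensorProduct.tmul_zero]
    exact Submodule.zero_mem _
  simpa using h1

variable [Finite E]

theorem finrank_fix_le {Y : Subgroup S} :
    Module.finrank K (fixS (rhoK K ρ) Y) ≤ Module.finrank (ZMod 2) (fixS ρ Y) := by
  classical
  haveI : Module.Finite (ZMod 2) E := Module.Finite.of_finite
  set d := Module.finrank (ZMod 2) (fixS ρ Y) with hd
  let B := Module.finBasis (ZMod 2) (fixS ρ Y)
  let L : (Fin d → K) →ₗ[K] (K ⊗[ZMod 2] E) :=
    Fintype.linearCombination K (fun j => (1 : K) ⊗ₜ[ZMod 2] ((B j : fixS ρ Y) : E))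
  have hle : fixS (rhoK K ρ) Y ≤ LinearMap.range L := by
    intro w hw
    apply fix_induction ρ _ _ hw
    intro v hv
    refine ⟨fun j => algebraMap (ZMod 2) K (B.repr ⟨v, hv⟩ j), ?_⟩
    rw [Fintype.linearCombination_apply]
    have h1 := B.sum_repr ⟨v, hv⟩
    have h2 := congrArg Subtype.val h1
    simp only [Submodule.coe_sum, Submodule.coe_smul] at h2
    conv_rhs => rw [← h2]
    rw [TensorProduct.tmul_sum]
    apply Finset.sum_congr rfl
    intro j _
    rw [TensorProduct.tmul_smul, algebraMap_smul]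
  haveI : Module.Finite K (K ⊗[ZMod 2] E) := Module.Finite.base_change _ _ _
  calc Module.finrank K (fixS (rhoK K ρ) Y) ≤ Module.finrank K (LinearMap.range L) :=
        Submodule.finrank_mono hle
    _ ≤ Module.finrank K (Fin d → K) := LinearMap.finrank_range_le L
    _ = d := by simp

omit [Finite E] in
/-- Invariance goes up to the extension of scalars. -/
theorem fix_preserved {Y : Subgroup S} {x : S} (h : ∀ v ∈ fixS ρ Y, ρ x v ∈ fixS ρ Y)
    {w : K ⊗[ZMod 2] E} (hw : w ∈ fixS (rhoK K ρ) Y) : rhoK K ρ x w ∈ fixS (rhoK K ρ) Y := by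
  have h1 : fixS (rhoK K ρ) Y ≤ (fixS (rhoK K ρ) Y).comap (rhoK K ρ x) := by
    intro w hw
    apply fix_induction ρ ((fixS (rhoK K ρ) Y).comap (rhoK K ρ x)) _ hw
    intro v hv
    rw [Submodule.mem_comap, rhoK_tmul]
    exact tmul_mem_fix ρ (h v hv)
  exact h1 hw

theorem enough_roots (K : Type*) [Field K] [Finite K] {e : ℕ} (he : e ∣ Nat.card K - 1) [NeZero e] :
    HasEnoughRootsOfUnity K e := by
  have hcard : Nat.card Kˣ = Nat.card K - 1 := by
    rw [Nat.card_units]
  obtain ⟨g, hg⟩ := IsCyclic.exists_generator (α := Kˣ)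
  have hord : orderOf g = Nat.card Kˣ := orderOf_eq_card_of_forall_mem_zpowers hg
  have hdvd : e ∣ orderOf g := by rw [hord, hcard]; exact he
  have h1 : orderOf (g ^ (orderOf g / e)) = e := by
    apply orderOf_pow_orderOf_div _ hdvd
    rw [hord]
    exact Nat.card_pos.ne'
  refine ⟨⟨((g ^ (orderOf g / e) : Kˣ) : K), ?_⟩, rootsOfUnity.isCyclic K e⟩
  rw [IsPrimitiveRoot.coe_units_iff]
  nth_rw 2 [← h1]
  exact IsPrimitiveRoot.orderOf _

/-- The theorem on the fixed points of the Sylow `2`-subgroup. -/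
theorem main [Finite S] {p q : ℕ} (hp : p.Prime) (hq : q.Prime) (hp2 : p ≠ 2) (hq2 : q ≠ 2)
    (A Y Q : Subgroup S) (hAn : A.Normal) (hAcard : Nat.card A = p ∨ Nat.card A = p ^ 2)
    (hY : IsPGroup 2 Y) (hH : Nat.card ↥(Y ⊔ Q) = Nat.card Y * Nat.card Q)
    (hQ : Nat.card Q = q) (hcomm : ⁅A, Q⁆ = A)
    (hE : Nontrivial E)
    (hirr : ∀ N : Submodule (ZMod 2) E, (∀ s : S, ∀ m ∈ N, ρ s m ∈ N) → N = ⊥ ∨ N = ⊤)
    (hfaith : ∀ x ∈ A, ρ x = 1 → x = 1) :
    8 ≤ Nat.card {v : E // ∀ s ∈ Y, ρ s v = v} ∨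
      (Nat.card {v : E // ∀ s ∈ Y, ρ s v = v} = 4 ∧
        ∃ x ∈ Q, ∃ v : E, (∀ s ∈ Y, ρ s v = v) ∧ ¬ ∀ s ∈ Y, ρ s (ρ x v) = ρ x v) := by
  haveI := hAn
  haveI : Fact p.Prime := ⟨hp⟩
  haveI : Fact q.Prime := ⟨hq⟩
  haveI : Module.Finite (ZMod 2) E := Module.Finite.of_finite
  -- the normal subgroup is commutative
  have hAcomm : ∀ a b : A, a * b = b * a := by
    rcases hAcard with h | h
    · haveI : IsCyclic A := isCyclic_of_prime_card h
      intro a b
      exact mul_comm' a b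
    · exact IsPGroup.commutative_of_card_eq_prime_sq h
  letI : CommGroup A := { (inferInstance : Group A) with mul_comm := hAcomm }
  haveI : Fintype A := Fintype.ofFinite A
  have hApos : 1 < Nat.card A := by
    rcases hAcard with h | h
    · rw [h]; exact hp.one_lt
    · rw [h]; exact Nat.one_lt_pow (by norm_num) hp.one_lt
  have hAodd : Odd (Nat.card A) := by
    have h1 : Odd p := hp.odd_of_ne_two hp2
    rcases hAcard with h | h
    · rw [h]; exact h1
    · rw [h]; exact h1.pow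
  -- no fixed points
  have hA0E : ∀ v ∈ fixS ρ A, v = 0 := by
    have hst : ∀ s : S, ∀ m ∈ fixS ρ A, ρ s m ∈ fixS ρ A := by
      intro g m hm x hx
      have h1 : g⁻¹ * x * g⁻¹⁻¹ ∈ A := Subgroup.Normal.conj_mem inferInstance x hx g⁻¹
      have h2 := hm _ h1
      have h3 : ρ x (ρ g m) = ρ g (ρ (g⁻¹ * x * g⁻¹⁻¹) m) := by
        rw [← act, ← act]
        congr 2
        group
      rw [h3, h2]
    rcases hirr _ hst with h | h
    · intro v hv
      rw [h] at hv
      simpa using hv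
    · exfalso
      have h1 : ∀ x ∈ A, x = 1 := by
        intro x hx
        apply hfaith x hx
        ext m
        have h2 : m ∈ fixS ρ A := by rw [h]; trivial
        exact h2 x hx
      have h2 : A = ⊥ := (Subgroup.eq_bot_iff_forall A).mpr h1
      rw [h2, Subgroup.card_bot] at hApos
      exact lt_irrefl _ hApos
  -- the big field
  set n := Nat.card A with hn
  have hn0 : n ≠ 0 := by omega
  set m := Nat.totient n with hm
  have hm0 : m ≠ 0 := (Nat.totient_pos.mpr (by omega)).ne'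
  let K := GaloisField 2 m
  haveI : Finite K := by
    apply Nat.finite_of_card_ne_zero
    rw [GaloisField.card 2 m hm0]
    positivity
  have hKcard : Nat.card K = 2 ^ m := GaloisField.card 2 m hm0
  have hndvd : n ∣ Nat.card K - 1 := by
    rw [hKcard]
    have hcop : Nat.Coprime 2 n := (Nat.coprime_two_left).mpr hAodd
    have h1 := Nat.ModEq.pow_totient hcop
    exact (Nat.modEq_iff_dvd' (Nat.one_le_two_pow)).mp h1.symm
  haveI : NeZero (Monoid.exponent A) := ⟨(Monoid.exponent_ne_zero_of_finite)⟩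
  have hedvd : Monoid.exponent A ∣ Nat.card K - 1 :=
    (Group.exponent_dvd_nat_card).trans hndvd
  haveI hroots : HasEnoughRootsOfUnity K (Monoid.exponent A) := enough_roots K hedvd
  have hcard : Nat.card (A →* Kˣ) = Nat.card A :=
    CommGroup.card_monoidHom_of_hasEnoughRootsOfUnity A K
  have hsep : ∀ a : A, a ≠ 1 → ∃ χ : A →* Kˣ, χ a ≠ 1 := fun a ha =>
    CommGroup.exists_apply_ne_one_of_hasEnoughRootsOfUnity A K ha
  haveI : Finite (A →* Kˣ) := Nat.finite_of_card_ne_zero (by rw [hcard]; exact hn0)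
  haveI : Fintype (A →* Kˣ) := Fintype.ofFinite _
  have hAK : (Fintype.card A : K) ≠ 0 := by
    intro h
    have h1 := (CharP.cast_eq_zero_iff K 2 (Fintype.card A)).mp h
    rw [← Nat.card_eq_fintype_card] at h1
    exact (Nat.not_even_iff_odd.mpr hAodd) (even_iff_two_dvd.mpr h1)
  haveI : Module.Finite K (K ⊗[ZMod 2] E) := Module.Finite.base_change _ _ _
  haveI : Finite (K ⊗[ZMod 2] E) := Module.finite_of_finite K
  haveI : Nontrivial (K ⊗[ZMod 2] E) := by
    apply Module.nontrivial_of_finrank_pos (R := K)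
    rw [Module.finrank_baseChange]
    exact Module.finrank_pos
  have hA0 : ∀ w : K ⊗[ZMod 2] E, (∀ x : A, rhoK K ρ x w = w) → w = 0 := by
    intro w hw
    apply fix_zero ρ hA0E (Y := A)
    intro s hs
    exact hw ⟨s, hs⟩
  obtain ⟨h2, h3⟩ := K_main (rhoK K ρ) hAK hcard hsep hA0 hY hq2 hQ le_sup_left le_sup_right hH hcomm
  have hle := finrank_fix_le (K := K) ρ (Y := Y)
  have hcardE : Nat.card {v : E // ∀ s ∈ Y, ρ s v = v} = 2 ^ Module.finrank (ZMod 2) (fixS ρ Y) := by
    have h1 : Nat.card {v : E // ∀ s ∈ Y, ρ s v = v} = Nat.card (fixS ρ Y) := rfl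
    rw [h1, Module.natCard_eq_pow_finrank (K := ZMod 2), Nat.card_zmod]
  rw [hcardE]
  by_cases hd : 3 ≤ Module.finrank (ZMod 2) (fixS ρ Y)
  · left
    calc 8 = 2 ^ 3 := by norm_num
      _ ≤ _ := Nat.pow_le_pow_right (by norm_num) hd
  · right
    have hd2 : Module.finrank (ZMod 2) (fixS ρ Y) = 2 := by omega
    refine ⟨by rw [hd2]; norm_num, ?_⟩
    by_contra hnot
    push Not at hnot
    obtain ⟨y, hy⟩ : ∃ y : Q, orderOf y = q := exists_prime_orderOf_dvd_card' q (by rw [hQ])
    have hy1 : (y : S) ≠ 1 := by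
      intro h
      have h1 : y = 1 := Subtype.ext h
      rw [h1, orderOf_one] at hy
      exact hq.one_lt.ne hy
    have h4 : 3 ≤ Module.finrank K (fixS (rhoK K ρ) Y) := by
      apply h3 y y.2 hy1
      intro w hw
      apply fix_preserved ρ _ hw
      intro v hv s hs
      exact hnot y y.2 v hv s hs
    omega

end Cfsg.Agent.Lib.ClassSizes.SylowSystemMod
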