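import Mathlib
import Cfsg.Agent.Lib.Techniques.Tame
import Cfsg.Agent.Lib.Transfer.Frobenius
import Cfsg.Agent.Lib.ClassSizes.Basic

/-!
# Focal subgroup and normal complements through tame intersections
-/

set_option linter.style.haveILetI false

universe u

namespace Cfsg.Agent.Lib.ClassSizes.TameFocal

open Cfsg Cfsg.Agent.Lib.Techniques Cfsg.Agent.Lib.Transfer
open scoped commutatorElement

variable {G : Type u} [Group G] [Finite G] {p : ℕ} [Fact p.Prime]

/-- The right-hand side of the local focal subgroup formula. -/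
noncomputable abbrev W (P : Sylow p G) : Subgroup G :=
  ⁅(P : Subgroup G), Subgroup.normalizer ((P : Subgroup G) : Set G)⁆ ⊔
    ⨆ (Q : Sylow p G) (_ : (¬ p ∣ ((P : Subgroup G) ⊓ Subgroup.normalizer (((P : Subgroup G) ⊓ (Q : Subgroup G) : Subgroup G) : Set G)).relIndex (Subgroup.normalizer (((P : Subgroup G) ⊓ (Q : Subgroup G) : Subgroup G) : Set G)) ∧ ¬ p ∣ ((Q : Subgroup G) ⊓ Subgroup.normalizer (((P : Subgroup G) ⊓ (Q : Subgroup G) : Subgroup G) : Set G)).relIndex (Subgroup.normalizer (((P : Subgroup G) ⊓ (Q : Subgroup G) : Subgroup G) : Set G))))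
      (x : G) (_ : x ∈ Subgroup.normalizer (((P : Subgroup G) ⊓ (Q : Subgroup G) : Subgroup G) : Set G) ∧ ∃ k : ℕ, orderOf x = p ^ k),
      ⁅(P : Subgroup G) ⊓ (Q : Subgroup G), Subgroup.zpowers x⁆

theorem chain_mem_W (P : Sylow p G) {A : Set G} {g : G} (h : CChain (TameStep p P) A g) :
    ∀ a ∈ A, a⁻¹ * (g⁻¹ * a * g) ∈ W P := by
  induction h with
  | nil A => intro a _; simp
  | @cons A T x g hR hA _ ih =>
    intro a ha
    obtain ⟨Q, rfl, hxN, hS1, hS2, hor⟩ := hR
    have hat : a ∈ (P : Subgroup G) ⊓ (Q : Subgroup G) := hA ha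
    have h1 := ih (x⁻¹ * a * x) ⟨a, ha, rfl⟩
    have e : a⁻¹ * ((x * g)⁻¹ * a * (x * g)) =
        (a⁻¹ * (x⁻¹ * a * x)) * ((x⁻¹ * a * x)⁻¹ * (g⁻¹ * (x⁻¹ * a * x) * g)) := by group
    rw [e]
    refine mul_mem ?_ h1
    have e2 : a⁻¹ * (x⁻¹ * a * x) = ⁅a⁻¹, x⁻¹⁆ := by
      simp [commutatorElement_def, mul_assoc]
    rw [e2]
    rcases hor with hQ | ⟨k, hk⟩
    · apply (le_sup_left : _ ≤ W P)
      rw [hQ, inf_idem] at hat hxN
      exact Subgroup.commutator_mem_commutator (inv_mem hat) (inv_mem hxN)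
    · apply (le_sup_right : _ ≤ W P)
      refine Subgroup.mem_iSup_of_mem Q (Subgroup.mem_iSup_of_mem ⟨hS1, hS2⟩
        (Subgroup.mem_iSup_of_mem x (Subgroup.mem_iSup_of_mem ⟨hxN, k, hk⟩ ?_)))
      exact Subgroup.commutator_mem_commutator (inv_mem hat) (inv_mem (Subgroup.mem_zpowers x))

/-- The local focal subgroup formula. -/
theorem focal_local (P : Sylow p G) : (P : Subgroup G) ⊓ commutator G = W P := by
  apply le_antisymm
  · rw [inf_comm, Subgroup.commutator_inf_eq_focalSubgroup P, Subgroup.focalSubgroup_def,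
      Subgroup.closure_le]
    rintro g ⟨hg, x, hx, u, rfl⟩
    have e : ⁅x, u⁆ = x * (u * x⁻¹ * u⁻¹) := by simp [commutatorElement_def, mul_assoc]
    have h1 : u * x⁻¹ * u⁻¹ ∈ (P : Subgroup G) := by
      have h2 : u * x⁻¹ * u⁻¹ = x⁻¹ * ⁅x, u⁆ := by rw [e]; group
      rw [h2]; exact mul_mem (inv_mem hx) hg
    have hT : Subgroup.zpowers x⁻¹ ≤ (P : Subgroup G) := (Subgroup.zpowers_le).mpr (inv_mem hx)
    have hcT : conjS u (Subgroup.zpowers x⁻¹) ≤ (P : Subgroup G) := by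
      rw [conjS, Subgroup.map_le_iff_le_comap, Subgroup.zpowers_le]
      exact h1
    have hchain : CChain (TameStep p P) (Subgroup.zpowers x⁻¹ : Set G) u⁻¹ := tame_main P _ hT u hcT
    have h3 := chain_mem_W P hchain x⁻¹ (Subgroup.mem_zpowers _)
    have e3 : (x⁻¹)⁻¹ * ((u⁻¹)⁻¹ * x⁻¹ * u⁻¹) = ⁅x, u⁆ := by
      rw [e]; group
    rw [e3] at h3
    exact h3
  · apply sup_le
    · rw [Subgroup.commutator_le]
      intro a ha n hn
      refine Subgroup.mem_inf.mpr ⟨?_, Subgroup.commutator_mem_commutator (Subgroup.mem_top _) (Subgroup.mem_top _)⟩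
      have e : ⁅a, n⁆ = a * (n * a⁻¹ * n⁻¹) := by simp [commutatorElement_def, mul_assoc]
      rw [e]
      exact mul_mem ha ((Subgroup.mem_normalizer_iff.mp hn _).mp (inv_mem ha))
    · refine iSup_le fun Q => iSup_le fun _ => iSup_le fun x => iSup_le fun hx => ?_
      rw [Subgroup.commutator_le]
      intro a ha n hn
      refine Subgroup.mem_inf.mpr ⟨?_, Subgroup.commutator_mem_commutator (Subgroup.mem_top _) (Subgroup.mem_top _)⟩
      have e : ⁅a, n⁆ = a * (n * a⁻¹ * n⁻¹) := by simp [commutatorElement_def, mul_assoc]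
      rw [e]
      have hnN : n ∈ Subgroup.normalizer (((P : Subgroup G) ⊓ (Q : Subgroup G) : Subgroup G) : Set G) :=
        (Subgroup.zpowers_le.mpr hx.1) hn
      have h1 := (Subgroup.mem_normalizer_iff.mp hnN _).mp (inv_mem ha)
      exact mul_mem (Subgroup.mem_inf.mp ha).1 (Subgroup.mem_inf.mp h1).1

/-- The factorization in a tame normalizer when `N/C` is a `p`-group. -/
theorem factor_tame {P : Sylow p G} {H : Subgroup G} (hH : H ≤ (P : Subgroup G))
    (hU : ¬ p ∣ ((P : Subgroup G) ⊓ Subgroup.normalizer (H : Set G)).relIndex (Subgroup.normalizer (H : Set G)))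
    (hq : IsPGroup p (Subgroup.normalizer (H : Set G) ⧸
        (Subgroup.centralizer (H : Set G)).subgroupOf (Subgroup.normalizer (H : Set G))))
    {x : G} (hx : x ∈ Subgroup.normalizer (H : Set G)) :
    ∃ c ∈ Subgroup.centralizer (H : Set G), ∃ t ∈ (P : Subgroup G), x = c * t := by
  set N := Subgroup.normalizer (H : Set G) with hN
  set C' : Subgroup N := (Subgroup.centralizer (H : Set G)).subgroupOf N with hC'
  set S' : Subgroup N := ((P : Subgroup G) ⊓ N).subgroupOf N with hS'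
  have hL : C' ⊔ S' = ⊤ := by
    rw [← Subgroup.index_eq_one]
    have h1 : (C' ⊔ S').index ∣ S'.index := Subgroup.index_dvd_of_le le_sup_right
    have h2 : (C' ⊔ S').index ∣ C'.index := Subgroup.index_dvd_of_le le_sup_left
    obtain ⟨k, hk⟩ := IsPGroup.iff_card.mp hq
    have h3 : C'.index = p ^ k := hk
    rw [h3] at h2
    obtain ⟨j, -, hj⟩ := (Nat.dvd_prime_pow (Fact.out : p.Prime)).mp h2
    rcases Nat.eq_zero_or_pos j with rfl | hpos
    · simpa using hj
    · exfalso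
      apply hU
      have h4 : p ∣ (C' ⊔ S').index := by
        rw [hj]; exact dvd_pow_self p hpos.ne'
      exact h4.trans h1
  have hmem : (⟨x, hx⟩ : N) ∈ C' ⊔ S' := by rw [hL]; trivial
  obtain ⟨c, hc, t, ht, he⟩ := Subgroup.mem_sup_of_normal_left.mp hmem
  refine ⟨c.1, hc, t.1, (Subgroup.mem_inf.mp ht).1, ?_⟩
  exact (congrArg Subtype.val he).symm

/-- A strong form of the Frobenius criterion. -/
theorem strong_frobenius (P : Sylow p G)
    (h : ∀ Q : Sylow p G, (P : Subgroup G) ⊓ (Q : Subgroup G) ≠ ⊥ → (¬ p ∣ ((P : Subgroup G) ⊓ Subgroup.normalizer (((P : Subgroup G) ⊓ (Q : Subgroup G) : Subgroup G) : Set G)).relIndex (Subgroup.normalizer (((P : Subgroup G) ⊓ (Q : Subgroup G) : Subgroup G) : Set G)) ∧ ¬ p ∣ ((Q : Subgroup G) ⊓ Subgroup.normalizer (((P : Subgroup G) ⊓ (Q : Subgroup G) : Subgroup G) : Set G)).relIndex (Subgroup.normalizer (((P : Subgroup G) ⊓ (Q : Subgroup G) : Subgroup G) : Set G))) →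
      IsPGroup p (Subgroup.normalizer (((P : Subgroup G) ⊓ (Q : Subgroup G) : Subgroup G) : Set G) ⧸
        (Subgroup.centralizer (((P : Subgroup G) ⊓ (Q : Subgroup G) : Subgroup G) : Set G)).subgroupOf
          (Subgroup.normalizer (((P : Subgroup G) ⊓ (Q : Subgroup G) : Subgroup G) : Set G)))) :
    Cfsg.HasNormalPComplement p G := by
  have hfus : ∀ {A : Set G} {g : G}, Fus P A g →
      ∃ t ∈ (P : Subgroup G), ∀ a ∈ A, g⁻¹ * a * g = t⁻¹ * a * t := by
    intro A g hF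
    induction hF with
    | nil A => exact ⟨1, one_mem _, fun a _ => by simp⟩
    | cons A Q x g hx ht hA _ ih =>
      by_cases hb : (P : Subgroup G) ⊓ (Q : Subgroup G) = ⊥
      · refine ⟨1, one_mem _, fun a ha => ?_⟩
        have h1 := hA ha
        rw [hb] at h1
        have h2 : a = 1 := by simpa using h1
        rw [h2]; simp
      obtain ⟨c, hc, t₁, ht₁, rfl⟩ := factor_tame inf_le_left ht.1 (h Q hb ht) hx
      obtain ⟨t₂, ht₂, h2⟩ := ih
      refine ⟨t₁ * t₂, mul_mem ht₁ ht₂, fun a ha => ?_⟩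
      have hac : c⁻¹ * a * c = a := by
        have := Subgroup.mem_centralizer_iff.mp hc a (hA ha)
        rw [mul_assoc, this]; group
      have h3 := h2 _ (⟨a, ha, rfl⟩ : (c * t₁)⁻¹ * a * (c * t₁) ∈ img (c * t₁) A)
      have e1 : (c * t₁)⁻¹ * a * (c * t₁) = t₁⁻¹ * a * t₁ := by
        calc (c * t₁)⁻¹ * a * (c * t₁) = t₁⁻¹ * (c⁻¹ * a * c) * t₁ := by group
          _ = _ := by rw [hac]
      rw [e1] at h3
      calc (c * t₁ * g)⁻¹ * a * (c * t₁ * g) = g⁻¹ * ((c * t₁)⁻¹ * a * (c * t₁)) * g := by group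
        _ = g⁻¹ * (t₁⁻¹ * a * t₁) * g := by rw [e1]
        _ = t₂⁻¹ * (t₁⁻¹ * a * t₁) * t₂ := h3
        _ = _ := by group
  have hyp : FrobeniusHyp p (P : Subgroup G) := by
    intro Q' hQ' g hg hcop
    have hgi : ∀ a ∈ Q', g⁻¹ * a * g ∈ Q' := by
      intro a ha
      have := (Subgroup.mem_normalizer_iff.mp (inv_mem hg) a).mp ha
      simpa using this
    have hF := alperin_fus P (Q' : Set G) g hQ' (by
      rintro _ ⟨a, ha, rfl⟩
      exact hQ' (hgi a ha))
    obtain ⟨t, ht, h2⟩ := hfus hF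
    have hpow : ∀ n : ℕ, ∀ a ∈ Q', (g ^ n)⁻¹ * a * g ^ n = (t ^ n)⁻¹ * a * t ^ n ∧ (g ^ n)⁻¹ * a * g ^ n ∈ Q' := by
      intro n
      induction n with
      | zero => intro a ha; simpa using ha
      | succ n ih =>
        intro a ha
        obtain ⟨h3, h4⟩ := ih a ha
        have e1 : (g ^ (n + 1))⁻¹ * a * g ^ (n + 1) = g⁻¹ * ((g ^ n)⁻¹ * a * g ^ n) * g := by
          rw [pow_succ]; group
        rw [e1]
        refine ⟨?_, hgi _ h4⟩
        rw [h2 _ h4, h3, pow_succ]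
        group
    obtain ⟨k, hk⟩ := P.isPGroup' ⟨t, ht⟩
    have htk : t ^ p ^ k = 1 := congrArg Subtype.val hk
    have hmem : g ^ p ^ k ∈ Subgroup.centralizer (Q' : Set G) := by
      rw [Subgroup.mem_centralizer_iff]
      intro a ha
      have h3 := (hpow (p ^ k) a ha).1
      rw [htk] at h3
      simp only [inv_one, one_mul, mul_one] at h3
      calc a * g ^ p ^ k = g ^ p ^ k * ((g ^ p ^ k)⁻¹ * a * g ^ p ^ k) := by group
        _ = g ^ p ^ k * a := by rw [h3]
    exact Cfsg.Agent.Lib.ClassSizes.mem_of_pow_mem_of_coprime _ g (p ^ k)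
      (Nat.Coprime.pow_left k hcop.symm) hmem
  obtain ⟨N, hN, hc⟩ := frobenius P hyp
  exact ⟨P, N, hN, hc⟩

end Cfsg.Agent.Lib.ClassSizes.TameFocal
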